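import Mathlib
import Cfsg.Prelude.Def_FusionSystem
import Cfsg.Agent.Lib.Helper27.SupersolA
import Cfsg.Agent.Lib.Helper27.Sparse
import Cfsg.Agent.Lib.Helper27.PPowerNormal
import Cfsg.Agent.Lib.Helper27.ConstrNormal
import Cfsg.Agent.Lib.Helper1.Cores

set_option autoImplicit false

namespace Cfsg.Agent.Lib.Helper27

open Cfsg Cfsg.FusionSystem Cfsg.Agent.Lib.Helper26

universe u

variable {Ω : Type u} [Group Ω] {S : Subgroup Ω}

/-- A chain of strongly closed subgroups with cyclic steps. -/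
def SSChain (F : FusionSystem S) (m : ℕ) (c : Fin (m + 1) → Subgroup Ω) : Prop :=
  c 0 = ⊥ ∧ c (Fin.last m) = S ∧ (∀ i : Fin (m + 1), F.StronglyClosed (c i)) ∧
    ∀ i : Fin m, c i.castSucc ≤ c i.succ ∧
      ∃ x ∈ S, c i.succ = c i.castSucc ⊔ Subgroup.zpowers x

/-- The cyclic section between two consecutive terms, seen from a subgroup `P ≤ S`. -/
theorem ss_sec [Finite S] (F : FusionSystem S) {C D : Subgroup Ω} (hC : F.StronglyClosed C)
    {x : Ω} (hx : x ∈ S) (hD : D = C ⊔ Subgroup.zpowers x) {P : Subgroup Ω} (hP : P ≤ S) :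
    ∃ (Q : Type u) (_ : Group Q) (ψ : ↥P →* Q) (g₀ : Q),
      (∀ z : ↥P, ψ z = 1 ↔ (z : Ω) ∈ C) ∧
      (∀ z : ↥P, (z : Ω) ∈ D → ψ z ∈ Subgroup.zpowers g₀) := by
  have hN : (C.subgroupOf S).Normal :=
    Subgroup.normal_subgroupOf_of_le_normalizer (normal_of_stronglyClosed F hC)
  refine ⟨↥S ⧸ C.subgroupOf S, inferInstance,
    (QuotientGroup.mk' (C.subgroupOf S)).comp (Subgroup.inclusion hP),
    QuotientGroup.mk ⟨x, hx⟩, ?_, ?_⟩
  · intro z
    rw [MonoidHom.comp_apply, QuotientGroup.mk'_apply, QuotientGroup.eq_one_iff,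
      Subgroup.mem_subgroupOf]
    rfl
  · intro z hz
    rw [hD] at hz
    have hle : C ⊔ Subgroup.zpowers x ≤
        ((Subgroup.zpowers (QuotientGroup.mk ⟨x, hx⟩ : ↥S ⧸ C.subgroupOf S)).comap
          (QuotientGroup.mk' (C.subgroupOf S))).map S.subtype := by
      refine sup_le ?_ ?_
      · intro c hc
        refine ⟨⟨c, hC.1 hc⟩, ?_, rfl⟩
        have h1 : (QuotientGroup.mk' (C.subgroupOf S)) ⟨c, hC.1 hc⟩ = 1 := by
          rw [QuotientGroup.mk'_apply, QuotientGroup.eq_one_iff, Subgroup.mem_subgroupOf]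
          exact hc
        show (QuotientGroup.mk' (C.subgroupOf S)) ⟨c, hC.1 hc⟩ ∈ Subgroup.zpowers _
        rw [h1]
        exact one_mem _
      · rw [Subgroup.zpowers_le]
        exact ⟨⟨x, hx⟩, Subgroup.mem_zpowers _, rfl⟩
    obtain ⟨s, hs, hsz⟩ := hle hz
    have e : Subgroup.inclusion hP z = s := Subtype.ext hsz.symm
    rw [MonoidHom.comp_apply, e]
    exact hs

theorem ss_exp (F : FusionSystem S) {C D : Subgroup Ω} (hC : F.StronglyClosed C)
    (hD : F.StronglyClosed D) {P : Subgroup Ω} (hP : P ≤ S) {Q : Type*} [Group Q]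
    (ψ : ↥P →* Q) (g₀ : Q) (hker : ∀ z : ↥P, ψ z = 1 ↔ (z : Ω) ∈ C)
    (hcyc : ∀ z : ↥P, (z : Ω) ∈ D → ψ z ∈ Subgroup.zpowers g₀)
    {α : MulAut ↥P} (hα : α ∈ F.autGroup P) :
    ∃ a : ℤ, ∀ z : ↥P, (z : Ω) ∈ D → ψ (α z) = ψ z ^ a := by
  obtain ⟨a, ha⟩ := exists_zpow_of_cyclic_image ψ (D.subgroupOf P) g₀
    (fun z hz => hcyc z (Subgroup.mem_subgroupOf.mp hz)) α.toMonoidHom
    (fun z hz => Subgroup.mem_subgroupOf.mpr
      (aut_mem_of_stronglyClosed F hD hP hα z (Subgroup.mem_subgroupOf.mp hz)))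
    (fun z hz => (hker _).mpr (aut_mem_of_stronglyClosed F hC hP hα z ((hker z).mp hz)))
  exact ⟨a, fun z hz => ha z (Subgroup.mem_subgroupOf.mpr hz)⟩

theorem ss_comm [Finite S] (F : FusionSystem S) {C D : Subgroup Ω} (hC : F.StronglyClosed C)
    (hD : F.StronglyClosed D) {x : Ω} (hx : x ∈ S)
    (hDx : D = C ⊔ Subgroup.zpowers x) {P : Subgroup Ω} (hP : P ≤ S) {α β : MulAut ↥P}
    (hα : α ∈ F.autGroup P) (hβ : β ∈ F.autGroup P) (z : ↥P) (hz : (z : Ω) ∈ D) :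
    ((z⁻¹ * (α * β * α⁻¹ * β⁻¹) z : ↥P) : Ω) ∈ C := by
  obtain ⟨Q, _, ψ, g₀, hker, hcyc⟩ := ss_sec F hC hx hDx hP
  obtain ⟨a, ha⟩ := ss_exp F hC hD hP ψ g₀ hker hcyc hα
  obtain ⟨b, hb⟩ := ss_exp F hC hD hP ψ g₀ hker hcyc hβ
  have hαi := (F.autGroup P).inv_mem hα
  have hβi := (F.autGroup P).inv_mem hβ
  obtain ⟨w, hw⟩ : ∃ w : ↥P, w = α⁻¹ (β⁻¹ z) := ⟨_, rfl⟩
  have hw1 : ((β⁻¹ z : ↥P) : Ω) ∈ D := aut_mem_of_stronglyClosed F hD hP hβi z hz
  have hwD : (w : Ω) ∈ D := by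
    rw [hw]
    exact aut_mem_of_stronglyClosed F hD hP hαi _ hw1
  have hαw : ((α w : ↥P) : Ω) ∈ D := aut_mem_of_stronglyClosed F hD hP hα _ hwD
  have hβw : ((β w : ↥P) : Ω) ∈ D := aut_mem_of_stronglyClosed F hD hP hβ _ hwD
  have e1 : (α * β * α⁻¹ * β⁻¹) z = α (β w) := by
    rw [hw]
    rfl
  have e2 : z = β (α w) := by
    rw [hw]
    simp
  have h1 : ψ (α (β w)) = ψ w ^ (b * a) := by
    rw [ha _ hβw, hb _ hwD, zpow_mul]
  have h2 : ψ (β (α w)) = ψ w ^ (b * a) := by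
    rw [hb _ hαw, ha _ hwD, ← zpow_mul, mul_comm]
  rw [← hker, map_mul, map_inv, e1, h1, inv_mul_eq_one, ← h2, ← e2]

/-- The automorphisms in `Aut_F(P)` acting trivially on all sections of the chain. -/
def ssStab (F : FusionSystem S) (m : ℕ) (c : Fin (m + 1) → Subgroup Ω)
    (hc : ∀ i, F.StronglyClosed (c i)) (P : Subgroup Ω) (hP : P ≤ S) :
    Subgroup (MulAut ↥P) where
  carrier := {α | α ∈ F.autGroup P ∧ ∀ (i : Fin m) (z : ↥P), (z : Ω) ∈ c i.succ →
    ((z⁻¹ * α z : ↥P) : Ω) ∈ c i.castSucc}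
  one_mem' := ⟨one_mem _, fun i z _ => by simp⟩
  mul_mem' := by
    rintro α β ⟨hα, hα'⟩ ⟨hβ, hβ'⟩
    refine ⟨mul_mem hα hβ, fun i z hz => ?_⟩
    have h1 := hβ' i z hz
    have h2 := hα' i (β z) (aut_mem_of_stronglyClosed F (hc i.succ) hP hβ z hz)
    have e : z⁻¹ * (α * β) z = (z⁻¹ * β z) * ((β z)⁻¹ * α (β z)) := by
      rw [MulAut.mul_apply]
      group
    rw [e, Subgroup.coe_mul]
    exact mul_mem h1 h2
  inv_mem' := by
    rintro α ⟨hα, hα'⟩
    refine ⟨inv_mem hα, fun i z hz => ?_⟩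
    have hw := aut_mem_of_stronglyClosed F (hc i.succ) hP (inv_mem hα) z hz
    have h1 := hα' i (α⁻¹ z) hw
    rw [MulAut.apply_inv_self] at h1
    have e : z⁻¹ * α⁻¹ z = ((α⁻¹ z)⁻¹ * z)⁻¹ := by group
    rw [e, Subgroup.coe_inv]
    exact inv_mem h1

theorem mem_ssStab (F : FusionSystem S) (m : ℕ) (c : Fin (m + 1) → Subgroup Ω)
    (hc : ∀ i, F.StronglyClosed (c i)) (P : Subgroup Ω) (hP : P ≤ S) (α : MulAut ↥P) :
    α ∈ ssStab F m c hc P hP ↔ α ∈ F.autGroup P ∧ ∀ (i : Fin m) (z : ↥P),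
      (z : Ω) ∈ c i.succ → ((z⁻¹ * α z : ↥P) : Ω) ∈ c i.castSucc := Iff.rfl

theorem ssStab_isPGroup [Finite S] {p : ℕ} [Fact p.Prime] (hS : IsPGroup p ↥S)
    (F : FusionSystem S) {m : ℕ} {c : Fin (m + 1) → Subgroup Ω} (hch : SSChain F m c)
    {P : Subgroup Ω} (hP : P ≤ S) : IsPGroup p ↥(ssStab F m c hch.2.2.1 P hP) := by
  have : Finite ↥P := finite_of_le hP
  obtain ⟨e, he⟩ := IsPGroup.iff_card.mp (hS.to_le hP)
  rintro ⟨α, hα, hα'⟩
  refine ⟨e * m, ?_⟩
  apply Subtype.ext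
  show α ^ (p ^ (e * m)) = 1
  have key := pow_eq_one_of_stab_chain α m
    (fun j => (c ⟨min j m, by omega⟩).subgroupOf P) ?_ ?_ ?_ ?_
  · rw [he, ← pow_mul] at key
    exact key
  · have e0 : (⟨min 0 m, by omega⟩ : Fin (m + 1)) = 0 := Fin.ext (by simp)
    show (c ⟨min 0 m, _⟩).subgroupOf P = ⊥
    rw [e0, hch.1, Subgroup.bot_subgroupOf]
  · have e0 : (⟨min m m, by omega⟩ : Fin (m + 1)) = Fin.last m := Fin.ext (by simp)
    show (c ⟨min m m, _⟩).subgroupOf P = ⊤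
    rw [e0, hch.2.1, Subgroup.subgroupOf_eq_top]
    exact hP
  · intro i hi
    have e0 : (⟨min i m, by omega⟩ : Fin (m + 1)) = (⟨i, hi⟩ : Fin m).castSucc :=
      Fin.ext (by simp; omega)
    have e1 : (⟨min (i + 1) m, by omega⟩ : Fin (m + 1)) = (⟨i, hi⟩ : Fin m).succ :=
      Fin.ext (by simp; omega)
    show (c ⟨min i m, _⟩).subgroupOf P ≤ (c ⟨min (i + 1) m, _⟩).subgroupOf P
    rw [e0, e1]
    intro z hz
    rw [Subgroup.mem_subgroupOf] at hz ⊢
    exact (hch.2.2.2 ⟨i, hi⟩).1 hz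
  · intro i hi z hz
    have e0 : (⟨min i m, by omega⟩ : Fin (m + 1)) = (⟨i, hi⟩ : Fin m).castSucc :=
      Fin.ext (by simp; omega)
    have e1 : (⟨min (i + 1) m, by omega⟩ : Fin (m + 1)) = (⟨i, hi⟩ : Fin m).succ :=
      Fin.ext (by simp; omega)
    have hz' : z ∈ (c ⟨min (i + 1) m, by omega⟩).subgroupOf P := hz
    show z⁻¹ * α z ∈ (c ⟨min i m, _⟩).subgroupOf P
    rw [e0]
    rw [e1] at hz'
    rw [Subgroup.mem_subgroupOf] at hz' ⊢
    exact hα' ⟨i, hi⟩ z hz'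

theorem ss_normal_sylow [Finite S] {p : ℕ} [Fact p.Prime] (hS : IsPGroup p ↥S)
    (F : FusionSystem S) {m : ℕ} {c : Fin (m + 1) → Subgroup Ω} (hch : SSChain F m c)
    {P : Subgroup Ω} (hP : P ≤ S) (R : Sylow p ↥(F.autGroup P)) :
    (R : Subgroup ↥(F.autGroup P)).Normal := by
  have : Finite ↥P := finite_of_le hP
  obtain ⟨K, hK⟩ : ∃ K : Subgroup ↥(F.autGroup P),
      K = (ssStab F m c hch.2.2.1 P hP).subgroupOf (F.autGroup P) := ⟨_, rfl⟩
  have hKn : K.Normal := by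
    constructor
    intro k hk g
    rw [hK, Subgroup.mem_subgroupOf, mem_ssStab] at hk ⊢
    refine ⟨Subtype.coe_prop _, fun i z hz => ?_⟩
    have hgi := (F.autGroup P).inv_mem g.2
    have hw := aut_mem_of_stronglyClosed F (hch.2.2.1 i.succ) hP hgi z hz
    have h1 := hk.2 i _ hw
    have h2 := aut_mem_of_stronglyClosed F (hch.2.2.1 i.castSucc) hP g.2 _ h1
    have e : z⁻¹ * ((g * k * g⁻¹ : ↥(F.autGroup P)) : MulAut ↥P) z =
        (g : MulAut ↥P) (((g : MulAut ↥P)⁻¹ z)⁻¹ * (k : MulAut ↥P) ((g : MulAut ↥P)⁻¹ z)) := by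
      rw [map_mul, map_inv, MulAut.apply_inv_self]
      rfl
    rw [e]
    exact h2
  have hKp : IsPGroup p ↥K := by
    rw [hK]
    exact (ssStab_isPGroup hS F hch hP).comap_subtype
  have hKR : K ≤ R := Cfsg.Agent.Lib.Helper1.normal_pgroup_le_sylow hKn hKp R
  constructor
  intro r hr g
  have hcomm : g * r * g⁻¹ * r⁻¹ ∈ K := by
    rw [hK, Subgroup.mem_subgroupOf, mem_ssStab]
    refine ⟨Subtype.coe_prop _, fun i z hz => ?_⟩
    obtain ⟨-, x, hx, hDx⟩ := hch.2.2.2 i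
    exact ss_comm F (hch.2.2.1 _) (hch.2.2.1 _) hx hDx hP g.2 r.2 z hz
  have e : g * r * g⁻¹ = (g * r * g⁻¹ * r⁻¹) * r := by group
  rw [e]
  exact mul_mem (hKR hcomm) hr

theorem ss_isNormal [Finite S] (p : ℕ) [Fact p.Prime] (hS : IsPGroup p ↥S)
    (F : FusionSystem S) (hF : F.IsSaturated p) {m : ℕ} {c : Fin (m + 1) → Subgroup Ω}
    (hch : SSChain F m c) : F.IsNormal S := by
  rw [isNormal_iff_forall_essential p hS F hF S]
  rintro P (hPS | hess)
  · subst hPS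
    refine ⟨le_rfl, fun α _ => ?_⟩
    rw [Subgroup.subgroupOf_self]
    exact Subgroup.map_top_of_surjective _ α.surjective
  · exfalso
    have hPS : P ≤ S := hess.1.1
    have : Finite ↥P := finite_of_le hPS
    obtain ⟨R⟩ : Nonempty (Sylow p ↥(F.autGroup P)) := inferInstance
    exact not_essential_of_normal_sylow F (Fusion.isRadical_of_isEssential hS F hess) R
      (ss_normal_sylow hS F hch hPS R) hess

/-- An automorphism in `Aut_F(S)` of order prime to `p` which acts trivially "modulo `p`-th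
powers" on every section of the chain is trivial. -/
theorem ss_coprime_trivial [Finite S] {p : ℕ} [Fact p.Prime] (hS : IsPGroup p ↥S)
    (F : FusionSystem S) {m : ℕ} {c : Fin (m + 1) → Subgroup Ω} (hch : SSChain F m c)
    (u : MulAut ↥S) (hu : u ∈ F.autGroup S) (n : ℕ) (hn : n.Coprime p) (hun : u ^ n = 1)
    (hQT : ∀ (i : Fin m) (z : ↥S), (z : Ω) ∈ c i.succ → ∀ j : ℕ,
      ((z ^ (p ^ (j + 1)) : ↥S) : Ω) ∈ c i.castSucc →
      (((z⁻¹ * u z) ^ (p ^ j) : ↥S) : Ω) ∈ c i.castSucc) : u = 1 := by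
  have main : ∀ i : Fin (m + 1), ∀ z : ↥S, (z : Ω) ∈ c i → u z = z := by
    intro i
    induction i using Fin.induction with
    | zero =>
      intro z hz
      rw [hch.1, Subgroup.mem_bot] at hz
      have hz1 : z = 1 := Subtype.ext hz
      rw [hz1, map_one]
    | succ i ih =>
      have inner : ∀ j : ℕ, ∀ z : ↥S, (z : Ω) ∈ c i.succ →
          ((z ^ (p ^ j) : ↥S) : Ω) ∈ c i.castSucc → u z = z := by
        intro j
        induction j with
        | zero =>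
          intro z hz hzj
          rw [pow_zero, pow_one] at hzj
          exact ih z hzj
        | succ j ihj =>
          intro z hz hzj
          obtain ⟨w, hw⟩ : ∃ w : ↥S, w = z⁻¹ * u z := ⟨_, rfl⟩
          have huz : ((u z : ↥S) : Ω) ∈ c i.succ :=
            aut_mem_of_stronglyClosed F (hch.2.2.1 _) le_rfl hu z hz
          have hwD : (w : Ω) ∈ c i.succ := by
            rw [hw, Subgroup.coe_mul, Subgroup.coe_inv]
            exact mul_mem (inv_mem hz) huz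
          have hwj : ((w ^ (p ^ j) : ↥S) : Ω) ∈ c i.castSucc := by
            rw [hw]
            exact hQT i z hz j hzj
          have huw : u w = w := ihj w hwD hwj
          have huz' : u z = z * w := by
            rw [hw]
            group
          have hpow : ∀ k : ℕ, (u ^ k) z = z * w ^ k := by
            intro k
            induction k with
            | zero => simp
            | succ k ihk =>
              rw [pow_succ', MulAut.mul_apply, ihk, map_mul, map_pow, huw, huz', mul_assoc,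
                ← pow_succ']
          have h1 := hpow n
          rw [hun, MulAut.one_apply] at h1
          have hwn : w ^ n = 1 := by
            have h2 : z * w ^ n = z * 1 := by rw [← h1, mul_one]
            exact mul_left_cancel h2
          obtain ⟨e, he⟩ := hS w
          have hw1 : w = 1 := by
            have d1 := orderOf_dvd_of_pow_eq_one hwn
            have d2 := orderOf_dvd_of_pow_eq_one he
            have d3 := Nat.dvd_gcd d1 d2
            have hcop : Nat.gcd n (p ^ e) = 1 := Nat.Coprime.pow_right e hn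
            rw [hcop, Nat.dvd_one, orderOf_eq_one_iff] at d3
            exact d3
          rw [huz', hw1, mul_one]
      intro z hz
      obtain ⟨e, he⟩ := hS z
      apply inner e z hz
      rw [he]
      exact one_mem _
  apply MulEquiv.ext
  intro z
  have hz : (z : Ω) ∈ c (Fin.last m) := by
    rw [hch.2.1]
    exact z.2
  exact main _ z hz

theorem sylow_inn_sup [Finite S] (p : ℕ) [Fact p.Prime] (hS : IsPGroup p S)
    (H : Subgroup (MulAut S)) (hH : (Nat.card H).Coprime p) :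
    ∃ R : Sylow p ↥(autInducedBy S S ⊔ H),
      (R : Subgroup ↥(autInducedBy S S ⊔ H)) =
        (autInducedBy S S).subgroupOf (autInducedBy S S ⊔ H) := by
  have hp := isPGroup_autInducedBy hS (le_rfl : S ≤ S) S (autInducedBy S S ⊔ H)
  have hN : (autInducedBy S S).Normal := by
    rw [autInducedBy_self]
    infer_instance
  have hidx : ¬ p ∣ ((autInducedBy S S).subgroupOf (autInducedBy S S ⊔ H)).index := by
    intro hdvd
    have h1 : (autInducedBy S S).relIndex (autInducedBy S S ⊔ H) =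
        (autInducedBy S S).relIndex H := Subgroup.relIndex_sup_left _ _
    have h2 : (autInducedBy S S).relIndex H ∣ Nat.card H := Subgroup.relIndex_dvd_card _ _
    have hdvd' : p ∣ (autInducedBy S S).relIndex (autInducedBy S S ⊔ H) := hdvd
    rw [h1] at hdvd'
    have h3 : p = 1 := (Nat.Coprime.symm hH).eq_one_of_dvd (hdvd'.trans h2)
    exact (Fact.out : p.Prime).one_lt.ne' h3
  exact ⟨hp.toSylow hidx, rfl⟩

theorem ss_pow_sub_one [Finite S] {p : ℕ} [Fact p.Prime] (F : FusionSystem S)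
    {C D : Subgroup Ω} (hC : F.StronglyClosed C) (hD : F.StronglyClosed D) {x : Ω}
    (hx : x ∈ S) (hDx : D = C ⊔ Subgroup.zpowers x) {P : Subgroup Ω} (hP : P ≤ S)
    {h : MulAut ↥P} (hh : h ∈ F.autGroup P) (z : ↥P) (hz : (z : Ω) ∈ D) (j : ℕ)
    (hzj : ((z ^ (p ^ (j + 1)) : ↥P) : Ω) ∈ C) :
    (((z⁻¹ * (h ^ (p - 1)) z) ^ (p ^ j) : ↥P) : Ω) ∈ C := by
  have hp : p.Prime := Fact.out
  obtain ⟨Q, _, ψ, g₀, hker, hcyc⟩ := ss_sec F hC hx hDx hP
  obtain ⟨a, ha⟩ := ss_exp F hC hD hP ψ g₀ hker hcyc hh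
  have hhi := (F.autGroup P).inv_mem hh
  obtain ⟨w, hw⟩ : ∃ w : ↥P, w = h⁻¹ z := ⟨_, rfl⟩
  have hwD : (w : Ω) ∈ D := by
    rw [hw]
    exact aut_mem_of_stronglyClosed F hD hP hhi z hz
  have hzw : z = h w := by
    rw [hw]
    simp
  have hpowD : ∀ k : ℕ, (((h ^ k) w : ↥P) : Ω) ∈ D := fun k =>
    aut_mem_of_stronglyClosed F hD hP (pow_mem hh k) w hwD
  have hpow : ∀ k : ℕ, ψ ((h ^ k) w) = ψ w ^ (a ^ k) := by
    intro k
    induction k with
    | zero => simp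
    | succ k ih =>
      rw [pow_succ', MulAut.mul_apply, ha _ (hpowD k), ih, ← zpow_mul, pow_succ]
  obtain ⟨t, ht⟩ : ∃ t : ℤ, a ^ p = a + p * t := by
    have hdvd : (p : ℤ) ∣ a ^ p - a := by
      rw [← ZMod.intCast_zmod_eq_zero_iff_dvd]
      push_cast
      rw [ZMod.pow_card, sub_self]
    obtain ⟨t, ht⟩ := hdvd
    exact ⟨t, by linarith⟩
  have e1 : (h ^ (p - 1)) z = (h ^ p) w := by
    rw [hzw, ← MulAut.mul_apply, ← pow_succ, Nat.sub_add_cancel hp.one_le]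
  have e2 : ψ (z⁻¹ * (h ^ (p - 1)) z) = ψ w ^ ((p : ℤ) * t) := by
    rw [map_mul, map_inv, e1, hpow p, ht, zpow_add, hzw, ha _ hwD, inv_mul_cancel_left]
  have hwC : ψ (w ^ (p ^ (j + 1))) = 1 := by
    rw [hker]
    have e3 : w ^ (p ^ (j + 1)) = h⁻¹ (z ^ (p ^ (j + 1))) := by rw [hw, map_pow]
    rw [e3]
    exact aut_mem_of_stronglyClosed F hC hP hhi _ hzj
  rw [map_pow] at hwC
  have e4 : (ψ w ^ ((p : ℤ) * t)) ^ (p ^ j) = (ψ w ^ (p ^ (j + 1))) ^ t := by
    rw [← zpow_natCast, ← zpow_mul, ← zpow_natCast (ψ w) (p ^ (j + 1)), ← zpow_mul]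
    congr 1
    push_cast
    ring
  rw [← hker, map_pow, e2, e4, hwC, one_zpow]

theorem ss_pprime_abelian [Finite S] (p : ℕ) [Fact p.Prime] (hS : IsPGroup p ↥S)
    (hyp : ∀ F : FusionSystem S, F.IsSaturated p →
      ∃ (m : ℕ) (c : Fin (m + 1) → Subgroup Ω), SSChain F m c)
    (H : Subgroup (MulAut ↥S)) (hH : (Nat.card ↥H).Coprime p) :
    IsMulCommutative ↥H ∧ ∀ h ∈ H, h ^ (p - 1) = 1 := by
  have hA : autInducedBy S S ≤ autInducedBy S S ⊔ H := le_sup_left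
  have hsat := autSystem_saturated p hS _ hA (sylow_inn_sup p hS H hH)
  obtain ⟨m, c, hch⟩ := hyp _ hsat
  have hHF : ∀ h ∈ H, h ∈ (autSystem _ hA).autGroup S := fun h hh =>
    le_autGroup_autSystem _ hA (le_sup_right (a := autInducedBy S S) hh)
  have hpowH : ∀ h ∈ H, h ^ Nat.card ↥H = 1 := by
    intro h hh
    have h1 := pow_card_eq_one' (G := ↥H) (x := ⟨h, hh⟩)
    exact congrArg Subtype.val h1
  constructor
  · refine ⟨⟨fun a b => ?_⟩⟩
    apply Subtype.ext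
    show (a : MulAut ↥S) * b = b * a
    have hu : (a : MulAut ↥S) * b * (a : MulAut ↥S)⁻¹ * (b : MulAut ↥S)⁻¹ = 1 := by
      apply ss_coprime_trivial hS _ hch _
        (mul_mem (mul_mem (mul_mem (hHF _ a.2) (hHF _ b.2)) (inv_mem (hHF _ a.2)))
          (inv_mem (hHF _ b.2))) (Nat.card ↥H) hH
      · exact hpowH _ (mul_mem (mul_mem (mul_mem a.2 b.2) (inv_mem a.2)) (inv_mem b.2))
      · intro i z hz j _
        obtain ⟨-, x, hx, hDx⟩ := hch.2.2.2 i
        have h1 := ss_comm _ (hch.2.2.1 _) (hch.2.2.1 _) hx hDx le_rfl (hHF _ a.2) (hHF _ b.2)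
          z hz
        rw [Subgroup.coe_pow]
        exact pow_mem h1 _
    rw [mul_inv_eq_one, mul_inv_eq_iff_eq_mul] at hu
    exact hu
  · intro h hh
    apply ss_coprime_trivial hS _ hch _ (pow_mem (hHF h hh) _) (Nat.card ↥H) hH
      (hpowH _ (pow_mem hh _))
    intro i z hz j hzj
    obtain ⟨-, x, hx, hDx⟩ := hch.2.2.2 i
    exact ss_pow_sub_one _ (hch.2.2.1 _) (hch.2.2.1 _) hx hDx le_rfl (hHF h hh) z hz j hzj

/-- If `S` is normal in `F`, the image of a subgroup of `S` invariant under `Aut_F(S)` is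
strongly closed. -/
theorem stronglyClosed_of_aut_invariant (F : FusionSystem S) (hnorm : F.IsNormal S)
    (Q : Subgroup ↥S) (hQ : ∀ α ∈ F.autGroup S, ∀ x ∈ Q, α x ∈ Q) :
    F.StronglyClosed (Q.map S.subtype) := by
  refine ⟨?_, ?_⟩
  · rintro _ ⟨x, -, rfl⟩
    exact x.2
  · intro R hR φ hφ x
    obtain ⟨ψ, hψ, hext, hmap⟩ := hnorm.2 R φ hφ
    obtain ⟨b, hb, hbq⟩ := exists_aut_of_map_eq F (le_sup_right : S ≤ R ⊔ S) hψ hmap
    obtain ⟨y, hy, hyx⟩ := hR x.2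
    have h1 := hQ b hb y hy
    refine ⟨b y, h1, ?_⟩
    rw [Subgroup.coe_subtype, hbq, ← hext x]
    congr 1
    exact Subtype.ext hyx

theorem ss_chain_of_resistant [Finite S] (p : ℕ) [Fact p.Prime] (hS : IsPGroup p ↥S)
    (hab : ∀ H : Subgroup (MulAut ↥S), (Nat.card ↥H).Coprime p →
      IsMulCommutative ↥H ∧ ∀ h ∈ H, h ^ (p - 1) = 1)
    (F : FusionSystem S) (hF : F.IsSaturated p) (hnorm : F.IsNormal S) :
    ∃ (m : ℕ) (c : Fin (m + 1) → Subgroup Ω), SSChain F m c := by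
  have hp : p.Prime := Fact.out
  obtain ⟨⟨-, R, hR⟩, -⟩ := top_automized_receptive p F hF
  obtain ⟨N, hN⟩ : ∃ N : Subgroup ↥(F.autGroup S),
      N = (autInducedBy S S).subgroupOf (F.autGroup S) := ⟨_, rfl⟩
  have hNn : N.Normal := by
    rw [hN, autInducedBy_self]
    infer_instance
  have hidx : ¬ p ∣ N.index := by
    rw [hN, ← hR]
    exact R.not_dvd_index
  have hcop : Nat.Coprime (Nat.card ↥N) N.index := by
    have hNp : IsPGroup p ↥N := by
      rw [hN, ← hR]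
      exact R.2
    obtain ⟨k, hk⟩ := IsPGroup.iff_card.mp hNp
    rw [hk]
    exact Nat.Coprime.pow_left k ((Nat.Prime.coprime_iff_not_dvd hp).mpr hidx)
  obtain ⟨H', hH'⟩ := Subgroup.exists_right_complement'_of_coprime hcop
  obtain ⟨H, hHdef⟩ : ∃ H : Subgroup (MulAut ↥S), H = H'.map (F.autGroup S).subtype :=
    ⟨_, rfl⟩
  have hHcard : (Nat.card ↥H).Coprime p := by
    rw [hHdef, Subgroup.card_map_of_injective (Subgroup.subtype_injective _),
      ← hH'.symm.index_eq_card]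
    exact Nat.Coprime.symm ((Nat.Prime.coprime_iff_not_dvd hp).mpr hidx)
  obtain ⟨hHc, hHe⟩ := hab H hHcard
  have hcomm : ∀ a ∈ (H : Set (MulAut ↥S)), ∀ b ∈ (H : Set (MulAut ↥S)), a * b = b * a := by
    intro a ha b hb
    have h1 := hHc.is_comm.comm (⟨a, ha⟩ : ↥H) ⟨b, hb⟩
    exact congrArg Subtype.val h1
  obtain ⟨m, c, hc0, hcm, hcinv, hcstep⟩ := exists_chain_of_commuting (p := p) (Nat.card ↥S)
    ↥S rfl hS (H : Set (MulAut ↥S)) hcomm hHe
  have hall : ∀ i, ∀ α ∈ F.autGroup S, ∀ x ∈ c i, α x ∈ c i := by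
    intro i α hα x hx
    obtain ⟨⟨n, h⟩, hnh⟩ := hH'.2 ⟨α, hα⟩
    have hαeq : α = ((n : ↥(F.autGroup S)) : MulAut ↥S) * ((h : ↥(F.autGroup S)) : MulAut ↥S) :=
      (congrArg Subtype.val hnh).symm
    have hhH : ((h : ↥(F.autGroup S)) : MulAut ↥S) ∈ H := by
      rw [hHdef]
      exact ⟨_, h.2, rfl⟩
    have h1 := (hcinv i).2 _ hhH x hx
    have hnN : ((n : ↥(F.autGroup S)) : MulAut ↥S) ∈ autInducedBy S S := by
      have h2 : (n : ↥(F.autGroup S)) ∈ (autInducedBy S S).subgroupOf (F.autGroup S) :=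
        hN.le n.2
      exact Subgroup.mem_subgroupOf.mp h2
    obtain ⟨g, hg, hgc⟩ := Fusion.mem_autInducedBy_iff.1 hnN
    rw [hαeq, MulAut.mul_apply]
    have e : ((n : ↥(F.autGroup S)) : MulAut ↥S) (((h : ↥(F.autGroup S)) : MulAut ↥S) x) =
        ⟨g, hg⟩ * (((h : ↥(F.autGroup S)) : MulAut ↥S) x) * (⟨g, hg⟩ : ↥S)⁻¹ :=
      Subtype.ext (hgc _)
    rw [e]
    exact (hcinv i).1.conj_mem _ h1 _
  refine ⟨m, fun i => (c i).map S.subtype, ?_, ?_, ?_, ?_⟩
  · show (c 0).map S.subtype = ⊥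
    rw [hc0, Subgroup.map_bot]
  · show (c (Fin.last m)).map S.subtype = S
    rw [hcm, ← MonoidHom.range_eq_map, Subgroup.range_subtype]
  · intro i
    exact stronglyClosed_of_aut_invariant F hnorm (c i) (hall i)
  · intro i
    obtain ⟨hle, y, hy⟩ := hcstep i
    refine ⟨Subgroup.map_mono hle, (y : Ω), y.2, ?_⟩
    show (c i.succ).map S.subtype = (c i.castSucc).map S.subtype ⊔ Subgroup.zpowers (y : Ω)
    rw [hy, Subgroup.map_sup, MonoidHom.map_zpowers]
    rfl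

/-- Supersoluble type is equivalent to resistance plus the condition on `p'`-subgroups of
`Aut(S)`. -/
theorem supersoluble_iff [Finite S] (p : ℕ) [Fact p.Prime] (hS : IsPGroup p ↥S) :
    (∀ F : Cfsg.FusionSystem S, F.IsSaturated p →
      (∃ (m : ℕ) (c : Fin (m + 1) → Subgroup Ω), c 0 = ⊥ ∧ c (Fin.last m) = S ∧
        (∀ i : Fin (m + 1), F.StronglyClosed (c i)) ∧
        ∀ i : Fin m, c i.castSucc ≤ c i.succ ∧
          ∃ x ∈ S, c i.succ = c i.castSucc ⊔ Subgroup.zpowers x)) ↔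
    (∀ F : Cfsg.FusionSystem S, F.IsSaturated p → F.IsNormal S) ∧
      ∀ H : Subgroup (MulAut ↥S), (Nat.card ↥H).Coprime p →
        IsMulCommutative ↥H ∧ ∀ h ∈ H, h ^ (p - 1) = 1 := by
  constructor
  · intro hyp
    refine ⟨fun F hF => ?_, fun H hH => ss_pprime_abelian p hS hyp H hH⟩
    obtain ⟨m, c, hch⟩ := hyp F hF
    exact ss_isNormal p hS F hF hch
  · rintro ⟨hres, hab⟩ F hF
    exact ss_chain_of_resistant p hS hab F hF (hres F hF)

end Cfsg.Agent.Lib.Helper27
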