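import Mathlib
import Cfsg.Prelude.Def_FusionSystem
import Cfsg.Agent.Lib.Helper27.AbDistinct
import Cfsg.Agent.Lib.Helper27.SupersolB

set_option autoImplicit false

namespace Cfsg.Agent.Lib.Helper27

open Cfsg Cfsg.FusionSystem Cfsg.Agent.Lib.Helper26

universe u

variable {Ω : Type u} [Group Ω] {S : Subgroup Ω}

/-- An abelian `S` is normal in every saturated fusion system over it. -/
theorem isNormal_top_of_abelian [Finite S] (p : ℕ) [Fact p.Prime] (hS : IsPGroup p ↥S)
    (F : FusionSystem S) (hF : F.IsSaturated p) (hab : ∀ x ∈ S, ∀ y ∈ S, x * y = y * x) :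
    F.IsNormal S := by
  rw [isNormal_iff_forall_essential p hS F hF S]
  intro P hP
  have hPS : P = S := by
    rcases hP with h | hess
    · exact h
    · have hcen := hess.1.2 P (Fusion.isConj_refl F hess.1.1)
      apply le_antisymm hess.1.1
      intro s hs
      apply hcen
      refine ⟨hs, ?_⟩
      intro x hx
      exact hab x (hess.1.1 hx) s hs
  subst hPS
  refine ⟨le_rfl, fun α _ => ?_⟩
  rw [Subgroup.subgroupOf_self]
  exact Subgroup.map_top_of_surjective _ α.surjective

theorem ab_supersoluble_iff [Finite S] (p : ℕ) [Fact p.Prime] (hS : IsPGroup p ↥S)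
    (hab : IsMulCommutative ↥S) :
    (∀ F : Cfsg.FusionSystem S, F.IsSaturated p →
      (∃ (m : ℕ) (c : Fin (m + 1) → Subgroup Ω), c 0 = ⊥ ∧ c (Fin.last m) = S ∧
        (∀ i : Fin (m + 1), F.StronglyClosed (c i)) ∧
        ∀ i : Fin m, c i.castSucc ≤ c i.succ ∧
          ∃ x ∈ S, c i.succ = c i.castSucc ⊔ Subgroup.zpowers x)) ↔
    ¬ ∃ (n : ℕ) (H : Type) (_ : CommGroup H), 0 < n ∧
      Nonempty (↥S ≃* (Multiplicative (ZMod (p ^ n)) × Multiplicative (ZMod (p ^ n))) × H) := by
  have hcomm : ∀ a b : ↥S, a * b = b * a := fun a b => hab.is_comm.comm a b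
  constructor
  · intro hyp
    exact not_decomp_of_pprime p (fun K hK => ss_pprime_abelian p hS hyp K hK)
  · intro hno F hF
    rcases ab_chain_or_decomp hcomm p hS with hchain | hdec
    · obtain ⟨m, c, hc0, hcm, hcinv, hcstep⟩ := hchain
      have hnorm : F.IsNormal S := isNormal_top_of_abelian p hS F hF
        (fun x hx y hy => congrArg Subtype.val (hcomm ⟨x, hx⟩ ⟨y, hy⟩))
      refine ⟨m, fun i => (c i).map S.subtype, ?_, ?_, ?_, ?_⟩
      · show (c 0).map S.subtype = ⊥
        rw [hc0, Subgroup.map_bot]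
      · show (c (Fin.last m)).map S.subtype = S
        rw [hcm, ← MonoidHom.range_eq_map, Subgroup.range_subtype]
      · intro i
        exact stronglyClosed_of_aut_invariant F hnorm (c i) (fun α _ => hcinv i α)
      · intro i
        obtain ⟨hle, y, hy⟩ := hcstep i
        refine ⟨Subgroup.map_mono hle, (y : Ω), y.2, ?_⟩
        show (c i.succ).map S.subtype =
          (c i.castSucc).map S.subtype ⊔ Subgroup.zpowers (y : Ω)
        rw [hy, Subgroup.map_sup, MonoidHom.map_zpowers]
        rfl
    · exact absurd hdec hno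

end Cfsg.Agent.Lib.Helper27
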