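import Cfsg.Agent.Lib.Helper27.DistinctInv
import Cfsg.Agent.Lib.Helper27.IterComm
import Cfsg.Agent.Lib.Helper27.AbelianFS

set_option autoImplicit false

namespace Cfsg.Agent.Lib.Helper27

open Cfsg Cfsg.FusionSystem Cfsg.Agent.Lib.Helper26

section

variable {n : ℕ} {a : Fin n → ℕ}

/-- Every automorphism of a product of cyclic `2`-groups of pairwise distinct orders is a
`2`-element. -/
theorem isPGroup_mulAut_pi (ha : StrictMono a) (ha1 : ∀ i, 1 ≤ a i)
    (β : MulAut (Multiplicative ((i : Fin n) → ZMod (2 ^ a i)))) : ∃ k : ℕ, β ^ 2 ^ k = 1 := by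
  have hαβ : ∀ g, β g = Multiplicative.ofAdd
      ((AddEquiv.toMultiplicative.symm β) (Multiplicative.toAdd g)) := fun g => rfl
  generalize AddEquiv.toMultiplicative.symm β = α at hαβ
  have hiter : ∀ (k : ℕ) (g : Multiplicative ((i : Fin n) → ZMod (2 ^ a i))),
      (commMap β)^[k] g = Multiplicative.ofAdd ((subOne α ^ k) (Multiplicative.toAdd g)) := by
    intro k
    induction k with
    | zero => intro g; rfl
    | succ k ih =>
      intro g
      rw [Function.iterate_succ_apply', ih, pow_succ']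
      show commMap β (Multiplicative.ofAdd ((subOne α ^ k) (Multiplicative.toAdd g))) =
        Multiplicative.ofAdd (subOne α ((subOne α ^ k) (Multiplicative.toAdd g)))
      generalize (subOne α ^ k) (Multiplicative.toAdd g) = y
      rw [subOne_apply]
      unfold commMap
      rw [hαβ, ← ofAdd_neg, ← ofAdd_add, neg_add_eq_sub]
      rfl
  have hone : ∀ g : Multiplicative ((i : Fin n) → ZMod (2 ^ a i)),
      (commMap β)^[n * ∑ i, a i] g = 1 := by
    intro g
    rw [hiter, subOne_pow_eq_zero ha ha1]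
    rfl
  refine ⟨(∑ i, a i) * (n * ∑ i, a i), ?_⟩
  apply MulEquiv.ext
  intro g
  rw [pow_mul, ← card_pi_zmod a]
  exact pow_fix_of_commMap_iter β _ g (hone g)

end

variable {Ω : Type*} [Group Ω] {S : Subgroup Ω}

/-- Over a product of cyclic `2`-groups of pairwise distinct orders every saturated fusion system
is inner. -/
theorem inner_of_distinct_invariants [Finite S] (n : ℕ) (a : Fin n → ℕ) (ha : StrictMono a)
    (ha1 : ∀ i, 1 ≤ a i) (e : ↥S ≃* Multiplicative ((i : Fin n) → ZMod (2 ^ a i)))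
    (F : FusionSystem S) (hF : F.IsSaturated 2) (P : Subgroup Ω) :
    F.Hom P = (innerFusionSystem S).Hom P := by
  have _ : Fact (Nat.Prime 2) := ⟨Nat.prime_two⟩
  have hS : IsPGroup 2 S := IsPGroup.of_card ((Nat.card_congr e.toEquiv).trans (card_pi_zmod a))
  have hab : ∀ x ∈ S, ∀ y ∈ S, x * y = y * x := by
    intro x hx y hy
    have h1 : (⟨x, hx⟩ : S) * ⟨y, hy⟩ = ⟨y, hy⟩ * ⟨x, hx⟩ := by
      apply e.injective
      rw [map_mul, map_mul, mul_comm]
    exact congrArg Subtype.val h1
  have hcop := card_autGroup_top_coprime 2 F hF hab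
  have hone : ∀ α ∈ F.autGroup S, α = 1 := by
    intro α hα
    obtain ⟨k, hk⟩ := isPGroup_mulAut_pi ha ha1 (MulAut.congr e α)
    rw [← map_pow] at hk
    have hk' : α ^ 2 ^ k = 1 := (MulAut.congr e).injective (hk.trans (map_one _).symm)
    have h1 : orderOf α ∣ 2 ^ k := orderOf_dvd_of_pow_eq_one hk'
    have h2 : orderOf α ∣ Nat.card (F.autGroup S) := by
      have h3 := orderOf_dvd_natCard (⟨α, hα⟩ : F.autGroup S)
      rwa [Subgroup.orderOf_mk] at h3
    have h4 : orderOf α = 1 :=
      Nat.eq_one_of_dvd_coprimes (Nat.Coprime.pow_right k hcop) h2 h1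
    exact orderOf_eq_one_iff.mp h4
  apply Set.Subset.antisymm ?_ (innerFS_subsystem F le_rfl P)
  intro φ hφ
  obtain ⟨ψ, hψ, hext⟩ := exists_extension_top_of_abelian 2 hS F hF hab hφ
  obtain ⟨α, hα, hαψ⟩ := exists_aut_of_hom_top F hψ
  have hPS : P ≤ S := hom_le F hφ
  refine ⟨hPS, 1, S.one_mem, fun x => ?_⟩
  rw [← hext x x.2 (hPS x.2), ← hαψ, hone α hα]
  simp

end Cfsg.Agent.Lib.Helper27
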