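import Mathlib

set_option autoImplicit false

namespace Cfsg.Agent.Lib.Helper27

section DistinctInv

variable {n : ℕ} {a : Fin n → ℕ}

/-- Reduction mod 2 on `ZMod (2 ^ a i)`. -/
noncomputable def par2 (ha1 : ∀ i, 1 ≤ a i) (i : Fin n) : ZMod (2 ^ a i) →+* ZMod 2 :=
  ZMod.castHom (dvd_pow_self 2 (Nat.one_le_iff_ne_zero.mp (ha1 i))) (ZMod 2)

theorem par2_eq_val (ha1 : ∀ i, 1 ≤ a i) (i : Fin n) (u : ZMod (2 ^ a i)) :
    par2 ha1 i u = ((u.val : ℕ) : ZMod 2) := by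
  unfold par2
  rw [ZMod.castHom_apply, ZMod.natCast_val]

theorem exists_two_mul_of_par2 (ha1 : ∀ i, 1 ≤ a i) (i : Fin n) (u : ZMod (2 ^ a i))
    (h : par2 ha1 i u = 0) : ∃ v : ZMod (2 ^ a i), u = 2 * v := by
  rw [par2_eq_val, ZMod.natCast_eq_zero_iff] at h
  obtain ⟨t, ht⟩ := h
  refine ⟨(t : ZMod (2 ^ a i)), ?_⟩
  have h1 : ((u.val : ℕ) : ZMod (2 ^ a i)) = u := ZMod.natCast_zmod_val u
  rw [← h1, ht]
  push_cast
  rfl

theorem par2_of_pow_smul (ha1 : ∀ i, 1 ≤ a i) (i : Fin n) (u : ZMod (2 ^ a i)) {c : ℕ}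
    (hc : c < a i) (h : (2 ^ c) • u = 0) : par2 ha1 i u = 0 := by
  rw [par2_eq_val, ZMod.natCast_eq_zero_iff]
  have h1 : ((2 ^ c * u.val : ℕ) : ZMod (2 ^ a i)) = 0 := by
    rw [Nat.cast_mul, ZMod.natCast_zmod_val, ← nsmul_eq_mul]
    exact h
  rw [ZMod.natCast_eq_zero_iff] at h1
  have h2 : 2 ^ (c + 1) ∣ 2 ^ c * u.val := (pow_dvd_pow 2 hc).trans h1
  rw [pow_succ] at h2
  exact Nat.dvd_of_mul_dvd_mul_left (pow_pos (by norm_num) c) h2

/-- The coordinates of index at least `j` are even. -/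
def evenFrom (ha1 : ∀ i, 1 ≤ a i) (j : ℕ) (x : (i : Fin n) → ZMod (2 ^ a i)) : Prop :=
  ∀ i : Fin n, j ≤ (i : ℕ) → par2 ha1 i (x i) = 0

theorem evenFrom_map (ha : StrictMono a) (ha1 : ∀ i, 1 ≤ a i)
    (f : ((i : Fin n) → ZMod (2 ^ a i)) →+ ((i : Fin n) → ZMod (2 ^ a i))) (j : ℕ)
    (x : (i : Fin n) → ZMod (2 ^ a i)) (hx : evenFrom ha1 j x) : evenFrom ha1 j (f x) := by
  intro i hi
  have hx' : x = ∑ l, Pi.single l (x l) := (Finset.univ_sum_single x).symm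
  rw [hx', map_sum, Finset.sum_apply, map_sum]
  apply Finset.sum_eq_zero
  intro l _
  by_cases hl : j ≤ (l : ℕ)
  · obtain ⟨v, hv⟩ := exists_two_mul_of_par2 ha1 l (x l) (hx l hl)
    have h1 : (Pi.single l (x l) : (i : Fin n) → ZMod (2 ^ a i)) =
        (2 : ℕ) • (Pi.single l v : (i : Fin n) → ZMod (2 ^ a i)) := by
      rw [← Pi.single_smul, hv]
      congr 1
      rw [nsmul_eq_mul]
      rfl
    rw [h1, map_nsmul, Pi.smul_apply, map_nsmul, nsmul_eq_mul]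
    have h2 : ((2 : ℕ) : ZMod 2) = 0 := ZMod.natCast_self 2
    rw [h2, zero_mul]
  · push Not at hl
    have hli : l < i := Fin.lt_def.mpr (lt_of_lt_of_le hl hi)
    apply par2_of_pow_smul ha1 i _ (ha hli)
    rw [← Pi.smul_apply, ← map_nsmul, ← Pi.single_smul]
    have h3 : (2 ^ a l) • x l = 0 := by
      rw [nsmul_eq_mul]
      have h4 := ZMod.natCast_self (2 ^ a l)
      rw [h4, zero_mul]
    rw [h3, Pi.single_zero, map_zero]
    rfl

theorem evenFrom_sub (ha : StrictMono a) (ha1 : ∀ i, 1 ≤ a i)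
    (α : ((i : Fin n) → ZMod (2 ^ a i)) ≃+ ((i : Fin n) → ZMod (2 ^ a i))) (j : ℕ)
    (x : (i : Fin n) → ZMod (2 ^ a i)) (hx : evenFrom ha1 (j + 1) x) :
    evenFrom ha1 j (α x - x) := by
  intro i hi
  rw [Pi.sub_apply, map_sub]
  rcases Nat.lt_or_ge j i with hlt | hge
  · have h1 := evenFrom_map ha ha1 α.toAddMonoidHom (j + 1) x hx i hlt
    have h2 := hx i hlt
    have h1' : par2 ha1 i ((α x) i) = 0 := h1
    rw [h1', h2, sub_zero]
  · by_cases h0 : par2 ha1 i (x i) = 0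
    · have hxj : evenFrom ha1 j x := by
        intro i' hi'
        rcases Nat.lt_or_ge j i' with h | h
        · exact hx i' h
        · have e : i' = i := Fin.ext (by omega)
          rw [e]; exact h0
      have h1 : par2 ha1 i ((α x) i) = 0 := evenFrom_map ha ha1 α.toAddMonoidHom j x hxj i hi
      rw [h1, h0, sub_zero]
    · have h1 : par2 ha1 i ((α x) i) ≠ 0 := by
        intro h1
        apply h0
        have hαx : evenFrom ha1 j (α x) := by
          intro i' hi'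
          rcases Nat.lt_or_ge j i' with h | h
          · exact evenFrom_map ha ha1 α.toAddMonoidHom (j + 1) x hx i' h
          · have e : i' = i := Fin.ext (by omega)
            rw [e]; exact h1
        have h2 := evenFrom_map ha ha1 α.symm.toAddMonoidHom j (α x) hαx i hi
        have h3 : α.symm.toAddMonoidHom (α x) = x := α.symm_apply_apply x
        rw [h3] at h2
        exact h2
      have key : ∀ s t : ZMod 2, s ≠ 0 → t ≠ 0 → s - t = 0 := by decide
      exact key _ _ h1 h0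

theorem iterate_evenFrom (ha : StrictMono a) (ha1 : ∀ i, 1 ≤ a i)
    (α : ((i : Fin n) → ZMod (2 ^ a i)) ≃+ ((i : Fin n) → ZMod (2 ^ a i))) :
    ∀ k : ℕ, k ≤ n → ∀ x : (i : Fin n) → ZMod (2 ^ a i),
      evenFrom ha1 (n - k) ((fun y => α y - y)^[k] x) := by
  intro k
  induction k with
  | zero =>
    intro _ x i hi
    exact absurd i.2 (by omega)
  | succ k ih =>
    intro hk x
    rw [Function.iterate_succ_apply']
    have h1 := ih (by omega) x
    have e : n - k = (n - (k + 1)) + 1 := by omega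
    rw [e] at h1
    exact evenFrom_sub ha ha1 α _ _ h1

theorem exists_two_smul_of_evenFrom_zero (ha1 : ∀ i, 1 ≤ a i)
    (x : (i : Fin n) → ZMod (2 ^ a i)) (hx : evenFrom ha1 0 x) :
    ∃ y : (i : Fin n) → ZMod (2 ^ a i), x = (2 : ℕ) • y := by
  choose v hv using fun i => exists_two_mul_of_par2 ha1 i (x i) (hx i (Nat.zero_le _))
  refine ⟨v, funext fun i => ?_⟩
  rw [Pi.smul_apply, hv i, nsmul_eq_mul]
  rfl

/-- `α - 1` as an endomorphism. -/
def subOne (α : ((i : Fin n) → ZMod (2 ^ a i)) ≃+ ((i : Fin n) → ZMod (2 ^ a i))) :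
    AddMonoid.End ((i : Fin n) → ZMod (2 ^ a i)) :=
  α.toAddMonoidHom - AddMonoidHom.id _

theorem subOne_apply (α : ((i : Fin n) → ZMod (2 ^ a i)) ≃+ ((i : Fin n) → ZMod (2 ^ a i)))
    (x : (i : Fin n) → ZMod (2 ^ a i)) : subOne α x = α x - x := rfl

theorem subOne_pow_two_pow (ha : StrictMono a) (ha1 : ∀ i, 1 ≤ a i)
    (α : ((i : Fin n) → ZMod (2 ^ a i)) ≃+ ((i : Fin n) → ZMod (2 ^ a i))) (k : ℕ) :
    ∀ x : (i : Fin n) → ZMod (2 ^ a i), ∃ y : (i : Fin n) → ZMod (2 ^ a i),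
      (subOne α ^ (n * k)) x = (2 ^ k : ℕ) • y := by
  have hn : ∀ z : (i : Fin n) → ZMod (2 ^ a i), ∃ w : (i : Fin n) → ZMod (2 ^ a i),
      (subOne α ^ n) z = (2 : ℕ) • w := by
    intro z
    apply exists_two_smul_of_evenFrom_zero ha1
    have h1 := iterate_evenFrom ha ha1 α n le_rfl z
    rw [Nat.sub_self] at h1
    rw [AddMonoid.End.coe_pow]
    exact h1
  induction k with
  | zero =>
    intro x
    exact ⟨x, by simp⟩
  | succ k ih =>
    intro x
    obtain ⟨y, hy⟩ := ih x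
    obtain ⟨w, hw⟩ := hn y
    refine ⟨w, ?_⟩
    rw [Nat.mul_succ, add_comm, pow_add]
    show (subOne α ^ n) ((subOne α ^ (n * k)) x) = _
    rw [hy, map_nsmul, hw, smul_smul, pow_succ]

theorem subOne_pow_eq_zero (ha : StrictMono a) (ha1 : ∀ i, 1 ≤ a i)
    (α : ((i : Fin n) → ZMod (2 ^ a i)) ≃+ ((i : Fin n) → ZMod (2 ^ a i)))
    (x : (i : Fin n) → ZMod (2 ^ a i)) : (subOne α ^ (n * ∑ i, a i)) x = 0 := by
  obtain ⟨y, hy⟩ := subOne_pow_two_pow ha ha1 α (∑ i, a i) x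
  rw [hy]
  funext i
  rw [Pi.smul_apply, nsmul_eq_mul]
  have h1 : ((2 ^ ∑ i, a i : ℕ) : ZMod (2 ^ a i)) = 0 := by
    rw [ZMod.natCast_eq_zero_iff]
    exact pow_dvd_pow 2 (Finset.single_le_sum (fun _ _ => Nat.zero_le _) (Finset.mem_univ i))
  rw [h1, zero_mul]
  rfl

theorem card_pi_zmod (a : Fin n → ℕ) :
    Nat.card (Multiplicative ((i : Fin n) → ZMod (2 ^ a i))) = 2 ^ ∑ i, a i := by
  show Nat.card ((i : Fin n) → ZMod (2 ^ a i)) = _
  rw [Nat.card_pi]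
  simp only [Nat.card_zmod]
  exact Finset.prod_pow_eq_pow_sum _ _ _

end DistinctInv

end Cfsg.Agent.Lib.Helper27
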