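import Mathlib
import Cfsg.Prelude.Def_FusionSystem
import Cfsg.Agent.Lib.Helper27.KNorm
import Cfsg.Agent.Lib.Helper27.KNormAux

set_option autoImplicit false

namespace Cfsg.Agent.Lib.Helper27

open Cfsg Cfsg.FusionSystem Cfsg.Agent.Lib.Helper26

variable {Ω : Type*} [Group Ω] {S : Subgroup Ω}

theorem exists_fullyKN_iso [Finite S] (F : FusionSystem S) {M : Subgroup Ω} (hM : M ≤ S)
    (K₁ : Subgroup (MulAut M)) :
    ∃ (M₁ : Subgroup Ω) (f : M ≃* M₁), Fusion.IsIso F f ∧ FullyKN F M₁ (Kt f K₁) := by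
  have hne : {n | ∃ (M₁ : Subgroup Ω) (f : M ≃* M₁), Fusion.IsIso F f ∧
      n = Nat.card (NK S M₁ (Kt f K₁))}.Nonempty :=
    ⟨_, M, MulEquiv.refl M, Fusion.isIso_refl F hM, rfl⟩
  have hbdd : BddAbove {n | ∃ (M₁ : Subgroup Ω) (f : M ≃* M₁), Fusion.IsIso F f ∧
      n = Nat.card (NK S M₁ (Kt f K₁))} := ⟨Nat.card S, by
    rintro n ⟨M₁, f, hf, rfl⟩
    exact Subgroup.card_le_of_le (NK_le M₁ _)⟩
  obtain ⟨M₁, f, hf, hn⟩ := Nat.sSup_mem hne hbdd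
  refine ⟨M₁, f, hf, hf.le_right, fun R e he => ?_⟩
  rw [Kt_trans, ← hn]
  exact le_csSup hbdd ⟨R, f.trans e, hf.trans he, rfl⟩

theorem fullyKN_KP_cast (F : FusionSystem S) {M₂ P' Q : Subgroup Ω} {K : Subgroup (MulAut Q)}
    (h : M₂ = P' ⊔ Q) (hQ2 : Q ≤ M₂) (hfull : FullyKN F M₂ (KP M₂ P' Q hQ2 K)) :
    FullyKN F (P' ⊔ Q) (KP (P' ⊔ Q) P' Q le_sup_right K) := by
  subst h
  exact hfull

/-- Every subgroup `P` of `N_S^K(Q)` is conjugate in the `K`-normalizer system to a subgroup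
`P'` with `P'Q` fully `K_{P'}`-normalized. -/
theorem exists_conj_fullyKN [Finite S] (p : ℕ) [Fact p.Prime] (hS : IsPGroup p S)
    (F : FusionSystem S) (hF : F.IsSaturated p) {Q : Subgroup Ω} {K : Subgroup (MulAut Q)}
    (hQ : FullyKN F Q K) {P : Subgroup Ω} (hP : P ≤ NK S Q K) :
    ∃ (P' : Subgroup Ω) (φ : P →* Ω), φ ∈ NKHom F Q K P ∧ φ.range = P' ∧
      FullyKN F (P' ⊔ Q) (KP (P' ⊔ Q) P' Q le_sup_right K) := by
  have hQS := hQ.1
  have hPS : P ≤ S := hP.trans (NK_le Q K)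
  have hMS : P ⊔ Q ≤ S := sup_le hPS hQS
  obtain ⟨M₁, f, hf, hM₁⟩ := exists_fullyKN_iso F hMS (KP (P ⊔ Q) P Q le_sup_right K)
  obtain ⟨f₀, hf₀⟩ : ∃ f₀ : ↥(P ⊔ Q) →* Ω, f₀ = M₁.subtype.comp f.toMonoidHom := ⟨_, rfl⟩
  have hf₀a : ∀ z, f₀ z = ((f z : M₁) : Ω) := fun z => by rw [hf₀]; rfl
  have hf₀F : f₀ ∈ F.Hom (P ⊔ Q) := by rw [hf₀]; exact hf
  have hφQF : f₀.comp (Subgroup.inclusion le_sup_right) ∈ F.Hom Q :=
    Fusion.restrict_mem F hf₀F le_sup_right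
  obtain ⟨eQ, heQa⟩ : ∃ eQ : Q ≃* (f₀.comp (Subgroup.inclusion le_sup_right)).range,
      eQ = Fusion.equivOfRange (f₀.comp (Subgroup.inclusion le_sup_right))
        (F.injective_of_mem hφQF) rfl := ⟨_, rfl⟩
  have heQ : Fusion.IsIso F eQ := by rw [heQa]; exact Fusion.isIso_equivOfRange F hφQF rfl
  have heQc : ∀ q : Q, ((eQ q : (f₀.comp (Subgroup.inclusion le_sup_right)).range) : Ω) =
      f₀ (Subgroup.inclusion le_sup_right q) := fun q => by rw [heQa]; rfl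
  obtain ⟨χ, hχ, N', ρ, hρ, hQ₁N, hNK, hρχ⟩ := fullyKN_extend p hS F hF hQ eQ.symm heQ.symm
  rw [MulEquiv.symm_symm] at hNK
  have hfP : ∀ x : P, f₀ (Subgroup.inclusion le_sup_left x) ∈ N' := fun x =>
    hNK (NK_map_mem F eQ hf₀F le_sup_right (fun q => (heQc q).symm) (hP x.2)
      (Subgroup.mem_sup_left x.2))
  have hfQ : ∀ q : Q, f₀ (Subgroup.inclusion le_sup_right q) ∈ N' := fun q =>
    hQ₁N ⟨q, rfl⟩
  have hfN : ∀ z : ↥(P ⊔ Q), f₀ z ∈ N' := Fusion.sup_values f₀ N' hfP hfQ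
  have hM₁N : M₁ ≤ N' := by
    intro y hy
    have := hfN (f.symm ⟨y, hy⟩)
    rw [hf₀a, MulEquiv.apply_symm_apply] at this
    exact this
  have hNKM : NK S M₁ (Kt f (KP (P ⊔ Q) P Q le_sup_right K)) ≤ N' := by
    rintro x ⟨hxS, β, ⟨α, ⟨-, κ, hκ, h1⟩, rfl⟩, hβ⟩
    refine hNK ⟨hxS, MulAut.congr eQ κ, congr_mem_Kt eQ hκ, fun r => ?_⟩
    have hr : f₀ (Subgroup.inclusion le_sup_right (eQ.symm r)) = (r : Ω) := by
      rw [← heQc, MulEquiv.apply_symm_apply]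
    have h2 : ((f (α (f.symm (f (Subgroup.inclusion le_sup_right (eQ.symm r))))) : M₁) : Ω) =
        x * ((f (Subgroup.inclusion le_sup_right (eQ.symm r)) : M₁) : Ω) * x⁻¹ :=
      hβ (f (Subgroup.inclusion le_sup_right (eQ.symm r)))
    have h4 : α (Subgroup.inclusion le_sup_right (eQ.symm r)) =
        Subgroup.inclusion le_sup_right (κ (eQ.symm r)) := Subtype.ext (h1 _)
    rw [MulEquiv.symm_apply_apply, h4, ← hf₀a, ← hf₀a, hr, ← heQc] at h2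
    exact h2
  have hθF : ρ.comp (f₀.codRestrict N' hfN) ∈ F.Hom (P ⊔ Q) := F.comp_mem hf₀F hρ hfN
  obtain ⟨θ, hθ⟩ : ∃ θ : ↥(P ⊔ Q) →* Ω, θ = ρ.comp (f₀.codRestrict N' hfN) := ⟨_, rfl⟩
  rw [← hθ] at hθF
  have hθa : ∀ z, θ z = ρ ⟨f₀ z, hfN z⟩ := fun z => by rw [hθ]; rfl
  have hθQ : ∀ q : Q, θ (Subgroup.inclusion le_sup_right q) = ((χ q : Q) : Ω) := by
    intro q
    have h1 := hρχ (eQ q)
    rw [MulEquiv.symm_apply_apply] at h1
    rw [hθa, ← h1]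
    congr 1
    apply Subtype.ext
    exact (heQc q).symm
  have hθinj : Function.Injective θ := F.injective_of_mem hθF
  have hvals : ∀ x : P, θ (Subgroup.inclusion le_sup_left x) ∈ NK S Q K := by
    intro x
    have := NK_map_mem F χ hθF le_sup_right hθQ (hP x.2) (Subgroup.mem_sup_left x.2)
    rw [Kt_self hχ.1] at this
    exact this
  refine ⟨(θ.comp (Subgroup.inclusion le_sup_left)).range, θ.comp (Subgroup.inclusion le_sup_left),
    ⟨Fusion.restrict_mem F hθF le_sup_left, hP, hvals, θ, hθF, fun x => rfl, χ, hχ.1, hθQ⟩,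
    rfl, ?_⟩
  -- the fully normalized claim
  obtain ⟨θ', hθ'⟩ : ∃ θ' : ↥(P ⊔ Q) ≃* θ.range, θ' = Fusion.equivOfRange θ hθinj rfl :=
    ⟨_, rfl⟩
  have hθ'F : Fusion.IsIso F θ' := by rw [hθ']; exact Fusion.isIso_equivOfRange F hθF rfl
  have hθ'a : ∀ z, ((θ' z : θ.range) : Ω) = θ z := fun z => by rw [hθ']; rfl
  have hrange : θ.range = (θ.comp (Subgroup.inclusion le_sup_left)).range ⊔ Q := by
    apply le_antisymm
    · rintro _ ⟨z, rfl⟩
      exact Fusion.sup_values θ _ (fun x => Subgroup.mem_sup_left (MonoidHom.mem_range.2 ⟨x, rfl⟩))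
        (fun q => Subgroup.mem_sup_right (by rw [hθQ]; exact (χ q).2)) z
    · refine sup_le ?_ (fun q hq => ⟨Subgroup.inclusion le_sup_right (χ⁻¹ ⟨q, hq⟩), ?_⟩)
      · rintro _ ⟨x, rfl⟩
        exact ⟨_, rfl⟩
      · rw [hθQ, MulAut.apply_inv_self]
  have hQ2 : Q ≤ θ.range := by rw [hrange]; exact le_sup_right
  apply fullyKN_KP_cast F hrange hQ2
  have hstab : ∀ m : ↥(P ⊔ Q), (m : Ω) ∈ P ↔
      ((θ' m : θ.range) : Ω) ∈ (θ.comp (Subgroup.inclusion le_sup_left)).range := by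
    intro m
    rw [hθ'a]
    constructor
    · intro hm
      exact ⟨⟨m, hm⟩, rfl⟩
    · rintro ⟨x, hx⟩
      have : Subgroup.inclusion le_sup_left x = m := hθinj hx
      rw [← this]
      exact x.2
  have hKP := Kt_KP_eq (P := P) (P' := (θ.comp (Subgroup.inclusion le_sup_left)).range)
    le_sup_right hQ2 K θ' hstab χ hχ.1 (fun q => by rw [hθ'a, hθQ])
  rw [← hKP]
  -- now compare with `M₁`
  have hgF : Fusion.IsIso F (f.symm.trans θ') := hf.symm.trans hθ'F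
  have hρg : ∀ m₁ : M₁, ρ ⟨m₁, hM₁N m₁.2⟩ = (((f.symm.trans θ') m₁ : θ.range) : Ω) := by
    intro m₁
    show _ = ((θ' (f.symm m₁) : θ.range) : Ω)
    rw [hθ'a, hθa]
    congr 1
    apply Subtype.ext
    show (m₁ : Ω) = f₀ (f.symm m₁)
    rw [hf₀a, MulEquiv.apply_symm_apply]
  have hcard := card_NK_le_of_map F (f.symm.trans θ') hρ hM₁N hρg hNKM
  have hKt1 : Kt (f.symm.trans θ') (Kt f (KP (P ⊔ Q) P Q le_sup_right K)) =
      Kt θ' (KP (P ⊔ Q) P Q le_sup_right K) := by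
    rw [Kt_trans]
    apply Kt_congr
    intro z
    show θ' (f.symm (f z)) = θ' z
    rw [MulEquiv.symm_apply_apply]
  rw [hKt1] at hcard
  refine ⟨hθ'F.le_right, fun R e he => ?_⟩
  have h5 := hM₁.2 R ((f.symm.trans θ').trans e) (hgF.trans he)
  have hKt2 : Kt ((f.symm.trans θ').trans e) (Kt f (KP (P ⊔ Q) P Q le_sup_right K)) =
      Kt e (Kt θ' (KP (P ⊔ Q) P Q le_sup_right K)) := by
    rw [Kt_trans, Kt_trans]
    apply Kt_congr
    intro z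
    show e (θ' (f.symm (f z))) = e (θ' z)
    rw [MulEquiv.symm_apply_apply]
  rw [hKt2] at h5
  exact h5.trans hcard

end Cfsg.Agent.Lib.Helper27
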