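import Mathlib
import Cfsg.Prelude.Def_FusionSystem
import Cfsg.Agent.Lib.Helper27.KNorm
import Cfsg.Agent.Lib.Helper27.KNormAux
import Cfsg.Agent.Lib.Helper27.KNormConj

set_option autoImplicit false

namespace Cfsg.Agent.Lib.Helper27

open Cfsg Cfsg.FusionSystem Cfsg.Agent.Lib.Helper26

variable {Ω : Type*} [Group Ω] {S : Subgroup Ω}

theorem autGroup_NK_eq [Finite S] (F : FusionSystem S) {Q : Subgroup Ω}
    {K : Subgroup (MulAut Q)} (E : FusionSystem (NK S Q K))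
    (hE : ∀ P, E.Hom P = NKHom F Q K P) {P : Subgroup Ω} (hP : P ≤ NK S Q K)
    (hMS : P ⊔ Q ≤ S) :
    ((F.autGroup (P ⊔ Q)).subgroupOf (KP (P ⊔ Q) P Q le_sup_right K)).map
      (resKP le_sup_left le_sup_right K) = E.autGroup P := by
  have hMfin : Finite ↥(P ⊔ Q) := finite_of_le hMS
  ext β
  constructor
  · rintro ⟨α, hα, rfl⟩
    have hαF : Fusion.IsIso F (α.1 : ↥(P ⊔ Q) ≃* ↥(P ⊔ Q)) :=
      (Fusion.mem_autGroup_iff F hMS).1 hα
    rw [Fusion.mem_autGroup_iff E hP]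
    show P.subtype.comp (resKP le_sup_left le_sup_right K α).toMonoidHom ∈ E.Hom P
    rw [hE]
    refine ⟨?_, hP, fun x => hP (Subtype.coe_prop _),
      (P ⊔ Q).subtype.comp (α.1 : ↥(P ⊔ Q) ≃* ↥(P ⊔ Q)).toMonoidHom, hαF, fun x => rfl, ?_⟩
    · have h1 := Fusion.restrict_mem F hαF (le_sup_left : P ≤ P ⊔ Q)
      have h2 : ((P ⊔ Q).subtype.comp (α.1 : ↥(P ⊔ Q) ≃* ↥(P ⊔ Q)).toMonoidHom).comp
          (Subgroup.inclusion le_sup_left) =
          P.subtype.comp (resKP le_sup_left le_sup_right K α).toMonoidHom := by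
        ext x
        rfl
      rw [← h2]
      exact h1
    · obtain ⟨κ, hκ, h1⟩ := α.2.2
      exact ⟨κ, hκ, h1⟩
  · intro hβ
    rw [Fusion.mem_autGroup_iff E hP] at hβ
    have hβ' : P.subtype.comp (β : P ≃* P).toMonoidHom ∈ NKHom F Q K P := by
      rw [← hE]
      exact hβ
    obtain ⟨-, -, -, ψ, hψ, hψP, κ, hκ, hψQ⟩ := hβ'
    have hval : ∀ z, ψ z ∈ P ⊔ Q := Fusion.sup_values ψ (P ⊔ Q)
      (fun x => by rw [hψP]; exact Subgroup.mem_sup_left (β x).2)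
      (fun q => by rw [hψQ]; exact Subgroup.mem_sup_right (κ q).2)
    have hinj : Function.Injective (ψ.codRestrict (P ⊔ Q) hval) := fun a b hab =>
      F.injective_of_mem hψ (congrArg Subtype.val hab)
    obtain ⟨α, hαa⟩ : ∃ α : MulAut ↥(P ⊔ Q), ∀ z, ((α z : ↥(P ⊔ Q)) : Ω) = ψ z :=
      ⟨MulEquiv.ofBijective (ψ.codRestrict (P ⊔ Q) hval)
        ⟨hinj, Finite.surjective_of_injective hinj⟩, fun z => rfl⟩
    have hαF : α ∈ F.autGroup (P ⊔ Q) := by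
      rw [Fusion.mem_autGroup_iff F hMS]
      have : (P ⊔ Q).subtype.comp (α : ↥(P ⊔ Q) ≃* ↥(P ⊔ Q)).toMonoidHom = ψ := by
        ext z
        exact hαa z
      unfold Fusion.IsIso
      rw [this]
      exact hψ
    have hαK : α ∈ KP (P ⊔ Q) P Q le_sup_right K := by
      refine ⟨stab_iff_of_imp P α (fun m hm => ?_), κ, hκ, fun q => by rw [hαa, hψQ]⟩
      have h1 : ψ m = β ⟨m, hm⟩ := hψP ⟨m, hm⟩
      rw [hαa, h1]
      exact (β _).2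
    refine ⟨⟨α, hαK⟩, hαF, ?_⟩
    apply MulEquiv.ext
    intro x
    apply Subtype.ext
    rw [resKP_apply]
    show ((α ⟨x, _⟩ : ↥(P ⊔ Q)) : Ω) = β x
    rw [hαa]
    exact hψP x

theorem autInducedBy_NK_eq {Q : Subgroup Ω} {K : Subgroup (MulAut Q)} {P : Subgroup Ω} :
    ((autInducedBy S (P ⊔ Q)).subgroupOf (KP (P ⊔ Q) P Q le_sup_right K)).map
      (resKP le_sup_left le_sup_right K) = autInducedBy (NK S Q K) P := by
  ext β
  constructor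
  · rintro ⟨α, hα, rfl⟩
    have hα' : (α : MulAut ↥(P ⊔ Q)) ∈ autInducedBy S (P ⊔ Q) := hα
    obtain ⟨g, hgS, hg⟩ := Fusion.mem_autInducedBy_iff.1 hα'
    obtain ⟨κ, hκ, h1⟩ := α.2.2
    have hgN : g ∈ NK S Q K := ⟨hgS, κ, hκ, fun q => by rw [← h1, hg]; rfl⟩
    exact Subgroup.subset_closure ⟨g, hgN, fun x => by rw [resKP_apply, hg]⟩
  · intro hβ
    obtain ⟨g, hgN, hg⟩ := Fusion.mem_autInducedBy_iff.1 hβ
    have hgP : g ∈ Subgroup.normalizer (P : Set Ω) := Fusion.mem_normalizer_of_conj hg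
    obtain ⟨α, hαK, hαS, hα⟩ := conj_mem_KP hgN hgP
    refine ⟨⟨α, hαK⟩, hαS, ?_⟩
    apply MulEquiv.ext
    intro x
    apply Subtype.ext
    rw [resKP_apply, hg]
    exact hα _

theorem fullyAutomized_of_fullyKN [Finite S] (p : ℕ) [Fact p.Prime] (hS : IsPGroup p S)
    (F : FusionSystem S) (hF : F.IsSaturated p) {Q : Subgroup Ω} {K : Subgroup (MulAut Q)}
    (E : FusionSystem (NK S Q K)) (hE : ∀ P, E.Hom P = NKHom F Q K P)
    {P : Subgroup Ω} (hP : P ≤ NK S Q K)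
    (hfull : FullyKN F (P ⊔ Q) (KP (P ⊔ Q) P Q le_sup_right K)) :
    E.IsFullyAutomized p P := by
  have hMS : P ⊔ Q ≤ S := hfull.1
  have hMfin : Finite ↥(P ⊔ Q) := finite_of_le hMS
  have hPfin : Finite P := finite_of_le (le_sup_left.trans hMS)
  obtain ⟨hMc, hsyl⟩ := fullyKN_sylow p hS F hF hfull
  have hTA : (autInducedBy S (P ⊔ Q)).subgroupOf (KP (P ⊔ Q) P Q le_sup_right K) ≤
      (F.autGroup (P ⊔ Q)).subgroupOf (KP (P ⊔ Q) P Q le_sup_right K) :=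
    fun α hα => Fusion.autInducedBy_le_autGroup F hMS hα
  have hT' : Nat.card ((autInducedBy S (P ⊔ Q)).subgroupOf (KP (P ⊔ Q) P Q le_sup_right K)) =
      p ^ (Nat.card ((F.autGroup (P ⊔ Q)).subgroupOf
        (KP (P ⊔ Q) P Q le_sup_right K))).factorization p := by
    rw [card_subgroupOf_inf, card_subgroupOf_inf]
    exact hsyl
  have hcard := card_map_pPart (resKP le_sup_left le_sup_right K) hTA hT'
  rw [autGroup_NK_eq F E hE hP hMS, autInducedBy_NK_eq] at hcard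
  exact ⟨hP, (sylow_subgroupOf_iff (Fusion.autInducedBy_le_autGroup E hP)).2 hcard⟩

theorem receptive_of_fullyKN [Finite S] (p : ℕ) [Fact p.Prime] (hS : IsPGroup p S)
    (F : FusionSystem S) (hF : F.IsSaturated p) {Q : Subgroup Ω} {K : Subgroup (MulAut Q)}
    (E : FusionSystem (NK S Q K)) (hE : ∀ P, E.Hom P = NKHom F Q K P)
    {P : Subgroup Ω} (hP : P ≤ NK S Q K)
    (hfull : FullyKN F (P ⊔ Q) (KP (P ⊔ Q) P Q le_sup_right K)) :
    E.IsReceptive P := by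
  have hMS : P ⊔ Q ≤ S := hfull.1
  have hMfin : Finite ↥(P ⊔ Q) := finite_of_le hMS
  have hPfin : Finite P := finite_of_le (le_sup_left.trans hMS)
  obtain ⟨hMc, hsyl⟩ := fullyKN_sylow p hS F hF hfull
  have h77 := (Cfsg.Agent.S5077.result p hS F).1 hF
  have hMr : F.IsReceptive (P ⊔ Q) := h77.2 _ hMc
  have hTA : (autInducedBy S (P ⊔ Q)).subgroupOf (KP (P ⊔ Q) P Q le_sup_right K) ≤
      (F.autGroup (P ⊔ Q)).subgroupOf (KP (P ⊔ Q) P Q le_sup_right K) :=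
    fun α hα => Fusion.autInducedBy_le_autGroup F hMS hα
  have hT' : Nat.card ((autInducedBy S (P ⊔ Q)).subgroupOf (KP (P ⊔ Q) P Q le_sup_right K)) =
      p ^ (Nat.card ((F.autGroup (P ⊔ Q)).subgroupOf
        (KP (P ⊔ Q) P Q le_sup_right K))).factorization p := by
    rw [card_subgroupOf_inf, card_subgroupOf_inf]
    exact hsyl
  refine ⟨hP, fun R φ hφ hφr => ?_⟩
  rw [hE] at hφ
  obtain ⟨hφF, hR, hφN, φ', hφ', hφ'R, κ, hκ, hφ'Q⟩ := hφ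
  have hφ'inj := F.injective_of_mem hφ'
  have hRQS : R ⊔ Q ≤ S := (F.le_of_mem hφ').1
  have hrange : φ'.range = P ⊔ Q := by
    apply le_antisymm
    · rintro _ ⟨z, rfl⟩
      exact Fusion.sup_values φ' _
        (fun x => Subgroup.mem_sup_left (by rw [hφ'R, ← hφr]; exact ⟨x, rfl⟩))
        (fun q => Subgroup.mem_sup_right (by rw [hφ'Q]; exact (κ q).2)) z
    · refine sup_le ?_ (fun q hq => ⟨Subgroup.inclusion le_sup_right (κ⁻¹ ⟨q, hq⟩), ?_⟩)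
      · rw [← hφr]
        rintro _ ⟨x, rfl⟩
        exact ⟨Subgroup.inclusion le_sup_left x, hφ'R x⟩
      · rw [hφ'Q, MulAut.apply_inv_self]
  obtain ⟨e, he⟩ : ∃ e : ↥(R ⊔ Q) ≃* ↥(P ⊔ Q), ∀ z, ((e z : ↥(P ⊔ Q)) : Ω) = φ' z :=
    ⟨Fusion.equivOfRange φ' hφ'inj hrange, fun z => rfl⟩
  have heF : Fusion.IsIso F e := by
    have : (P ⊔ Q).subtype.comp e.toMonoidHom = φ' := by
      ext z
      exact he z
    unfold Fusion.IsIso
    rw [this]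
    exact hφ'
  have hstab : ∀ z : ↥(R ⊔ Q), (z : Ω) ∈ R ↔ ((e z : ↥(P ⊔ Q)) : Ω) ∈ P := by
    intro z
    rw [he]
    constructor
    · intro hz
      have : φ' z = φ ⟨z, hz⟩ := hφ'R ⟨z, hz⟩
      rw [this, ← hφr]
      exact ⟨_, rfl⟩
    · intro hz
      rw [← hφr] at hz
      obtain ⟨x, hx⟩ := hz
      have : Subgroup.inclusion le_sup_left x = z := hφ'inj ((hφ'R x).trans hx)
      rw [← this]
      exact x.2
  have heQ : ∀ q : Q, ((e (Subgroup.inclusion le_sup_right q) : ↥(P ⊔ Q)) : Ω) =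
      ((κ q : Q) : Ω) := fun q => by rw [he, hφ'Q]
  have hKt := Kt_KP_le (P := R) (P' := P) le_sup_right le_sup_right K e hstab κ hκ heQ
  -- the conjugation action of the extender
  have hXN₀ : extender (NK S Q K) R φ ≤ NK S Q K := fun g hg => (mem_extender_imp hg).1
  have hXS : extender (NK S Q K) R φ ≤ S := hXN₀.trans (NK_le Q K)
  have hXN : extender (NK S Q K) R φ ≤ Subgroup.normalizer ((R ⊔ Q : Subgroup Ω) : Set Ω) :=
    fun g hg => Subgroup.normalizer_inf_normalizer_le_normalizer_sup R Q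
      ⟨(mem_extender_imp hg).2.1, NK_le_normalizer Q K (hXN₀ hg)⟩
  obtain ⟨c, hc⟩ : ∃ c : ↥(extender (NK S Q K) R φ) →* MulAut ↥(R ⊔ Q),
      ∀ (g : ↥(extender (NK S Q K) R φ)) (z : ↥(R ⊔ Q)),
        ((c g z : ↥(R ⊔ Q)) : Ω) = g * z * (g : Ω)⁻¹ :=
    ⟨(R ⊔ Q).normalizerMonoidHom.comp (Subgroup.inclusion hXN), fun g z => rfl⟩
  have hcK : ∀ g : ↥(extender (NK S Q K) R φ), c g ∈ KP (R ⊔ Q) R Q le_sup_right K := by
    intro g
    obtain ⟨hgN, hgR, -⟩ := mem_extender_imp g.2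
    obtain ⟨hgS, μ, hμ, h1⟩ := hgN
    refine ⟨fun z => ?_, μ, hμ, fun q => ?_⟩
    · rw [hc]
      exact Subgroup.mem_normalizer_iff.1 hgR z
    · rw [hc, h1]
      rfl
  have hcS : ∀ g : ↥(extender (NK S Q K) R φ), c g ∈ autInducedBy S (R ⊔ Q) := fun g =>
    Subgroup.subset_closure ⟨g, hXS g.2, fun z => hc g z⟩
  have hlK : ∀ g : ↥(extender (NK S Q K) R φ),
      MulAut.congr e (c g) ∈ KP (P ⊔ Q) P Q le_sup_right K := fun g =>
    hKt (congr_mem_Kt e (hcK g))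
  have hlF : ∀ g : ↥(extender (NK S Q K) R φ), MulAut.congr e (c g) ∈ F.autGroup (P ⊔ Q) :=
    fun g => Fusion.congr_mem_autGroup F heF (Fusion.autInducedBy_le_autGroup F hRQS (hcS g))
  have hXp : IsPGroup p ↥(extender (NK S Q K) R φ) := hS.to_le hXS
  have hL₀ : IsPGroup p ↥(c.range.map (MulAut.congr e).toMonoidHom) :=
    (hXp.of_surjective c.rangeRestrict c.rangeRestrict_surjective).map _
  have hL' : IsPGroup p ↥((c.range.map (MulAut.congr e).toMonoidHom).subgroupOf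
      (KP (P ⊔ Q) P Q le_sup_right K)) :=
    hL₀.comap_of_injective _ (Subgroup.subtype_injective _)
  have hLA : (c.range.map (MulAut.congr e).toMonoidHom).subgroupOf
      (KP (P ⊔ Q) P Q le_sup_right K) ≤
      (F.autGroup (P ⊔ Q)).subgroupOf (KP (P ⊔ Q) P Q le_sup_right K) := by
    intro α hα
    have hα' : (α : MulAut ↥(P ⊔ Q)) ∈ c.range.map (MulAut.congr e).toMonoidHom := hα
    obtain ⟨_, ⟨g, rfl⟩, hg⟩ := hα'
    show (α : MulAut ↥(P ⊔ Q)) ∈ F.autGroup (P ⊔ Q)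
    rw [← hg]
    exact hlF g
  have hLT : ((c.range.map (MulAut.congr e).toMonoidHom).subgroupOf
      (KP (P ⊔ Q) P Q le_sup_right K)).map (resKP le_sup_left le_sup_right K) ≤
      ((autInducedBy S (P ⊔ Q)).subgroupOf (KP (P ⊔ Q) P Q le_sup_right K)).map
        (resKP le_sup_left le_sup_right K) := by
    rintro _ ⟨α, hα, rfl⟩
    have hα' : (α : MulAut ↥(P ⊔ Q)) ∈ c.range.map (MulAut.congr e).toMonoidHom := hα
    obtain ⟨_, ⟨g, rfl⟩, hg⟩ := hα'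
    have hg' : ∀ m : ↥(P ⊔ Q), (α : MulAut ↥(P ⊔ Q)) m = e (c g (e.symm m)) := by
      intro m
      rw [← hg]
      rfl
    obtain ⟨hgN, hgR, h, hhN, hh⟩ := mem_extender_imp g.2
    have hconj : ∀ y : P, ((resKP le_sup_left le_sup_right K α y : P) : Ω) = h * y * h⁻¹ := by
      intro y
      have hy : (y : Ω) ∈ φ.range := by
        rw [hφr]
        exact y.2
      obtain ⟨x, hx⟩ := hy
      have hgx : (g : Ω) * x * (g : Ω)⁻¹ ∈ R := (Subgroup.mem_normalizer_iff.1 hgR x).1 x.2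
      have h3 := hh x hgx
      have e1 : e.symm ⟨(y : Ω), Subgroup.mem_sup_left y.2⟩ = Subgroup.inclusion le_sup_left x := by
        rw [MulEquiv.symm_apply_eq]
        apply Subtype.ext
        rw [he, hφ'R]
        exact hx.symm
      have e3 : c g (Subgroup.inclusion le_sup_left x) =
          Subgroup.inclusion le_sup_left ⟨(g : Ω) * x * (g : Ω)⁻¹, hgx⟩ :=
        Subtype.ext (hc g _)
      rw [resKP_apply, hg', e1, e3, he, hφ'R, h3, hx]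
    have hhP : h ∈ Subgroup.normalizer (P : Set Ω) := Fusion.mem_normalizer_of_conj hconj
    obtain ⟨τ, hτK, hτS, hτ⟩ := conj_mem_KP hhN hhP
    refine ⟨⟨τ, hτK⟩, hτS, ?_⟩
    apply MulEquiv.ext
    intro y
    apply Subtype.ext
    rw [hconj, resKP_apply]
    exact hτ _
  obtain ⟨c₀, hc₀A, hc₀res, hc₀L⟩ :=
    exists_ker_cj_le (resKP le_sup_left le_sup_right K) hTA hT' hLA hL' hLT
  have hc₀A' : (c₀ : MulAut ↥(P ⊔ Q)) ∈ F.autGroup (P ⊔ Q) := hc₀A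
  obtain ⟨κ₀, hκ₀, hc₀Q⟩ := c₀.2.2
  have he'F : Fusion.IsIso F (e.trans (c₀ : MulAut ↥(P ⊔ Q))) :=
    heF.trans ((Fusion.mem_autGroup_iff F hMS).1 hc₀A')
  obtain ⟨ψ₀, hψ₀a⟩ : ∃ ψ₀ : ↥(R ⊔ Q) →* Ω,
      ψ₀ = (P ⊔ Q).subtype.comp (e.trans (c₀ : MulAut ↥(P ⊔ Q))).toMonoidHom := ⟨_, rfl⟩
  have hψ₀ : ψ₀ ∈ F.Hom (R ⊔ Q) := by
    rw [hψ₀a]
    exact he'F
  have hψ₀r : ψ₀.range = P ⊔ Q := by
    rw [hψ₀a]
    exact Fusion.range_of_isIso _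
  have hψ₀c : ∀ z, ψ₀ z = (((c₀ : MulAut ↥(P ⊔ Q)) (e z) : ↥(P ⊔ Q)) : Ω) := fun z => by
    rw [hψ₀a]
    rfl
  obtain ⟨ψ, hψ, hψext⟩ := hMr.2 (R ⊔ Q) ψ₀ hψ₀ hψ₀r
  have hRQY : R ⊔ Q ≤ extender S (R ⊔ Q) ψ₀ := Fusion.le_extender F hψ₀
  have hQY : Q ≤ extender S (R ⊔ Q) ψ₀ := le_sup_right.trans hRQY
  have hXY : extender (NK S Q K) R φ ≤ extender S (R ⊔ Q) ψ₀ := by
    intro g hg
    have hlL : (⟨MulAut.congr e (c ⟨g, hg⟩), hlK ⟨g, hg⟩⟩ : ↥(KP (P ⊔ Q) P Q le_sup_right K)) ∈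
        (c.range.map (MulAut.congr e).toMonoidHom).subgroupOf
          (KP (P ⊔ Q) P Q le_sup_right K) :=
      ⟨c ⟨g, hg⟩, ⟨⟨g, hg⟩, rfl⟩, rfl⟩
    have h1 := hc₀L (conj_mem_cj (g := c₀) hlL)
    have h1' : ((c₀ * ⟨MulAut.congr e (c ⟨g, hg⟩), hlK ⟨g, hg⟩⟩ * c₀⁻¹ :
        ↥(KP (P ⊔ Q) P Q le_sup_right K)) : MulAut ↥(P ⊔ Q)) ∈ autInducedBy S (P ⊔ Q) := h1
    obtain ⟨h', hh'S, hh'⟩ := Fusion.mem_autInducedBy_iff.1 h1'
    refine Subgroup.subset_closure ⟨hXS hg, hXN hg, h', hh'S, fun z hz => ?_⟩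
    have h2 := hh' ((c₀ : MulAut ↥(P ⊔ Q)) (e z))
    have h3 : ((c₀ * ⟨MulAut.congr e (c ⟨g, hg⟩), hlK ⟨g, hg⟩⟩ * c₀⁻¹ :
        ↥(KP (P ⊔ Q) P Q le_sup_right K)) : MulAut ↥(P ⊔ Q)) ((c₀ : MulAut ↥(P ⊔ Q)) (e z)) =
        (c₀ : MulAut ↥(P ⊔ Q)) (e (c ⟨g, hg⟩ z)) := by
      show (c₀ : MulAut ↥(P ⊔ Q)) (e (c ⟨g, hg⟩ (e.symm
        ((c₀ : MulAut ↥(P ⊔ Q))⁻¹ ((c₀ : MulAut ↥(P ⊔ Q)) (e z)))))) = _
      rw [MulAut.inv_apply_self, MulEquiv.symm_apply_apply]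
    rw [h3] at h2
    have e4 : c ⟨g, hg⟩ z = ⟨g * (z : Ω) * g⁻¹, hz⟩ := Subtype.ext (hc ⟨g, hg⟩ z)
    rw [e4] at h2
    rw [hψ₀c, hψ₀c]
    exact h2
  have hXQY : extender (NK S Q K) R φ ⊔ Q ≤ extender S (R ⊔ Q) ψ₀ := sup_le hXY hQY
  have hψQ : ∀ q : Q, ψ ⟨q, hQY q.2⟩ = (((κ₀ * κ) q : Q) : Ω) := by
    intro q
    rw [hψext q (Subgroup.mem_sup_right q.2) (hQY q.2), hψ₀c]
    have e1 : e ⟨(q : Ω), Subgroup.mem_sup_right q.2⟩ = Subgroup.inclusion le_sup_right (κ q) :=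
      Subtype.ext (heQ q)
    rw [e1, hc₀Q]
    rfl
  refine ⟨ψ.comp (Subgroup.inclusion hXY), ?_, ?_⟩
  · rw [hE]
    refine ⟨Fusion.restrict_mem F hψ hXY, hXN₀, fun x => ?_,
      ψ.comp (Subgroup.inclusion hXQY), Fusion.restrict_mem F hψ hXQY, fun x => rfl,
      κ₀ * κ, K.mul_mem hκ₀ hκ, fun q => hψQ q⟩
    have := NK_map_mem F (κ₀ * κ) hψ hQY hψQ (hXN₀ x.2) (hXY x.2)
    rw [Kt_self (K.mul_mem hκ₀ hκ)] at this
    exact this
  · intro x hxR hxX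
    show ψ ⟨x, hXY hxX⟩ = φ ⟨x, hxR⟩
    rw [hψext x (Subgroup.mem_sup_left hxR) (hXY hxX), hψ₀c]
    have hy : φ ⟨x, hxR⟩ ∈ P := by
      rw [← hφr]
      exact ⟨_, rfl⟩
    have e1 : e ⟨x, Subgroup.mem_sup_left hxR⟩ = ⟨φ ⟨x, hxR⟩, Subgroup.mem_sup_left hy⟩ :=
      Subtype.ext ((he _).trans (hφ'R ⟨x, hxR⟩))
    rw [e1]
    have := congrArg (fun a : MulAut P => ((a ⟨φ ⟨x, hxR⟩, hy⟩ : P) : Ω)) hc₀res
    exact this

/-- The `K`-normalizer system of a fully `K`-normalized subgroup is saturated. -/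
theorem saturated_NK [Finite S] (p : ℕ) [Fact p.Prime] (hS : IsPGroup p S)
    (F : FusionSystem S) (hF : F.IsSaturated p) {Q : Subgroup Ω} {K : Subgroup (MulAut Q)}
    (hQ : FullyKN F Q K) (N₀ : Subgroup Ω) (hN₀ : N₀ = NK S Q K) (E : FusionSystem N₀)
    (hE : ∀ P, E.Hom P = NKHom F Q K P) : E.IsSaturated p := by
  subst hN₀
  intro P hP
  obtain ⟨P', φ, hφ, hr, hfull⟩ := exists_conj_fullyKN p hS F hF hQ hP
  have hP' : P' ≤ NK S Q K := by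
    rw [← hr]
    rintro _ ⟨x, rfl⟩
    exact hφ.2.2.1 x
  exact ⟨P', ⟨φ, by rw [hE]; exact hφ, hr⟩,
    fullyAutomized_of_fullyKN p hS F hF E hE hP' hfull,
    receptive_of_fullyKN p hS F hF E hE hP' hfull⟩

end Cfsg.Agent.Lib.Helper27
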