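import Mathlib
import Cfsg.Prelude.Def_FusionSystem
import Cfsg.Agent.Lib.Helper27.KNorm
import Cfsg.Agent.Lib.Helper27.KNormAux
import Cfsg.Agent.Lib.Helper27.KNormSat

set_option autoImplicit false

namespace Cfsg.Agent.Lib.Helper27

open Cfsg Cfsg.FusionSystem Cfsg.Agent.Lib.Helper26

variable {Ω : Type*} [Group Ω] {S : Subgroup Ω}

theorem normalizerIn_eq_NK_top (S Q : Subgroup Ω) : normalizerIn S Q = NK S Q ⊤ := by
  ext x
  constructor
  · rintro ⟨hxS, hxN⟩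
    exact ⟨hxS, Q.normalizerMonoidHom ⟨x, hxN⟩, Subgroup.mem_top _, fun q => rfl⟩
  · rintro ⟨hxS, κ, -, h⟩
    exact ⟨hxS, Fusion.mem_normalizer_of_conj h⟩

theorem Kt_top {Q R : Subgroup Ω} (e : Q ≃* R) : Kt e (⊤ : Subgroup (MulAut Q)) = ⊤ := by
  ext β
  refine ⟨fun _ => Subgroup.mem_top _, fun _ => ⟨MulAut.congr e.symm β, Subgroup.mem_top _, ?_⟩⟩
  apply MulEquiv.ext
  intro r
  show e (e.symm (β (e.symm.symm (e.symm r)))) = β r
  simp

theorem fullyKN_top_of_fullyNormalized (F : FusionSystem S) {Q : Subgroup Ω}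
    (hQ : F.IsFullyNormalized Q) : FullyKN F Q ⊤ := by
  refine ⟨hQ.1, fun R e he => ?_⟩
  rw [Kt_top, ← normalizerIn_eq_NK_top, ← normalizerIn_eq_NK_top]
  exact hQ.2 R ((Fusion.isConj_iff_exists_iso F).2 ⟨e, he⟩)

theorem normalizerHom_eq_NKHom (F : FusionSystem S) (Q P : Subgroup Ω) :
    F.normalizerHom Q P = NKHom F Q ⊤ P := by
  ext φ
  constructor
  · rintro ⟨hφ, hP, hv, ψ, hψ, hψP, hψQ⟩
    refine ⟨hφ, by rw [← normalizerIn_eq_NK_top]; exact hP,
      fun x => by rw [← normalizerIn_eq_NK_top]; exact hv x, ψ, hψ, hψP, ?_⟩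
    have hinj : Function.Injective (ψ.comp (Subgroup.inclusion (le_sup_right : Q ≤ P ⊔ Q))) :=
      fun a b hab => Subgroup.inclusion_injective _ (F.injective_of_mem hψ hab)
    have hr : (ψ.comp (Subgroup.inclusion (le_sup_right : Q ≤ P ⊔ Q))).range = Q := by
      ext y
      constructor
      · rintro ⟨q, rfl⟩
        exact Fusion.map_subgroupOf_mem hψQ q.2 _
      · intro hy
        obtain ⟨q, hq, hK, hqy⟩ := Fusion.map_subgroupOf_surj hψQ hy
        exact ⟨⟨q, hq⟩, hqy⟩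
    exact ⟨Fusion.equivOfRange _ hinj hr, Subgroup.mem_top _, fun q => rfl⟩
  · rintro ⟨hφ, hP, hv, ψ, hψ, hψP, κ, -, hψQ⟩
    refine ⟨hφ, by rw [normalizerIn_eq_NK_top]; exact hP,
      fun x => by rw [normalizerIn_eq_NK_top]; exact hv x, ψ, hψ, hψP, ?_⟩
    ext y
    rw [Fusion.mem_map_subgroupOf]
    constructor
    · rintro ⟨q, hq, hK, rfl⟩
      have := hψQ ⟨q, hq⟩
      have h2 : ψ ⟨q, hK⟩ = ((κ ⟨q, hq⟩ : Q) : Ω) := this
      rw [h2]
      exact (κ _).2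
    · intro hy
      refine ⟨((κ⁻¹ ⟨y, hy⟩ : Q) : Ω), (κ⁻¹ ⟨y, hy⟩).2, Subgroup.mem_sup_right (κ⁻¹ ⟨y, hy⟩).2, ?_⟩
      have := hψQ (κ⁻¹ ⟨y, hy⟩)
      rw [MulAut.apply_inv_self] at this
      exact this

theorem centralizerIn_eq_NK_bot (S Q : Subgroup Ω) : centralizerIn S Q = NK S Q ⊥ := by
  refine le_antisymm (centralizerIn_le_NK Q ⊥) ?_
  rintro x ⟨hxS, κ, hκ, h⟩
  refine ⟨hxS, ?_⟩
  show x ∈ Subgroup.centralizer (Q : Set Ω)
  rw [Subgroup.mem_centralizer_iff]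
  intro q hq
  have h1 := h ⟨q, hq⟩
  rw [Subgroup.mem_bot.1 hκ] at h1
  have h2 : q = x * q * x⁻¹ := h1
  calc q * x = x * q * x⁻¹ * x := by rw [← h2]
    _ = x * q := by group

theorem Kt_bot {Q R : Subgroup Ω} (e : Q ≃* R) : Kt e (⊥ : Subgroup (MulAut Q)) = ⊥ :=
  Subgroup.map_bot _

theorem fullyKN_bot_of_fullyCentralized (F : FusionSystem S) {Q : Subgroup Ω}
    (hQ : F.IsFullyCentralized Q) : FullyKN F Q ⊥ := by
  refine ⟨hQ.1, fun R e he => ?_⟩
  rw [Kt_bot, ← centralizerIn_eq_NK_bot, ← centralizerIn_eq_NK_bot]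
  exact hQ.2 R ((Fusion.isConj_iff_exists_iso F).2 ⟨e, he⟩)

theorem centralizerHom_eq_NKHom (F : FusionSystem S) (Q P : Subgroup Ω) :
    F.centralizerHom Q P = NKHom F Q ⊥ P := by
  ext φ
  constructor
  · rintro ⟨hφ, hP, hv, ψ, hψ, hψP, hψQ⟩
    exact ⟨hφ, by rw [← centralizerIn_eq_NK_bot]; exact hP,
      fun x => by rw [← centralizerIn_eq_NK_bot]; exact hv x, ψ, hψ, hψP, 1, Subgroup.one_mem _,
      fun q => hψQ q⟩
  · rintro ⟨hφ, hP, hv, ψ, hψ, hψP, κ, hκ, hψQ⟩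
    refine ⟨hφ, by rw [centralizerIn_eq_NK_bot]; exact hP,
      fun x => by rw [centralizerIn_eq_NK_bot]; exact hv x, ψ, hψ, hψP, fun q => ?_⟩
    rw [hψQ, Subgroup.mem_bot.1 hκ]
    rfl

/-- The normalizer system of a fully normalized subgroup is saturated. -/
theorem normalizerSystem_saturated [Finite S] (p : ℕ) [Fact p.Prime] (hS : IsPGroup p S)
    (F : FusionSystem S) (hF : F.IsSaturated p) (Q : Subgroup Ω) (hQ : F.IsFullyNormalized Q)
    (E : FusionSystem (normalizerIn S Q)) (hE : F.IsNormalizerSystem Q E) : E.IsSaturated p :=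
  saturated_NK p hS F hF (fullyKN_top_of_fullyNormalized F hQ) _ (normalizerIn_eq_NK_top S Q) E
    (fun P => by rw [hE P]; exact normalizerHom_eq_NKHom F Q P)

/-- The centralizer system of a fully centralized subgroup is saturated. -/
theorem centralizerSystem_saturated [Finite S] (p : ℕ) [Fact p.Prime] (hS : IsPGroup p S)
    (F : FusionSystem S) (hF : F.IsSaturated p) (Q : Subgroup Ω) (hQ : F.IsFullyCentralized Q)
    (E : FusionSystem (centralizerIn S Q)) (hE : F.IsCentralizerSystem Q E) : E.IsSaturated p :=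
  saturated_NK p hS F hF (fullyKN_bot_of_fullyCentralized F hQ) _ (centralizerIn_eq_NK_bot S Q) E
    (fun P => by rw [hE P]; exact centralizerHom_eq_NKHom F Q P)

end Cfsg.Agent.Lib.Helper27
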