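import Mathlib
import Cfsg.Agent.Lib.Helper27.ExtraEssD
import Cfsg.Agent.Lib.Helper27.NormalCrit
import Cfsg.Agent.Lib.Helper27.Chain

set_option autoImplicit false

namespace Cfsg.Agent.Lib.Helper27

open Cfsg Cfsg.FusionSystem Cfsg.Agent.Lib.Helper26
open scoped commutatorElement

section Tools

/-- In a finite `p`-group, `p`-th powers lie in the Frattini subgroup. -/
theorem pow_p_mem_frattini {W : Type*} [Group W] [Finite W] {p : ℕ} [hp : Fact p.Prime]
    (hW : IsPGroup p W) (x : W) : x ^ p ∈ frattini W := by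
  have hnil := hW.isNilpotent
  have key : ∀ M : Subgroup W, IsCoatom M → x ^ p ∈ M := by
    intro M hM
    by_contra hx
    have hMn : M.Normal :=
      Subgroup.NormalizerCondition.normal_of_coatom M Group.normalizerCondition_of_isNilpotent hM
    have htop : M ⊔ Subgroup.zpowers (x ^ p) = ⊤ := by
      apply hM.2
      refine lt_of_le_of_ne le_sup_left ?_
      intro h
      apply hx
      rw [h]
      exact le_sup_right (a := M) (Subgroup.mem_zpowers _)
    have hx' : x ∈ M ⊔ Subgroup.zpowers (x ^ p) := htop ▸ Subgroup.mem_top x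
    obtain ⟨m, hm, y, hy, hmy⟩ := Subgroup.mem_sup_of_normal_left.mp hx'
    obtain ⟨k, hk⟩ := Subgroup.mem_zpowers_iff.mp hy
    have h1 : x ^ (1 - (p : ℤ) * k) ∈ M := by
      have e : x ^ (1 - (p : ℤ) * k) = m := by
        rw [zpow_sub, zpow_one, zpow_mul, zpow_natCast, hk, ← hmy]
        group
      rw [e]
      exact hm
    obtain ⟨n, hn⟩ := hW x
    have hcop : IsCoprime (1 - (p : ℤ) * k) ((p : ℤ) ^ n) := by
      apply IsCoprime.pow_right
      exact ⟨1, k, by ring⟩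
    obtain ⟨u, v, huv⟩ := hcop
    have hxn : x ^ ((p : ℤ) ^ n) = 1 := by
      have e : ((p : ℤ) ^ n) = ((p ^ n : ℕ) : ℤ) := by
        push_cast
        rfl
      rw [e, zpow_natCast, hn]
    have e2 : x = (x ^ (1 - (p : ℤ) * k)) ^ u * (x ^ ((p : ℤ) ^ n)) ^ v := by
      rw [← zpow_mul, ← zpow_mul, ← zpow_add]
      have e3 : (1 - (p : ℤ) * k) * u + (p : ℤ) ^ n * v = 1 := by linarith
      rw [e3, zpow_one]
    have hxM : x ∈ M := by
      rw [e2, hxn, one_zpow, mul_one]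
      exact M.zpow_mem h1 u
    exact hx (M.pow_mem hxM p)
  unfold frattini Order.radical
  simp only [Subgroup.mem_iInf]
  exact key

/-- The automorphisms stabilizing a chain `1 = C 0 ≤ ⋯ ≤ C n = P` lie in a `p`-subgroup of
`Aut(P)`. -/
theorem exists_stabSeries {P : Type*} [Group P] [Finite P] (p : ℕ) [Fact p.Prime]
    (hPp : IsPGroup p P) (n : ℕ) (C : ℕ → Subgroup P) (h0 : C 0 = ⊥) (hn : C n = ⊤)
    (hmono : ∀ i < n, C i ≤ C (i + 1)) :
    ∃ K : Subgroup (MulAut P), IsPGroup p K ∧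
      ∀ c : MulAut P, (∀ i < n, ∀ x ∈ C (i + 1), x⁻¹ * c x ∈ C i) → c ∈ K := by
  obtain ⟨M, hM⟩ : ∃ M : Submonoid (MulAut P), ∀ c : MulAut P,
      c ∈ M ↔ ∀ i < n, ∀ x ∈ C (i + 1), x⁻¹ * c x ∈ C i :=
    ⟨{ carrier := {c | ∀ i < n, ∀ x ∈ C (i + 1), x⁻¹ * c x ∈ C i}
       one_mem' := by
         intro i _ x _
         show x⁻¹ * x ∈ C i
         rw [inv_mul_cancel]
         exact one_mem _
       mul_mem' := by
         intro c₁ c₂ h1 h2 i hi x hx
         show x⁻¹ * c₁ (c₂ x) ∈ C i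
         have hx2 : c₂ x ∈ C (i + 1) := by
           have e : c₂ x = x * (x⁻¹ * c₂ x) := by group
           rw [e]
           exact (C (i + 1)).mul_mem hx (hmono i hi (h2 i hi x hx))
         have e : x⁻¹ * c₁ (c₂ x) = (x⁻¹ * c₂ x) * ((c₂ x)⁻¹ * c₁ (c₂ x)) := by group
         rw [e]
         exact (C i).mul_mem (h2 i hi x hx) (h1 i hi _ hx2) }, fun c => Iff.rfl⟩
  have hpow : ∀ c ∈ M, c ^ (Nat.card P ^ n) = 1 := fun c hc =>
    pow_eq_one_of_stab_chain c n C h0 hn hmono ((hM c).mp hc)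
  have hpos : 0 < Nat.card P ^ n := pow_pos Nat.card_pos n
  refine ⟨{ toSubmonoid := M
            inv_mem' := by
              intro c hc
              have h1 := hpow c hc
              have e : c⁻¹ = c ^ (Nat.card P ^ n - 1) := by
                apply inv_eq_of_mul_eq_one_right
                rw [← pow_succ', Nat.sub_add_cancel hpos]
                exact h1
              rw [e]
              exact M.pow_mem hc _ }, ?_, fun c hc => (hM c).mpr hc⟩
  obtain ⟨e, he⟩ := IsPGroup.iff_card.mp hPp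
  rintro ⟨c, hc⟩
  refine ⟨e * n, ?_⟩
  apply Subtype.ext
  show c ^ (p ^ (e * n)) = 1
  rw [pow_mul, ← he]
  exact hpow c hc

end Tools

section SC

variable {Ω : Type*} [Group Ω] {S : Subgroup Ω}

/-- The derived subgroup `Z` of a strongly closed subgroup `P` with `Φ(P) = P'` of order `p`. -/
theorem sc_setup [Finite S] (p : ℕ) [Fact p.Prime] (hS : IsPGroup p S) (F : FusionSystem S)
    (P : Subgroup Ω) (hP : F.StronglyClosed P)
    (hge : frattini ↥P = commutator ↥P ∧ Nat.card ↥(commutator ↥P) = p) :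
    ∃ Z : Subgroup Ω, Z ≤ P ∧ Nat.card Z = p ∧ (∀ a ∈ P, ∀ b ∈ P, a * b * a⁻¹ * b⁻¹ ∈ Z) ∧
      (∀ u ∈ P, u ^ p ∈ Z) ∧ (∀ z ∈ Z, ∀ s ∈ S, s * z = z * s) := by
  have hp : p.Prime := Fact.out
  have hPS : P ≤ S := hP.1
  have hPfin : Finite P := finite_of_le hPS
  obtain ⟨Z, hZdef⟩ : ∃ Z : Subgroup Ω, Z = (commutator ↥P).map P.subtype := ⟨_, rfl⟩
  have hZP : Z ≤ P := by
    rw [hZdef]
    rintro _ ⟨c, -, rfl⟩
    exact c.2
  have hZcard : Nat.card Z = p := by
    rw [hZdef, Subgroup.card_map_of_injective P.subtype_injective]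
    exact hge.2
  have hZc : ∀ a ∈ P, ∀ b ∈ P, a * b * a⁻¹ * b⁻¹ ∈ Z := by
    intro a ha b hb
    rw [hZdef]
    exact ⟨⁅(⟨a, ha⟩ : P), ⟨b, hb⟩⁆,
      Subgroup.commutator_mem_commutator (Subgroup.mem_top _) (Subgroup.mem_top _), rfl⟩
  have hZpow : ∀ u ∈ P, u ^ p ∈ Z := by
    intro u hu
    have h1 := pow_p_mem_frattini (hS.to_le hPS) (⟨u, hu⟩ : P)
    rw [hge.1] at h1
    rw [hZdef]
    exact ⟨_, h1, rfl⟩
  have hPn := normal_of_stronglyClosed F hP
  have hPconj : ∀ s ∈ S, ∀ a ∈ P, s * a * s⁻¹ ∈ P := by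
    intro s hs a ha
    exact (Subgroup.mem_normalizer_iff.mp (hPn hs) a).mp ha
  -- a generating commutator
  obtain ⟨a₀, ha₀, b₀, hb₀, hc₀⟩ : ∃ a₀ ∈ P, ∃ b₀ ∈ P, a₀ * b₀ * a₀⁻¹ * b₀⁻¹ ≠ 1 := by
    by_contra hcon
    push Not at hcon
    have hcbot : commutator P = ⊥ := by
      rw [commutator_def, Subgroup.commutator_eq_bot_iff_le_centralizer]
      intro a _
      rw [Subgroup.mem_centralizer_iff]
      intro b _
      apply Subtype.ext
      have h1 := hcon b b.2 a a.2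
      show (b : Ω) * a = a * b
      calc (b : Ω) * a = ((b : Ω) * a * (b : Ω)⁻¹ * (a : Ω)⁻¹) * (a * b) := by group
        _ = a * b := by rw [h1, one_mul]
    have h2 := hge.2
    rw [hcbot, Subgroup.card_bot] at h2
    exact hp.one_lt.ne h2
  have hc₀Z := hZc a₀ ha₀ b₀ hb₀
  have hgen : ∀ z ∈ Z, ∃ n : ℕ, z = (a₀ * b₀ * a₀⁻¹ * b₀⁻¹) ^ n := by
    intro z hz
    have h1 := mem_powers_of_prime_card (G := ↥Z) hZcard (g := ⟨_, hc₀Z⟩) (g' := ⟨z, hz⟩)
      (fun h => hc₀ (congrArg Subtype.val h))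
    obtain ⟨n, hn⟩ := h1
    exact ⟨n, (congrArg (fun t : Z => (t : Ω)) hn).symm⟩
  have hZconj : ∀ s ∈ S, ∀ z ∈ Z, s * z * s⁻¹ ∈ Z := by
    intro s hs z hz
    obtain ⟨n, rfl⟩ := hgen z hz
    rw [← conj_pow]
    apply Z.pow_mem
    have e : s * (a₀ * b₀ * a₀⁻¹ * b₀⁻¹) * s⁻¹ =
        (s * a₀ * s⁻¹) * (s * b₀ * s⁻¹) * (s * a₀ * s⁻¹)⁻¹ * (s * b₀ * s⁻¹)⁻¹ := by group
    rw [e]
    exact hZc _ (hPconj s hs a₀ ha₀) _ (hPconj s hs b₀ hb₀)
  have hZnS : (Z.subgroupOf S).Normal := ⟨fun n hn g => by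
    rw [Subgroup.mem_subgroupOf] at hn ⊢
    exact hZconj g g.2 n hn⟩
  have hZScard : Nat.card (Z.subgroupOf S) = p := by
    rw [Nat.card_congr (Subgroup.subgroupOfEquivOfLe (hZP.trans hPS)).toEquiv]
    exact hZcard
  refine ⟨Z, hZP, hZcard, hZc, hZpow, ?_⟩
  intro z hz s hs
  have h1 := normal_central_of_card_prime hS (Z.subgroupOf S) hZScard
    ⟨z, hZP.trans hPS hz⟩ (Subgroup.mem_subgroupOf.mpr hz) ⟨s, hs⟩
  exact congrArg Subtype.val h1

/-- A strongly closed subgroup that is not normal in `F` misses some essential subgroup. -/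
theorem sc_exists_ess [Finite S] (p : ℕ) [Fact p.Prime] (hS : IsPGroup p S) (F : FusionSystem S)
    (hF : F.IsSaturated p) (P : Subgroup Ω) (hP : F.StronglyClosed P) (hn : ¬ F.IsNormal P) :
    ∃ E : Subgroup Ω, F.IsEssential p E ∧ ¬ P ≤ E := by
  by_contra hcon
  push Not at hcon
  apply hn
  apply isNormal_of_forall_essential p hS F hF
  intro P' hP'
  have hP'S : P' ≤ S := by
    rcases hP' with h | h
    · rw [h]
    · exact h.1.1
  have hle : P ≤ P' := by
    rcases hP' with h | h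
    · rw [h]
      exact hP.1
    · exact hcon P' h
  exact ⟨hle, fun α hα => autGroup_map_of_stronglyClosed F hP hP'S hα⟩

theorem sc_normalizer_elt [Finite S] (p : ℕ) [Fact p.Prime] (hS : IsPGroup p S)
    (F : FusionSystem S) (P : Subgroup Ω) (hP : F.StronglyClosed P) (E : Subgroup Ω)
    (hES : E ≤ S) (hPE : ¬ P ≤ E) :
    ∃ x ∈ P, x ∈ Subgroup.normalizer (E : Set Ω) ∧ x ∉ E := by
  by_contra hcon
  push Not at hcon
  exact hPE (le_of_normalizer_le hS hES hP.1 (hES.trans (normal_of_stronglyClosed F hP))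
    (fun g hg hgN => hcon g hg hgN))

end SC

end Cfsg.Agent.Lib.Helper27
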