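import Mathlib
import Cfsg.Agent.Lib.Helper27.SCExtraA

set_option autoImplicit false

namespace Cfsg.Agent.Lib.Helper27

open Cfsg Cfsg.FusionSystem Cfsg.Agent.Lib.Helper26
open scoped commutatorElement

section Stab4

/-- Two automorphisms stabilizing a common chain `1 ≤ C1 ≤ C2 ≤ C3 ≤ P` lie in a common
`p`-subgroup. -/
theorem stab4 {P : Type*} [Group P] [Finite P] (p : ℕ) [Fact p.Prime] (hPp : IsPGroup p P)
    (C1 C2 C3 : Subgroup P) (h12 : C1 ≤ C2) (h23 : C2 ≤ C3) (k₁ k₂ : MulAut P)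
    (a1 : ∀ x ∈ C1, k₁ x = x) (a2 : ∀ x ∈ C2, x⁻¹ * k₁ x ∈ C1)
    (a3 : ∀ x ∈ C3, x⁻¹ * k₁ x ∈ C2) (a4 : ∀ x : P, x⁻¹ * k₁ x ∈ C3)
    (b1 : ∀ x ∈ C1, k₂ x = x) (b2 : ∀ x ∈ C2, x⁻¹ * k₂ x ∈ C1)
    (b3 : ∀ x ∈ C3, x⁻¹ * k₂ x ∈ C2) (b4 : ∀ x : P, x⁻¹ * k₂ x ∈ C3) :
    ∃ K : Subgroup (MulAut P), IsPGroup p K ∧ k₁ ∈ K ∧ k₂ ∈ K := by
  obtain ⟨C, hC0, hC1, hC2, hC3, hC4⟩ : ∃ C : ℕ → Subgroup P,
      C 0 = ⊥ ∧ C 1 = C1 ∧ C 2 = C2 ∧ C 3 = C3 ∧ C 4 = ⊤ :=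
    ⟨fun i => match i with
      | 0 => ⊥
      | 1 => C1
      | 2 => C2
      | 3 => C3
      | _ => ⊤, rfl, rfl, rfl, rfl, rfl⟩
  have hmono : ∀ i < 4, C i ≤ C (i + 1) := by
    intro i hi
    interval_cases i
    · rw [hC0]
      exact bot_le
    · rw [hC1, hC2]
      exact h12
    · rw [hC2, hC3]
      exact h23
    · rw [hC4]
      exact le_top
  have key : ∀ k : MulAut P, (∀ x ∈ C1, k x = x) → (∀ x ∈ C2, x⁻¹ * k x ∈ C1) →
      (∀ x ∈ C3, x⁻¹ * k x ∈ C2) → (∀ x : P, x⁻¹ * k x ∈ C3) →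
      ∀ i < 4, ∀ x ∈ C (i + 1), x⁻¹ * k x ∈ C i := by
    intro k c1 c2 c3 c4 i hi x hx
    interval_cases i
    · rw [hC1] at hx
      rw [hC0, c1 x hx, inv_mul_cancel]
      exact one_mem _
    · rw [hC2] at hx
      rw [hC1]
      exact c2 x hx
    · rw [hC3] at hx
      rw [hC2]
      exact c3 x hx
    · rw [hC3]
      exact c4 x
  obtain ⟨K, hKp, hK⟩ := exists_stabSeries p hPp 4 C hC0 hC4 hmono
  exact ⟨K, hKp, hK k₁ (key k₁ a1 a2 a3 a4), hK k₂ (key k₂ b1 b2 b3 b4)⟩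

end Stab4

section Twist

variable {Ω : Type*} [Group Ω] {S : Subgroup Ω}

/-- The twisting automorphism: for an essential `E` and a strongly closed `P` of class two with
derived subgroup `Z` of order `p`, some `h ∈ Aut_F(E)` moves a generator `z₀` of `Z` to an element
centralized by no element of `N_P(E) ∖ E`, and similarly for `h⁻¹`. -/
theorem sc_twist [Finite S] (p : ℕ) [Fact p.Prime] (hS : IsPGroup p S) (F : FusionSystem S)
    (P : Subgroup Ω) (hP : F.StronglyClosed P)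
    (Z : Subgroup Ω) (hZP : Z ≤ P) (hZcard : Nat.card Z = p)
    (hZc : ∀ a ∈ P, ∀ b ∈ P, a * b * a⁻¹ * b⁻¹ ∈ Z)
    (hZS : ∀ z ∈ Z, ∀ s ∈ S, s * z = z * s)
    (E : Subgroup Ω) (hE : F.IsEssential p E) (z₀ : Ω) (hz₀ : z₀ ∈ Z) (hz₀1 : z₀ ≠ 1)
    (hz₀E : z₀ ∈ E) :
    ∃ h ∈ F.autGroup E, ∀ u ∈ P, u ∈ Subgroup.normalizer (E : Set Ω) → u ∉ E →
      (u * ((h ⟨z₀, hz₀E⟩ : E) : Ω) ≠ ((h ⟨z₀, hz₀E⟩ : E) : Ω) * u) ∧
      (u * ((h⁻¹ ⟨z₀, hz₀E⟩ : E) : Ω) ≠ ((h⁻¹ ⟨z₀, hz₀E⟩ : E) : Ω) * u) := by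
  have hp : p.Prime := Fact.out
  have hES : E ≤ S := hE.1.1
  have hPS : P ≤ S := hP.1
  have hEfin : Finite E := finite_of_le hES
  have hEp : IsPGroup p E := hS.to_le hES
  have hcen : centralizerIn S E ≤ E := hE.1.2 E (Fusion.isConj_refl F hES)
  have hPn := normal_of_stronglyClosed F hP
  have hPconj : ∀ s ∈ S, ∀ a ∈ P, s * a * s⁻¹ ∈ P := by
    intro s hs a ha
    exact (Subgroup.mem_normalizer_iff.mp (hPn hs) a).mp ha
  have hgen : ∀ z ∈ Z, ∃ n : ℕ, z = z₀ ^ n := by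
    intro z hz
    have h1 := mem_powers_of_prime_card (G := ↥Z) hZcard (g := ⟨z₀, hz₀⟩) (g' := ⟨z, hz⟩)
      (fun h => hz₀1 (congrArg Subtype.val h))
    obtain ⟨n, hn⟩ := h1
    exact ⟨n, (congrArg (fun t : Z => (t : Ω)) hn).symm⟩
  have hpowE : ∀ d ∈ Z.subgroupOf E, ∃ n : ℕ, d = (⟨z₀, hz₀E⟩ : E) ^ n := by
    intro d hd
    obtain ⟨n, hn⟩ := hgen d (Subgroup.mem_subgroupOf.mp hd)
    exact ⟨n, Subtype.ext hn⟩
  have hRinv : ∀ g ∈ F.autGroup E, ∀ e ∈ P.subgroupOf E, g e ∈ P.subgroupOf E := by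
    intro g hg e he
    rw [Subgroup.mem_subgroupOf] at he ⊢
    exact apply_mem_of_stronglyClosed F hP hES hg e he
  obtain ⟨M, hMtop, hM⟩ := essential_strEmb p hS F hE
  obtain ⟨h, hh, hhM⟩ := SetLike.not_le_iff_exists.mp hMtop
  have hhinv : h⁻¹ ∈ F.autGroup E := inv_mem hh
  refine ⟨h, hh, fun u hu huN huE => ?_⟩
  have huS : u ∈ S := hPS hu
  obtain ⟨cu, hcu⟩ : ∃ cu : MulAut E, ∀ e : E, ((cu e : E) : Ω) = u * e * u⁻¹ :=
    ⟨E.normalizerMonoidHom ⟨u, huN⟩, fun e => rfl⟩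
  have hcuS : cu ∈ autInducedBy S E := Fusion.mem_autInducedBy_iff.2 ⟨u, huS, hcu⟩
  have hcuI : cu ∉ Inn E := by
    rintro ⟨y, hy⟩
    apply huE
    refine mem_of_conj_eq_inner hES hcen huS y (fun e => ?_)
    rw [← hcu e, ← hy]
    rfl
  obtain ⟨k, hk⟩ : ∃ k : MulAut E, k = h * cu * h⁻¹ := ⟨_, rfl⟩
  have hkapp : ∀ e : E, k e = h (cu (h⁻¹ e)) := by
    intro e
    rw [hk]
    rfl
  -- basic stabilization facts
  have f1 : ∀ e : E, e⁻¹ * cu e ∈ P.subgroupOf E := by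
    intro e
    rw [Subgroup.mem_subgroupOf]
    show (e : Ω)⁻¹ * ((cu e : E) : Ω) ∈ P
    rw [hcu]
    have h1 := hPconj (e : Ω)⁻¹ (S.inv_mem (hES e.2)) u hu
    have e1 : (e : Ω)⁻¹ * (u * e * u⁻¹) = ((e : Ω)⁻¹ * u * ((e : Ω)⁻¹)⁻¹) * u⁻¹ := by group
    rw [e1]
    exact P.mul_mem h1 (P.inv_mem hu)
  have f2 : ∀ e ∈ P.subgroupOf E, e⁻¹ * cu e ∈ Z.subgroupOf E := by
    intro e he
    rw [Subgroup.mem_subgroupOf] at he ⊢
    show (e : Ω)⁻¹ * ((cu e : E) : Ω) ∈ Z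
    rw [hcu]
    have h1 := hZc (e : Ω)⁻¹ (P.inv_mem he) u hu
    have e1 : (e : Ω)⁻¹ * u * ((e : Ω)⁻¹)⁻¹ * u⁻¹ = (e : Ω)⁻¹ * (u * e * u⁻¹) := by group
    rw [e1] at h1
    exact h1
  have f3 : ∀ d ∈ Z.subgroupOf E, cu d = d := by
    intro d hd
    apply Subtype.ext
    rw [hcu, hZS _ (Subgroup.mem_subgroupOf.mp hd) u huS, mul_inv_cancel_right]
  have g1 : ∀ e : E, e⁻¹ * k e ∈ P.subgroupOf E := by
    intro e
    have h1 := hRinv h hh _ (f1 (h⁻¹ e))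
    rw [map_mul, map_inv, MulAut.apply_inv_self] at h1
    rw [hkapp]
    exact h1
  have g2 : ∀ e ∈ P.subgroupOf E, e⁻¹ * k e ∈ (Z.subgroupOf E).map h.toMonoidHom := by
    intro e he
    have h1 := f2 (h⁻¹ e) (hRinv _ hhinv e he)
    refine ⟨_, h1, ?_⟩
    show h ((h⁻¹ e)⁻¹ * cu (h⁻¹ e)) = e⁻¹ * k e
    rw [map_mul, map_inv, MulAut.apply_inv_self, hkapp]
  have g3 : ∀ d ∈ (Z.subgroupOf E).map h.toMonoidHom, k d = d := by
    rintro _ ⟨d, hd, rfl⟩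
    show k (h d) = h d
    rw [hkapp, MulAut.inv_apply_self, f3 d hd]
  have hZ1le : Z.subgroupOf E ≤ P.subgroupOf E := by
    intro d hd
    rw [Subgroup.mem_subgroupOf] at hd ⊢
    exact hZP hd
  have hZ2le : (Z.subgroupOf E).map h.toMonoidHom ≤ P.subgroupOf E := by
    rintro _ ⟨d, hd, rfl⟩
    exact hRinv h hh d (hZ1le hd)
  have hsup : Z.subgroupOf E ⊔ (Z.subgroupOf E).map h.toMonoidHom ≤ P.subgroupOf E :=
    sup_le hZ1le hZ2le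
  have hfix : ∀ k' : MulAut E, (∀ d ∈ Z.subgroupOf E, k' d = d) →
      (∀ d ∈ (Z.subgroupOf E).map h.toMonoidHom, k' d = d) →
      ∀ d ∈ Z.subgroupOf E ⊔ (Z.subgroupOf E).map h.toMonoidHom, k' d = d := by
    intro k' h1 h2 d hd
    have hle : Z.subgroupOf E ⊔ (Z.subgroupOf E).map h.toMonoidHom ≤
        k'.toMonoidHom.eqLocus (MonoidHom.id E) := by
      apply sup_le
      · intro d hd
        exact h1 d hd
      · intro d hd
        exact h2 d hd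
    exact hle hd
  constructor
  · intro hcomm
    apply hhM
    have f4 : ∀ d ∈ (Z.subgroupOf E).map h.toMonoidHom, cu d = d := by
      rintro _ ⟨d, hd, rfl⟩
      obtain ⟨n, rfl⟩ := hpowE d hd
      show cu (h (⟨z₀, hz₀E⟩ ^ n)) = h (⟨z₀, hz₀E⟩ ^ n)
      have h1 : cu (h ⟨z₀, hz₀E⟩) = h ⟨z₀, hz₀E⟩ := by
        apply Subtype.ext
        rw [hcu, hcomm, mul_inv_cancel_right]
      rw [map_pow, map_pow, h1]
    obtain ⟨K, hKp, hK1, hK2⟩ := stab4 p hEp ((Z.subgroupOf E).map h.toMonoidHom)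
      (Z.subgroupOf E ⊔ (Z.subgroupOf E).map h.toMonoidHom) (P.subgroupOf E)
      le_sup_right hsup cu k
      f4
      (fun x hx => by
        rw [hfix cu f3 f4 x hx, inv_mul_cancel]
        exact one_mem _)
      (fun x hx => le_sup_left (a := Z.subgroupOf E) (f2 x hx))
      f1
      g3
      (fun x hx => g2 x (hsup hx))
      (fun x hx => le_sup_right (a := Z.subgroupOf E) (g2 x hx))
      g1
    rw [hk] at hK2
    exact hM h hh cu hcuS hcuI cu hcuS hcuI ⟨K, hKp, hK1, hK2⟩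
  · intro hcomm
    apply hhM
    have g4 : ∀ d ∈ Z.subgroupOf E, k d = d := by
      intro d hd
      obtain ⟨n, rfl⟩ := hpowE d hd
      have h1 : k ⟨z₀, hz₀E⟩ = ⟨z₀, hz₀E⟩ := by
        rw [hkapp]
        have h2 : cu (h⁻¹ ⟨z₀, hz₀E⟩) = h⁻¹ ⟨z₀, hz₀E⟩ := by
          apply Subtype.ext
          rw [hcu, hcomm, mul_inv_cancel_right]
        rw [h2, MulAut.apply_inv_self]
      rw [map_pow, h1]
    obtain ⟨K, hKp, hK1, hK2⟩ := stab4 p hEp (Z.subgroupOf E)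
      (Z.subgroupOf E ⊔ (Z.subgroupOf E).map h.toMonoidHom) (P.subgroupOf E)
      le_sup_left hsup cu k
      f3
      (fun x hx => f2 x (hsup hx))
      (fun x hx => le_sup_left (a := Z.subgroupOf E) (f2 x hx))
      f1
      g4
      (fun x hx => by
        rw [hfix k g4 g3 x hx, inv_mul_cancel]
        exact one_mem _)
      (fun x hx => le_sup_right (a := Z.subgroupOf E) (g2 x hx))
      g1
    rw [hk] at hK2
    exact hM h hh cu hcuS hcuI cu hcuS hcuI ⟨K, hKp, hK1, hK2⟩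

end Twist

end Cfsg.Agent.Lib.Helper27
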