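import Mathlib
import Cfsg.Agent.Lib.Helper27.SCExtraB

set_option autoImplicit false

namespace Cfsg.Agent.Lib.Helper27

open Cfsg Cfsg.FusionSystem Cfsg.Agent.Lib.Helper26
open scoped commutatorElement

section Struct

variable {Ω : Type*} [Group Ω] {S : Subgroup Ω}

/-- Structure of a strongly closed class-two subgroup `P` (derived subgroup `Z` of order `p`,
`p`-th powers in `Z`) relative to an essential subgroup `E` not containing it. -/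
theorem sc_struct [Finite S] (p : ℕ) [Fact p.Prime] (hS : IsPGroup p S) (F : FusionSystem S)
    (P : Subgroup Ω) (hP : F.StronglyClosed P)
    (Z : Subgroup Ω) (hZP : Z ≤ P) (hZcard : Nat.card Z = p)
    (hZc : ∀ a ∈ P, ∀ b ∈ P, a * b * a⁻¹ * b⁻¹ ∈ Z)
    (hZpow : ∀ u ∈ P, u ^ p ∈ Z)
    (hZS : ∀ z ∈ Z, ∀ s ∈ S, s * z = z * s)
    (E : Subgroup Ω) (hE : F.IsEssential p E) (hPE : ¬ P ≤ E) :
    ∃ (z₀ : Ω) (hz₀E : z₀ ∈ E) (h : MulAut E) (x : Ω), z₀ ∈ Z ∧ z₀ ≠ 1 ∧ h ∈ F.autGroup E ∧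
      x ∈ P ∧ x ∉ E ∧
      (∀ u ∈ P, u ∈ Subgroup.normalizer (E : Set Ω)) ∧
      (∀ u ∈ P, u ∉ E → u * ((h ⟨z₀, hz₀E⟩ : E) : Ω) ≠ ((h ⟨z₀, hz₀E⟩ : E) : Ω) * u) ∧
      (∀ u ∈ P, u ∉ E → u * ((h⁻¹ ⟨z₀, hz₀E⟩ : E) : Ω) ≠ ((h⁻¹ ⟨z₀, hz₀E⟩ : E) : Ω) * u) ∧
      (∀ a ∈ P ⊓ E, ∀ b ∈ P ⊓ E, a * b = b * a) ∧ (∀ r ∈ P ⊓ E, r ^ p = 1) ∧
      (∀ u ∈ P, ∃ k : ℕ, u * (x ^ k)⁻¹ ∈ E) := by
  have hp : p.Prime := Fact.out
  have hES : E ≤ S := hE.1.1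
  have hPS : P ≤ S := hP.1
  have hEfin : Finite E := finite_of_le hES
  have hcen : centralizerIn S E ≤ E := hE.1.2 E (Fusion.isConj_refl F hES)
  have hPn := normal_of_stronglyClosed F hP
  have hPconj : ∀ s ∈ S, ∀ a ∈ P, s * a * s⁻¹ ∈ P := by
    intro s hs a ha
    exact (Subgroup.mem_normalizer_iff.mp (hPn hs) a).mp ha
  have hZE : Z ≤ E := by
    intro z hz
    apply hcen
    refine ⟨hPS (hZP hz), ?_⟩
    show z ∈ Subgroup.centralizer (E : Set Ω)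
    rw [Subgroup.mem_centralizer_iff]
    intro e he
    exact hZS z hz e (hES he)
  have hgen : ∀ c ∈ Z, c ≠ 1 → ∀ z ∈ Z, ∃ n : ℕ, z = c ^ n := by
    intro c hc hc1 z hz
    have h1 := mem_powers_of_prime_card (G := ↥Z) hZcard (g := ⟨c, hc⟩) (g' := ⟨z, hz⟩)
      (fun h => hc1 (congrArg Subtype.val h))
    obtain ⟨n, hn⟩ := h1
    exact ⟨n, (congrArg (fun t : Z => (t : Ω)) hn).symm⟩
  obtain ⟨z₀, hz₀, hz₀1⟩ : ∃ z₀ ∈ Z, z₀ ≠ 1 := by
    by_contra hcon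
    push Not at hcon
    have hbot : Z = ⊥ := by
      rw [eq_bot_iff]
      intro z hz
      rw [Subgroup.mem_bot]
      exact hcon z hz
    rw [hbot, Subgroup.card_bot] at hZcard
    exact hp.one_lt.ne hZcard
  have hz₀E : z₀ ∈ E := hZE hz₀
  obtain ⟨h, hh, hb⟩ := sc_twist p hS F P hP Z hZP hZcard hZc hZS E hE z₀ hz₀ hz₀1 hz₀E
  obtain ⟨x, hxP, hxN, hxE⟩ := sc_normalizer_elt p hS F P hP E hES hPE
  obtain ⟨w, hwdef⟩ : ∃ w : Ω, w = ((h ⟨z₀, hz₀E⟩ : E) : Ω) := ⟨_, rfl⟩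
  have hwE : w ∈ E := by
    rw [hwdef]
    exact (h ⟨z₀, hz₀E⟩).2
  have hwP : w ∈ P := by
    rw [hwdef]
    exact apply_mem_of_stronglyClosed F hP hES hh _ (hZP hz₀)
  have hxw : x * w ≠ w * x := by
    rw [hwdef]
    exact (hb x hxP hxN hxE).1
  -- if `w ∈ Z` we get a contradiction
  have hwZ : w ∉ Z := fun hw => hxw (hZS w hw x (hPS hxP))
  -- `P ∩ E` is abelian
  have hRab : ∀ a ∈ P ⊓ E, ∀ b ∈ P ⊓ E, a * b = b * a := by
    by_contra hnab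
    push Not at hnab
    obtain ⟨a, ha, b, hb', hab⟩ := hnab
    have hc : a * b * a⁻¹ * b⁻¹ ∈ Z := hZc a ha.1 b hb'.1
    have hc1 : a * b * a⁻¹ * b⁻¹ ≠ 1 := by
      intro h1
      apply hab
      calc a * b = (a * b * a⁻¹ * b⁻¹) * (b * a) := by group
        _ = b * a := by rw [h1, one_mul]
    obtain ⟨n, hn⟩ := hgen _ hc hc1 z₀ hz₀
    apply hwZ
    have e1 : (⟨z₀, hz₀E⟩ : E) =
        ((⟨a, ha.2⟩ : E) * ⟨b, hb'.2⟩ * (⟨a, ha.2⟩ : E)⁻¹ * (⟨b, hb'.2⟩ : E)⁻¹) ^ n := by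
      apply Subtype.ext
      exact hn
    rw [hwdef, e1, map_pow, map_mul, map_mul, map_mul, map_inv, map_inv]
    exact Z.pow_mem (hZc _ (apply_mem_of_stronglyClosed F hP hES hh ⟨a, ha.2⟩ ha.1) _
      (apply_mem_of_stronglyClosed F hP hES hh ⟨b, hb'.2⟩ hb'.1)) n
  have hRexp : ∀ r ∈ P ⊓ E, r ^ p = 1 := by
    intro r hr
    by_contra hr1
    obtain ⟨n, hn⟩ := hgen _ (hZpow r hr.1) hr1 z₀ hz₀
    apply hwZ
    have e1 : (⟨z₀, hz₀E⟩ : E) = ((⟨r, hr.2⟩ : E) ^ p) ^ n := by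
      apply Subtype.ext
      exact hn
    rw [hwdef, e1, map_pow, map_pow]
    exact Z.pow_mem (hZpow _ (apply_mem_of_stronglyClosed F hP hES hh ⟨r, hr.2⟩ hr.1)) n
  -- `w` is central in `E`
  have hwcE : ∀ e ∈ E, e * w = w * e := by
    intro e he
    have h1 : (h⁻¹ ⟨e, he⟩ : E) * ⟨z₀, hz₀E⟩ = ⟨z₀, hz₀E⟩ * (h⁻¹ ⟨e, he⟩ : E) := by
      apply Subtype.ext
      exact hZS z₀ hz₀ _ (hES (h⁻¹ ⟨e, he⟩).2)
    have h2 := congrArg (fun t : E => ((h t : E) : Ω)) h1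
    simp only [map_mul, MulAut.apply_inv_self] at h2
    rw [hwdef]
    exact h2
  -- the centralizer of `w` in `P` lies in `E`
  have hCw : ∀ u ∈ P, u * w = w * u → u ∈ E := by
    obtain ⟨Cw, hCwdef⟩ : ∃ Cw : Subgroup Ω, Cw = P ⊓ Subgroup.centralizer {w} := ⟨_, rfl⟩
    have hCwmem : ∀ g : Ω, g ∈ Cw ↔ g ∈ P ∧ g * w = w * g := by
      intro g
      rw [hCwdef, Subgroup.mem_inf, Subgroup.mem_centralizer_iff]
      constructor
      · rintro ⟨h1, h2⟩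
        exact ⟨h1, (h2 w (Set.mem_singleton w)).symm⟩
      · rintro ⟨h1, h2⟩
        refine ⟨h1, fun c hc => ?_⟩
        rw [Set.mem_singleton_iff] at hc
        rw [hc]
        exact h2.symm
    have hconj : ∀ e ∈ E, ∀ g ∈ Cw, e * g * e⁻¹ ∈ Cw := by
      intro e he g hg
      obtain ⟨hgP, hgw⟩ := (hCwmem g).mp hg
      rw [hCwmem]
      refine ⟨hPconj e (hES he) g hgP, ?_⟩
      have h1 := hwcE e he
      have h2 := hwcE e⁻¹ (E.inv_mem he)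
      calc e * g * e⁻¹ * w = e * g * (e⁻¹ * w) := by group
        _ = e * g * (w * e⁻¹) := by rw [h2]
        _ = e * (g * w) * e⁻¹ := by group
        _ = e * (w * g) * e⁻¹ := by rw [hgw]
        _ = (e * w) * g * e⁻¹ := by group
        _ = (w * e) * g * e⁻¹ := by rw [h1]
        _ = w * (e * g * e⁻¹) := by group
    have hEN : E ≤ Subgroup.normalizer (Cw : Set Ω) := by
      intro e he
      rw [Subgroup.mem_normalizer_iff]
      intro g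
      constructor
      · exact hconj e he g
      · intro hg
        have h1 := hconj e⁻¹ (E.inv_mem he) _ hg
        have e1 : e⁻¹ * (e * g * e⁻¹) * e⁻¹⁻¹ = g := by group
        rw [e1] at h1
        exact h1
    have hCwS : Cw ≤ S := by
      intro g hg
      exact hPS ((hCwmem g).mp hg).1
    have hle := le_of_normalizer_le hS hES hCwS hEN (fun g hg hgN => by
      obtain ⟨hgP, hgw⟩ := (hCwmem g).mp hg
      by_contra hgE
      have h1 := (hb g hgP hgN hgE).1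
      rw [← hwdef] at h1
      exact h1 hgw)
    intro u hu huw
    exact hle ((hCwmem u).mpr ⟨hu, huw⟩)
  -- the commutator map with `w`
  obtain ⟨κ, hκ⟩ : ∃ κ : Ω → Ω, ∀ a : Ω, κ a = a⁻¹ * w * a * w⁻¹ := ⟨_, fun a => rfl⟩
  have hκZ : ∀ a ∈ P, κ a ∈ Z := by
    intro a ha
    have h1 := hZc a⁻¹ (P.inv_mem ha) w hwP
    rw [inv_inv] at h1
    rw [hκ]
    exact h1
  have hκmul : ∀ a ∈ P, ∀ b ∈ P, κ (a * b) = κ a * κ b := by
    intro a ha b hb'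
    have h1 := hZS (κ a) (hκZ a ha) b (hPS hb')
    have h2 := hZS (κ a) (hκZ a ha) b⁻¹ (hPS (P.inv_mem hb'))
    calc κ (a * b) = (a * b)⁻¹ * w * (a * b) * w⁻¹ := hκ _
      _ = b⁻¹ * (a⁻¹ * w * a * w⁻¹) * w * b * w⁻¹ := by group
      _ = b⁻¹ * κ a * w * b * w⁻¹ := by rw [← hκ a]
      _ = κ a * b⁻¹ * w * b * w⁻¹ := by rw [h2]
      _ = κ a * (b⁻¹ * w * b * w⁻¹) := by group
      _ = κ a * κ b := by rw [← hκ b]
  have hκpow : ∀ k : ℕ, κ (x ^ k) = κ x ^ k := by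
    intro k
    induction k with
    | zero =>
      rw [pow_zero, pow_zero, hκ]
      group
    | succ k ih =>
      rw [pow_succ, hκmul _ (P.pow_mem hxP k) x hxP, ih, pow_succ]
  have hκx : κ x ≠ 1 := by
    intro h1
    apply hxw
    rw [hκ] at h1
    have h2 : w * x = x * w := by
      calc w * x = x * (x⁻¹ * w * x * w⁻¹) * w := by group
        _ = x * w := by
          rw [h1]
          group
    exact h2.symm
  have hdec : ∀ u ∈ P, ∃ k : ℕ, u * (x ^ k)⁻¹ ∈ E := by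
    intro u hu
    obtain ⟨k, hk⟩ := hgen _ (hκZ x hxP) hκx _ (hκZ u hu)
    refine ⟨k, ?_⟩
    apply hCw _ (P.mul_mem hu (P.inv_mem (P.pow_mem hxP k)))
    rw [← hκpow k] at hk
    rw [hκ u, hκ (x ^ k)] at hk
    -- hk : u⁻¹ w u w⁻¹ = (x^k)⁻¹ w x^k w⁻¹
    have h3 : u⁻¹ * w * u = (x ^ k)⁻¹ * w * x ^ k := by
      calc u⁻¹ * w * u = (u⁻¹ * w * u * w⁻¹) * w := by group
        _ = ((x ^ k)⁻¹ * w * x ^ k * w⁻¹) * w := by rw [hk]
        _ = (x ^ k)⁻¹ * w * x ^ k := by group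
    calc u * (x ^ k)⁻¹ * w = u * ((x ^ k)⁻¹ * w * x ^ k) * (x ^ k)⁻¹ := by group
      _ = u * (u⁻¹ * w * u) * (x ^ k)⁻¹ := by rw [h3]
      _ = w * (u * (x ^ k)⁻¹) := by group
  have hnorm : ∀ u ∈ P, u ∈ Subgroup.normalizer (E : Set Ω) := by
    intro u hu
    obtain ⟨k, hk⟩ := hdec u hu
    have e : u = (u * (x ^ k)⁻¹) * x ^ k := by group
    rw [e]
    exact Subgroup.mul_mem _ (Subgroup.le_normalizer hk) (Subgroup.pow_mem _ hxN k)
  exact ⟨z₀, hz₀E, h, x, hz₀, hz₀1, hh, hxP, hxE, hnorm,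
    fun u hu huE => (hb u hu (hnorm u hu) huE).1,
    fun u hu huE => (hb u hu (hnorm u hu) huE).2, hRab, hRexp, hdec⟩

end Struct

end Cfsg.Agent.Lib.Helper27
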