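import Mathlib
import Cfsg.Agent.Lib.Helper27.SCExtraC
import Cfsg.Agent.Lib.Helper27.OrderCube

set_option autoImplicit false

namespace Cfsg.Agent.Lib.Helper27

open Cfsg Cfsg.FusionSystem Cfsg.Agent.Lib.Helper26
open scoped commutatorElement

section Twist

theorem exists_mul_add_dvd (p : ℕ) (hp : p.Prime) (t : ℕ) (ht : ¬ p ∣ t) (n : ℕ) :
    ∃ β : ℕ, p ∣ n + t * β := by
  have hcop : Nat.Coprime t p := (Nat.Coprime.symm ((Nat.Prime.coprime_iff_not_dvd hp).2 ht))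
  obtain ⟨m₀, -, hm₀⟩ := Nat.exists_mul_mod_eq_one_of_coprime hcop hp.one_lt
  refine ⟨m₀ * (n * (p - 1)), ?_⟩
  have h1 : t * m₀ ≡ 1 [MOD p] := by
    unfold Nat.ModEq
    rw [hm₀, Nat.mod_eq_of_lt hp.one_lt]
  have h2 : n + t * m₀ * (n * (p - 1)) ≡ n + 1 * (n * (p - 1)) [MOD p] :=
    Nat.ModEq.add_left n (h1.mul_right _)
  have h3 : n + 1 * (n * (p - 1)) = n * p := by
    have := hp.one_lt
    obtain ⟨q, rfl⟩ : ∃ q, p = q + 1 := ⟨p - 1, by omega⟩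
    simp
    ring
  rw [h3] at h2
  have h4 : n + t * (m₀ * (n * (p - 1))) = n + t * m₀ * (n * (p - 1)) := by ring
  rw [h4]
  exact (Nat.modEq_zero_iff_dvd).1 (h2.trans (Nat.modEq_zero_iff_dvd.2 (dvd_mul_left p n)))

theorem comm_twist_add {A : Type*} [AddCommGroup A] (p : ℕ) (hp : p.Prime)
    (a b : A) (ha : p • a = 0) (hb : p • b = 0) (fx fy ρ : A →+ A) (t s m : ℕ)
    (hpN : p ∣ 2 + t * m) (ht : ¬ p ∣ t) (hs : ¬ p ∣ s)
    (hxa : fx a = a) (hxb : fx b = b + t • a) (hya : fy a = a + s • b) (hyb : fy b = b)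
    (hx : ∀ r, ∃ n : ℕ, fx r = r + n • a) (hy : ∀ r, ∃ n : ℕ, fy r = r + n • b)
    (hρa : ρ a = (1 + t * m) • a + m • b) (hρb : ρ b = b + t • a)
    (hρ : ∀ r, fx r = r → fy r = r → ρ r = r) :
    ρ (ρ a) + a = 0 ∧ ∀ r, ρ (ρ (fx r)) = fx (ρ (ρ r)) := by
  have killa : ∀ k : ℕ, p ∣ k → k • a = 0 := by
    rintro k ⟨c, rfl⟩
    rw [mul_comm, mul_smul, ha, smul_zero]
  have killb : ∀ k : ℕ, p ∣ k → k • b = 0 := by
    rintro k ⟨c, rfl⟩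
    rw [mul_comm, mul_smul, hb, smul_zero]
  have hA2 := killa _ hpN
  have hB2 := killb _ hpN
  have h1 : ρ (ρ a) + a = 0 := by
    rw [hρa, map_add, map_nsmul, map_nsmul, hρa, hρb]
    linear_combination (norm := skip) ((1 : ℤ) + t * m) • hA2 + (m : ℤ) • hB2
    module
  have h2 : ρ (ρ b) + b = 0 := by
    rw [hρb, map_add, map_nsmul, hρa, hρb]
    linear_combination (norm := skip) (t : ℤ) • hA2 + hB2
    module
  refine ⟨h1, fun r => ?_⟩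
  obtain ⟨n₁, hn₁⟩ := hx r
  obtain ⟨β, hβ⟩ := exists_mul_add_dvd p hp t ht n₁
  have hβa := killa _ hβ
  have hfx' : fx (r + β • b) = r + β • b := by
    rw [map_add, map_nsmul, hn₁, hxb]
    linear_combination (norm := skip) hβa
    module
  obtain ⟨n₂, hn₂⟩ := hy (r + β • b)
  obtain ⟨α, hα⟩ := exists_mul_add_dvd p hp s hs n₂
  have hαb := killb _ hα
  have hfy₀ : fy (r + β • b + α • a) = r + β • b + α • a := by
    rw [map_add, map_nsmul, hn₂, hya]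
    linear_combination (norm := skip) hαb
    module
  have hfx₀ : fx (r + β • b + α • a) = r + β • b + α • a := by
    rw [map_add, map_nsmul, hfx', hxa]
  have hρ₀ := hρ _ hfx₀ hfy₀
  have e1 : ρ (ρ r) + β • ρ (ρ b) + α • ρ (ρ a) = r + β • b + α • a := by
    have h3 : ρ (ρ (r + β • b + α • a)) = r + β • b + α • a := by rw [hρ₀, hρ₀]
    simpa only [map_add, map_nsmul] using h3
  have e2 : ρ (ρ r) = r + (2 * β) • b + (2 * α) • a := by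
    linear_combination (norm := skip) e1 - (β : ℤ) • h2 - (α : ℤ) • h1
    module
  rw [hn₁]
  simp only [map_add, map_nsmul]
  rw [e2]
  simp only [map_add, map_nsmul]
  rw [hn₁, hxb, hxa]
  linear_combination (norm := skip) (n₁ : ℤ) • h1 - (2 : ℤ) • hβa
  module

theorem comm_twist {A : Type*} [Group A] (hcomm : ∀ u v : A, u * v = v * u) (p : ℕ)
    (hp : p.Prime)
    (a b : A) (ha : a ^ p = 1) (hb : b ^ p = 1) (fx fy ρ : A →* A) (t s m : ℕ)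
    (hpN : p ∣ 2 + t * m) (ht : ¬ p ∣ t) (hs : ¬ p ∣ s)
    (hxa : fx a = a) (hxb : fx b = b * a ^ t) (hya : fy a = a * b ^ s) (hyb : fy b = b)
    (hx : ∀ r, ∃ n : ℕ, fx r = r * a ^ n) (hy : ∀ r, ∃ n : ℕ, fy r = r * b ^ n)
    (hρa : ρ a = a ^ (1 + t * m) * b ^ m) (hρb : ρ b = b * a ^ t)
    (hρ : ∀ r, fx r = r → fy r = r → ρ r = r) :
    ρ (ρ a) * a = 1 ∧ ∀ r, ρ (ρ (fx r)) = fx (ρ (ρ r)) := by
  let _ : CommGroup A := { ‹Group A› with mul_comm := hcomm }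
  exact comm_twist_add (A := Additive A) p hp (Additive.ofMul a) (Additive.ofMul b) ha hb
    (MonoidHom.toAdditive fx) (MonoidHom.toAdditive fy) (MonoidHom.toAdditive ρ) t s m hpN ht hs
    hxa hxb hya hyb hx hy hρa hρb hρ

end Twist

section OddExp

variable {Ω : Type*} [Group Ω] {S : Subgroup Ω}

/-- For odd `p`, in the configuration of `sc_struct`, the element `x` has order dividing `p`. -/
theorem sc_odd_exp [Finite S] (p : ℕ) [Fact p.Prime] (hS : IsPGroup p S) (F : FusionSystem S)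
    (hF : F.IsSaturated p) (hodd : p ≠ 2)
    (P : Subgroup Ω) (hP : F.StronglyClosed P)
    (Z : Subgroup Ω) (hZP : Z ≤ P) (hZcard : Nat.card Z = p)
    (hZc : ∀ a ∈ P, ∀ b ∈ P, a * b * a⁻¹ * b⁻¹ ∈ Z)
    (hZpow : ∀ u ∈ P, u ^ p ∈ Z)
    (hZS : ∀ z ∈ Z, ∀ s ∈ S, s * z = z * s)
    (E : Subgroup Ω) (hE : F.IsEssential p E)
    (z₀ : Ω) (hz₀E : z₀ ∈ E) (h : MulAut E) (x : Ω) (hz₀ : z₀ ∈ Z) (hz₀1 : z₀ ≠ 1)
    (hh : h ∈ F.autGroup E) (hxP : x ∈ P)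
    (hxN : x ∈ Subgroup.normalizer (E : Set Ω))
    (hw : x * ((h ⟨z₀, hz₀E⟩ : E) : Ω) ≠ ((h ⟨z₀, hz₀E⟩ : E) : Ω) * x)
    (hv : x * ((h⁻¹ ⟨z₀, hz₀E⟩ : E) : Ω) ≠ ((h⁻¹ ⟨z₀, hz₀E⟩ : E) : Ω) * x)
    (hRab : ∀ a ∈ P ⊓ E, ∀ b ∈ P ⊓ E, a * b = b * a) (hRexp : ∀ r ∈ P ⊓ E, r ^ p = 1) :
    x ^ p = 1 := by
  have hp : p.Prime := Fact.out
  have hES : E ≤ S := hE.1.1
  have hPS : P ≤ S := hP.1
  have hEfin : Finite E := finite_of_le hES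
  have hxS : x ∈ S := hPS hxP
  have hcen : centralizerIn S E ≤ E := hE.1.2 E (Fusion.isConj_refl F hES)
  have hPn := normal_of_stronglyClosed F hP
  have hPconj : ∀ s ∈ S, ∀ a ∈ P, s * a * s⁻¹ ∈ P := by
    intro s hs a ha
    exact (Subgroup.mem_normalizer_iff.mp (hPn hs) a).mp ha
  have hZE : Z ≤ E := by
    intro z hz
    apply hcen
    refine ⟨hPS (hZP hz), ?_⟩
    show z ∈ Subgroup.centralizer (E : Set Ω)
    rw [Subgroup.mem_centralizer_iff]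
    intro e he
    exact hZS z hz e (hES he)
  have hgen : ∀ z ∈ Z, ∃ n : ℕ, z = z₀ ^ n := by
    intro z hz
    have h1 := mem_powers_of_prime_card (G := ↥Z) hZcard (g := ⟨z₀, hz₀⟩) (g' := ⟨z, hz⟩)
      (fun h => hz₀1 (congrArg Subtype.val h))
    obtain ⟨n, hn⟩ := h1
    exact ⟨n, (congrArg (fun t : Z => (t : Ω)) hn).symm⟩
  obtain ⟨R₁, hR₁⟩ : ∃ R₁ : Subgroup E, R₁ = P.subgroupOf E := ⟨_, rfl⟩
  have hR₁mem : ∀ e : E, e ∈ R₁ ↔ (e : Ω) ∈ P := by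
    intro e
    rw [hR₁, Subgroup.mem_subgroupOf]
  have hRinv' : ∀ g ∈ F.autGroup E, ∀ e ∈ R₁, g e ∈ R₁ := by
    intro g hg e he
    rw [hR₁mem] at he ⊢
    exact apply_mem_of_stronglyClosed F hP hES hg e he
  have hR₁comm : ∀ u v : R₁, u * v = v * u := by
    intro u v
    apply Subtype.ext
    apply Subtype.ext
    exact hRab _ ⟨(hR₁mem _).1 u.2, u.1.2⟩ _ ⟨(hR₁mem _).1 v.2, v.1.2⟩
  have hres : ∀ g ∈ F.autGroup E, ∃ f : R₁ →* R₁, ∀ d : R₁, ((f d : R₁) : E) = g d := by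
    intro g hg
    exact ⟨((g : E ≃* E).toMonoidHom.comp R₁.subtype).codRestrict R₁
      (fun d => hRinv' g hg d d.2), fun d => rfl⟩
  obtain ⟨cx, hcx⟩ : ∃ cx : MulAut E, ∀ e : E, ((cx e : E) : Ω) = x * e * x⁻¹ :=
    ⟨E.normalizerMonoidHom ⟨x, hxN⟩, fun e => rfl⟩
  have hcxS : cx ∈ autInducedBy S E := Fusion.mem_autInducedBy_iff.2 ⟨x, hxS, hcx⟩
  have hcxF : cx ∈ F.autGroup E := Fusion.autInducedBy_le_autGroup F hES hcxS
  have hhinv : h⁻¹ ∈ F.autGroup E := inv_mem hh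
  obtain ⟨z', hz'⟩ : ∃ z' : E, z' = ⟨z₀, hz₀E⟩ := ⟨_, rfl⟩
  rw [← hz'] at hw hv
  have hz'v : (z' : Ω) = z₀ := by rw [hz']
  have hz'R : z' ∈ R₁ := (hR₁mem _).2 (by rw [hz'v]; exact hZP hz₀)
  have hz'p : z' ^ p = 1 := by
    apply Subtype.ext
    show (z' : Ω) ^ p = 1
    rw [hz'v]
    exact hRexp z₀ ⟨hZP hz₀, hz₀E⟩
  have hcxz : cx z' = z' := by
    apply Subtype.ext
    rw [hcx, hz'v, hZS z₀ hz₀ x hxS]
    group
  have hcxR : ∀ r ∈ R₁, ∃ n : ℕ, cx r = r * z' ^ n := by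
    intro r hr
    have hrP := (hR₁mem r).1 hr
    have h1 := hZc _ (P.inv_mem hrP) x hxP
    rw [inv_inv] at h1
    obtain ⟨n, hn⟩ := hgen _ h1
    refine ⟨n, Subtype.ext ?_⟩
    show ((cx r : E) : Ω) = (r : Ω) * (z' : Ω) ^ n
    rw [hcx, hz'v, ← hn]
    group
  obtain ⟨w', hw'⟩ : ∃ w' : E, w' = h z' := ⟨_, rfl⟩
  obtain ⟨v', hv'⟩ : ∃ v' : E, v' = h⁻¹ z' := ⟨_, rfl⟩
  rw [← hw'] at hw
  rw [← hv'] at hv
  have hw'R : w' ∈ R₁ := by rw [hw']; exact hRinv' h hh z' hz'R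
  have hv'R : v' ∈ R₁ := by rw [hv']; exact hRinv' _ hhinv z' hz'R
  have hhv' : h v' = z' := by rw [hv']; exact MulAut.apply_inv_self _ h z'
  obtain ⟨t, ht⟩ := hcxR w' hw'R
  obtain ⟨s, hs⟩ := hcxR v' hv'R
  have kill : ∀ k : ℕ, p ∣ k → z' ^ k = 1 := by
    rintro k ⟨c, rfl⟩
    rw [pow_mul, hz'p, one_pow]
  have hnd : ∀ (u : E) (n : ℕ), cx u = u * z' ^ n → x * (u : Ω) ≠ (u : Ω) * x → ¬ p ∣ n := by
    intro u n hun hne hd
    apply hne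
    have h1 : cx u = u := by rw [hun, kill n hd, mul_one]
    have h2 := congrArg Subtype.val h1
    rw [hcx] at h2
    calc x * (u : Ω) = (x * (u : Ω) * x⁻¹) * x := by group
      _ = (u : Ω) * x := by rw [h2]
  have htp : ¬ p ∣ t := hnd w' t ht hw
  have hsp : ¬ p ∣ s := hnd v' s hs hv
  obtain ⟨y', hy'⟩ : ∃ y' : MulAut E, y' = h * cx * h⁻¹ := ⟨_, rfl⟩
  have hy'F : y' ∈ F.autGroup E := by rw [hy']; exact mul_mem (mul_mem hh hcxF) hhinv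
  have hy'app : ∀ e : E, y' e = h (cx (h⁻¹ e)) := by
    intro e
    rw [hy']
    rfl
  have hy'z : y' z' = z' * w' ^ s := by
    rw [hy'app, ← hv', hs, map_mul, map_pow, hhv', ← hw']
  have hy'w : y' w' = w' := by
    rw [hy'app, hw', MulAut.inv_apply_self, hcxz]
  have hy'R : ∀ r ∈ R₁, ∃ n : ℕ, y' r = r * w' ^ n := by
    intro r hr
    obtain ⟨n, hn⟩ := hcxR (h⁻¹ r) (hRinv' _ hhinv r hr)
    refine ⟨n, ?_⟩
    rw [hy'app, hn, map_mul, map_pow, MulAut.apply_inv_self, ← hw']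
  have htsp : ¬ p ∣ t * s := fun hd => (hp.dvd_mul.1 hd).elim htp hsp
  obtain ⟨j, hj⟩ := exists_mul_add_dvd p hp (t * s) htsp 2
  have hj' : p ∣ 2 + t * (s * j) := by rw [← mul_assoc]; exact hj
  have hyjz : ∀ i : ℕ, (y' ^ i) z' = z' * w' ^ (s * i) := by
    intro i
    induction i with
    | zero => simp
    | succ i ih =>
      rw [pow_succ', MulAut.mul_apply, ih, map_mul, map_pow, hy'z, hy'w, mul_assoc, ← pow_add]
      congr 2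
      ring
  have hyjfix : ∀ e : E, y' e = e → ∀ i : ℕ, (y' ^ i) e = e := by
    intro e he i
    induction i with
    | zero => simp
    | succ i ih => rw [pow_succ', MulAut.mul_apply, ih, he]
  obtain ⟨ρ, hρ⟩ : ∃ ρ : MulAut E, ρ = cx * y' ^ j := ⟨_, rfl⟩
  have hρF : ρ ∈ F.autGroup E := by rw [hρ]; exact mul_mem hcxF (pow_mem hy'F j)
  have hρapp : ∀ e : E, ρ e = cx ((y' ^ j) e) := by
    intro e
    rw [hρ]
    rfl
  obtain ⟨fx, hfx⟩ := hres cx hcxF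
  obtain ⟨fy, hfy⟩ := hres y' hy'F
  obtain ⟨fρ, hfρ⟩ := hres ρ hρF
  have ha : (⟨z', hz'R⟩ : R₁) ^ p = 1 := Subtype.ext (by show z' ^ p = 1; exact hz'p)
  have hw'p : w' ^ p = 1 := by rw [hw', ← map_pow, hz'p, map_one]
  have hb : (⟨w', hw'R⟩ : R₁) ^ p = 1 := Subtype.ext (by show w' ^ p = 1; exact hw'p)
  have hxa : fx ⟨z', hz'R⟩ = ⟨z', hz'R⟩ := Subtype.ext (by rw [hfx]; exact hcxz)
  have hxb : fx ⟨w', hw'R⟩ = ⟨w', hw'R⟩ * ⟨z', hz'R⟩ ^ t :=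
    Subtype.ext (by rw [hfx]; exact ht)
  have hya : fy ⟨z', hz'R⟩ = ⟨z', hz'R⟩ * ⟨w', hw'R⟩ ^ s :=
    Subtype.ext (by rw [hfy]; exact hy'z)
  have hyb : fy ⟨w', hw'R⟩ = ⟨w', hw'R⟩ := Subtype.ext (by rw [hfy]; exact hy'w)
  have hxall : ∀ r : R₁, ∃ n : ℕ, fx r = r * ⟨z', hz'R⟩ ^ n := by
    intro r
    obtain ⟨n, hn⟩ := hcxR r r.2
    exact ⟨n, Subtype.ext (by rw [hfx]; exact hn)⟩
  have hyall : ∀ r : R₁, ∃ n : ℕ, fy r = r * ⟨w', hw'R⟩ ^ n := by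
    intro r
    obtain ⟨n, hn⟩ := hy'R r r.2
    exact ⟨n, Subtype.ext (by rw [hfy]; exact hn)⟩
  have hρa : fρ ⟨z', hz'R⟩ = ⟨z', hz'R⟩ ^ (1 + t * (s * j)) * ⟨w', hw'R⟩ ^ (s * j) := by
    have h1 : fρ ⟨z', hz'R⟩ = ⟨z', hz'R⟩ * (⟨w', hw'R⟩ * ⟨z', hz'R⟩ ^ t) ^ (s * j) := by
      apply Subtype.ext
      rw [hfρ]
      show ρ z' = z' * (w' * z' ^ t) ^ (s * j)
      rw [hρapp, hyjz, map_mul, map_pow, hcxz, ht]
    have hc : ∀ (u v : R₁) (n : ℕ), (u * v) ^ n = u ^ n * v ^ n :=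
      fun u v n => (show Commute u v from hR₁comm u v).mul_pow n
    rw [h1, hc, ← pow_mul, pow_add, pow_one, mul_assoc,
      hR₁comm (⟨w', hw'R⟩ ^ (s * j)) _]
  have hρb : fρ ⟨w', hw'R⟩ = ⟨w', hw'R⟩ * ⟨z', hz'R⟩ ^ t := by
    apply Subtype.ext
    rw [hfρ]
    show ρ w' = w' * z' ^ t
    rw [hρapp, hyjfix w' hy'w, ht]
  have hρfix : ∀ r : R₁, fx r = r → fy r = r → fρ r = r := by
    intro r h1 h2
    have h1' : cx r = r := by rw [← hfx, h1]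
    have h2' : y' r = r := by rw [← hfy, h2]
    apply Subtype.ext
    rw [hfρ, hρapp, hyjfix _ h2', h1']
  obtain ⟨T1, T2⟩ := comm_twist hR₁comm p hp ⟨z', hz'R⟩ ⟨w', hw'R⟩ ha hb fx fy fρ t s (s * j)
    hj' htp hsp hxa hxb hya hyb hxall hyall hρa hρb hρfix
  obtain ⟨τ, hτ⟩ : ∃ τ : MulAut E, τ = ρ * ρ := ⟨_, rfl⟩
  have hτF : τ ∈ F.autGroup E := by rw [hτ]; exact mul_mem hρF hρF
  have hτapp : ∀ e : E, τ e = ρ (ρ e) := by
    intro e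
    rw [hτ]
    rfl
  have hτz : τ z' * z' = 1 := by
    have h1 := congrArg Subtype.val T1
    have h2 : ((fρ (fρ ⟨z', hz'R⟩) : R₁) : E) = ρ (ρ z') := by rw [hfρ, hfρ]
    rw [hτapp, ← h2]
    exact h1
  have hτcx : ∀ r ∈ R₁, τ (cx r) = cx (τ r) := by
    intro r hr
    have h1 := congrArg Subtype.val (T2 ⟨r, hr⟩)
    simp only [hfρ, hfx] at h1
    rw [hτapp, hτapp]
    exact h1
  have hτinv : τ⁻¹ ∈ F.autGroup E := inv_mem hτF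
  have hcxinv : cx⁻¹ ∈ F.autGroup E := inv_mem hcxF
  obtain ⟨k, hk⟩ : ∃ k : MulAut E, k = τ * cx * τ⁻¹ * cx⁻¹ := ⟨_, rfl⟩
  have hkF : k ∈ F.autGroup E := by
    rw [hk]
    exact mul_mem (mul_mem (mul_mem hτF hcxF) hτinv) hcxinv
  have hkapp : ∀ e : E, k e = τ (cx (τ⁻¹ (cx⁻¹ e))) := by
    intro e
    rw [hk]
    rfl
  have hkD : ∀ d ∈ R₁, k d = d := by
    intro d hd
    have hr : τ⁻¹ (cx⁻¹ d) ∈ R₁ := hRinv' _ hτinv _ (hRinv' _ hcxinv d hd)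
    rw [hkapp, hτcx _ hr, MulAut.apply_inv_self, MulAut.apply_inv_self]
  have hcxq : ∀ e : E, e⁻¹ * cx e ∈ R₁ := by
    intro e
    rw [hR₁mem]
    show (e : Ω)⁻¹ * ((cx e : E) : Ω) ∈ P
    rw [hcx]
    have h1 := hPconj (e : Ω)⁻¹ (S.inv_mem (hES e.2)) x hxP
    have e1 : (e : Ω)⁻¹ * (x * e * x⁻¹) = ((e : Ω)⁻¹ * x * ((e : Ω)⁻¹)⁻¹) * x⁻¹ := by group
    rw [e1]
    exact P.mul_mem h1 (P.inv_mem hxP)
  have hcxiq : ∀ e : E, e⁻¹ * cx⁻¹ e ∈ R₁ := by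
    intro e
    have h1 := R₁.inv_mem (hcxq (cx⁻¹ e))
    rw [MulAut.apply_inv_self] at h1
    have e1 : ((cx⁻¹ e)⁻¹ * e)⁻¹ = e⁻¹ * cx⁻¹ e := by group
    rw [e1] at h1
    exact h1
  have hkP : ∀ e : E, e⁻¹ * k e ∈ R₁ := by
    intro e
    have e1 : e⁻¹ * k e = (e⁻¹ * cx⁻¹ e) * τ ((τ⁻¹ (cx⁻¹ e))⁻¹ * cx (τ⁻¹ (cx⁻¹ e))) := by
      rw [map_mul, map_inv, MulAut.apply_inv_self, hkapp]
      group
    rw [e1]
    exact R₁.mul_mem (hcxiq e) (hRinv' τ hτF _ (hcxq _))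
  have hPa : F.IsFullyAutomized p E := (((Cfsg.Agent.S5077.result p hS F).1 hF).1 E hE.2.1).2
  have hkS : k ∈ autInducedBy S E :=
    mem_autS_of_stab p hS F hPa R₁
      (fun g hg => hRinv' g (Fusion.autInducedBy_le_autGroup F hES hg)) k hkF hkD hkP
  have hcS : τ * cx * τ⁻¹ ∈ autInducedBy S E := by
    have h1 := mul_mem hkS hcxS
    have e1 : k * cx = τ * cx * τ⁻¹ := by rw [hk]; group
    rw [e1] at h1
    exact h1
  obtain ⟨g, hgS, hg⟩ := Fusion.mem_autInducedBy_iff.1 hcS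
  have hEr : F.IsReceptive E :=
    ((Cfsg.Agent.S5077.result p hS F).1 hF).2 E
      (((Cfsg.Agent.S5077.result p hS F).1 hF).1 E hE.2.1).1
  have hφ : E.subtype.comp (τ : E ≃* E).toMonoidHom ∈ F.Hom E :=
    (Fusion.mem_autGroup_iff F hES).1 hτF
  obtain ⟨ψ, hψ, hext⟩ := hEr.2 E _ hφ (Fusion.range_of_isIso (τ : E ≃* E))
  have hxX : x ∈ extender S E (E.subtype.comp (τ : E ≃* E).toMonoidHom) := by
    refine Subgroup.subset_closure ⟨hxS, hxN, g, hgS, fun e he => ?_⟩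
    have h1 := hg (τ e)
    rw [MulAut.mul_apply, MulAut.mul_apply, MulAut.inv_apply_self] at h1
    have h2 : (⟨x * (e : Ω) * x⁻¹, he⟩ : E) = cx e := Subtype.ext (hcx e).symm
    rw [h2]
    exact h1
  have hEX : E ≤ extender S E (E.subtype.comp (τ : E ≃* E).toMonoidHom) :=
    le_extender hES (fun e => hES (τ e).2)
  obtain ⟨ψx, hψx⟩ : ∃ ψx : Ω, ψx = ψ ⟨x, hxX⟩ := ⟨_, rfl⟩
  have hψxS : ψx ∈ S := by rw [hψx]; exact hom_mem F hψ _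
  have hψxP : ψx ∈ P := by
    rw [hψx]
    have hle : Subgroup.zpowers x ≤ extender S E (E.subtype.comp (τ : E ≃* E).toMonoidHom) :=
      (Subgroup.zpowers_le).2 hxX
    have h1 := restrict_mem F hψ hle
    exact hP.2 (Subgroup.zpowers x) ((Subgroup.zpowers_le).2 hxP) _ h1
      ⟨x, Subgroup.mem_zpowers x⟩
  have hact : ∀ e : E, ψx * ((τ e : E) : Ω) * ψx⁻¹ = ((τ (cx e) : E) : Ω) := by
    intro e
    have h1 := hext e e.2 (hEX e.2)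
    have h2 := hext (cx e) (cx e).2 (hEX (cx e).2)
    have h3 : (⟨((cx e : E) : Ω), hEX (cx e).2⟩ :
        extender S E (E.subtype.comp (τ : E ≃* E).toMonoidHom)) =
        ⟨x, hxX⟩ * ⟨e, hEX e.2⟩ * ⟨x, hxX⟩⁻¹ := Subtype.ext (hcx e)
    rw [h3, map_mul, map_mul, map_inv, h1, ← hψx] at h2
    exact h2
  have hconj : ∀ e : E, (ψx * x⁻¹) * (e : Ω) * (ψx * x⁻¹)⁻¹ = ((k e : E) : Ω) := by
    intro e
    rw [hkapp]
    have h1 := hact (τ⁻¹ (cx⁻¹ e))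
    rw [MulAut.apply_inv_self] at h1
    rw [← h1]
    have h2 : ((cx⁻¹ e : E) : Ω) = x⁻¹ * e * x := by
      have h3 := hcx (cx⁻¹ e)
      rw [MulAut.apply_inv_self] at h3
      rw [h3]
      group
    rw [h2]
    group
  have haS : ψx * x⁻¹ ∈ S := S.mul_mem hψxS (S.inv_mem hxS)
  have haN : ψx * x⁻¹ ∈ Subgroup.normalizer (E : Set Ω) := by
    rw [Subgroup.mem_normalizer_iff]
    intro q
    constructor
    · intro hmem
      have h1 := hconj ⟨q, hmem⟩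
      have h1' : ψx * x⁻¹ * q * (ψx * x⁻¹)⁻¹ = ((k ⟨q, hmem⟩ : E) : Ω) := h1
      rw [h1']
      exact (k _).2
    · intro hmem
      have h1 := hconj (k⁻¹ ⟨_, hmem⟩)
      rw [MulAut.apply_inv_self] at h1
      have h1' : ψx * x⁻¹ * ((k⁻¹ ⟨_, hmem⟩ : E) : Ω) * (ψx * x⁻¹)⁻¹ =
          ψx * x⁻¹ * q * (ψx * x⁻¹)⁻¹ := h1
      have h2 : ((k⁻¹ ⟨_, hmem⟩ : E) : Ω) = q := mul_left_cancel (mul_right_cancel h1')
      rw [← h2]
      exact (k⁻¹ _).2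
  have hgE : ψx * x⁻¹ ∈ E :=
    essential_mem_of_stab p hS F hF hE R₁ hRinv' haS haN
      (fun d hd => by rw [hconj, hkD d hd])
      (fun e => ⟨e⁻¹ * k e, hkP e, by rw [hconj]; rfl⟩)
  have hgP : ψx * x⁻¹ ∈ P := P.mul_mem hψxP (P.inv_mem hxP)
  obtain ⟨gx, hgx⟩ : ∃ gx : Ω, gx = ψx * x⁻¹ := ⟨_, rfl⟩
  rw [← hgx] at hgE hgP
  have hgp : gx ^ p = 1 := hRexp _ ⟨hgP, hgE⟩
  have hcZ : x⁻¹ * gx⁻¹ * x * gx ∈ Z := by
    have h1 := hZc _ (P.inv_mem hxP) _ (P.inv_mem hgP)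
    rw [inv_inv, inv_inv] at h1
    exact h1
  have hcS : ∀ s ∈ S, (x⁻¹ * gx⁻¹ * x * gx) * s = s * (x⁻¹ * gx⁻¹ * x * gx) :=
    fun s hs => (hZS _ hcZ s hs).symm
  have hpow := mul_pow_of_central_comm gx x (x⁻¹ * gx⁻¹ * x * gx) (by group)
    (hcS gx (hPS hgP)) (hcS x hxS) p
  have hcp : (x⁻¹ * gx⁻¹ * x * gx) ^ (p.choose 2) = 1 := by
    have h2 : p ∣ p.choose 2 :=
      hp.dvd_choose_self (by norm_num) (by have := hp.two_le; omega)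
    obtain ⟨c, hc⟩ := h2
    rw [hc, pow_mul, hRexp _ ⟨hZP hcZ, hZE hcZ⟩, one_pow]
  have hψxp : ψx ^ p = x ^ p := by
    have e1 : gx * x = ψx := by rw [hgx]; group
    rw [e1, hgp, hcp, one_mul, mul_one] at hpow
    exact hpow
  have hxpZ := hZpow x hxP
  have hxpE : x ^ p ∈ E := hZE hxpZ
  have h5 : ψx ^ p = ((τ ⟨x ^ p, hxpE⟩ : E) : Ω) := by
    have h1 := hext (x ^ p) hxpE (hEX hxpE)
    have h3 : (⟨x ^ p, hEX hxpE⟩ :
        extender S E (E.subtype.comp (τ : E ≃* E).toMonoidHom)) = ⟨x, hxX⟩ ^ p :=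
      Subtype.ext rfl
    rw [h3, map_pow, ← hψx] at h1
    exact h1
  obtain ⟨n, hn⟩ := hgen _ hxpZ
  have h6 : τ ⟨x ^ p, hxpE⟩ * ⟨x ^ p, hxpE⟩ = 1 := by
    have h7 : (⟨x ^ p, hxpE⟩ : E) = z' ^ n := by
      apply Subtype.ext
      show x ^ p = (z' : Ω) ^ n
      rw [hz'v, hn]
    have h8 : τ z' = z'⁻¹ := eq_inv_of_mul_eq_one_left hτz
    rw [h7, map_pow, h8, inv_pow, inv_mul_cancel]
  have h9 : x ^ p * x ^ p = 1 := by
    have h10 : ((τ ⟨x ^ p, hxpE⟩ : E) : Ω) * x ^ p = 1 := congrArg Subtype.val h6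
    calc x ^ p * x ^ p = ψx ^ p * x ^ p := by rw [hψxp]
      _ = ((τ ⟨x ^ p, hxpE⟩ : E) : Ω) * x ^ p := by rw [h5]
      _ = 1 := h10
  have h11 : (x ^ p) ^ 2 = 1 := by rw [pow_two]; exact h9
  have h12 : (x ^ p) ^ p = 1 := hRexp _ ⟨hZP hxpZ, hxpE⟩
  have h13 : (x ^ p) ^ Nat.gcd 2 p = 1 := pow_gcd_eq_one.2 ⟨h11, h12⟩
  have h14 : Nat.gcd 2 p = 1 := (Nat.coprime_primes Nat.prime_two hp).2 (Ne.symm hodd)
  rw [h14, pow_one] at h13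
  exact h13

end OddExp

end Cfsg.Agent.Lib.Helper27
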