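import Mathlib
import Cfsg.Agent.Lib.Helper27.SCExtraD
import Cfsg.Agent.Lib.Helper27.SmallZG

set_option autoImplicit false

namespace Cfsg.Agent.Lib.Helper27

open Cfsg

section Split

theorem exists_type0_group {H : Type*} [Group H] [Finite H] :
    ∃ (E : Type) (_ : Group E), Nonempty (H ≃* E) := by
  let e : {i : ℕ // i < Nat.card H} ≃ H := (Fin.equivSubtype.symm.trans (Finite.equivFin H).symm)
  letI inst : Group {i : ℕ // i < Nat.card H} := e.group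
  have f : {i : ℕ // i < Nat.card H} ≃* H := MulEquiv.mk e (fun a b => e.apply_symm_apply _)
  exact ⟨{i : ℕ // i < Nat.card H}, inst, ⟨f.symm⟩⟩

theorem exists_type0_commGroup {H : Type*} [Group H] [Finite H]
    (hc : ∀ a b : H, a * b = b * a) :
    ∃ (A : Type) (_ : CommGroup A), Nonempty (H ≃* A) := by
  obtain ⟨A, instA, ⟨f⟩⟩ := exists_type0_group (H := H)
  refine ⟨A, { instA with mul_comm := ?_ }, ⟨f⟩⟩
  intro a b
  obtain ⟨a', rfl⟩ := f.surjective a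
  obtain ⟨b', rfl⟩ := f.surjective b
  rw [← map_mul, ← map_mul, hc]

theorem prod_iso_of_central {G : Type*} [Group G] (D A : Subgroup G)
    (hA : ∀ a ∈ A, ∀ g : G, g * a = a * g) (hDA : D ⊓ A = ⊥)
    (hsurj : ∀ u : G, ∃ d ∈ D, ∃ a ∈ A, u = d * a) : Nonempty (G ≃* D × A) := by
  let f : D × A →* G := MonoidHom.mk' (fun q => (q.1 : G) * (q.2 : G)) (by
    rintro ⟨d, a⟩ ⟨d', a'⟩
    show ((d : G) * (d' : G)) * ((a : G) * (a' : G)) = (d : G) * a * ((d' : G) * a')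
    have h1 := hA a a.2 d'
    calc ((d : G) * (d' : G)) * ((a : G) * (a' : G)) = (d : G) * ((d' : G) * a) * a' := by group
      _ = (d : G) * ((a : G) * d') * a' := by rw [h1]
      _ = (d : G) * a * ((d' : G) * a') := by group)
  have hinj : Function.Injective f := by
    rw [injective_iff_map_eq_one]
    rintro ⟨d, a⟩ h
    have h' : (d : G) * (a : G) = 1 := h
    have h1 : (d : G) = (a : G)⁻¹ := eq_inv_of_mul_eq_one_left h'
    have h2 : (d : G) ∈ D ⊓ A := ⟨d.2, by rw [h1]; exact A.inv_mem a.2⟩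
    rw [hDA, Subgroup.mem_bot] at h2
    have h3 : (a : G) = 1 := by rw [h2, one_mul] at h'; exact h'
    exact Prod.ext (Subtype.ext h2) (Subtype.ext h3)
  have hsur : Function.Surjective f := by
    intro u
    obtain ⟨d, hd, a, ha, rfl⟩ := hsurj u
    exact ⟨(⟨d, hd⟩, ⟨a, ha⟩), rfl⟩
  exact ⟨(MulEquiv.ofBijective f ⟨hinj, hsur⟩).symm⟩

theorem exists_central_compl {G : Type*} [Group G] [Finite G] (p : ℕ) (hp : p.Prime)
    (Z : Subgroup G)
    (hexp : ∀ c : G, (∀ g : G, g * c = c * g) → c ^ p = 1) :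
    ∃ A : Subgroup G, (∀ a ∈ A, ∀ g : G, g * a = a * g) ∧ A ⊓ Z = ⊥ ∧
      ∀ c : G, (∀ g : G, g * c = c * g) → ∃ z ∈ Z, ∃ a ∈ A, c = z * a := by
  classical
  have hne : Nonempty {A : Subgroup G // (∀ a ∈ A, ∀ g : G, g * a = a * g) ∧ A ⊓ Z = ⊥} :=
    ⟨⟨⊥, fun a ha g => by rw [Subgroup.mem_bot.mp ha]; simp, bot_inf_eq _⟩⟩
  obtain ⟨A₀, hmax⟩ := Finite.exists_max
    (fun A : {A : Subgroup G // (∀ a ∈ A, ∀ g : G, g * a = a * g) ∧ A ⊓ Z = ⊥} => Nat.card A.1)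
  obtain ⟨A, hAcen, hAZ⟩ := A₀
  refine ⟨A, hAcen, hAZ, fun c hc => ?_⟩
  by_contra hcon
  have hcp := hexp c hc
  have hcpow : ∀ m : ℕ, ∀ g : G, g * c ^ m = c ^ m * g := fun m g =>
    ((Commute.pow_right (show Commute g c from hc g) m)).eq
  let A'' : Subgroup G :=
    { carrier := {g | ∃ a ∈ A, ∃ m : ℕ, g = a * c ^ m}
      one_mem' := ⟨1, A.one_mem, 0, by simp⟩
      mul_mem' := by
        rintro _ _ ⟨a, ha, m, rfl⟩ ⟨a', ha', m', rfl⟩
        refine ⟨a * a', A.mul_mem ha ha', m + m', ?_⟩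
        have h1 := hcpow m a'
        calc a * c ^ m * (a' * c ^ m') = a * (c ^ m * a') * c ^ m' := by group
          _ = a * (a' * c ^ m) * c ^ m' := by rw [← h1]
          _ = a * a' * c ^ (m + m') := by rw [pow_add]; group
      inv_mem' := by
        rintro _ ⟨a, ha, m, rfl⟩
        refine ⟨a⁻¹, A.inv_mem ha, m * (p - 1), ?_⟩
        have e1 : m + m * (p - 1) = p * m := by
          have := hp.pos
          obtain ⟨q, rfl⟩ : ∃ q, p = q + 1 := ⟨p - 1, by omega⟩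
          simp
          ring
        have h2 : c ^ m * c ^ (m * (p - 1)) = 1 := by
          rw [← pow_add, e1, pow_mul, hcp, one_pow]
        apply inv_eq_of_mul_eq_one_right
        calc a * c ^ m * (a⁻¹ * c ^ (m * (p - 1)))
            = a * (c ^ m * a⁻¹) * c ^ (m * (p - 1)) := by group
          _ = a * (a⁻¹ * c ^ m) * c ^ (m * (p - 1)) := by rw [← hcpow m a⁻¹]
          _ = c ^ m * c ^ (m * (p - 1)) := by group
          _ = 1 := h2 }
  have hA''mem : ∀ g : G, g ∈ A'' ↔ ∃ a ∈ A, ∃ m : ℕ, g = a * c ^ m := fun g => Iff.rfl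
  have hA''cen : ∀ a ∈ A'', ∀ g : G, g * a = a * g := by
    intro y hy g
    obtain ⟨a, ha, m, rfl⟩ := (hA''mem y).1 hy
    calc g * (a * c ^ m) = (g * a) * c ^ m := by group
      _ = (a * g) * c ^ m := by rw [hAcen a ha g]
      _ = a * (g * c ^ m) := by group
      _ = a * (c ^ m * g) := by rw [hcpow m g]
      _ = a * c ^ m * g := by group
  have hA''Z : A'' ⊓ Z = ⊥ := by
    rw [eq_bot_iff]
    rintro y ⟨hy, hyZ⟩
    obtain ⟨a, ha, m, rfl⟩ := (hA''mem y).1 hy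
    rw [Subgroup.mem_bot]
    have hyZ' : a * c ^ m ∈ Z := hyZ
    by_cases hd : p ∣ m
    · obtain ⟨q, rfl⟩ := hd
      have h1 : c ^ (p * q) = 1 := by rw [pow_mul, hcp, one_pow]
      rw [h1, mul_one] at hyZ' ⊢
      have h2 : a ∈ A ⊓ Z := ⟨ha, hyZ'⟩
      rw [hAZ, Subgroup.mem_bot] at h2
      exact h2
    · exfalso
      apply hcon
      obtain ⟨β, hβ⟩ := exists_mul_add_dvd p hp m hd (p - 1)
      have h3 : c ^ (m * β) = c := by
        obtain ⟨q, hq⟩ := hβ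
        have h4 : c ^ (p - 1 + m * β) = 1 := by rw [hq, pow_mul, hcp, one_pow]
        have h5 : c * c ^ (p - 1 + m * β) = c ^ p * c ^ (m * β) := by
          rw [← pow_succ', ← pow_add]
          congr 1
          have := hp.pos
          omega
        rw [h4, hcp, mul_one, one_mul] at h5
        exact h5.symm
      refine ⟨(a * c ^ m) ^ β, Z.pow_mem hyZ' β, (a ^ β)⁻¹, A.inv_mem (A.pow_mem ha β), ?_⟩
      have h6 : (a * c ^ m) ^ β = a ^ β * (c ^ m) ^ β :=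
        (show Commute a (c ^ m) from hcpow m a).mul_pow β
      rw [h6, ← pow_mul, h3]
      have h7 := hc (a ^ β)
      calc c = (a ^ β * c) * (a ^ β)⁻¹ := by rw [h7]; group
        _ = a ^ β * c * (a ^ β)⁻¹ := rfl
  have hle : A ≤ A'' := fun a ha => (hA''mem a).2 ⟨a, ha, 0, by simp⟩
  have hcard : Nat.card A'' ≤ Nat.card A := hmax ⟨A'', hA''cen, hA''Z⟩
  have heq : A = A'' := Subgroup.eq_of_le_of_card_ge hle hcard
  apply hcon
  refine ⟨1, Z.one_mem, c, ?_, by simp⟩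
  rw [heq]
  exact (hA''mem c).2 ⟨1, A.one_mem, 1, by simp⟩

theorem sc_D {G : Type*} [Group G] [Finite G] (p : ℕ) [Fact p.Prime] (hG : IsPGroup p G)
    (Z : Subgroup G) (hZcard : Nat.card Z = p) (hZc : ∀ a b : G, a * b * a⁻¹ * b⁻¹ ∈ Z)
    (hZcen : ∀ z ∈ Z, ∀ u : G, u * z = z * u)
    (x w : G) (hxw : x * w ≠ w * x) (hwp : w ^ p = 1) (hxp : x ^ p ∈ Z) :
    ∃ D : Subgroup G, x ∈ D ∧ w ∈ D ∧ Z ≤ D ∧ Nat.card D = p ^ 3 ∧
      ∀ d ∈ D, ∃ i k : ℕ, ∃ z ∈ Z, d = w ^ i * x ^ k * z := by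
  have hp : p.Prime := Fact.out
  let M : Submonoid G :=
    { carrier := {d | ∃ i k : ℕ, ∃ z ∈ Z, d = w ^ i * x ^ k * z}
      one_mem' := ⟨0, 0, 1, Z.one_mem, by simp⟩
      mul_mem' := by
        rintro _ _ ⟨i, k, z, hz, rfl⟩ ⟨i', k', z', hz', rfl⟩
        obtain ⟨c, hc, hcdef⟩ : ∃ c ∈ Z, x ^ k * w ^ i' = w ^ i' * x ^ k * c := by
          refine ⟨(w ^ i' * x ^ k)⁻¹ * (x ^ k * w ^ i'), ?_, by group⟩
          have h1 := hZc (x ^ k)⁻¹ (w ^ i')⁻¹
          rw [inv_inv, inv_inv] at h1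
          have e1 : (w ^ i' * x ^ k)⁻¹ * (x ^ k * w ^ i') =
              (x ^ k)⁻¹ * (w ^ i')⁻¹ * x ^ k * w ^ i' := by group
          rw [e1]
          exact h1
        refine ⟨i + i', k + k', z' * z * c, Z.mul_mem (Z.mul_mem hz' hz) hc, ?_⟩
        have kz := hZcen z hz
        have kc := hZcen c hc
        calc w ^ i * x ^ k * z * (w ^ i' * x ^ k' * z')
            = w ^ i * x ^ k * (z * (w ^ i' * x ^ k' * z')) := by group
          _ = w ^ i * x ^ k * ((w ^ i' * x ^ k' * z') * z) := by rw [← kz]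
          _ = w ^ i * (x ^ k * w ^ i') * x ^ k' * z' * z := by group
          _ = w ^ i * (w ^ i' * x ^ k * c) * x ^ k' * z' * z := by rw [hcdef]
          _ = w ^ i * w ^ i' * x ^ k * (c * (x ^ k' * z' * z)) := by group
          _ = w ^ i * w ^ i' * x ^ k * ((x ^ k' * z' * z) * c) := by rw [← kc]
          _ = w ^ (i + i') * x ^ (k + k') * (z' * z * c) := by rw [pow_add, pow_add]; group }
  have hMmem : ∀ d : G, d ∈ M ↔ ∃ i k : ℕ, ∃ z ∈ Z, d = w ^ i * x ^ k * z := fun d => Iff.rfl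
  have hinvM : ∀ g ∈ M, g⁻¹ ∈ M := by
    intro g hg
    have h1 : g⁻¹ = g ^ (Nat.card G - 1) := by
      apply inv_eq_of_mul_eq_one_right
      rw [← pow_succ']
      have h2 : Nat.card G - 1 + 1 = Nat.card G := Nat.sub_add_cancel Nat.card_pos
      rw [h2, pow_card_eq_one']
    rw [h1]
    exact M.pow_mem hg _
  let D : Subgroup G := { M with inv_mem' := fun {g} hg => hinvM g hg }
  have hDmem : ∀ d : G, d ∈ D ↔ ∃ i k : ℕ, ∃ z ∈ Z, d = w ^ i * x ^ k * z := fun d => Iff.rfl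
  have hxD : x ∈ D := (hDmem x).2 ⟨0, 1, 1, Z.one_mem, by simp⟩
  have hwD : w ∈ D := (hDmem w).2 ⟨1, 0, 1, Z.one_mem, by simp⟩
  have hZD : Z ≤ D := fun z hz => (hDmem z).2 ⟨0, 0, z, hz, by simp⟩
  refine ⟨D, hxD, hwD, hZD, ?_, fun d hd => (hDmem d).1 hd⟩
  have hupper : Nat.card D ≤ p ^ 3 := by
    let g : Fin p × Fin p × Z → D := fun q =>
      ⟨w ^ (q.1 : ℕ) * x ^ (q.2.1 : ℕ) * (q.2.2 : G),
        (hDmem _).2 ⟨q.1, q.2.1, q.2.2, q.2.2.2, rfl⟩⟩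
    have hg : Function.Surjective g := by
      rintro ⟨d, hd⟩
      obtain ⟨i, k, z, hz, rfl⟩ := (hDmem d).1 hd
      have hwi : w ^ i = w ^ (i % p) := by
        conv_lhs => rw [← Nat.mod_add_div i p]
        rw [pow_add, pow_mul, hwp, one_pow, mul_one]
      have hxk : x ^ k = x ^ (k % p) * (x ^ p) ^ (k / p) := by
        conv_lhs => rw [← Nat.mod_add_div k p]
        rw [pow_add, pow_mul]
      refine ⟨(⟨i % p, Nat.mod_lt _ hp.pos⟩, ⟨k % p, Nat.mod_lt _ hp.pos⟩,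
        ⟨(x ^ p) ^ (k / p) * z, Z.mul_mem (Z.pow_mem hxp _) hz⟩), Subtype.ext ?_⟩
      show w ^ (i % p) * x ^ (k % p) * ((x ^ p) ^ (k / p) * z) = w ^ i * x ^ k * z
      rw [hwi, hxk]
      group
    have h1 := Nat.card_le_card_of_surjective g hg
    rw [Nat.card_prod, Nat.card_prod, Nat.card_fin, hZcard] at h1
    calc Nat.card D ≤ p * (p * p) := h1
      _ = p ^ 3 := by ring
  obtain ⟨n, hn⟩ := IsPGroup.iff_card.mp (hG.to_subgroup D)
  have hn3 : n ≤ 3 := by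
    rw [hn] at hupper
    exact (Nat.pow_le_pow_iff_right hp.one_lt).1 hupper
  have hxnotZ : x ∉ Z := fun hx => hxw (hZcen x hx w).symm
  have hn2 : 2 ≤ n := by
    by_contra hlt
    have hn1 : n ≤ 1 := by omega
    have hle : Nat.card D ≤ Nat.card Z := by
      rw [hn, hZcard]
      calc p ^ n ≤ p ^ 1 := Nat.pow_le_pow_right hp.pos hn1
        _ = p := pow_one p
    have heq : Z = D := Subgroup.eq_of_le_of_card_ge hZD hle
    exact hxnotZ (by rw [heq]; exact hxD)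
  have hn2' : n ≠ 2 := by
    intro h2
    rw [h2] at hn
    have hc := IsPGroup.commutative_of_card_eq_prime_sq hn
    exact hxw (congrArg Subtype.val (hc ⟨x, hxD⟩ ⟨w, hwD⟩))
  have hn3' : n = 3 := by omega
  rw [hn, hn3']

theorem sc_split {G : Type*} [Group G] [Finite G] (p : ℕ) [Fact p.Prime] (hG : IsPGroup p G)
    (Z R : Subgroup G) (hZcard : Nat.card Z = p) (hZc : ∀ a b : G, a * b * a⁻¹ * b⁻¹ ∈ Z)
    (hZcen : ∀ z ∈ Z, ∀ u : G, u * z = z * u)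
    (x w : G) (hwR : w ∈ R) (hxw : x * w ≠ w * x)
    (hwc : ∀ u : G, u ∉ R → u * w ≠ w * u)
    (hRab : ∀ a ∈ R, ∀ b ∈ R, a * b = b * a) (hRexp : ∀ r ∈ R, r ^ p = 1)
    (hdec : ∀ u : G, ∃ k : ℕ, u * (x ^ k)⁻¹ ∈ R) (hxp : x ^ p ∈ Z) :
    ∃ (D A : Subgroup G), x ∈ D ∧ w ∈ D ∧ Nat.card D = p ^ 3 ∧
      (∀ a ∈ A, ∀ g : G, g * a = a * g) ∧ (∀ a ∈ A, a ^ p = 1) ∧ Nonempty (G ≃* D × A) := by
  have hp : p.Prime := Fact.out
  have hwp : w ^ p = 1 := hRexp w hwR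
  obtain ⟨D, hxD, hwD, hZD, hDcard, hDform⟩ := sc_D p hG Z hZcard hZc hZcen x w hxw hwp hxp
  have hcenR : ∀ c : G, (∀ g : G, g * c = c * g) → c ∈ R := by
    intro c hc
    by_contra h
    exact hwc c h (hc w).symm
  obtain ⟨A, hAcen, hAZ, hAdec⟩ :=
    exists_central_compl p hp Z (fun c hc => hRexp c (hcenR c hc))
  have hZpow : ∀ z ∈ Z, z ^ p = 1 := by
    intro z hz
    have h1 := pow_card_eq_one' (G := ↥Z) (x := ⟨z, hz⟩)
    rw [hZcard] at h1
    exact congrArg Subtype.val h1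
  obtain ⟨c₀, hc₀⟩ : ∃ c₀ : G, c₀ = x * w * x⁻¹ * w⁻¹ := ⟨_, rfl⟩
  have hc₀Z : c₀ ∈ Z := by rw [hc₀]; exact hZc x w
  have hc₀1 : c₀ ≠ 1 := by
    intro h
    apply hxw
    calc x * w = (x * w * x⁻¹ * w⁻¹) * (w * x) := by group
      _ = w * x := by rw [← hc₀, h, one_mul]
  have hgen : ∀ z ∈ Z, ∃ n : ℕ, z = c₀ ^ n := by
    intro z hz
    have h1 := mem_powers_of_prime_card (G := ↥Z) hZcard (g := ⟨c₀, hc₀Z⟩) (g' := ⟨z, hz⟩)
      (fun h => hc₀1 (congrArg Subtype.val h))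
    obtain ⟨n, hn⟩ := h1
    exact ⟨n, (congrArg (fun t : Z => (t : G)) hn).symm⟩
  have horder : ∀ n : ℕ, c₀ ^ n = 1 → p ∣ n := by
    intro n hn
    have h1 : orderOf c₀ = p := orderOf_eq_prime (hZpow c₀ hc₀Z) hc₀1
    rw [← h1]
    exact orderOf_dvd_of_pow_eq_one hn
  have hη : ∀ g : G, ∃ η : G →* G, ∀ r, η r = g * r * g⁻¹ * r⁻¹ := by
    intro g
    refine ⟨MonoidHom.mk' (fun r => g * r * g⁻¹ * r⁻¹) ?_, fun r => rfl⟩
    intro r s
    have hζ := hZcen _ (hZc g s)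
    show g * (r * s) * g⁻¹ * (r * s)⁻¹ = g * r * g⁻¹ * r⁻¹ * (g * s * g⁻¹ * s⁻¹)
    calc g * (r * s) * g⁻¹ * (r * s)⁻¹
        = g * r * g⁻¹ * ((g * s * g⁻¹ * s⁻¹) * r⁻¹) := by group
      _ = g * r * g⁻¹ * (r⁻¹ * (g * s * g⁻¹ * s⁻¹)) := by rw [← hζ]
      _ = g * r * g⁻¹ * r⁻¹ * (g * s * g⁻¹ * s⁻¹) := by group
  have hη1 : ∀ g r : G, g * r = r * g → g * r * g⁻¹ * r⁻¹ = 1 := by
    intro g r h
    rw [h]
    group
  have hη2 : ∀ g r : G, g * r * g⁻¹ * r⁻¹ = 1 → g * r = r * g := by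
    intro g r h
    calc g * r = (g * r * g⁻¹ * r⁻¹) * (r * g) := by group
      _ = r * g := by rw [h, one_mul]
  obtain ⟨ηx, hηx⟩ := hη x
  obtain ⟨ηw, hηw⟩ := hη w
  have hηxw : ηx w = c₀ := by rw [hηx, hc₀]
  have hηwx : ηw x = c₀⁻¹ := by rw [hηw, hc₀]; group
  have hDA : D ⊓ A = ⊥ := by
    rw [eq_bot_iff]
    rintro d ⟨hdD, hdA⟩
    rw [Subgroup.mem_bot]
    have hdcen := hAcen d hdA
    obtain ⟨i, k, z, hz, hd⟩ := hDform d hdD
    have hzw : ηw z = 1 := by rw [hηw]; exact hη1 w z (hZcen z hz w)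
    have hzx : ηx z = 1 := by rw [hηx]; exact hη1 x z (hZcen z hz x)
    have hww : ηw w = 1 := by rw [hηw]; exact hη1 w w rfl
    have hxx : ηx x = 1 := by rw [hηx]; exact hη1 x x rfl
    have h1 : ηw d = 1 := by rw [hηw]; exact hη1 w d (hdcen w)
    have h2 : ηx d = 1 := by rw [hηx]; exact hη1 x d (hdcen x)
    rw [hd, map_mul, map_mul, map_pow, map_pow, hzw, hww, hηwx, one_pow, one_mul, mul_one,
      inv_pow, inv_eq_one] at h1
    rw [hd, map_mul, map_mul, map_pow, map_pow, hzx, hxx, hηxw, one_pow, mul_one, mul_one] at h2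
    obtain ⟨qk, hqk⟩ := horder k h1
    obtain ⟨qi, hqi⟩ := horder i h2
    have hdZ : d ∈ Z := by
      rw [hd, hqi, hqk, pow_mul, hwp, one_pow, one_mul, pow_mul]
      exact Z.mul_mem (Z.pow_mem hxp _) hz
    have h3 : d ∈ A ⊓ Z := ⟨hdA, hdZ⟩
    rw [hAZ, Subgroup.mem_bot] at h3
    exact h3
  have hsurj : ∀ u : G, ∃ d ∈ D, ∃ a ∈ A, u = d * a := by
    intro u
    obtain ⟨k, hk⟩ := hdec u
    obtain ⟨r, hr⟩ : ∃ r : G, r = u * (x ^ k)⁻¹ := ⟨_, rfl⟩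
    rw [← hr] at hk
    obtain ⟨n, hn⟩ := hgen _ (hZc x r)
    obtain ⟨c, hcdef⟩ : ∃ c : G, c = r * (w ^ n)⁻¹ := ⟨_, rfl⟩
    have hcR : c ∈ R := by rw [hcdef]; exact R.mul_mem hk (R.inv_mem (R.pow_mem hwR n))
    have h1 : ηx c = 1 := by
      rw [hcdef, map_mul, map_inv, map_pow, hηxw, hηx, hn, mul_inv_cancel]
    have hxc : x * c = c * x := hη2 x c (by rw [← hηx]; exact h1)
    have hccen : ∀ g : G, g * c = c * g := by
      intro g
      obtain ⟨k', hk'⟩ := hdec g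
      obtain ⟨r', hr'⟩ : ∃ r' : G, r' = g * (x ^ k')⁻¹ := ⟨_, rfl⟩
      rw [← hr'] at hk'
      have hg : g = r' * x ^ k' := by rw [hr']; group
      have hxkc : x ^ k' * c = c * x ^ k' :=
        ((Commute.pow_left (show Commute x c from hxc) k')).eq
      calc g * c = r' * (x ^ k' * c) := by rw [hg, mul_assoc]
        _ = r' * (c * x ^ k') := by rw [hxkc]
        _ = (r' * c) * x ^ k' := by rw [mul_assoc]
        _ = (c * r') * x ^ k' := by rw [hRab r' hk' c hcR]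
        _ = c * g := by rw [hg, mul_assoc]
    obtain ⟨z, hz, a, ha, hca⟩ := hAdec c hccen
    refine ⟨w ^ n * x ^ k * z,
      D.mul_mem (D.mul_mem (D.pow_mem hwD n) (D.pow_mem hxD k)) (hZD hz), a, ha, ?_⟩
    have hu : u = c * (w ^ n * x ^ k) := by rw [hcdef, hr]; group
    rw [hu, ← hccen (w ^ n * x ^ k), hca, ← mul_assoc]
  exact ⟨D, A, hxD, hwD, hDcard, hAcen, fun a ha => hRexp a (hcenR a (hAcen a ha)),
    prod_iso_of_central D A hAcen hDA hsurj⟩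

theorem sc_final {G : Type*} [Group G] [Finite G] (p : ℕ) [Fact p.Prime] (hG : IsPGroup p G)
    (Z R : Subgroup G) (hZcard : Nat.card Z = p) (hZc : ∀ a b : G, a * b * a⁻¹ * b⁻¹ ∈ Z)
    (hZcen : ∀ z ∈ Z, ∀ u : G, u * z = z * u)
    (x w : G) (hwR : w ∈ R) (hxw : x * w ≠ w * x)
    (hwc : ∀ u : G, u ∉ R → u * w ≠ w * u)
    (hRab : ∀ a ∈ R, ∀ b ∈ R, a * b = b * a) (hRexp : ∀ r ∈ R, r ^ p = 1)
    (hdec : ∀ u : G, ∃ k : ℕ, u * (x ^ k)⁻¹ ∈ R) (hxp : x ^ p ∈ Z)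
    (hxodd : p ≠ 2 → x ^ p = 1) :
    (p = 2 → ∃ (A : Type) (_ : CommGroup A), (∀ a : A, a ^ 2 = 1) ∧
      Nonempty (G ≃* DihedralGroup 4 × A)) ∧
    (p ≠ 2 → ∃ (E : Type) (_ : Group E) (A : Type) (_ : CommGroup A),
      Cfsg.IsExtraspecial p E ∧ Nat.card E = p ^ 3 ∧ Monoid.exponent E = p ∧
      (∀ a : A, a ^ p = 1) ∧ Nonempty (G ≃* E × A)) := by
  have hp : p.Prime := Fact.out
  obtain ⟨D, A, hxD, hwD, hDcard, hAcen, hAexp, ⟨f⟩⟩ :=
    sc_split p hG Z R hZcard hZc hZcen x w hwR hxw hwc hRab hRexp hdec hxp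
  obtain ⟨A', instA', ⟨fA⟩⟩ := exists_type0_commGroup (H := ↥A)
    (fun a b => Subtype.ext (hAcen b b.2 a))
  have hA'exp : ∀ a : A', a ^ p = 1 := by
    intro a
    obtain ⟨b, rfl⟩ := fA.surjective a
    have h1 : b ^ p = 1 := Subtype.ext (hAexp b b.2)
    rw [← map_pow, h1, map_one]
  have hwp : w ^ p = 1 := hRexp w hwR
  obtain ⟨c₀, hc₀⟩ : ∃ c₀ : G, c₀ = x * w * x⁻¹ * w⁻¹ := ⟨_, rfl⟩
  have hc₀Z : c₀ ∈ Z := by rw [hc₀]; exact hZc x w
  have hc₀1 : c₀ ≠ 1 := by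
    intro h
    apply hxw
    calc x * w = (x * w * x⁻¹ * w⁻¹) * (w * x) := by group
      _ = w * x := by rw [← hc₀, h, one_mul]
  have hZpow : ∀ z ∈ Z, z ^ p = 1 := by
    intro z hz
    have h1 := pow_card_eq_one' (G := ↥Z) (x := ⟨z, hz⟩)
    rw [hZcard] at h1
    exact congrArg Subtype.val h1
  constructor
  · intro h2
    subst h2
    have hw2 : w * w = 1 := by rw [← pow_two]; exact hwp
    have hwi : w⁻¹ = w := inv_eq_of_mul_eq_one_left hw2
    have hZ2 : ∀ z ∈ Z, z ≠ 1 → z = c₀ := by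
      intro z hz hz1
      have h1 := mem_powers_of_prime_card (G := ↥Z) hZcard (g := ⟨c₀, hc₀Z⟩) (g' := ⟨z, hz⟩)
        (fun h => hc₀1 (congrArg Subtype.val h))
      obtain ⟨n, hn⟩ := h1
      have hn' : c₀ ^ n = z := congrArg Subtype.val hn
      rcases Nat.even_or_odd' n with ⟨m, rfl | rfl⟩
      · exfalso
        apply hz1
        rw [← hn', pow_mul, hZpow c₀ hc₀Z, one_pow]
      · rw [← hn', pow_add, pow_mul, hZpow c₀ hc₀Z, one_pow, one_mul, pow_one]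
    obtain ⟨ρ, hρD, hρ2, hρw⟩ : ∃ ρ ∈ D, ρ ^ 2 = c₀ ∧ w * ρ * w⁻¹ = ρ⁻¹ := by
      by_cases hx2 : x ^ 2 = 1
      · have hxi : x⁻¹ = x := inv_eq_of_mul_eq_one_left (by rw [← pow_two]; exact hx2)
        refine ⟨x * w, D.mul_mem hxD hwD, ?_, ?_⟩
        · rw [hc₀, hxi, hwi, pow_two]
          group
        · calc w * (x * w) * w⁻¹ = w * x := by group
            _ = w⁻¹ * x⁻¹ := by rw [hwi, hxi]
            _ = (x * w)⁻¹ := by group
      · have h1 : x ^ 2 = c₀ := hZ2 _ hxp hx2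
        refine ⟨x, hxD, h1, ?_⟩
        calc w * x * w⁻¹ = (x⁻¹ * (x * w * x⁻¹ * w⁻¹))⁻¹ := by group
          _ = (x⁻¹ * x ^ 2)⁻¹ := by rw [← hc₀, h1]
          _ = x⁻¹ := by group
    have hρ4 : orderOf ρ = 4 := by
      have h1 : ¬ ρ ^ 2 ^ 1 = 1 := by rw [pow_one, hρ2]; exact hc₀1
      have h2 : ρ ^ 2 ^ (1 + 1) = 1 := by
        have e : 2 ^ (1 + 1) = 2 * 2 := by norm_num
        rw [e, pow_mul, hρ2]
        exact hZpow c₀ hc₀Z
      have h3 := orderOf_eq_prime_pow h1 h2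
      exact h3.trans (by norm_num)
    have hD8 : Nonempty (↥D ≃* DihedralGroup 4) :=
      abk_dih8 (G := ↥D) (hDcard.trans (by norm_num)) ⟨w, hwD⟩ ⟨ρ, hρD⟩ (Subtype.ext hw2)
        (by rw [Subgroup.orderOf_mk]; exact hρ4) (Subtype.ext hρw)
    obtain ⟨fD⟩ := hD8
    exact ⟨A', instA', hA'exp, ⟨f.trans (MulEquiv.prodCongr fD fA)⟩⟩
  · intro hodd
    have hxp1 := hxodd hodd
    have hall : ∀ u : G, u ^ p = 1 := by
      intro u
      obtain ⟨k, hk⟩ := hdec u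
      obtain ⟨r, hr⟩ : ∃ r : G, r = u * (x ^ k)⁻¹ := ⟨_, rfl⟩
      rw [← hr] at hk
      have hu : u = r * x ^ k := by rw [hr]; group
      have hcZ : (x ^ k)⁻¹ * r⁻¹ * x ^ k * r ∈ Z := by
        have h1 := hZc (x ^ k)⁻¹ r⁻¹
        rw [inv_inv, inv_inv] at h1
        exact h1
      have hcc : ∀ g : G, ((x ^ k)⁻¹ * r⁻¹ * x ^ k * r) * g =
          g * ((x ^ k)⁻¹ * r⁻¹ * x ^ k * r) := fun g => (hZcen _ hcZ g).symm
      have hpow := mul_pow_of_central_comm r (x ^ k) ((x ^ k)⁻¹ * r⁻¹ * x ^ k * r) (by group)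
        (hcc r) (hcc (x ^ k)) p
      have hcp : ((x ^ k)⁻¹ * r⁻¹ * x ^ k * r) ^ (p.choose 2) = 1 := by
        have h2 : p ∣ p.choose 2 :=
          hp.dvd_choose_self (by norm_num) (by have := hp.two_le; omega)
        obtain ⟨c, hc⟩ := h2
        rw [hc, pow_mul, hZpow _ hcZ, one_pow]
      rw [hu, hpow, hRexp r hk, hcp, ← pow_mul, mul_comm k p, pow_mul, hxp1, one_pow, one_mul,
        mul_one]
    obtain ⟨E', instE', ⟨fE⟩⟩ := exists_type0_group (H := ↥D)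
    haveI : Finite E' := Finite.of_equiv _ fE.toEquiv
    have hEcard : Nat.card E' = p ^ 3 := by
      rw [← hDcard]
      exact (Nat.card_congr fE.toEquiv).symm
    have hEnc : ¬ ∀ a b : E', a * b = b * a := by
      intro hc
      apply hxw
      have h1 := hc (fE ⟨x, hxD⟩) (fE ⟨w, hwD⟩)
      rw [← map_mul, ← map_mul] at h1
      exact congrArg Subtype.val (fE.injective h1)
    have hEpow : ∀ e : E', e ^ p = 1 := by
      intro e
      obtain ⟨d, rfl⟩ := fE.surjective e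
      have h1 : d ^ p = 1 := Subtype.ext (hall d)
      rw [← map_pow, h1, map_one]
    have hEexp : Monoid.exponent E' = p := by
      have h1 : Monoid.exponent E' ∣ p := Monoid.exponent_dvd_of_forall_pow_eq_one hEpow
      rcases (Nat.dvd_prime hp).1 h1 with h | h
      · exfalso
        rw [Monoid.exp_eq_one_iff] at h
        exact hEnc (fun a b => Subsingleton.elim _ _)
      · exact h
    exact ⟨E', instE', A', instA', cube_extraspecial p hEcard hEnc, hEcard, hEexp, hA'exp,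
      ⟨f.trans (MulEquiv.prodCongr fE fA)⟩⟩

end Split

end Cfsg.Agent.Lib.Helper27
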