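import Mathlib
import Cfsg.Prelude.Def_OddOrderLocal
import Cfsg.Agent.Lib.Helper27.SCExtraE

set_option autoImplicit false

namespace Cfsg.Agent.Lib.Helper27

open Cfsg

section MetaA

/-- A self-map of a finite set whose `r`-th iterate is the identity has a fixed point when `r`
does not divide the cardinality. -/
theorem fixed_of_iterate {Ω : Type*} [Finite Ω] (f : Ω → Ω) {r : ℕ} (hr : r.Prime)
    (hf : ∀ y, f^[r] y = y) (hc : ¬ r ∣ Nat.card Ω) : ∃ y, f y = y := by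
  classical
  haveI : Fintype Ω := Fintype.ofFinite Ω
  haveI : Fact r.Prime := ⟨hr⟩
  let F : Function.End Ω := f
  have hpow : ∀ n : ℕ, ∀ y, (F ^ n) y = f^[n] y := by
    intro n
    induction n with
    | zero => intro y; rfl
    | succ n ih =>
      intro y
      rw [pow_succ, Function.iterate_succ_apply]
      exact ih (f y)
  have hF : F ^ r ^ 1 = 1 := by
    rw [pow_one]
    funext y
    rw [hpow r y, hf y]
    rfl
  have h1 := Equiv.Perm.card_fixedPoints_modEq hF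
  by_contra hne
  push Not at hne
  have h2 : Fintype.card (Function.fixedPoints F) = 0 := by
    rw [Fintype.card_eq_zero_iff]
    exact ⟨fun y => hne y.1 y.2⟩
  rw [h2, ← Nat.card_eq_fintype_card] at h1
  exact hc ((Nat.modEq_zero_iff_dvd).mp h1)

theorem exists_fixed_in_coset {X : Type*} [Group X] [Finite X] {p : ℕ} [Fact p.Prime]
    (hX : IsPGroup p X) {r : ℕ} (hr : r.Prime) (hrp : r ≠ p) (γ : MulAut X) (hγ : γ ^ r = 1)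
    (D : Subgroup X) (hD : ∀ d ∈ D, γ d ∈ D) (x : X) (hx : x⁻¹ * γ x ∈ D) :
    ∃ d ∈ D, γ (x * d) = x * d := by
  have hp : p.Prime := Fact.out
  let Ω := {y : X // x⁻¹ * y ∈ D}
  let f : Ω → Ω := fun y => ⟨γ y.1, by
    have e : x⁻¹ * γ y.1 = (x⁻¹ * γ x) * γ (x⁻¹ * y.1) := by
      rw [map_mul, map_inv]
      group
    rw [e]
    exact D.mul_mem hx (hD _ y.2)⟩
  have hit : ∀ n : ℕ, ∀ y : Ω, ((f^[n] y : Ω) : X) = (γ ^ n) y.1 := by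
    intro n
    induction n with
    | zero => intro y; rfl
    | succ n ih =>
      intro y
      rw [Function.iterate_succ_apply', pow_succ', MulAut.mul_apply]
      show γ ((f^[n] y : Ω) : X) = _
      rw [ih y]
  have hf : ∀ y, f^[r] y = y := by
    intro y
    apply Subtype.ext
    rw [hit r y, hγ]
    rfl
  have hcard : Nat.card Ω = Nat.card D := by
    apply Nat.card_congr
    exact
      { toFun := fun y => ⟨x⁻¹ * y.1, y.2⟩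
        invFun := fun m => ⟨x * m.1, by simpa using m.2⟩
        left_inv := fun y => by apply Subtype.ext; simp
        right_inv := fun m => by apply Subtype.ext; simp }
  have hnd : ¬ r ∣ Nat.card Ω := by
    rw [hcard]
    obtain ⟨k, hk⟩ := IsPGroup.iff_card.mp (hX.to_subgroup D)
    rw [hk]
    intro hdvd
    exact hrp ((Nat.prime_dvd_prime_iff_eq hr hp).mp (hr.dvd_of_dvd_pow hdvd))
  obtain ⟨y, hy⟩ := fixed_of_iterate f hr hf hnd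
  have hy' : γ y.1 = y.1 := congrArg Subtype.val hy
  refine ⟨x⁻¹ * y.1, y.2, ?_⟩
  have e : x * (x⁻¹ * y.1) = y.1 := by group
  rw [e, hy']

/-- A coprime automorphism stabilizing a chain `X ≥ C₁ ≥ C₂ ≥ C₃ ≥ Φ(C₁)` is trivial. -/
theorem aut_eq_one_of_stabFrat {X : Type*} [Group X] [Finite X] {p : ℕ} [Fact p.Prime]
    (hX : IsPGroup p X) {r : ℕ} (hr : r.Prime) (hrp : r ≠ p) (γ : MulAut X) (hγ : γ ^ r = 1)
    (C₁ C₂ C₃ : Subgroup X) (h21 : C₂ ≤ C₁) (h32 : C₃ ≤ C₂)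
    (hΦ : (frattini ↥C₁).map C₁.subtype ≤ C₃)
    (h0 : ∀ x, x⁻¹ * γ x ∈ C₁) (h1 : ∀ x ∈ C₁, x⁻¹ * γ x ∈ C₂)
    (h2 : ∀ x ∈ C₂, x⁻¹ * γ x ∈ C₃)
    (h3 : ∀ x ∈ C₃, x⁻¹ * γ x ∈ (frattini ↥C₁).map C₁.subtype) : γ = 1 := by
  have hinv : ∀ (A B : Subgroup X), B ≤ A → (∀ x ∈ A, x⁻¹ * γ x ∈ B) → ∀ x ∈ A, γ x ∈ A := by
    intro A B hBA h x hx
    have e : γ x = x * (x⁻¹ * γ x) := by group
    rw [e]
    exact A.mul_mem hx (hBA (h x hx))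
  have hC₁ := hinv C₁ C₂ h21 h1
  have hC₂ := hinv C₂ C₃ h32 h2
  have hC₃ := hinv C₃ _ hΦ h3
  have hΦinv : ∀ x ∈ (frattini ↥C₁).map C₁.subtype, γ x ∈ (frattini ↥C₁).map C₁.subtype :=
    hinv _ _ le_rfl (fun x hx => h3 x (hΦ hx))
  have s0 : ∀ x, ∃ d ∈ C₁, γ (x * d) = x * d := fun x =>
    exists_fixed_in_coset hX hr hrp γ hγ C₁ hC₁ x (h0 x)
  have s1 : ∀ x ∈ C₁, ∃ d ∈ C₂, γ (x * d) = x * d := fun x hx =>
    exists_fixed_in_coset hX hr hrp γ hγ C₂ hC₂ x (h1 x hx)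
  have s2 : ∀ x ∈ C₂, ∃ d ∈ C₃, γ (x * d) = x * d := fun x hx =>
    exists_fixed_in_coset hX hr hrp γ hγ C₃ hC₃ x (h2 x hx)
  have s3 : ∀ x ∈ C₃, ∃ d ∈ (frattini ↥C₁).map C₁.subtype, γ (x * d) = x * d := fun x hx =>
    exists_fixed_in_coset hX hr hrp γ hγ _ hΦinv x (h3 x hx)
  let F₁ : Subgroup ↥C₁ :=
    { carrier := {y | γ y.1 = y.1}
      mul_mem' := by
        intro a b ha hb
        have ha' : γ a.1 = a.1 := ha
        have hb' : γ b.1 = b.1 := hb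
        show γ (a.1 * b.1) = a.1 * b.1
        rw [map_mul, ha', hb']
      one_mem' := by
        show γ (1 : X) = 1
        exact map_one γ
      inv_mem' := by
        intro a ha
        have ha' : γ a.1 = a.1 := ha
        show γ (a.1)⁻¹ = (a.1)⁻¹
        rw [map_inv, ha'] }
  have hF₁mem : ∀ y : ↥C₁, y ∈ F₁ ↔ γ y.1 = y.1 := fun y => Iff.rfl
  have hsup : F₁ ⊔ frattini ↥C₁ = ⊤ := by
    rw [eq_top_iff]
    intro y _
    obtain ⟨d₂, hd₂, hf₁⟩ := s1 y.1 y.2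
    obtain ⟨d₃, hd₃, hf₂⟩ := s2 d₂⁻¹ (C₂.inv_mem hd₂)
    obtain ⟨d₄, hd₄, hf₃⟩ := s3 d₃⁻¹ (C₃.inv_mem hd₃)
    obtain ⟨φ, hφ, hφd⟩ := hd₄
    have hφd' : (φ : X) = d₄ := hφd
    have hd₂C₁ := h21 hd₂
    have hd₃C₁ := h21 (h32 hd₃)
    have hd₄C₁ : d₄ ∈ C₁ := by rw [← hφd']; exact φ.2
    have e : y = (⟨y.1 * d₂, C₁.mul_mem y.2 hd₂C₁⟩ *
        ⟨d₂⁻¹ * d₃, C₁.mul_mem (C₁.inv_mem hd₂C₁) hd₃C₁⟩ *
        ⟨d₃⁻¹ * d₄, C₁.mul_mem (C₁.inv_mem hd₃C₁) hd₄C₁⟩ : ↥C₁) * φ⁻¹ := by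
      apply Subtype.ext
      show y.1 = y.1 * d₂ * (d₂⁻¹ * d₃) * (d₃⁻¹ * d₄) * (φ : X)⁻¹
      rw [hφd']
      group
    rw [e]
    refine Subgroup.mul_mem_sup (F₁.mul_mem (F₁.mul_mem ?_ ?_) ?_) (inv_mem hφ)
    · exact (hF₁mem _).2 hf₁
    · exact (hF₁mem _).2 hf₂
    · exact (hF₁mem _).2 hf₃
  have hF₁ : F₁ = ⊤ := frattini_nongenerating hsup
  have hfixC₁ : ∀ x ∈ C₁, γ x = x := by
    intro x hx
    have h : (⟨x, hx⟩ : ↥C₁) ∈ F₁ := by rw [hF₁]; trivial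
    exact (hF₁mem _).1 h
  ext x
  obtain ⟨d, hd, hfd⟩ := s0 x
  rw [map_mul, hfixC₁ d hd] at hfd
  show γ x = x
  exact mul_right_cancel hfd

/-- The stabilizer of a chain `X ≥ C₁ ≥ C₂ ≥ C₃ ≥ Φ(C₁)` in `Aut(X)` is a `p`-group. -/
theorem exists_stabFrat {X : Type*} [Group X] [Finite X] (p : ℕ) [Fact p.Prime]
    (hX : IsPGroup p X) (C₁ C₂ C₃ : Subgroup X) (h21 : C₂ ≤ C₁) (h32 : C₃ ≤ C₂)
    (hΦ : (frattini ↥C₁).map C₁.subtype ≤ C₃) :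
    ∃ K : Subgroup (MulAut X), IsPGroup p K ∧ ∀ c : MulAut X, c ∈ K ↔
      ((∀ x, x⁻¹ * c x ∈ C₁) ∧ (∀ x ∈ C₁, x⁻¹ * c x ∈ C₂) ∧ (∀ x ∈ C₂, x⁻¹ * c x ∈ C₃) ∧
        (∀ x ∈ C₃, x⁻¹ * c x ∈ (frattini ↥C₁).map C₁.subtype)) := by
  have hp : p.Prime := Fact.out
  have layer : ∀ (A B : Subgroup X), B ≤ A → ∀ c₁ c₂ : MulAut X, (∀ x ∈ A, x⁻¹ * c₁ x ∈ B) →
      (∀ x ∈ A, x⁻¹ * c₂ x ∈ B) → ∀ x ∈ A, x⁻¹ * (c₁ * c₂) x ∈ B := by
    intro A B hBA c₁ c₂ h1 h2 x hx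
    show x⁻¹ * c₁ (c₂ x) ∈ B
    have hx2 : c₂ x ∈ A := by
      have e : c₂ x = x * (x⁻¹ * c₂ x) := by group
      rw [e]
      exact A.mul_mem hx (hBA (h2 x hx))
    have e : x⁻¹ * c₁ (c₂ x) = (x⁻¹ * c₂ x) * ((c₂ x)⁻¹ * c₁ (c₂ x)) := by group
    rw [e]
    exact B.mul_mem (h2 x hx) (h1 _ hx2)
  let M : Submonoid (MulAut X) :=
    { carrier := {c | (∀ x, x⁻¹ * c x ∈ C₁) ∧ (∀ x ∈ C₁, x⁻¹ * c x ∈ C₂) ∧
        (∀ x ∈ C₂, x⁻¹ * c x ∈ C₃) ∧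
        (∀ x ∈ C₃, x⁻¹ * c x ∈ (frattini ↥C₁).map C₁.subtype)}
      one_mem' := by
        refine ⟨fun x => ?_, fun x _ => ?_, fun x _ => ?_, fun x _ => ?_⟩
        · show x⁻¹ * x ∈ C₁
          rw [inv_mul_cancel]; exact one_mem _
        · show x⁻¹ * x ∈ C₂
          rw [inv_mul_cancel]; exact one_mem _
        · show x⁻¹ * x ∈ C₃
          rw [inv_mul_cancel]; exact one_mem _
        · show x⁻¹ * x ∈ (frattini ↥C₁).map C₁.subtype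
          rw [inv_mul_cancel]; exact one_mem _
      mul_mem' := by
        rintro c₁ c₂ ⟨a0, a1, a2, a3⟩ ⟨b0, b1, b2, b3⟩
        refine ⟨fun x => ?_, layer C₁ C₂ h21 c₁ c₂ a1 b1, layer C₂ C₃ h32 c₁ c₂ a2 b2,
          layer C₃ _ hΦ c₁ c₂ a3 b3⟩
        exact layer ⊤ C₁ le_top c₁ c₂ (fun x _ => a0 x) (fun x _ => b0 x) x (Subgroup.mem_top x) }
  have hinvM : ∀ c ∈ M, c⁻¹ ∈ M := by
    intro c hc
    have h1 : c⁻¹ = c ^ (Nat.card (MulAut X) - 1) := by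
      apply inv_eq_of_mul_eq_one_right
      rw [← pow_succ']
      have h2 : Nat.card (MulAut X) - 1 + 1 = Nat.card (MulAut X) :=
        Nat.sub_add_cancel Nat.card_pos
      rw [h2, pow_card_eq_one']
    rw [h1]
    exact M.pow_mem hc _
  let K : Subgroup (MulAut X) := { M with inv_mem' := fun {c} hc => hinvM c hc }
  have hKmem : ∀ c : MulAut X, c ∈ K ↔
      ((∀ x, x⁻¹ * c x ∈ C₁) ∧ (∀ x ∈ C₁, x⁻¹ * c x ∈ C₂) ∧ (∀ x ∈ C₂, x⁻¹ * c x ∈ C₃) ∧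
        (∀ x ∈ C₃, x⁻¹ * c x ∈ (frattini ↥C₁).map C₁.subtype)) := fun c => Iff.rfl
  refine ⟨K, ?_, hKmem⟩
  rintro ⟨c, hc⟩
  have hpos : 0 < orderOf c := orderOf_pos c
  have hprime : ∀ {d : ℕ}, d.Prime → d ∣ orderOf c → d = p := by
    intro d hd hdvd
    by_contra hne
    obtain ⟨q, hq⟩ := hdvd
    have hcq : c ^ q ∈ K := K.pow_mem hc q
    have h1 : (c ^ q) ^ d = 1 := by rw [← pow_mul, mul_comm, ← hq, pow_orderOf_eq_one]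
    obtain ⟨a0, a1, a2, a3⟩ := (hKmem _).1 hcq
    have h2 := aut_eq_one_of_stabFrat hX hd hne (c ^ q) h1 C₁ C₂ C₃ h21 h32 hΦ a0 a1 a2 a3
    have h3 : orderOf c ∣ q := orderOf_dvd_of_pow_eq_one h2
    have h4 : q ≠ 0 := by
      rintro rfl
      rw [mul_zero] at hq
      omega
    have h5 := Nat.le_of_dvd (Nat.pos_of_ne_zero h4) h3
    rw [hq] at h5
    have h6 : 2 * q ≤ d * q := Nat.mul_le_mul_right q hd.two_le
    have h7 := Nat.pos_of_ne_zero h4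
    omega
  have hm := Nat.eq_prime_pow_of_unique_prime_dvd hpos.ne' hprime
  refine ⟨(orderOf c).primeFactorsList.length, ?_⟩
  apply Subtype.ext
  show c ^ (p ^ (orderOf c).primeFactorsList.length) = 1
  rw [← hm, pow_orderOf_eq_one]

theorem zpow_eq_pow_of_pow_eq_one {G : Type*} [Group G] {a : G} {p : ℕ} (hp : 0 < p)
    (ha : a ^ p = 1) (j : ℤ) : ∃ n : ℕ, a ^ j = a ^ n := by
  refine ⟨(j % (p : ℤ)).toNat, ?_⟩
  have h2 : 0 ≤ j % (p : ℤ) := Int.emod_nonneg j (by exact_mod_cast hp.ne')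
  have h3 : ((j % (p : ℤ)).toNat : ℤ) = j % p := Int.toNat_of_nonneg h2
  rw [← zpow_natCast a (j % (p : ℤ)).toNat, h3]
  conv_lhs => rw [← Int.emod_add_mul_ediv j p]
  rw [zpow_add, zpow_mul, zpow_natCast, ha, one_zpow, mul_one]

/-- Generators for the subgroups of a metacyclic group. -/
theorem meta_gens {Ω : Type*} [Group Ω] (P : Subgroup Ω) (hm : Cfsg.IsMetacyclic ↥P) :
    ∃ N₀ : Subgroup Ω, N₀ ≤ P ∧ (∀ u ∈ P, ∀ v ∈ P, u * v * u⁻¹ * v⁻¹ ∈ N₀) ∧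
      (∀ u ∈ P, ∀ n ∈ N₀, u * n * u⁻¹ ∈ N₀) ∧
      ∀ U : Subgroup Ω, U ≤ P → ∃ g₁ ∈ U, ∃ n₁ ∈ U, n₁ ∈ N₀ ∧
        (∀ y ∈ U, y ∈ N₀ → ∃ j : ℤ, y = n₁ ^ j) ∧
        (∀ u ∈ U, ∃ i : ℤ, (g₁ ^ i)⁻¹ * u ∈ N₀) := by
  obtain ⟨N, hNn, hNc, hQc⟩ := hm
  have hmemN₀ : ∀ (u : Ω) (hu : u ∈ P), u ∈ N.map P.subtype ↔ (⟨u, hu⟩ : P) ∈ N := by
    intro u hu
    constructor
    · rintro ⟨y, hy, hyu⟩
      have e : y = ⟨u, hu⟩ := Subtype.ext hyu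
      rw [← e]
      exact hy
    · intro h
      exact ⟨⟨u, hu⟩, h, rfl⟩
  obtain ⟨q, hq⟩ := IsCyclic.exists_generator (α := ↥P ⧸ N)
  have hcomm : ∀ a b : ↥P ⧸ N, a * b = b * a := by
    intro a b
    obtain ⟨i, rfl⟩ := Subgroup.mem_zpowers_iff.mp (hq a)
    obtain ⟨j, rfl⟩ := Subgroup.mem_zpowers_iff.mp (hq b)
    rw [← zpow_add, ← zpow_add, add_comm]
  refine ⟨N.map P.subtype, ?_, ?_, ?_, ?_⟩
  · rintro _ ⟨y, -, rfl⟩
    exact y.2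
  · intro u hu v hv
    rw [hmemN₀ _ (P.mul_mem (P.mul_mem (P.mul_mem hu hv) (P.inv_mem hu)) (P.inv_mem hv))]
    have e : (⟨u * v * u⁻¹ * v⁻¹,
        P.mul_mem (P.mul_mem (P.mul_mem hu hv) (P.inv_mem hu)) (P.inv_mem hv)⟩ : P) =
        ⟨u, hu⟩ * ⟨v, hv⟩ * ⟨u, hu⟩⁻¹ * ⟨v, hv⟩⁻¹ := rfl
    rw [e, ← QuotientGroup.eq_one_iff, QuotientGroup.mk_mul, QuotientGroup.mk_mul,
      QuotientGroup.mk_mul, QuotientGroup.mk_inv, QuotientGroup.mk_inv,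
      hcomm ((⟨u, hu⟩ : P) : ↥P ⧸ N) ((⟨v, hv⟩ : P) : ↥P ⧸ N), mul_inv_cancel_right,
      mul_inv_cancel]
  · intro u hu n hn
    obtain ⟨y, hy, rfl⟩ := hn
    show u * (y : Ω) * u⁻¹ ∈ N.map P.subtype
    rw [hmemN₀ _ (P.mul_mem (P.mul_mem hu y.2) (P.inv_mem hu))]
    exact hNn.conj_mem y hy ⟨u, hu⟩
  · intro U hUP
    obtain ⟨U', hU'⟩ : ∃ U' : Subgroup ↥P, U' = U.subgroupOf P := ⟨_, rfl⟩
    have hU'mem : ∀ y : ↥P, y ∈ U' ↔ (y : Ω) ∈ U := by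
      intro y
      rw [hU', Subgroup.mem_subgroupOf]
    haveI : IsCyclic ↥(N ⊓ U') := Subgroup.isCyclic_of_le (inf_le_left : N ⊓ U' ≤ N)
    obtain ⟨ν, hν⟩ := IsCyclic.exists_generator (α := ↥(N ⊓ U'))
    obtain ⟨γ, hγ⟩ := IsCyclic.exists_generator (α := ↥(U'.map (QuotientGroup.mk' N)))
    obtain ⟨g', hg'U, hg'γ⟩ := γ.2
    refine ⟨g'.1, (hU'mem g').1 hg'U, ν.1.1, (hU'mem ν.1).1 ν.2.2, (hmemN₀ _ ν.1.2).2 ν.2.1,
      ?_, ?_⟩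
    · intro y hyU hyN
      have hyP := hUP hyU
      have h1 : (⟨y, hyP⟩ : P) ∈ N ⊓ U' :=
        ⟨(hmemN₀ y hyP).1 hyN, (hU'mem _).2 hyU⟩
      obtain ⟨j, hj⟩ := Subgroup.mem_zpowers_iff.mp (hν ⟨⟨y, hyP⟩, h1⟩)
      refine ⟨j, ?_⟩
      have h2 := congrArg (fun t : ↥(N ⊓ U') => ((t : P) : Ω)) hj
      simp only [Subgroup.coe_zpow] at h2
      exact h2.symm
    · intro u huU
      have huP := hUP huU
      have h1 : QuotientGroup.mk' N ⟨u, huP⟩ ∈ U'.map (QuotientGroup.mk' N) :=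
        ⟨⟨u, huP⟩, (hU'mem _).2 huU, rfl⟩
      obtain ⟨i, hi⟩ := Subgroup.mem_zpowers_iff.mp (hγ ⟨_, h1⟩)
      refine ⟨i, ?_⟩
      have h2 := congrArg Subtype.val hi
      rw [Subgroup.coe_zpow, ← hg'γ, ← map_zpow] at h2
      have h3 : (g' ^ i)⁻¹ * ⟨u, huP⟩ ∈ N := QuotientGroup.eq.1 h2
      rw [hmemN₀ _ (P.mul_mem (P.inv_mem (P.zpow_mem g'.2 i)) huP)]
      exact h3

theorem comm_of_meta_exp_p {H : Type*} [Group H] (p : ℕ) [Fact p.Prime] (g n : H)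
    (hg : g ^ p = 1) (hn : n ^ p = 1) (m : ℕ) (hm : g * n * g⁻¹ = n ^ m)
    (hgen : ∀ u : H, ∃ i j : ℤ, u = g ^ i * n ^ j) : ∀ u v : H, u * v = v * u := by
  have hk : ∀ k : ℕ, g ^ k * n * (g ^ k)⁻¹ = n ^ (m ^ k) := by
    intro k
    induction k with
    | zero => simp
    | succ k ih =>
      have e : g ^ (k + 1) * n * (g ^ (k + 1))⁻¹ = g * (g ^ k * n * (g ^ k)⁻¹) * g⁻¹ := by
        rw [pow_succ']
        group
      have e2 : g * n ^ (m ^ k) * g⁻¹ = (g * n * g⁻¹) ^ (m ^ k) := by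
        rw [conj_pow]
      rw [e, ih, e2, hm, ← pow_mul, ← pow_succ']
  have h1 := hk p
  rw [hg, one_mul, inv_one, mul_one] at h1
  have hF : m ^ p ≡ m [MOD p] := by
    rw [← ZMod.natCast_eq_natCast_iff]
    push_cast
    exact ZMod.pow_card _
  have h2 : n ^ (m ^ p) = n ^ m := by
    rw [pow_eq_pow_mod (m ^ p) hn, hF, ← pow_eq_pow_mod m hn]
  have hgn : Commute g n := by
    have h3 : g * n * g⁻¹ = n := by rw [hm, ← h2, ← h1]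
    exact mul_inv_eq_iff_eq_mul.1 h3
  intro u v
  obtain ⟨i, j, rfl⟩ := hgen u
  obtain ⟨i', j', rfl⟩ := hgen v
  have hu_g : Commute (g ^ i * n ^ j) g :=
    Commute.mul_left ((Commute.refl g).zpow_left i) (hgn.symm.zpow_left j)
  have hu_n : Commute (g ^ i * n ^ j) n :=
    Commute.mul_left (hgn.zpow_left i) ((Commute.refl n).zpow_left j)
  exact (Commute.mul_right (hu_g.zpow_right i') (hu_n.zpow_right j')).eq

end MetaA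

end Cfsg.Agent.Lib.Helper27
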