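import Mathlib
import Cfsg.Agent.Lib.Helper27.MetaA
import Cfsg.Agent.Lib.Helper18.PGroupFrat

set_option autoImplicit false

namespace Cfsg.Agent.Lib.Helper27

open Cfsg Cfsg.FusionSystem Cfsg.Agent.Lib.Helper26

section MetaPure

theorem pow_pow_prime_eq {G : Type*} [Monoid G] (p : ℕ) [Fact p.Prime] {n : G} (hn : n ^ p = 1)
    (m : ℕ) : n ^ (m ^ p) = n ^ m := by
  have hF : m ^ p ≡ m [MOD p] := by
    rw [← ZMod.natCast_eq_natCast_iff]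
    push_cast
    exact ZMod.pow_card _
  rw [pow_eq_pow_mod (m ^ p) hn, hF, ← pow_eq_pow_mod m hn]

theorem comm_twist3_add {A : Type*} [AddCommGroup A] (p : ℕ) (hp : p.Prime) (hp2 : p ≠ 2)
    (a b : A) (ha : p • a = 0) (hb : p • b = 0) (ha1 : ∀ k : ℕ, k • a = 0 → p ∣ k)
    (fx ρ : A →+ A) (t s j : ℕ) (hpN : p ∣ 2 + t * (s * j)) (ht : ¬ p ∣ t)
    (hxb : fx b = b + t • a)
    (hρa : ρ a = (1 + t * (s * j)) • a + (s * j) • b) (hρb : ρ b = b + t • a)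
    (r : A) (c : ℕ) (hxr : fx r = r) (hρr : ρ r = fx (r + (c * j) • b))
    (hρρ : ρ (ρ r) = r) : c • b = 0 := by
  have killa : ∀ k : ℕ, p ∣ k → k • a = 0 := by
    rintro k ⟨q, rfl⟩
    rw [mul_comm, mul_smul, ha, smul_zero]
  have killb : ∀ k : ℕ, p ∣ k → k • b = 0 := by
    rintro k ⟨q, rfl⟩
    rw [mul_comm, mul_smul, hb, smul_zero]
  have hA2 := killa _ hpN
  have hB2 := killb _ hpN
  have e1 : ρ r = r + (c * j) • b + (t * (c * j)) • a := by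
    rw [hρr, map_add, map_nsmul, hxr, hxb]
    module
  have e2 : ρ (ρ r) = r + (t * c * j) • a := by
    rw [e1, map_add, map_add, map_nsmul, map_nsmul, e1, hρb, hρa]
    linear_combination (norm := skip) ((t : ℤ) * c * j) • hA2 + ((c : ℤ) * j) • hB2
    module
  rw [e2] at hρρ
  have h3 : (t * c * j) • a = 0 := by simpa using hρρ
  have h4 := ha1 _ h3
  have hj : ¬ p ∣ j := by
    intro hd
    have h5 : p ∣ t * (s * j) := Dvd.dvd.mul_left (Dvd.dvd.mul_left hd s) t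
    have h7 : p ∣ (2 + t * (s * j)) - t * (s * j) := Nat.dvd_sub hpN h5
    rw [Nat.add_sub_cancel] at h7
    exact hp2 ((Nat.prime_dvd_prime_iff_eq hp Nat.prime_two).1 h7)
  have h6 : p ∣ c := by
    rcases (hp.dvd_mul.1 h4) with h | h
    · rcases (hp.dvd_mul.1 h) with h' | h'
      · exact absurd h' ht
      · exact h'
    · exact absurd h hj
  exact killb c h6

theorem comm_twist3 {A : Type*} [Group A] (hcomm : ∀ u v : A, u * v = v * u) (p : ℕ)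
    (hp : p.Prime) (hp2 : p ≠ 2)
    (a b : A) (ha : a ^ p = 1) (hb : b ^ p = 1) (ha1 : ∀ k : ℕ, a ^ k = 1 → p ∣ k)
    (fx ρ : A →* A) (t s j : ℕ) (hpN : p ∣ 2 + t * (s * j)) (ht : ¬ p ∣ t)
    (hxb : fx b = b * a ^ t)
    (hρa : ρ a = a ^ (1 + t * (s * j)) * b ^ (s * j)) (hρb : ρ b = b * a ^ t)
    (r : A) (c : ℕ) (hxr : fx r = r) (hρr : ρ r = fx (r * b ^ (c * j)))
    (hρρ : ρ (ρ r) = r) : b ^ c = 1 := by
  let _ : CommGroup A := { ‹Group A› with mul_comm := hcomm }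
  exact comm_twist3_add (A := Additive A) p hp hp2 (Additive.ofMul a) (Additive.ofMul b) ha hb ha1
    (MonoidHom.toAdditive fx) (MonoidHom.toAdditive ρ) t s j hpN ht hxb hρa hρb
    (Additive.ofMul r) c hxr hρr hρρ

theorem exists_ind {E : Type*} [Group E] (R₁ : Subgroup E) (g : MulAut E)
    (hg : ∀ d ∈ R₁, g d ∈ R₁) (hg' : ∀ d ∈ R₁, g⁻¹ d ∈ R₁) :
    ∃ f : (↥R₁ ⧸ frattini ↥R₁) →* (↥R₁ ⧸ frattini ↥R₁),
      ∀ r r' : ↥R₁, (r' : E) = g r →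
        f (r : ↥R₁ ⧸ frattini ↥R₁) = (r' : ↥R₁ ⧸ frattini ↥R₁) := by
  let res : ↥R₁ →* ↥R₁ :=
    ((g : E ≃* E).toMonoidHom.comp R₁.subtype).codRestrict R₁ (fun d => hg d d.2)
  have hsurj : Function.Surjective res := by
    intro r
    refine ⟨⟨g⁻¹ r, hg' r r.2⟩, Subtype.ext ?_⟩
    show g (g⁻¹ (r : E)) = r
    exact MulAut.apply_inv_self _ g r
  have hle : frattini ↥R₁ ≤ (frattini ↥R₁).comap res :=
    frattini_le_comap_frattini_of_surjective hsurj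
  refine ⟨QuotientGroup.map _ _ res hle, fun r r' hr' => ?_⟩
  have e : r' = res r := Subtype.ext hr'
  rw [e]
  rfl

theorem common_pgroup {E : Type*} [Group E] [Finite E] (p : ℕ) [Fact p.Prime]
    (hEp : IsPGroup p E) (R₁ : Subgroup E) (c c' : MulAut E)
    (hc0 : ∀ e, e⁻¹ * c e ∈ R₁) (hc0' : ∀ e, e⁻¹ * c' e ∈ R₁)
    (f f' : (↥R₁ ⧸ frattini ↥R₁) →* (↥R₁ ⧸ frattini ↥R₁))
    (hf : ∀ r r' : ↥R₁, (r' : E) = c r → f (r : ↥R₁ ⧸ frattini ↥R₁) = r')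
    (hf' : ∀ r r' : ↥R₁, (r' : E) = c' r → f' (r : ↥R₁ ⧸ frattini ↥R₁) = r')
    (u u' : ↥R₁ ⧸ frattini ↥R₁) (hu : f u = u) (hfu : ∀ v, ∃ n : ℕ, f v = v * u ^ n)
    (hu' : f' u' = u') (hfu' : ∀ v, ∃ n : ℕ, f' v = v * u' ^ n) (hcross : f u' = u') :
    ∃ K : Subgroup (MulAut E), IsPGroup p K ∧ c ∈ K ∧ c' ∈ K := by
  obtain ⟨W₂, hW₂⟩ : ∃ W₂ : Subgroup (↥R₁ ⧸ frattini ↥R₁), ∀ v, v ∈ W₂ ↔ f v = v :=
    ⟨f.eqLocus (MonoidHom.id _), fun v => Iff.rfl⟩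
  obtain ⟨W₃, hW₃⟩ : ∃ W₃ : Subgroup (↥R₁ ⧸ frattini ↥R₁), W₃ = Subgroup.zpowers u' :=
    ⟨_, rfl⟩
  have hW₃fix : ∀ v ∈ W₃, f v = v ∧ f' v = v := by
    intro v hv
    rw [hW₃] at hv
    obtain ⟨j, rfl⟩ := Subgroup.mem_zpowers_iff.mp hv
    rw [map_zpow, map_zpow, hcross, hu']
    exact ⟨rfl, rfl⟩
  have hW32 : W₃ ≤ W₂ := fun v hv => (hW₂ v).2 (hW₃fix v hv).1
  have hupow : ∀ n : ℕ, u ^ n ∈ W₂ := fun n => (hW₂ _).2 (by rw [map_pow, hu])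
  have hu'pow : ∀ n : ℕ, u' ^ n ∈ W₃ := fun n => by
    rw [hW₃]
    exact Subgroup.pow_mem _ (Subgroup.mem_zpowers u') n
  obtain ⟨C₂, hC₂⟩ : ∃ C₂ : Subgroup E, ∀ x : E, x ∈ C₂ ↔
      ∃ r : ↥R₁, (r : ↥R₁ ⧸ frattini ↥R₁) ∈ W₂ ∧ (r : E) = x :=
    ⟨(W₂.comap (QuotientGroup.mk' (frattini ↥R₁))).map R₁.subtype, fun x => by
      constructor
      · rintro ⟨r, hr, rfl⟩
        exact ⟨r, hr, rfl⟩
      · rintro ⟨r, hr, rfl⟩
        exact ⟨r, hr, rfl⟩⟩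
  obtain ⟨C₃, hC₃⟩ : ∃ C₃ : Subgroup E, ∀ x : E, x ∈ C₃ ↔
      ∃ r : ↥R₁, (r : ↥R₁ ⧸ frattini ↥R₁) ∈ W₃ ∧ (r : E) = x :=
    ⟨(W₃.comap (QuotientGroup.mk' (frattini ↥R₁))).map R₁.subtype, fun x => by
      constructor
      · rintro ⟨r, hr, rfl⟩
        exact ⟨r, hr, rfl⟩
      · rintro ⟨r, hr, rfl⟩
        exact ⟨r, hr, rfl⟩⟩
  have hΦmem : ∀ x : E, x ∈ (frattini ↥R₁).map R₁.subtype ↔
      ∃ r : ↥R₁, (r : ↥R₁ ⧸ frattini ↥R₁) = 1 ∧ (r : E) = x := by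
    intro x
    constructor
    · rintro ⟨r, hr, rfl⟩
      exact ⟨r, (QuotientGroup.eq_one_iff r).2 hr, rfl⟩
    · rintro ⟨r, hr, rfl⟩
      exact ⟨r, (QuotientGroup.eq_one_iff r).1 hr, rfl⟩
  have h21 : C₂ ≤ R₁ := by
    intro x hx
    obtain ⟨r, -, rfl⟩ := (hC₂ x).1 hx
    exact r.2
  have h32 : C₃ ≤ C₂ := by
    intro x hx
    obtain ⟨r, hr, rfl⟩ := (hC₃ x).1 hx
    exact (hC₂ _).2 ⟨r, hW32 hr, rfl⟩
  have hΦ3 : (frattini ↥R₁).map R₁.subtype ≤ C₃ := by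
    intro x hx
    obtain ⟨r, hr, rfl⟩ := (hΦmem x).1 hx
    exact (hC₃ _).2 ⟨r, by rw [hr]; exact one_mem _, rfl⟩
  obtain ⟨K, hKp, hK⟩ := exists_stabFrat p hEp R₁ C₂ C₃ h21 h32 hΦ3
  have gen : ∀ (d : MulAut E) (φ : (↥R₁ ⧸ frattini ↥R₁) →* (↥R₁ ⧸ frattini ↥R₁)),
      (∀ e, e⁻¹ * d e ∈ R₁) →
      (∀ r r' : ↥R₁, (r' : E) = d r → φ (r : ↥R₁ ⧸ frattini ↥R₁) = r') →
      ∀ r : ↥R₁, ∃ δ : ↥R₁, (δ : E) = (r : E)⁻¹ * d r ∧
        (δ : ↥R₁ ⧸ frattini ↥R₁) = (r : ↥R₁ ⧸ frattini ↥R₁)⁻¹ * φ r := by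
    intro d φ hd0 hφ r
    have hdr : d r ∈ R₁ := by
      have e : d (r : E) = r * ((r : E)⁻¹ * d r) := by group
      rw [e]
      exact R₁.mul_mem r.2 (hd0 r)
    refine ⟨r⁻¹ * ⟨d r, hdr⟩, rfl, ?_⟩
    rw [QuotientGroup.mk_mul, QuotientGroup.mk_inv, hφ r ⟨d r, hdr⟩ rfl]
  refine ⟨K, hKp, (hK c).2 ⟨hc0, ?_, ?_, ?_⟩, (hK c').2 ⟨hc0', ?_, ?_, ?_⟩⟩
  · intro x hx
    obtain ⟨δ, hδ, hδq⟩ := gen c f hc0 hf ⟨x, hx⟩
    obtain ⟨n, hn⟩ := hfu ((⟨x, hx⟩ : ↥R₁) : ↥R₁ ⧸ frattini ↥R₁)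
    rw [hC₂]
    refine ⟨δ, ?_, hδ⟩
    rw [hδq, hn, inv_mul_cancel_left]
    exact hupow n
  · intro x hx
    obtain ⟨r, hr, rfl⟩ := (hC₂ x).1 hx
    obtain ⟨δ, hδ, hδq⟩ := gen c f hc0 hf r
    rw [hC₃]
    refine ⟨δ, ?_, hδ⟩
    rw [hδq, (hW₂ _).1 hr, inv_mul_cancel]
    exact one_mem _
  · intro x hx
    obtain ⟨r, hr, rfl⟩ := (hC₃ x).1 hx
    obtain ⟨δ, hδ, hδq⟩ := gen c f hc0 hf r
    rw [hΦmem]
    refine ⟨δ, ?_, hδ⟩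
    rw [hδq, (hW₃fix _ hr).1, inv_mul_cancel]
  · intro x hx
    obtain ⟨δ, hδ, hδq⟩ := gen c' f' hc0' hf' ⟨x, hx⟩
    obtain ⟨n, hn⟩ := hfu' ((⟨x, hx⟩ : ↥R₁) : ↥R₁ ⧸ frattini ↥R₁)
    rw [hC₂]
    refine ⟨δ, ?_, hδ⟩
    rw [hδq, hn, inv_mul_cancel_left]
    exact hW32 (hu'pow n)
  · intro x hx
    obtain ⟨r, hr, rfl⟩ := (hC₂ x).1 hx
    obtain ⟨δ, hδ, hδq⟩ := gen c' f' hc0' hf' r
    obtain ⟨n, hn⟩ := hfu' (r : ↥R₁ ⧸ frattini ↥R₁)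
    rw [hC₃]
    refine ⟨δ, ?_, hδ⟩
    rw [hδq, hn, inv_mul_cancel_left]
    exact hu'pow n
  · intro x hx
    obtain ⟨r, hr, rfl⟩ := (hC₃ x).1 hx
    obtain ⟨δ, hδ, hδq⟩ := gen c' f' hc0' hf' r
    rw [hΦmem]
    refine ⟨δ, ?_, hδ⟩
    rw [hδq, (hW₃fix _ hr).2, inv_mul_cancel]

end MetaPure

section MetaFus

variable {Ω : Type*} [Group Ω] {S : Subgroup Ω}

theorem mem_autS_of_normal_pgroup [Finite S] (p : ℕ) [Fact p.Prime]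
    (F : FusionSystem S) {P : Subgroup Ω} (hPa : F.IsFullyAutomized p P)
    (K : Subgroup (F.autGroup P)) (hKp : IsPGroup p K)
    (hconj : ∀ r : F.autGroup P, (r : MulAut P) ∈ autInducedBy S P → ∀ c ∈ K, r * c * r⁻¹ ∈ K)
    (k : F.autGroup P) (hk : k ∈ K) : (k : MulAut P) ∈ autInducedBy S P := by
  obtain ⟨hPS, R, hR⟩ := hPa
  have hnorm : (R : Subgroup (F.autGroup P)) ≤ Subgroup.normalizer (K : Set (F.autGroup P)) := by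
    intro r hr
    rw [hR, Subgroup.mem_subgroupOf] at hr
    rw [Subgroup.mem_normalizer_iff]
    intro c
    constructor
    · exact hconj r hr c
    · intro h
      have h2 := hconj r⁻¹ (Subgroup.inv_mem _ hr) _ h
      have e : r⁻¹ * (r * c * r⁻¹) * r⁻¹⁻¹ = c := by group
      rw [e] at h2
      exact h2
  have hsup : IsPGroup p ↥((R : Subgroup (F.autGroup P)) ⊔ K) :=
    IsPGroup.to_sup_of_normal_right' R.isPGroup' hKp hnorm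
  have hmax := R.3 hsup le_sup_left
  have hkR : k ∈ (R : Subgroup (F.autGroup P)) := by
    rw [← hmax]
    exact Subgroup.mem_sup_right hk
  rw [hR, Subgroup.mem_subgroupOf] at hkR
  exact hkR

/-- For an essential subgroup `E` and an `Aut_F(E)`-invariant subgroup `R₁`, an `F`-automorphism
acting trivially on `E/R₁` and on `R₁/Φ(R₁)` is inner. -/
theorem essential_stabFrat [Finite S] (p : ℕ) [Fact p.Prime] (hS : IsPGroup p S)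
    (F : FusionSystem S) (hF : F.IsSaturated p) {E : Subgroup Ω} (hE : F.IsEssential p E)
    (R₁ : Subgroup E) (hR : ∀ g ∈ F.autGroup E, ∀ d ∈ R₁, g d ∈ R₁)
    (hΦ : ∀ g ∈ F.autGroup E, ∀ d ∈ (frattini ↥R₁).map R₁.subtype,
      g d ∈ (frattini ↥R₁).map R₁.subtype)
    (k : MulAut E) (hk : k ∈ F.autGroup E) (hk0 : ∀ e : E, e⁻¹ * k e ∈ R₁)
    (hk1 : ∀ r ∈ R₁, r⁻¹ * k r ∈ (frattini ↥R₁).map R₁.subtype) :
    k ∈ autInducedBy S E ∧ k ∈ Inn E := by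
  have hES : E ≤ S := hE.1.1
  have hEfin : Finite E := finite_of_le hES
  have hEp : IsPGroup p E := hS.to_le hES
  have hPa : F.IsFullyAutomized p E := (((Cfsg.Agent.S5077.result p hS F).1 hF).1 E hE.2.1).2
  have hΦle : (frattini ↥R₁).map R₁.subtype ≤ R₁ := by
    rintro _ ⟨y, -, rfl⟩
    exact y.2
  obtain ⟨K₀, hK₀p, hK₀⟩ := exists_stabFrat p hEp R₁ _ _ hΦle le_rfl le_rfl
  have hcond : ∀ c ∈ F.autGroup E, (∀ e : E, e⁻¹ * c e ∈ R₁) →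
      (∀ r ∈ R₁, r⁻¹ * c r ∈ (frattini ↥R₁).map R₁.subtype) → c ∈ K₀ := by
    intro c hc h0 h1
    rw [hK₀]
    refine ⟨h0, h1, fun x hx => ?_, fun x hx => ?_⟩
    · exact Subgroup.mul_mem _ (Subgroup.inv_mem _ hx) (hΦ c hc x hx)
    · exact Subgroup.mul_mem _ (Subgroup.inv_mem _ hx) (hΦ c hc x hx)
  have hconjA : ∀ g ∈ F.autGroup E, ∀ c ∈ F.autGroup E, c ∈ K₀ → g * c * g⁻¹ ∈ K₀ := by
    intro g hg c hc hcK
    obtain ⟨h0, h1, -, -⟩ := (hK₀ c).1 hcK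
    have hginv : g⁻¹ ∈ F.autGroup E := inv_mem hg
    apply hcond _ (mul_mem (mul_mem hg hc) hginv)
    · intro e
      have h3 := hR g hg _ (h0 (g⁻¹ e))
      rw [map_mul, map_inv, MulAut.apply_inv_self] at h3
      exact h3
    · intro r hr
      have h3 := hΦ g hg _ (h1 (g⁻¹ r) (hR _ hginv r hr))
      rw [map_mul, map_inv, MulAut.apply_inv_self] at h3
      exact h3
  have hKp : IsPGroup p (K₀.subgroupOf (F.autGroup E)) := hK₀p.comap_subtype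
  have hS1 : ∀ c ∈ F.autGroup E, c ∈ K₀ → c ∈ autInducedBy S E := by
    intro c hc hcK
    exact mem_autS_of_normal_pgroup p F hPa (K₀.subgroupOf (F.autGroup E)) hKp
      (fun r _ c' hc' => by
        rw [Subgroup.mem_subgroupOf] at hc' ⊢
        exact hconjA r r.2 c' c'.2 hc') ⟨c, hc⟩ (Subgroup.mem_subgroupOf.2 hcK)
  have hkK : k ∈ K₀ := hcond k hk hk0 hk1
  have hkS := hS1 k hk hkK
  refine ⟨hkS, ?_⟩
  obtain ⟨g, hgG, hg⟩ := exists_twist_of_essential p hS F hE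
  exact hg k hkS (hS1 _ (mul_mem (mul_mem hgG hk) (inv_mem hgG)) (hconjA g hgG k hk hkK))

end MetaFus

end Cfsg.Agent.Lib.Helper27
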