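import Mathlib
import Cfsg.Agent.Lib.Helper27.MetaB
import Cfsg.Agent.Lib.Helper27.SCExtraD

set_option autoImplicit false

namespace Cfsg.Agent.Lib.Helper27

open Cfsg

section MetaPure2

theorem twist_neg_add {A : Type*} [AddCommGroup A] (p : ℕ) (hp : p.Prime)
    (a b γ : A) (hγ : p • γ = 0) (ha : p • a = 0) (hb : p • b = 0) (fx ρ : A →+ A)
    (t m i j : ℕ) (hpN : p ∣ 2 + t * m) (hxa : fx a = a)
    (hbγ : b = i • γ + j • a) (hxb : fx b ≠ b)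
    (hρa : ρ a = (1 + t * m) • a + m • b) (hρb : ρ b = b + t • a)
    (hgen : ∀ v : A, ∃ i' j' : ℕ, v = i' • γ + j' • a) : ∀ v, ρ (ρ v) + v = 0 := by
  have killa : ∀ k : ℕ, p ∣ k → k • a = 0 := by
    rintro k ⟨c, rfl⟩
    rw [mul_comm, mul_smul, ha, smul_zero]
  have killb : ∀ k : ℕ, p ∣ k → k • b = 0 := by
    rintro k ⟨c, rfl⟩
    rw [mul_comm, mul_smul, hb, smul_zero]
  have killg : ∀ k : ℕ, p ∣ k → k • γ = 0 := by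
    rintro k ⟨c, rfl⟩
    rw [mul_comm, mul_smul, hγ, smul_zero]
  have hA2 := killa _ hpN
  have hB2 := killb _ hpN
  have h1 : ρ (ρ a) + a = 0 := by
    rw [hρa, map_add, map_nsmul, map_nsmul, hρa, hρb]
    linear_combination (norm := skip) ((1 : ℤ) + t * m) • hA2 + (m : ℤ) • hB2
    module
  have h2 : ρ (ρ b) + b = 0 := by
    rw [hρb, map_add, map_nsmul, hρa, hρb]
    linear_combination (norm := skip) (t : ℤ) • hA2 + hB2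
    module
  have hi : ¬ p ∣ i := by
    intro hd
    apply hxb
    rw [hbγ, killg i hd, zero_add, map_nsmul, hxa]
  obtain ⟨β, hβ⟩ := exists_mul_add_dvd p hp i hi 1
  have h3 : i • (ρ (ρ γ) + γ) = 0 := by
    have e1 : i • γ = b - j • a := by rw [hbγ]; abel
    have e2 : i • (ρ (ρ γ) + γ) = ρ (ρ (i • γ)) + i • γ := by
      rw [map_nsmul, map_nsmul, smul_add]
    rw [e2, e1, map_sub, map_sub, map_nsmul, map_nsmul]
    linear_combination (norm := skip) h2 - (j : ℤ) • h1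
    module
  have h4 : p • (ρ (ρ γ) + γ) = 0 := by
    rw [smul_add, ← map_nsmul, ← map_nsmul, hγ, map_zero, map_zero, add_zero]
  have h5 : (1 + i * β) • (ρ (ρ γ) + γ) = 0 := by
    obtain ⟨c, hc⟩ := hβ
    rw [hc, mul_comm, mul_smul, h4, smul_zero]
  have h6 : ρ (ρ γ) + γ = 0 := by
    linear_combination (norm := skip) h5 - (β : ℤ) • h3
    module
  intro v
  obtain ⟨i', j', rfl⟩ := hgen v
  simp only [map_add, map_nsmul]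
  linear_combination (norm := skip) (i' : ℤ) • h6 + (j' : ℤ) • h1
  module

theorem twist_neg {A : Type*} [Group A] (hcomm : ∀ u v : A, u * v = v * u) (p : ℕ)
    (hp : p.Prime)
    (a b γ : A) (hγ : γ ^ p = 1) (ha : a ^ p = 1) (hb : b ^ p = 1) (fx ρ : A →* A)
    (t m i j : ℕ) (hpN : p ∣ 2 + t * m) (hxa : fx a = a)
    (hbγ : b = γ ^ i * a ^ j) (hxb : fx b ≠ b)
    (hρa : ρ a = a ^ (1 + t * m) * b ^ m) (hρb : ρ b = b * a ^ t)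
    (hgen : ∀ v : A, ∃ i' j' : ℕ, v = γ ^ i' * a ^ j') : ∀ v, ρ (ρ v) * v = 1 := by
  let _ : CommGroup A := { ‹Group A› with mul_comm := hcomm }
  exact twist_neg_add (A := Additive A) p hp (Additive.ofMul a) (Additive.ofMul b)
    (Additive.ofMul γ) hγ ha hb
    (MonoidHom.toAdditive fx) (MonoidHom.toAdditive ρ) t m i j hpN hxa hbγ hxb hρa hρb hgen

/-- The final group-theoretic step: a metacyclic group has no section which is nonabelian of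
exponent `p` and order `p^3`. -/
theorem meta_final {Ω : Type*} [Group Ω] (p : ℕ) [Fact p.Prime] (hp2 : p ≠ 2) (P : Subgroup Ω)
    (hm : Cfsg.IsMetacyclic ↥P) (R Φ : Subgroup Ω) (x a₀ : Ω) (hxP : x ∈ P) (hRP : R ≤ P)
    (hΦR : Φ ≤ R)
    (hxR : ∀ r ∈ R, x * r * x⁻¹ ∈ R) (hxR' : ∀ r ∈ R, x⁻¹ * r * x ∈ R)
    (hxΦ : ∀ r ∈ Φ, x * r * x⁻¹ ∈ Φ) (hxΦ' : ∀ r ∈ Φ, x⁻¹ * r * x ∈ Φ)
    (hRΦ : ∀ r ∈ R, ∀ n ∈ Φ, r * n * r⁻¹ ∈ Φ)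
    (hRp : ∀ r ∈ R, r ^ p ∈ Φ) (hRc : ∀ r ∈ R, ∀ s ∈ R, (s * r)⁻¹ * (r * s) ∈ Φ)
    (ha₀ : a₀ ∈ R) (hxa : a₀⁻¹ * (x * a₀ * x⁻¹) ∈ Φ)
    (hxr : ∀ r ∈ R, ∃ n : ℕ, (r * a₀ ^ n)⁻¹ * (x * r * x⁻¹) ∈ Φ) :
    (∀ r ∈ R, (x ^ p)⁻¹ * (r * x) ^ p ∈ Φ) ∧
      (x ^ p ∈ Φ → ∀ r ∈ R, r⁻¹ * (x * r * x⁻¹) ∈ Φ) := by
  have hp : p.Prime := Fact.out
  have hxNR : x ∈ Subgroup.normalizer (R : Set Ω) := by
    rw [Subgroup.mem_normalizer_iff]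
    intro g
    refine ⟨hxR g, fun h => ?_⟩
    have h1 := hxR' _ h
    have e : x⁻¹ * (x * g * x⁻¹) * x = g := by group
    rw [e] at h1
    exact h1
  have hxNΦ : x ∈ Subgroup.normalizer (Φ : Set Ω) := by
    rw [Subgroup.mem_normalizer_iff]
    intro g
    refine ⟨hxΦ g, fun h => ?_⟩
    have h1 := hxΦ' _ h
    have e : x⁻¹ * (x * g * x⁻¹) * x = g := by group
    rw [e] at h1
    exact h1
  have hRNΦ : R ≤ Subgroup.normalizer (Φ : Set Ω) := by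
    intro r hr
    rw [Subgroup.mem_normalizer_iff]
    intro g
    refine ⟨hRΦ r hr g, fun h => ?_⟩
    have h1 := hRΦ r⁻¹ (R.inv_mem hr) _ h
    have e : r⁻¹ * (r * g * r⁻¹) * r⁻¹⁻¹ = g := by group
    rw [e] at h1
    exact h1
  obtain ⟨U, hU⟩ : ∃ U : Subgroup Ω, ∀ u, u ∈ U ↔ ∃ r ∈ R, ∃ k : ℤ, u = r * x ^ k :=
    ⟨{ carrier := {u | ∃ r ∈ R, ∃ k : ℤ, u = r * x ^ k}
       one_mem' := ⟨1, R.one_mem, 0, by simp⟩
       mul_mem' := by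
         rintro _ _ ⟨r, hr, k, rfl⟩ ⟨r', hr', l, rfl⟩
         refine ⟨r * (x ^ k * r' * (x ^ k)⁻¹), R.mul_mem hr
           ((Subgroup.mem_normalizer_iff.1 (zpow_mem hxNR k) r').1 hr'), k + l, ?_⟩
         rw [zpow_add]
         group
       inv_mem' := by
         rintro _ ⟨r, hr, k, rfl⟩
         refine ⟨x ^ (-k) * r⁻¹ * (x ^ (-k))⁻¹,
           (Subgroup.mem_normalizer_iff.1 (zpow_mem hxNR (-k)) r⁻¹).1 (R.inv_mem hr), -k, ?_⟩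
         group }, fun u => Iff.rfl⟩
  have hRU : R ≤ U := fun r hr => (hU r).2 ⟨r, hr, 0, by simp⟩
  have hxU : x ∈ U := (hU x).2 ⟨1, R.one_mem, 1, by simp⟩
  have hUP : U ≤ P := by
    intro u hu
    obtain ⟨r, hr, k, rfl⟩ := (hU u).1 hu
    exact P.mul_mem (hRP hr) (zpow_mem hxP k)
  have hUN : U ≤ Subgroup.normalizer (Φ : Set Ω) := by
    intro u hu
    obtain ⟨r, hr, k, rfl⟩ := (hU u).1 hu
    exact mul_mem (hRNΦ hr) (zpow_mem hxNΦ k)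
  haveI hnorm : (Φ.subgroupOf U).Normal := ⟨fun n hn u => by
    rw [Subgroup.mem_subgroupOf] at hn ⊢
    exact (Subgroup.mem_normalizer_iff.1 (hUN u.2) n).1 hn⟩
  obtain ⟨q, hq1, hqs⟩ : ∃ q : ↥U →* ↥U ⧸ Φ.subgroupOf U,
      (∀ u : U, q u = 1 ↔ (u : Ω) ∈ Φ) ∧ Function.Surjective q :=
    ⟨QuotientGroup.mk' _, fun u => (QuotientGroup.eq_one_iff u).trans Subgroup.mem_subgroupOf,
      QuotientGroup.mk'_surjective _⟩
  have hqeq : ∀ u v : U, (v : Ω)⁻¹ * u ∈ Φ → q u = q v := by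
    intro u v h
    have h1 : q (v⁻¹ * u) = 1 := (hq1 _).2 h
    rw [map_mul, map_inv, inv_mul_eq_one] at h1
    exact h1.symm
  have hqeq' : ∀ u v : U, q u = q v → (v : Ω)⁻¹ * u ∈ Φ := by
    intro u v h
    exact (hq1 (v⁻¹ * u)).1 (by rw [map_mul, map_inv, h, inv_mul_cancel])
  obtain ⟨X, hX⟩ : ∃ X : ↥U ⧸ Φ.subgroupOf U, X = q ⟨x, hxU⟩ := ⟨_, rfl⟩
  obtain ⟨A₀, hA₀⟩ : ∃ A₀ : ↥U ⧸ Φ.subgroupOf U, A₀ = q ⟨a₀, hRU ha₀⟩ := ⟨_, rfl⟩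
  have hrp : ∀ (r : Ω) (hr : r ∈ R), (q ⟨r, hRU hr⟩) ^ p = 1 := by
    intro r hr
    rw [← map_pow, hq1]
    exact hRp r hr
  have hA₀p : A₀ ^ p = 1 := by rw [hA₀]; exact hrp a₀ ha₀
  have hcomm : ∀ (r : Ω) (hr : r ∈ R) (s : Ω) (hs : s ∈ R),
      q ⟨r, hRU hr⟩ * q ⟨s, hRU hs⟩ = q ⟨s, hRU hs⟩ * q ⟨r, hRU hr⟩ := by
    intro r hr s hs
    rw [← map_mul, ← map_mul]
    exact hqeq _ _ (hRc r hr s hs)
  have hXA : X * A₀ * X⁻¹ = A₀ := by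
    rw [hX, hA₀, ← map_inv, ← map_mul, ← map_mul]
    exact hqeq _ _ hxa
  have hXr : ∀ (r : Ω) (hr : r ∈ R), ∃ n : ℕ, X * q ⟨r, hRU hr⟩ * X⁻¹ = q ⟨r, hRU hr⟩ * A₀ ^ n := by
    intro r hr
    obtain ⟨n, hn⟩ := hxr r hr
    refine ⟨n, ?_⟩
    rw [hX, hA₀, ← map_inv, ← map_mul, ← map_mul, ← map_pow, ← map_mul]
    exact hqeq _ _ hn
  have hXn : ∀ n : ℕ, X ^ n * A₀ * (X ^ n)⁻¹ = A₀ ∧ ∀ (r : Ω) (hr : r ∈ R), ∃ n' : ℕ,
      X ^ n * q ⟨r, hRU hr⟩ * (X ^ n)⁻¹ = q ⟨r, hRU hr⟩ * A₀ ^ n' := by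
    intro n
    induction n with
    | zero => exact ⟨by simp, fun r hr => ⟨0, by simp⟩⟩
    | succ n ih =>
      have e : ∀ w : ↥U ⧸ Φ.subgroupOf U,
          X ^ (n + 1) * w * (X ^ (n + 1))⁻¹ = X * (X ^ n * w * (X ^ n)⁻¹) * X⁻¹ := by
        intro w
        rw [pow_succ']
        group
      refine ⟨by rw [e, ih.1, hXA], fun r hr => ?_⟩
      obtain ⟨n', hn'⟩ := ih.2 r hr
      obtain ⟨n'', hn''⟩ := hXr r hr
      refine ⟨n'' + n', ?_⟩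
      have e2 : X * (q ⟨r, hRU hr⟩ * A₀ ^ n') * X⁻¹ =
          (X * q ⟨r, hRU hr⟩ * X⁻¹) * (X * A₀ * X⁻¹) ^ n' := by
        rw [conj_pow]
        group
      rw [e, hn', e2, hn'', hXA, mul_assoc, ← pow_add]
  have hchoose : p ∣ p.choose 2 :=
    hp.dvd_choose_self (by norm_num) (by have := hp.two_le; omega)
  have hexp : ∀ (r : Ω) (hr : r ∈ R) (n : ℕ),
      (q ⟨r, hRU hr⟩ * X ^ n) ^ p = (X ^ n) ^ p := by
    intro r hr n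
    obtain ⟨hY, hYr⟩ := hXn n
    obtain ⟨n', hn'⟩ := hYr r hr
    have hcY : A₀ ^ n' * X ^ n = X ^ n * A₀ ^ n' := by
      have h1 : Commute A₀ (X ^ n) := by
        show A₀ * X ^ n = X ^ n * A₀
        conv_lhs => rw [← hY]
        group
      exact (h1.pow_left n').eq
    have hcb : A₀ ^ n' * q ⟨r, hRU hr⟩ = q ⟨r, hRU hr⟩ * A₀ ^ n' := by
      have h1 : Commute A₀ (q ⟨r, hRU hr⟩) := by
        show A₀ * q ⟨r, hRU hr⟩ = q ⟨r, hRU hr⟩ * A₀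
        rw [hA₀]
        exact hcomm a₀ ha₀ r hr
      exact (h1.pow_left n').eq
    have hc : X ^ n * q ⟨r, hRU hr⟩ = q ⟨r, hRU hr⟩ * X ^ n * A₀ ^ n' := by
      calc X ^ n * q ⟨r, hRU hr⟩ = (X ^ n * q ⟨r, hRU hr⟩ * (X ^ n)⁻¹) * X ^ n := by group
        _ = q ⟨r, hRU hr⟩ * (A₀ ^ n' * X ^ n) := by rw [hn', mul_assoc]
        _ = q ⟨r, hRU hr⟩ * X ^ n * A₀ ^ n' := by rw [hcY, mul_assoc]
    have h1 := mul_pow_of_central_comm (q ⟨r, hRU hr⟩) (X ^ n) (A₀ ^ n') hc hcb hcY p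
    have h2 : (A₀ ^ n') ^ p.choose 2 = 1 := by
      obtain ⟨c, hc⟩ := hchoose
      rw [← pow_mul, hc, mul_comm n', mul_assoc, pow_mul, hA₀p, one_pow]
    rw [h1, h2, hrp r hr, one_mul, mul_one]
  constructor
  · intro r hr
    have h1 := hexp r hr 1
    rw [pow_one, hX, ← map_mul, ← map_pow, ← map_pow] at h1
    exact hqeq' _ _ h1
  intro hxp r hr
  have hXp : X ^ p = 1 := by
    rw [hX, ← map_pow, hq1]
    exact hxp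
  have hall : ∀ w : ↥U ⧸ Φ.subgroupOf U, w ^ p = 1 := by
    intro w
    obtain ⟨u, rfl⟩ := hqs w
    obtain ⟨r, hr, k, hk⟩ := (hU u).1 u.2
    have e : u = ⟨r, hRU hr⟩ * ⟨x, hxU⟩ ^ k := Subtype.ext (by rw [hk]; rfl)
    obtain ⟨n, hn⟩ := zpow_eq_pow_of_pow_eq_one hp.pos hXp k
    rw [e, map_mul, map_zpow, ← hX, hn, hexp r hr n, ← pow_mul, mul_comm, pow_mul, hXp, one_pow]
  obtain ⟨N₀, hN₀P, hN₀c, hN₀n, hgens⟩ := meta_gens P hm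
  obtain ⟨g₁, hg₁U, n₁, hn₁U, hn₁N, hcyc, hcos⟩ := hgens U hUP
  have hconj : ∃ m : ℕ, q ⟨g₁, hg₁U⟩ * q ⟨n₁, hn₁U⟩ * (q ⟨g₁, hg₁U⟩)⁻¹ = (q ⟨n₁, hn₁U⟩) ^ m := by
    obtain ⟨j, hj⟩ := hcyc (g₁ * n₁ * g₁⁻¹) (U.mul_mem (U.mul_mem hg₁U hn₁U) (U.inv_mem hg₁U))
      (hN₀n g₁ (hUP hg₁U) n₁ hn₁N)
    obtain ⟨m, hm'⟩ := zpow_eq_pow_of_pow_eq_one hp.pos (hall (q ⟨n₁, hn₁U⟩)) j
    refine ⟨m, ?_⟩
    rw [← hm', ← map_inv, ← map_mul, ← map_mul, ← map_zpow]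
    congr 1
    exact Subtype.ext hj
  obtain ⟨m, hm'⟩ := hconj
  have hgen : ∀ w : ↥U ⧸ Φ.subgroupOf U, ∃ i j : ℤ,
      w = (q ⟨g₁, hg₁U⟩) ^ i * (q ⟨n₁, hn₁U⟩) ^ j := by
    intro w
    obtain ⟨u, rfl⟩ := hqs w
    obtain ⟨i, hi⟩ := hcos u u.2
    obtain ⟨j, hj⟩ := hcyc _ (U.mul_mem (U.inv_mem (zpow_mem hg₁U i)) u.2) hi
    refine ⟨i, j, ?_⟩
    rw [← map_zpow, ← map_zpow, ← map_mul]
    congr 1
    apply Subtype.ext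
    show (u : Ω) = g₁ ^ i * n₁ ^ j
    rw [← hj]
    group
  have hab := comm_of_meta_exp_p p (q ⟨g₁, hg₁U⟩) (q ⟨n₁, hn₁U⟩) (hall _) (hall _) m hm' hgen
  have h1 : X * q ⟨r, hRU hr⟩ * X⁻¹ = q ⟨r, hRU hr⟩ := by
    rw [hab X, mul_inv_cancel_right]
  rw [hX, ← map_inv, ← map_mul, ← map_mul] at h1
  exact hqeq' _ _ h1

end MetaPure2

end Cfsg.Agent.Lib.Helper27
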