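import Mathlib
import Cfsg.Agent.Lib.Helper27.MetaC
import Cfsg.Agent.Lib.Helper27.SCExtraA
import Cfsg.Agent.Lib.Helper27.ExtraEssA
import Cfsg.Agent.Lib.Helper27.Radical

set_option autoImplicit false

namespace Cfsg.Agent.Lib.Helper27

open Cfsg Cfsg.FusionSystem Cfsg.Agent.Lib.Helper26
open scoped commutatorElement

section MetaMain

variable {Ω : Type*} [Group Ω] {S : Subgroup Ω}

set_option maxHeartbeats 1600000 in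
/-- For odd `p`, a strongly closed metacyclic subgroup is contained in every essential
subgroup. -/
theorem sc_meta_false [Finite S] (p : ℕ) [Fact p.Prime] (hS : IsPGroup p S) (F : FusionSystem S)
    (hF : F.IsSaturated p) (hodd : p ≠ 2)
    (P : Subgroup Ω) (hP : F.StronglyClosed P) (hm : Cfsg.IsMetacyclic ↥P)
    (E : Subgroup Ω) (hE : F.IsEssential p E) (hPE : ¬ P ≤ E) : False := by
  have hp : p.Prime := Fact.out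
  have hES : E ≤ S := hE.1.1
  have hPS : P ≤ S := hP.1
  have hEfin : Finite E := finite_of_le hES
  have hEp : IsPGroup p E := hS.to_le hES
  have hcen : centralizerIn S E ≤ E := hE.1.2 E (Fusion.isConj_refl F hES)
  have hPn := normal_of_stronglyClosed F hP
  have hPconj : ∀ s ∈ S, ∀ a ∈ P, s * a * s⁻¹ ∈ P := by
    intro s hs a ha
    exact (Subgroup.mem_normalizer_iff.mp (hPn hs) a).mp ha
  obtain ⟨y₀, hy₀P, hy₀N, hy₀E⟩ := sc_normalizer_elt p hS F P hP E hES hPE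
  obtain ⟨x, hxP, hxN, hxE, hxpE⟩ : ∃ x ∈ P, x ∈ Subgroup.normalizer (E : Set Ω) ∧ x ∉ E ∧
      x ^ p ∈ E := by
    have hex : ∃ m : ℕ, y₀ ^ (p ^ m) ∈ E := by
      obtain ⟨k, hk⟩ := hS ⟨y₀, hPS hy₀P⟩
      refine ⟨k, ?_⟩
      have h1 : y₀ ^ (p ^ k) = 1 := congrArg Subtype.val hk
      rw [h1]
      exact E.one_mem
    classical
    have hmin := @Nat.find_min _ _ hex
    have hspec := Nat.find_spec hex
    have hm0 : Nat.find hex ≠ 0 := by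
      intro h0
      rw [h0, pow_zero, pow_one] at hspec
      exact hy₀E hspec
    obtain ⟨m, hm'⟩ := Nat.exists_eq_succ_of_ne_zero hm0
    have h2 := hspec
    rw [hm'] at h2
    refine ⟨y₀ ^ (p ^ m), P.pow_mem hy₀P _, pow_mem hy₀N _, ?_, ?_⟩
    · exact hmin (by rw [hm']; exact Nat.lt_succ_self m)
    · rw [← pow_mul, ← pow_succ]
      exact h2
  have hxS : x ∈ S := hPS hxP
  obtain ⟨R₁, hR₁⟩ : ∃ R₁ : Subgroup E, R₁ = P.subgroupOf E := ⟨_, rfl⟩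
  have hR₁mem : ∀ e : E, e ∈ R₁ ↔ (e : Ω) ∈ P := by
    intro e
    rw [hR₁, Subgroup.mem_subgroupOf]
  have hRinv' : ∀ g ∈ F.autGroup E, ∀ e ∈ R₁, g e ∈ R₁ := by
    intro g hg e he
    rw [hR₁mem] at he ⊢
    exact apply_mem_of_stronglyClosed F hP hES hg e he
  obtain ⟨cx, hcx⟩ : ∃ cx : MulAut E, ∀ e : E, ((cx e : E) : Ω) = x * e * x⁻¹ :=
    ⟨E.normalizerMonoidHom ⟨x, hxN⟩, fun e => rfl⟩
  have hcxS : cx ∈ autInducedBy S E := Fusion.mem_autInducedBy_iff.2 ⟨x, hxS, hcx⟩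
  have hcxF : cx ∈ F.autGroup E := Fusion.autInducedBy_le_autGroup F hES hcxS
  have hcxinv : cx⁻¹ ∈ F.autGroup E := inv_mem hcxF
  have hcxInn : cx ∉ Inn E := by
    intro hinn
    obtain ⟨y, hy⟩ := hinn
    apply hxE
    refine mem_of_conj_eq_inner hES hcen hxS y (fun e => ?_)
    rw [← hcx e, ← hy]
    rfl
  have hcxi : ∀ e : E, ((cx⁻¹ e : E) : Ω) = x⁻¹ * e * x := by
    intro e
    have h3 := hcx (cx⁻¹ e)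
    rw [MulAut.apply_inv_self] at h3
    rw [h3]
    group
  have hcxq : ∀ e : E, e⁻¹ * cx e ∈ R₁ := by
    intro e
    rw [hR₁mem]
    show (e : Ω)⁻¹ * ((cx e : E) : Ω) ∈ P
    rw [hcx]
    have h1 := hPconj (e : Ω)⁻¹ (S.inv_mem (hES e.2)) x hxP
    have e1 : (e : Ω)⁻¹ * (x * e * x⁻¹) = ((e : Ω)⁻¹ * x * ((e : Ω)⁻¹)⁻¹) * x⁻¹ := by group
    rw [e1]
    exact P.mul_mem h1 (P.inv_mem hxP)
  have hcxiq : ∀ e : E, e⁻¹ * cx⁻¹ e ∈ R₁ := by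
    intro e
    have h1 := R₁.inv_mem (hcxq (cx⁻¹ e))
    rw [MulAut.apply_inv_self] at h1
    have e1 : ((cx⁻¹ e)⁻¹ * e)⁻¹ = e⁻¹ * cx⁻¹ e := by group
    rw [e1] at h1
    exact h1
  -- the Frattini quotient of `R₁`
  have hR₁p : IsPGroup p ↥R₁ := hEp.to_subgroup R₁
  haveI hnil : Group.IsNilpotent ↥R₁ := hR₁p.isNilpotent
  have hVcomm : ∀ u v : ↥R₁ ⧸ frattini ↥R₁, u * v = v * u := by
    intro u v
    obtain ⟨u, rfl⟩ := QuotientGroup.mk_surjective u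
    obtain ⟨v, rfl⟩ := QuotientGroup.mk_surjective v
    rw [← QuotientGroup.mk_mul, ← QuotientGroup.mk_mul, QuotientGroup.eq]
    apply Cfsg.Agent.Lib.Helper18.commutator_le_frattini_of_isNilpotent
    have e : (u * v)⁻¹ * (v * u) = ⁅v⁻¹, u⁻¹⁆ := by
      rw [commutatorElement_def]
      group
    rw [e, commutator_def]
    exact Subgroup.commutator_mem_commutator (Subgroup.mem_top _) (Subgroup.mem_top _)
  have hVexp : ∀ v : ↥R₁ ⧸ frattini ↥R₁, v ^ p = 1 := by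
    intro v
    obtain ⟨r, rfl⟩ := QuotientGroup.mk_surjective v
    rw [← QuotientGroup.mk_pow, QuotientGroup.eq_one_iff]
    exact pow_p_mem_frattini hR₁p r
  have kill : ∀ (u : ↥R₁ ⧸ frattini ↥R₁) (k : ℕ), p ∣ k → u ^ k = 1 := by
    rintro u k ⟨c, rfl⟩
    rw [pow_mul, hVexp, one_pow]
  have hΦmem : ∀ r : ↥R₁, (r : E) ∈ (frattini ↥R₁).map R₁.subtype ↔
      (r : ↥R₁ ⧸ frattini ↥R₁) = 1 := by
    intro r
    rw [QuotientGroup.eq_one_iff]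
    constructor
    · rintro ⟨r', hr', h⟩
      have e : r' = r := Subtype.ext h
      rw [← e]
      exact hr'
    · intro h
      exact ⟨r, h, rfl⟩
  have hind : ∀ g ∈ F.autGroup E, ∃ f : (↥R₁ ⧸ frattini ↥R₁) →* (↥R₁ ⧸ frattini ↥R₁),
      ∀ r r' : ↥R₁, (r' : E) = g r →
        f (r : ↥R₁ ⧸ frattini ↥R₁) = (r' : ↥R₁ ⧸ frattini ↥R₁) :=
    fun g hg => exists_ind R₁ g (hRinv' g hg) (hRinv' g⁻¹ (inv_mem hg))
  have hΦinv : ∀ g ∈ F.autGroup E, ∀ d ∈ (frattini ↥R₁).map R₁.subtype,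
      g d ∈ (frattini ↥R₁).map R₁.subtype := by
    intro g hg d hd
    obtain ⟨f, hf⟩ := hind g hg
    obtain ⟨r, hr, rfl⟩ := hd
    have h1 := hf r ⟨g r, hRinv' g hg r r.2⟩ rfl
    rw [(QuotientGroup.eq_one_iff r).2 hr, map_one] at h1
    exact (hΦmem ⟨g r, hRinv' g hg r r.2⟩).2 h1.symm
  obtain ⟨ΦΩ, hΦΩ⟩ : ∃ ΦΩ : Subgroup Ω,
      ΦΩ = ((frattini ↥R₁).map R₁.subtype).map E.subtype := ⟨_, rfl⟩
  have hbr : ∀ r : ↥R₁, (r : ↥R₁ ⧸ frattini ↥R₁) = 1 → ((r : E) : Ω) ∈ ΦΩ := by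
    intro r h
    rw [hΦΩ]
    exact Subgroup.mem_map.2 ⟨(r : E), (hΦmem r).2 h, rfl⟩
  have hbr' : ∀ r : ↥R₁, ((r : E) : Ω) ∈ ΦΩ → (r : ↥R₁ ⧸ frattini ↥R₁) = 1 := by
    intro r h
    rw [hΦΩ] at h
    obtain ⟨e, he, hee⟩ := Subgroup.mem_map.1 h
    have e1 : e = (r : E) := Subtype.ext hee
    rw [e1] at he
    exact (hΦmem r).1 he
  have hΦΩel : ∀ w ∈ ΦΩ, ∃ r : ↥R₁, (r : ↥R₁ ⧸ frattini ↥R₁) = 1 ∧ ((r : E) : Ω) = w := by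
    intro w hw
    rw [hΦΩ] at hw
    obtain ⟨e, ⟨r, hr, rfl⟩, rfl⟩ := hw
    exact ⟨r, (QuotientGroup.eq_one_iff r).2 hr, rfl⟩
  have hlift : ∀ w ∈ P ⊓ E, ∃ r : ↥R₁, ((r : E) : Ω) = w := by
    intro w hw
    obtain ⟨hwP, hwE⟩ := Subgroup.mem_inf.1 hw
    exact ⟨⟨⟨w, hwE⟩, (hR₁mem _).2 hwP⟩, rfl⟩
  have hcoe : ∀ r : ↥R₁, ((r : E) : Ω) ∈ P ⊓ E :=
    fun r => Subgroup.mem_inf.2 ⟨(hR₁mem _).1 r.2, (r : E).2⟩
  have hcxR : ∀ r : ↥R₁, cx r ∈ R₁ := fun r => hRinv' cx hcxF r r.2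
  obtain ⟨fx, hfx⟩ := hind cx hcxF
  have hfx' : ∀ r : ↥R₁, fx (r : ↥R₁ ⧸ frattini ↥R₁) =
      ((⟨cx r, hcxR r⟩ : ↥R₁) : ↥R₁ ⧸ frattini ↥R₁) := fun r => hfx r _ rfl
  obtain ⟨fxi, hfxi⟩ := hind cx⁻¹ hcxinv
  -- metacyclic generators
  obtain ⟨N₀, hN₀P, hN₀c, hN₀n, hgens⟩ := meta_gens P hm
  obtain ⟨g₀, hg₀U, n₀, hn₀U, hn₀N, hcyc₀, hcos₀⟩ := hgens (P ⊓ E) inf_le_left
  obtain ⟨n₀', hn₀'⟩ := hlift n₀ hn₀U
  obtain ⟨g₀', hg₀'⟩ := hlift g₀ hg₀U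
  obtain ⟨a, ha⟩ : ∃ a : ↥R₁ ⧸ frattini ↥R₁, a = (n₀' : ↥R₁ ⧸ frattini ↥R₁) := ⟨_, rfl⟩
  obtain ⟨γ, hγ⟩ : ∃ γ : ↥R₁ ⧸ frattini ↥R₁, γ = (g₀' : ↥R₁ ⧸ frattini ↥R₁) := ⟨_, rfl⟩
  obtain ⟨xp, hxp⟩ : ∃ xp : ↥R₁, ((xp : E) : Ω) = x ^ p :=
    hlift _ (Subgroup.mem_inf.2 ⟨P.pow_mem hxP p, hxpE⟩)
  have hcxexact : ∀ r : ↥R₁, ∃ j : ℤ, (⟨cx r, hcxR r⟩ : ↥R₁) = r * n₀' ^ j := by
    intro r
    have hrP : ((r : E) : Ω) ∈ P := (hR₁mem _).1 r.2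
    have h1 := hN₀c _ (P.inv_mem hrP) x hxP
    rw [inv_inv] at h1
    have h2 : ((r : E) : Ω)⁻¹ * x * ((r : E) : Ω) * x⁻¹ ∈ P ⊓ E := by
      have e : ((r : E) : Ω)⁻¹ * x * ((r : E) : Ω) * x⁻¹ =
          ((r : E) : Ω)⁻¹ * ((cx r : E) : Ω) := by
        rw [hcx]
        group
      rw [e]
      exact (P ⊓ E).mul_mem ((P ⊓ E).inv_mem (hcoe r)) (hcoe ⟨cx r, hcxR r⟩)
    obtain ⟨j, hj⟩ := hcyc₀ _ h2 h1
    refine ⟨j, Subtype.ext (Subtype.ext ?_)⟩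
    show ((cx r : E) : Ω) = ((r : E) : Ω) * ((n₀' : E) : Ω) ^ j
    rw [hcx, hn₀', ← hj]
    group
  have hxall : ∀ v : ↥R₁ ⧸ frattini ↥R₁, ∃ n : ℕ, fx v = v * a ^ n := by
    intro v
    obtain ⟨r, rfl⟩ := QuotientGroup.mk_surjective v
    obtain ⟨j, hj⟩ := hcxexact r
    obtain ⟨n, hn⟩ := zpow_eq_pow_of_pow_eq_one hp.pos (hVexp a) j
    refine ⟨n, ?_⟩
    rw [hfx' r, hj, QuotientGroup.mk_mul, QuotientGroup.mk_zpow, ← ha, hn]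
  have hxa : fx a = a := by
    obtain ⟨j, hj⟩ : ∃ j : ℤ, (⟨cx n₀', hcxR n₀'⟩ : ↥R₁) = n₀' ^ j := by
      have h1 := hN₀n x hxP n₀ hn₀N
      have h2 : x * n₀ * x⁻¹ ∈ P ⊓ E := by
        have e : x * n₀ * x⁻¹ = ((cx n₀' : E) : Ω) := by rw [hcx, hn₀']
        rw [e]
        exact hcoe ⟨cx n₀', hcxR n₀'⟩
      obtain ⟨j, hj⟩ := hcyc₀ _ h2 h1
      refine ⟨j, Subtype.ext (Subtype.ext ?_)⟩
      show ((cx n₀' : E) : Ω) = ((n₀' : E) : Ω) ^ j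
      rw [hcx, hn₀', ← hj]
    obtain ⟨m, hm'⟩ : ∃ m : ℕ, (⟨cx n₀', hcxR n₀'⟩ : ↥R₁) = n₀' ^ m := by
      have hc1 : n₀' ^ Nat.card ↥R₁ = 1 := pow_card_eq_one'
      obtain ⟨m, hm'⟩ := zpow_eq_pow_of_pow_eq_one Nat.card_pos hc1 j
      exact ⟨m, by rw [hj, hm']⟩
    have hcxm : cx (n₀' : E) = (n₀' : E) ^ m := congrArg Subtype.val hm'
    have hit : ∀ k : ℕ, (cx ^ k) (n₀' : E) = (n₀' : E) ^ (m ^ k) := by
      intro k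
      induction k with
      | zero => simp
      | succ k ih =>
        rw [pow_succ' cx k, MulAut.mul_apply, ih, map_pow, hcxm, ← pow_mul, ← pow_succ' m k]
    have hpowx : ∀ (k : ℕ) (e : E), (((cx ^ k) e : E) : Ω) = x ^ k * e * (x ^ k)⁻¹ := by
      intro k
      induction k with
      | zero => intro e; simp
      | succ k ih =>
        intro e
        rw [pow_succ' cx k, MulAut.mul_apply, hcx, ih, pow_succ' x k]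
        group
    have h4 : x ^ p * ((n₀' : E) : Ω) * (x ^ p)⁻¹ = ((n₀' : E) : Ω) ^ (m ^ p) := by
      rw [← hpowx p, hit p]
      rfl
    have h3 : xp * n₀' * xp⁻¹ = n₀' ^ (m ^ p) := by
      apply Subtype.ext
      apply Subtype.ext
      show ((xp : E) : Ω) * ((n₀' : E) : Ω) * ((xp : E) : Ω)⁻¹ = ((n₀' : E) : Ω) ^ (m ^ p)
      rw [hxp]
      exact h4
    have h5 := congrArg (fun r : ↥R₁ => (r : ↥R₁ ⧸ frattini ↥R₁)) h3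
    simp only [QuotientGroup.mk_mul, QuotientGroup.mk_inv, QuotientGroup.mk_pow] at h5
    have h6 : (xp : ↥R₁ ⧸ frattini ↥R₁) * (n₀' : ↥R₁ ⧸ frattini ↥R₁) *
        (xp : ↥R₁ ⧸ frattini ↥R₁)⁻¹ = (n₀' : ↥R₁ ⧸ frattini ↥R₁) := by
      rw [hVcomm (xp : ↥R₁ ⧸ frattini ↥R₁) (n₀' : ↥R₁ ⧸ frattini ↥R₁), mul_inv_cancel_right]
    rw [h6, ← ha, pow_pow_prime_eq p (hVexp a) m] at h5
    rw [ha, hfx' n₀', hm', QuotientGroup.mk_pow, ← ha]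
    exact h5.symm
  -- the strongly embedded configuration
  obtain ⟨M, hMA, hM⟩ := essential_strEmb p hS F hE
  obtain ⟨h, hh, hhM⟩ := SetLike.not_le_iff_exists.1 hMA
  have hhinv : h⁻¹ ∈ F.autGroup E := inv_mem hh
  obtain ⟨y', hy'⟩ : ∃ y' : MulAut E, y' = h * cx * h⁻¹ := ⟨_, rfl⟩
  have hy'F : y' ∈ F.autGroup E := by rw [hy']; exact mul_mem (mul_mem hh hcxF) hhinv
  have hy'app : ∀ e : E, y' e = h (cx (h⁻¹ e)) := by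
    intro e
    rw [hy']
    rfl
  obtain ⟨fh, hfh⟩ := hind h hh
  obtain ⟨fhi, hfhi⟩ := hind h⁻¹ hhinv
  obtain ⟨fy, hfy⟩ := hind y' hy'F
  have hhR : ∀ r : ↥R₁, h r ∈ R₁ := fun r => hRinv' h hh r r.2
  have hhiR : ∀ r : ↥R₁, h⁻¹ r ∈ R₁ := fun r => hRinv' _ hhinv r r.2
  have hfh1 : ∀ v, fhi (fh v) = v := by
    intro v
    obtain ⟨r, rfl⟩ := QuotientGroup.mk_surjective v
    rw [hfh r ⟨h r, hhR r⟩ rfl]
    exact hfhi ⟨h r, hhR r⟩ r (MulAut.inv_apply_self _ h r).symm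
  have hfh2 : ∀ v, fh (fhi v) = v := by
    intro v
    obtain ⟨r, rfl⟩ := QuotientGroup.mk_surjective v
    rw [hfhi r ⟨h⁻¹ r, hhiR r⟩ rfl]
    exact hfh ⟨h⁻¹ r, hhiR r⟩ r (MulAut.apply_inv_self _ h r).symm
  have hfyapp : ∀ v, fy v = fh (fx (fhi v)) := by
    intro v
    obtain ⟨r, rfl⟩ := QuotientGroup.mk_surjective v
    have hm3 : h (cx (h⁻¹ r)) ∈ R₁ := hRinv' h hh _ (hcxR ⟨h⁻¹ r, hhiR r⟩)
    have e1 := hfhi r ⟨h⁻¹ r, hhiR r⟩ rfl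
    have e2 := hfx' ⟨h⁻¹ r, hhiR r⟩
    have e3 := hfh ⟨cx (h⁻¹ r), hcxR ⟨h⁻¹ r, hhiR r⟩⟩ ⟨h (cx (h⁻¹ r)), hm3⟩ rfl
    have e4 := hfy r ⟨h (cx (h⁻¹ r)), hm3⟩ (hy'app r).symm
    rw [e4, e1, e2]
    exact e3.symm
  obtain ⟨b, hb⟩ : ∃ b : ↥R₁ ⧸ frattini ↥R₁, b = fh a := ⟨_, rfl⟩
  have hyb : fy b = b := by rw [hfyapp, hb, hfh1, hxa]
  have hyall : ∀ v : ↥R₁ ⧸ frattini ↥R₁, ∃ n : ℕ, fy v = v * b ^ n := by
    intro v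
    obtain ⟨n, hn⟩ := hxall (fhi v)
    exact ⟨n, by rw [hfyapp, hn, map_mul, map_pow, hfh2, hb]⟩
  have hy'q : ∀ e : E, e⁻¹ * y' e ∈ R₁ := by
    intro e
    have h1 := hRinv' h hh _ (hcxq (h⁻¹ e))
    rw [map_mul, map_inv, MulAut.apply_inv_self] at h1
    rw [hy'app]
    exact h1
  have hK1 : fx b ≠ b := by
    intro hcross
    obtain ⟨K, hKp, hcK, hyK⟩ := common_pgroup p hEp R₁ cx y' hcxq hy'q fx fy hfx hfy a b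
      hxa hxall hyb hyall hcross
    apply hhM
    exact hM h hh cx hcxS hcxInn cx hcxS hcxInn ⟨K, hKp, hcK, by rw [← hy']; exact hyK⟩
  have hK2 : fy a ≠ a := by
    intro hcross
    obtain ⟨K, hKp, hyK, hcK⟩ := common_pgroup p hEp R₁ y' cx hy'q hcxq fy fx hfy hfx b a
      hyb hyall hxa hxall hcross
    apply hhM
    exact hM h hh cx hcxS hcxInn cx hcxS hcxInn ⟨K, hKp, hcK, by rw [← hy']; exact hyK⟩
  obtain ⟨t, ht⟩ := hxall b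
  obtain ⟨s, hs⟩ := hyall a
  have htp : ¬ p ∣ t := fun hd => hK1 (by rw [ht, kill a t hd, mul_one])
  have hsp : ¬ p ∣ s := fun hd => hK2 (by rw [hs, kill b s hd, mul_one])
  have htsp : ¬ p ∣ t * s := fun hd => (hp.dvd_mul.1 hd).elim htp hsp
  obtain ⟨j, hj⟩ := exists_mul_add_dvd p hp (t * s) htsp 2
  have hj' : p ∣ 2 + t * (s * j) := by rw [← mul_assoc]; exact hj
  have hyit : ∀ i : ℕ, fy^[i] a = a * b ^ (s * i) ∧ fy^[i] b = b := by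
    intro i
    induction i with
    | zero => simp
    | succ i ih =>
      constructor
      · rw [Function.iterate_succ_apply', ih.1, map_mul, map_pow, hs, hyb, mul_assoc, ← pow_add]
        congr 2
        ring
      · rw [Function.iterate_succ_apply', ih.2, hyb]
  obtain ⟨ρ, hρ⟩ : ∃ ρ : MulAut E, ρ = cx * y' ^ j := ⟨_, rfl⟩
  have hy'jF : y' ^ j ∈ F.autGroup E := pow_mem hy'F j
  have hρF : ρ ∈ F.autGroup E := by rw [hρ]; exact mul_mem hcxF hy'jF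
  have hρapp : ∀ e : E, ρ e = cx ((y' ^ j) e) := by
    intro e
    rw [hρ]
    rfl
  obtain ⟨fρ, hfρ⟩ := hind ρ hρF
  have hiter : ∀ (k : ℕ) (r r' : ↥R₁), (r' : E) = (y' ^ k) r →
      fy^[k] (r : ↥R₁ ⧸ frattini ↥R₁) = (r' : ↥R₁ ⧸ frattini ↥R₁) := by
    intro k
    induction k with
    | zero =>
      intro r r' hr'
      have e : r' = r := Subtype.ext (by rw [hr', pow_zero]; rfl)
      rw [e]
      rfl
    | succ k ih =>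
      intro r r' hr'
      have hmem : (y' ^ k) r ∈ R₁ := hRinv' _ (pow_mem hy'F k) r r.2
      rw [Function.iterate_succ_apply', ih r ⟨(y' ^ k) r, hmem⟩ rfl]
      apply hfy
      rw [hr', pow_succ' y' k]
      rfl
  have hfρapp : ∀ v, fρ v = fx (fy^[j] v) := by
    intro v
    obtain ⟨r, rfl⟩ := QuotientGroup.mk_surjective v
    have hmem : (y' ^ j) r ∈ R₁ := hRinv' _ hy'jF r r.2
    rw [hiter j r ⟨(y' ^ j) r, hmem⟩ rfl, hfx' ⟨(y' ^ j) r, hmem⟩]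
    exact hfρ r _ (hρapp r).symm
  have hc : ∀ (u v : ↥R₁ ⧸ frattini ↥R₁) (n : ℕ), (u * v) ^ n = u ^ n * v ^ n :=
    fun u v n => (show Commute u v from hVcomm u v).mul_pow n
  have hρa : fρ a = a ^ (1 + t * (s * j)) * b ^ (s * j) := by
    rw [hfρapp, (hyit j).1, map_mul, map_pow, hxa, ht, hc, ← pow_mul, pow_add, pow_one,
      mul_assoc, hVcomm (b ^ (s * j)) _]
  have hρb : fρ b = b * a ^ t := by
    rw [hfρapp, (hyit j).2, ht]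
  have hVgen : ∀ v : ↥R₁ ⧸ frattini ↥R₁, ∃ i' j' : ℕ, v = γ ^ i' * a ^ j' := by
    intro v
    obtain ⟨r, rfl⟩ := QuotientGroup.mk_surjective v
    obtain ⟨i, hi⟩ := hcos₀ _ (hcoe r)
    have h2 : (g₀ ^ i)⁻¹ * ((r : E) : Ω) ∈ P ⊓ E :=
      (P ⊓ E).mul_mem ((P ⊓ E).inv_mem (zpow_mem hg₀U i)) (hcoe r)
    obtain ⟨j₁, hj₁⟩ := hcyc₀ _ h2 hi
    have e : r = g₀' ^ i * n₀' ^ j₁ := by
      apply Subtype.ext
      apply Subtype.ext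
      show ((r : E) : Ω) = ((g₀' : E) : Ω) ^ i * ((n₀' : E) : Ω) ^ j₁
      rw [hg₀', hn₀', ← hj₁]
      group
    obtain ⟨i', hi'⟩ := zpow_eq_pow_of_pow_eq_one hp.pos (hVexp γ) i
    obtain ⟨j₂, hj₂⟩ := zpow_eq_pow_of_pow_eq_one hp.pos (hVexp a) j₁
    refine ⟨i', j₂, ?_⟩
    rw [← hi', ← hj₂, hγ, ha, ← QuotientGroup.mk_zpow, ← QuotientGroup.mk_zpow,
      ← QuotientGroup.mk_mul, ← e]
  obtain ⟨i₀, j₀, hbγ⟩ := hVgen b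
  have hneg : ∀ v, fρ (fρ v) * v = 1 :=
    twist_neg hVcomm p hp a b γ (hVexp γ) (hVexp a) (hVexp b) fx fρ t (s * j) i₀ j₀ hj' hxa hbγ
      hK1 hρa hρb hVgen
  have hneg' : ∀ v, fρ (fρ v) = v⁻¹ := fun v => eq_inv_of_mul_eq_one_left (hneg v)
  obtain ⟨τ, hτ⟩ : ∃ τ : MulAut E, τ = ρ * ρ := ⟨_, rfl⟩
  have hτF : τ ∈ F.autGroup E := by rw [hτ]; exact mul_mem hρF hρF
  have hτapp : ∀ e : E, τ e = ρ (ρ e) := by
    intro e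
    rw [hτ]
    rfl
  have hτR : ∀ r : ↥R₁, τ r ∈ R₁ := fun r => hRinv' τ hτF r r.2
  have hτV : ∀ r : ↥R₁, ((⟨τ r, hτR r⟩ : ↥R₁) : ↥R₁ ⧸ frattini ↥R₁) =
      (r : ↥R₁ ⧸ frattini ↥R₁)⁻¹ := by
    intro r
    have hmem : ρ r ∈ R₁ := hRinv' ρ hρF r r.2
    have e1 := hfρ r ⟨ρ r, hmem⟩ rfl
    have e2 := hfρ ⟨ρ r, hmem⟩ ⟨τ r, hτR r⟩ (hτapp r)
    rw [← e2, ← e1, hneg']
  have hτinv : τ⁻¹ ∈ F.autGroup E := inv_mem hτF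
  obtain ⟨k, hk⟩ : ∃ k : MulAut E, k = τ * cx * τ⁻¹ * cx⁻¹ := ⟨_, rfl⟩
  have hkF : k ∈ F.autGroup E := by
    rw [hk]
    exact mul_mem (mul_mem (mul_mem hτF hcxF) hτinv) hcxinv
  have hkapp : ∀ e : E, k e = τ (cx (τ⁻¹ (cx⁻¹ e))) := by
    intro e
    rw [hk]
    rfl
  have hk0 : ∀ e : E, e⁻¹ * k e ∈ R₁ := by
    intro e
    have e1 : e⁻¹ * k e = (e⁻¹ * cx⁻¹ e) * τ ((τ⁻¹ (cx⁻¹ e))⁻¹ * cx (τ⁻¹ (cx⁻¹ e))) := by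
      rw [map_mul, map_inv, MulAut.apply_inv_self, hkapp]
      group
    rw [e1]
    exact R₁.mul_mem (hcxiq e) (hRinv' τ hτF _ (hcxq _))
  have hk1 : ∀ r ∈ R₁, r⁻¹ * k r ∈ (frattini ↥R₁).map R₁.subtype := by
    intro r hr
    have hm1 : cx⁻¹ r ∈ R₁ := hRinv' _ hcxinv r hr
    have hm2 : τ⁻¹ (cx⁻¹ r) ∈ R₁ := hRinv' _ hτinv _ hm1
    have hm3 : cx (τ⁻¹ (cx⁻¹ r)) ∈ R₁ := hRinv' _ hcxF _ hm2
    have hm4 : τ (cx (τ⁻¹ (cx⁻¹ r))) ∈ R₁ := hRinv' _ hτF _ hm3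
    have e1 : fx ((⟨cx⁻¹ r, hm1⟩ : ↥R₁) : ↥R₁ ⧸ frattini ↥R₁) =
        ((⟨r, hr⟩ : ↥R₁) : ↥R₁ ⧸ frattini ↥R₁) :=
      hfx ⟨cx⁻¹ r, hm1⟩ ⟨r, hr⟩ (MulAut.apply_inv_self _ cx r).symm
    have e2 : ((⟨cx⁻¹ r, hm1⟩ : ↥R₁) : ↥R₁ ⧸ frattini ↥R₁) =
        ((⟨τ⁻¹ (cx⁻¹ r), hm2⟩ : ↥R₁) : ↥R₁ ⧸ frattini ↥R₁)⁻¹ := by
      have e2' : (⟨cx⁻¹ r, hm1⟩ : ↥R₁) =
          ⟨τ ((⟨τ⁻¹ (cx⁻¹ r), hm2⟩ : ↥R₁) : E), hτR _⟩ :=
        Subtype.ext (MulAut.apply_inv_self _ τ _).symm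
      rw [e2']
      exact hτV ⟨τ⁻¹ (cx⁻¹ r), hm2⟩
    have e3 : fx ((⟨τ⁻¹ (cx⁻¹ r), hm2⟩ : ↥R₁) : ↥R₁ ⧸ frattini ↥R₁) =
        ((⟨cx (τ⁻¹ (cx⁻¹ r)), hm3⟩ : ↥R₁) : ↥R₁ ⧸ frattini ↥R₁) := hfx _ _ rfl
    have e4 : ((⟨τ (cx (τ⁻¹ (cx⁻¹ r))), hm4⟩ : ↥R₁) : ↥R₁ ⧸ frattini ↥R₁) =
        ((⟨cx (τ⁻¹ (cx⁻¹ r)), hm3⟩ : ↥R₁) : ↥R₁ ⧸ frattini ↥R₁)⁻¹ :=
      hτV ⟨cx (τ⁻¹ (cx⁻¹ r)), hm3⟩
    have e5 : (((⟨r, hr⟩ : ↥R₁)⁻¹ * ⟨τ (cx (τ⁻¹ (cx⁻¹ r))), hm4⟩ : ↥R₁) :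
        ↥R₁ ⧸ frattini ↥R₁) = 1 := by
      rw [QuotientGroup.mk_mul, QuotientGroup.mk_inv, e4, ← e3, ← e1, e2, map_inv,
        inv_mul_cancel]
    have h6 := (hΦmem _).2 e5
    rw [hkapp]
    exact h6
  obtain ⟨hkS, hkInn⟩ := essential_stabFrat p hS F hF hE R₁ hRinv' hΦinv k hkF hk0 hk1
  have hcS : τ * cx * τ⁻¹ ∈ autInducedBy S E := by
    have h1 := mul_mem hkS hcxS
    have e1 : k * cx = τ * cx * τ⁻¹ := by rw [hk]; group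
    rw [e1] at h1
    exact h1
  obtain ⟨g, hgS, hg⟩ := Fusion.mem_autInducedBy_iff.1 hcS
  have hEr : F.IsReceptive E :=
    ((Cfsg.Agent.S5077.result p hS F).1 hF).2 E
      (((Cfsg.Agent.S5077.result p hS F).1 hF).1 E hE.2.1).1
  have hφ : E.subtype.comp (τ : E ≃* E).toMonoidHom ∈ F.Hom E :=
    (Fusion.mem_autGroup_iff F hES).1 hτF
  obtain ⟨ψ, hψ, hext⟩ := hEr.2 E _ hφ (Fusion.range_of_isIso (τ : E ≃* E))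
  have hxX : x ∈ extender S E (E.subtype.comp (τ : E ≃* E).toMonoidHom) := by
    refine Subgroup.subset_closure ⟨hxS, hxN, g, hgS, fun e he => ?_⟩
    have h1 := hg (τ e)
    rw [MulAut.mul_apply, MulAut.mul_apply, MulAut.inv_apply_self] at h1
    have h2 : (⟨x * (e : Ω) * x⁻¹, he⟩ : E) = cx e := Subtype.ext (hcx e).symm
    rw [h2]
    exact h1
  have hEX : E ≤ extender S E (E.subtype.comp (τ : E ≃* E).toMonoidHom) :=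
    le_extender hES (fun e => hES (τ e).2)
  obtain ⟨ψx, hψx⟩ : ∃ ψx : Ω, ψx = ψ ⟨x, hxX⟩ := ⟨_, rfl⟩
  have hψxS : ψx ∈ S := by rw [hψx]; exact hom_mem F hψ _
  have hψxP : ψx ∈ P := by
    rw [hψx]
    have hle : Subgroup.zpowers x ≤ extender S E (E.subtype.comp (τ : E ≃* E).toMonoidHom) :=
      (Subgroup.zpowers_le).2 hxX
    have h1 := restrict_mem F hψ hle
    exact hP.2 (Subgroup.zpowers x) ((Subgroup.zpowers_le).2 hxP) _ h1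
      ⟨x, Subgroup.mem_zpowers x⟩
  have hact : ∀ e : E, ψx * ((τ e : E) : Ω) * ψx⁻¹ = ((τ (cx e) : E) : Ω) := by
    intro e
    have h1 := hext e e.2 (hEX e.2)
    have h2 := hext (cx e) (cx e).2 (hEX (cx e).2)
    have h3 : (⟨((cx e : E) : Ω), hEX (cx e).2⟩ :
        extender S E (E.subtype.comp (τ : E ≃* E).toMonoidHom)) =
        ⟨x, hxX⟩ * ⟨e, hEX e.2⟩ * ⟨x, hxX⟩⁻¹ := Subtype.ext (hcx e)
    rw [h3, map_mul, map_mul, map_inv, h1, ← hψx] at h2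
    exact h2
  have hconj : ∀ e : E, (ψx * x⁻¹) * (e : Ω) * (ψx * x⁻¹)⁻¹ = ((k e : E) : Ω) := by
    intro e
    rw [hkapp]
    have h1 := hact (τ⁻¹ (cx⁻¹ e))
    rw [MulAut.apply_inv_self] at h1
    rw [← h1, hcxi]
    group
  have haS : ψx * x⁻¹ ∈ S := S.mul_mem hψxS (S.inv_mem hxS)
  obtain ⟨yk, hyk⟩ := hkInn
  have hgE : ψx * x⁻¹ ∈ E := by
    refine mem_of_conj_eq_inner hES hcen haS yk (fun e => ?_)
    rw [hconj e, ← hyk]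
    rfl
  have hgP : ψx * x⁻¹ ∈ P := P.mul_mem hψxP (P.inv_mem hxP)
  obtain ⟨gx, hgx⟩ : ∃ gx : Ω, gx = ψx * x⁻¹ := ⟨_, rfl⟩
  rw [← hgx] at hgE hgP
  have e1 : gx * x = ψx := by rw [hgx]; group
  have h5 : ψx ^ p = ((τ ⟨x ^ p, hxpE⟩ : E) : Ω) := by
    have h1 := hext (x ^ p) hxpE (hEX hxpE)
    have h3 : (⟨x ^ p, hEX hxpE⟩ :
        extender S E (E.subtype.comp (τ : E ≃* E).toMonoidHom)) = ⟨x, hxX⟩ ^ p :=
      Subtype.ext rfl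
    rw [h3, map_pow, ← hψx] at h1
    exact h1
  -- hypotheses of the final group-theoretic lemma
  have hΦR : ΦΩ ≤ P ⊓ E := by
    intro w hw
    obtain ⟨r, -, rfl⟩ := hΦΩel w hw
    exact hcoe r
  have hxR : ∀ r ∈ P ⊓ E, x * r * x⁻¹ ∈ P ⊓ E := by
    intro r hr
    obtain ⟨r', rfl⟩ := hlift r hr
    rw [← hcx]
    exact hcoe ⟨cx r', hcxR r'⟩
  have hxR' : ∀ r ∈ P ⊓ E, x⁻¹ * r * x ∈ P ⊓ E := by
    intro r hr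
    obtain ⟨r', rfl⟩ := hlift r hr
    rw [← hcxi]
    exact hcoe ⟨cx⁻¹ r', hRinv' _ hcxinv r' r'.2⟩
  have hxΦ : ∀ w ∈ ΦΩ, x * w * x⁻¹ ∈ ΦΩ := by
    intro w hw
    obtain ⟨r, hr1, rfl⟩ := hΦΩel w hw
    rw [← hcx]
    apply hbr ⟨cx r, hcxR r⟩
    rw [← hfx' r, hr1, map_one]
  have hxΦ' : ∀ w ∈ ΦΩ, x⁻¹ * w * x ∈ ΦΩ := by
    intro w hw
    obtain ⟨r, hr1, rfl⟩ := hΦΩel w hw
    rw [← hcxi]
    apply hbr ⟨cx⁻¹ r, hRinv' _ hcxinv r r.2⟩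
    rw [← hfxi r ⟨cx⁻¹ r, hRinv' _ hcxinv r r.2⟩ rfl, hr1, map_one]
  have hRΦ : ∀ r ∈ P ⊓ E, ∀ n ∈ ΦΩ, r * n * r⁻¹ ∈ ΦΩ := by
    intro r hr n hn
    obtain ⟨r', rfl⟩ := hlift r hr
    obtain ⟨d, hd1, rfl⟩ := hΦΩel n hn
    exact hbr (r' * d * r'⁻¹) (by
      rw [QuotientGroup.mk_mul, QuotientGroup.mk_mul, QuotientGroup.mk_inv, hd1, mul_one,
        mul_inv_cancel])
  have hRp : ∀ r ∈ P ⊓ E, r ^ p ∈ ΦΩ := by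
    intro r hr
    obtain ⟨r', rfl⟩ := hlift r hr
    exact hbr (r' ^ p) (by rw [QuotientGroup.mk_pow]; exact hVexp _)
  have hRc : ∀ r ∈ P ⊓ E, ∀ s ∈ P ⊓ E, (s * r)⁻¹ * (r * s) ∈ ΦΩ := by
    intro r hr s hs
    obtain ⟨r', rfl⟩ := hlift r hr
    obtain ⟨s', rfl⟩ := hlift s hs
    exact hbr ((s' * r')⁻¹ * (r' * s')) (by
      rw [QuotientGroup.mk_mul, QuotientGroup.mk_inv, QuotientGroup.mk_mul, QuotientGroup.mk_mul,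
        hVcomm (s' : ↥R₁ ⧸ frattini ↥R₁) (r' : ↥R₁ ⧸ frattini ↥R₁), inv_mul_cancel])
  have hxa' : n₀⁻¹ * (x * n₀ * x⁻¹) ∈ ΦΩ := by
    have h1 := hbr (n₀'⁻¹ * ⟨cx n₀', hcxR n₀'⟩) (by
      rw [QuotientGroup.mk_mul, QuotientGroup.mk_inv, ← hfx' n₀', ← ha, hxa, inv_mul_cancel])
    have e : ((((n₀'⁻¹ * ⟨cx n₀', hcxR n₀'⟩ : ↥R₁) : E) : Ω)) = n₀⁻¹ * (x * n₀ * x⁻¹) := by
      show ((n₀' : E) : Ω)⁻¹ * ((cx n₀' : E) : Ω) = _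
      rw [hcx, hn₀']
    rw [e] at h1
    exact h1
  have hxr' : ∀ r ∈ P ⊓ E, ∃ n : ℕ, (r * n₀ ^ n)⁻¹ * (x * r * x⁻¹) ∈ ΦΩ := by
    intro r hr
    obtain ⟨r', rfl⟩ := hlift r hr
    obtain ⟨n, hn⟩ := hxall (r' : ↥R₁ ⧸ frattini ↥R₁)
    refine ⟨n, ?_⟩
    have h1 := hbr ((r' * n₀' ^ n)⁻¹ * ⟨cx r', hcxR r'⟩) (by
      rw [QuotientGroup.mk_mul, QuotientGroup.mk_inv, QuotientGroup.mk_mul, QuotientGroup.mk_pow,
        ← hfx' r', ← ha, hn, inv_mul_cancel])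
    have e : (((((r' * n₀' ^ n)⁻¹ * ⟨cx r', hcxR r'⟩ : ↥R₁) : E) : Ω)) =
        (((r' : E) : Ω) * n₀ ^ n)⁻¹ * (x * ((r' : E) : Ω) * x⁻¹) := by
      show (((r' : E) : Ω) * ((n₀' : E) : Ω) ^ n)⁻¹ * ((cx r' : E) : Ω) = _
      rw [hcx, hn₀']
    rw [e] at h1
    exact h1
  obtain ⟨hI, hII⟩ := meta_final p hodd P hm (P ⊓ E) ΦΩ x n₀ hxP inf_le_left hΦR hxR hxR' hxΦ hxΦ'
    hRΦ hRp hRc hn₀U hxa' hxr'
  have h7 := hI gx (Subgroup.mem_inf.2 ⟨hgP, hgE⟩)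
  rw [e1, h5] at h7
  have hxpE' : (⟨x ^ p, hxpE⟩ : E) = (xp : E) := Subtype.ext hxp.symm
  rw [hxpE'] at h7
  have h8 : ((xp⁻¹ * ⟨τ xp, hτR xp⟩ : ↥R₁) : ↥R₁ ⧸ frattini ↥R₁) = 1 := by
    apply hbr'
    show ((xp : E) : Ω)⁻¹ * ((τ xp : E) : Ω) ∈ ΦΩ
    rw [hxp]
    exact h7
  rw [QuotientGroup.mk_mul, QuotientGroup.mk_inv, hτV xp] at h8
  have h9 : ((xp : ↥R₁ ⧸ frattini ↥R₁)⁻¹) ^ 2 = 1 := by rw [pow_two]; exact h8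
  have h10 : ((xp : ↥R₁ ⧸ frattini ↥R₁)⁻¹) ^ p = 1 := hVexp _
  have h11 : ((xp : ↥R₁ ⧸ frattini ↥R₁)⁻¹) ^ Nat.gcd 2 p = 1 := pow_gcd_eq_one.2 ⟨h9, h10⟩
  have h12 : Nat.gcd 2 p = 1 := (Nat.coprime_primes Nat.prime_two hp).2 (Ne.symm hodd)
  rw [h12, pow_one, inv_eq_one] at h11
  have hxpΦ : x ^ p ∈ ΦΩ := by
    have h13 := hbr xp h11
    rw [hxp] at h13
    exact h13
  obtain ⟨b', hb'⟩ : ∃ b' : ↥R₁, b' = ⟨h n₀', hhR n₀'⟩ := ⟨_, rfl⟩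
  have hbb' : b = (b' : ↥R₁ ⧸ frattini ↥R₁) := by
    rw [hb, ha, hb']
    exact hfh n₀' _ rfl
  have h13 := hII hxpΦ _ (hcoe b')
  apply hK1
  have h14 : ((b'⁻¹ * ⟨cx b', hcxR b'⟩ : ↥R₁) : ↥R₁ ⧸ frattini ↥R₁) = 1 := by
    apply hbr'
    show ((b' : E) : Ω)⁻¹ * ((cx b' : E) : Ω) ∈ ΦΩ
    rw [hcx]
    exact h13
  rw [QuotientGroup.mk_mul, QuotientGroup.mk_inv, ← hfx' b', ← hbb'] at h14
  exact (inv_mul_eq_one.1 h14).symm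

end MetaMain

end Cfsg.Agent.Lib.Helper27
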