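import Mathlib
import Cfsg.Prelude.Def_FusionSystem
import Cfsg.Agent.Lib.Helper27.KNormApp
import Cfsg.Agent.Lib.Helper27.Realize
import Cfsg.Agent.Lib.Helper27.NormalCrit

set_option autoImplicit false

namespace Cfsg.Agent.Lib.Helper27

open Cfsg Cfsg.FusionSystem Cfsg.Agent.Lib.Helper26

variable {Ω : Type*} [Group Ω] {S : Subgroup Ω} {G : Type*} [Group G]

/-- In a model, the preimage of `O_p(G)` is normal in the fusion system. -/
theorem isNormal_pCore_of_isModel [Finite S] (p : ℕ) [Fact p.Prime] (F : FusionSystem S)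
    (ι : S →* G) (hG : F.IsModel p G ι) :
    F.IsNormal (((pCore p G).comap ι).map S.subtype) := by
  obtain ⟨hfin, hF, hsyl, hcent⟩ := hG
  have hι := hF.1
  obtain ⟨T, hT⟩ := hsyl
  have hOT : pCore p G ≤ ι.range := hT.le.trans' (Cfsg.Agent.Lib.Helper18.pCore_le_sylow T)
  have hnorm : (pCore p G).Normal := inferInstance
  have hQS : ((pCore p G).comap ι).map S.subtype ≤ S := by
    rintro _ ⟨s, -, rfl⟩
    exact s.2
  have hQmem : ∀ {y : Ω} (hy : y ∈ S),
      y ∈ ((pCore p G).comap ι).map S.subtype ↔ ι ⟨y, hy⟩ ∈ pCore p G := by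
    intro y hy
    constructor
    · rintro ⟨s, hs, hsy⟩
      have e : s = ⟨y, hy⟩ := Subtype.ext hsy
      rw [← e]
      exact hs
    · intro h
      exact ⟨⟨y, hy⟩, h, rfl⟩
  refine ⟨hQS, fun P φ hφ => ?_⟩
  have hPS := hom_le F hφ
  have hφS := hom_mem F hφ
  obtain ⟨g, hg⟩ := (hF.2 P hPS φ hφS).1 hφ
  have hsup : P ⊔ ((pCore p G).comap ι).map S.subtype ≤ S := sup_le hPS hQS
  have hcond : ∀ x : ↥(P ⊔ ((pCore p G).comap ι).map S.subtype),
      g * ι ⟨x, hsup x.2⟩ * g⁻¹ ∈ ι.range := by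
    have hle : P ⊔ ((pCore p G).comap ι).map S.subtype ≤
        ((ι.range.comap (MulAut.conj g).toMonoidHom).comap ι).map S.subtype := by
      apply sup_le
      · intro x hx
        refine ⟨⟨x, hPS hx⟩, ?_, rfl⟩
        show g * ι ⟨x, hPS hx⟩ * g⁻¹ ∈ ι.range
        rw [← hg ⟨x, hx⟩]
        exact ⟨_, rfl⟩
      · rintro _ ⟨s, hs, rfl⟩
        refine ⟨s, ?_, rfl⟩
        show g * ι s * g⁻¹ ∈ ι.range
        exact hOT (hnorm.conj_mem _ hs g)
    intro x
    obtain ⟨s, hs, hsx⟩ := hle x.2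
    have e : s = ⟨x, hsup x.2⟩ := Subtype.ext hsx
    rw [← e]
    exact hs
  refine ⟨pullConj ι hι hsup g hcond, pullConj_hom hF hsup g hcond, fun x => ?_, ?_⟩
  · have h1 := pullConj_spec ι hι hsup g hcond (Subgroup.inclusion le_sup_left x)
    have h2 : ι ⟨pullConj ι hι hsup g hcond (Subgroup.inclusion le_sup_left x),
        pullConj_mem ι hι hsup g hcond _⟩ = ι ⟨φ x, hφS x⟩ := by
      rw [h1, hg x]
      rfl
    exact congrArg Subtype.val (hι h2)
  · have hQfin : Finite ↥(((pCore p G).comap ι).map S.subtype) := finite_of_le hQS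
    apply Subgroup.eq_of_le_of_card_ge
    · rintro _ ⟨x, hx, rfl⟩
      have hxQ : (x : Ω) ∈ ((pCore p G).comap ι).map S.subtype := Subgroup.mem_subgroupOf.mp hx
      rw [hQmem (pullConj_mem ι hι hsup g hcond x), pullConj_spec]
      exact hnorm.conj_mem _ ((hQmem (hsup x.2)).1 hxQ) g
    · rw [Subgroup.card_map_of_injective (F.injective_of_mem (pullConj_hom hF hsup g hcond))]
      exact le_of_eq (Nat.card_congr (Subgroup.subgroupOfEquivOfLe le_sup_right).toEquiv).symm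

theorem normalizerSystem_isNormal (F : FusionSystem S) {R : Subgroup Ω} (hR : R ≤ S)
    (E : FusionSystem (normalizerIn S R)) (hE : F.IsNormalizerSystem R E) : E.IsNormal R := by
  have hRN : R ≤ normalizerIn S R := Fusion.le_normalizerIn hR
  refine ⟨hRN, fun P φ hφ => ?_⟩
  rw [hE] at hφ
  obtain ⟨hφF, hP, hv, ψ, hψ, hψP, hψR⟩ := hφ
  have hψv : ∀ z, ψ z ∈ normalizerIn S R := Fusion.sup_values ψ _
    (fun x => by rw [hψP]; exact hv x)
    (fun q => hRN (Fusion.map_subgroupOf_mem hψR q.2 _))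
  refine ⟨ψ, ?_, hψP, hψR⟩
  rw [hE]
  refine ⟨hψ, sup_le hP hRN, hψv,
    ψ.comp (Subgroup.inclusion (sup_le le_rfl le_sup_right : P ⊔ R ⊔ R ≤ P ⊔ R)),
    Fusion.restrict_mem F hψ _, fun x => rfl, ?_⟩
  ext y
  rw [Fusion.mem_map_subgroupOf]
  constructor
  · rintro ⟨q, hq, hK, rfl⟩
    exact Fusion.map_subgroupOf_mem hψR hq _
  · intro hy
    obtain ⟨q, hq, hK, hqy⟩ := Fusion.map_subgroupOf_surj hψR hy
    exact ⟨q, hq, Subgroup.mem_sup_right hq, hqy⟩

theorem normalizerSystem_autGroup (F : FusionSystem S) {R : Subgroup Ω} (hR : R ≤ S)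
    (E : FusionSystem (normalizerIn S R)) (hE : F.IsNormalizerSystem R E) :
    E.autGroup R = F.autGroup R := by
  have hRN : R ≤ normalizerIn S R := Fusion.le_normalizerIn hR
  ext α
  rw [Fusion.mem_autGroup_iff E hRN, Fusion.mem_autGroup_iff F hR]
  unfold Fusion.IsIso
  rw [hE]
  constructor
  · intro h
    exact h.1
  · intro h
    refine ⟨h, hRN, fun x => hRN (Subtype.coe_prop _),
      (R.subtype.comp (α : R ≃* R).toMonoidHom).comp
        (Subgroup.inclusion (sup_le le_rfl le_rfl : R ⊔ R ≤ R)),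
      Fusion.restrict_mem F h _, fun x => rfl, ?_⟩
    ext y
    rw [Fusion.mem_map_subgroupOf]
    constructor
    · rintro ⟨q, hq, hK, rfl⟩
      exact Subtype.coe_prop _
    · intro hy
      refine ⟨((α⁻¹ ⟨y, hy⟩ : R) : Ω), (α⁻¹ ⟨y, hy⟩).2,
        Subgroup.mem_sup_left (α⁻¹ ⟨y, hy⟩).2, ?_⟩
      show ((α (α⁻¹ ⟨y, hy⟩) : R) : Ω) = y
      rw [MulAut.apply_inv_self]

theorem normalizerSystem_isCentric [Finite S] (F : FusionSystem S) {R : Subgroup Ω}
    (hRc : F.IsCentric R) (E : FusionSystem (normalizerIn S R))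
    (hE : F.IsNormalizerSystem R E) : E.IsCentric R := by
  have hR := hRc.1
  have hRN : R ≤ normalizerIn S R := Fusion.le_normalizerIn hR
  have hnormal := normalizerSystem_isNormal F hR E hE
  have hsc := stronglyClosed_of_isNormal E hnormal
  refine ⟨hRN, fun Q₂ hconj => ?_⟩
  obtain ⟨φ, hφ, hr⟩ := hconj
  have hRfin : Finite R := finite_of_le hR
  have hQ₂ : Q₂ = R := by
    rw [← hr]
    apply Subgroup.eq_of_le_of_card_ge
    · rintro _ ⟨x, rfl⟩
      exact hsc.2 _ le_rfl φ hφ x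
    · exact le_of_eq (Nat.card_congr (Equiv.ofInjective φ (E.injective_of_mem hφ)))
  rw [hQ₂]
  exact fun s hs => hRc.2 R (Fusion.isConj_refl F hR) ⟨hs.1.1, hs.2⟩

/-- In a model of the normalizer system of a centric radical subgroup `R`, the largest normal
`p`-subgroup is the image of `R`. -/
theorem normalizerSystem_model [Finite S] (p : ℕ) [Fact p.Prime] (hS : IsPGroup p S)
    (F : FusionSystem S) (R : Subgroup Ω) (hRc : F.IsCentric R)
    (hRr : F.IsRadical p R) (E : FusionSystem (normalizerIn S R))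
    (hE : F.IsNormalizerSystem R E) (ι : ↥(normalizerIn S R) →* G) (hG : E.IsModel p G ι) :
    (pCore p G : Subgroup G) = (R.subgroupOf (normalizerIn S R)).map ι := by
  have hR := hRc.1
  have hRN : R ≤ normalizerIn S R := Fusion.le_normalizerIn hR
  have hNfin : Finite (normalizerIn S R) := finite_of_le inf_le_left
  have hNp : IsPGroup p (normalizerIn S R) := hS.to_le inf_le_left
  have hnormalR := normalizerSystem_isNormal F hR E hE
  have hU := isNormal_pCore_of_isModel p E ι hG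
  obtain ⟨hfin, hreal, hsyl, hcent⟩ := hG
  have hι := hreal.1
  obtain ⟨T, hT⟩ := hsyl
  have hOT : pCore p G ≤ ι.range := hT.le.trans' (Cfsg.Agent.Lib.Helper18.pCore_le_sylow T)
  have hnorm : (pCore p G).Normal := inferInstance
  have hEr : E.IsRadical p R := by
    refine ⟨hRN, ?_⟩
    rw [normalizerSystem_autGroup F hR E hE]
    exact hRr.2
  have hcen : centralizerIn (normalizerIn S R) R ≤ R := fun s hs =>
    hRc.2 R (Fusion.isConj_refl F hR) ⟨hs.1.1, hs.2⟩
  have hUR : ((pCore p G).comap ι).map (normalizerIn S R).subtype ≤ R :=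
    le_of_isNormal_of_radical hNp E hU hcen hEr
  have hle : pCore p G ≤ (R.subgroupOf (normalizerIn S R)).map ι := by
    intro u hu
    obtain ⟨s, rfl⟩ := hOT hu
    exact ⟨s, Subgroup.mem_subgroupOf.2 (hUR ⟨s, hu, rfl⟩), rfl⟩
  apply le_antisymm hle
  have hRp : IsPGroup p ((R.subgroupOf (normalizerIn S R)).map ι) := (hNp.to_subgroup _).map ι
  have hRnormal : ((R.subgroupOf (normalizerIn S R)).map ι).Normal := by
    refine ⟨fun y hy g => ?_⟩
    have hU₀N : ((pCore p G).comap ι).map (normalizerIn S R).subtype ≤ normalizerIn S R := hU.1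
    have hcond : ∀ x : ↥(((pCore p G).comap ι).map (normalizerIn S R).subtype),
        g * ι ⟨x, hU₀N x.2⟩ * g⁻¹ ∈ ι.range := by
      intro x
      obtain ⟨s, hs, hsx⟩ := x.2
      have e : s = ⟨x, hU₀N x.2⟩ := Subtype.ext hsx
      rw [← e]
      exact hOT (hnorm.conj_mem _ hs g)
    have hφ := pullConj_hom hreal hU₀N g hcond
    obtain ⟨ψ, hψ, hψU, hψR⟩ := hnormalR.2 _ _ hφ
    have hsup := (E.le_of_mem hψ).1
    have hψv := (E.le_of_mem hψ).2
    obtain ⟨h, hh⟩ := (hreal.2 _ hsup ψ hψv).1 hψ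
    have hhR : ∀ y ∈ (R.subgroupOf (normalizerIn S R)).map ι,
        h * y * h⁻¹ ∈ (R.subgroupOf (normalizerIn S R)).map ι := by
      rintro _ ⟨r, hr, rfl⟩
      have hrR : (r : Ω) ∈ R := Subgroup.mem_subgroupOf.1 hr
      have h1 := hh ⟨r, Subgroup.mem_sup_right hrR⟩
      have h2 : h * ι r * h⁻¹ = ι ⟨ψ ⟨r, Subgroup.mem_sup_right hrR⟩, hψv _⟩ := h1.symm
      rw [h2]
      exact ⟨_, Subgroup.mem_subgroupOf.2 (Fusion.map_subgroupOf_mem hψR hrR _), rfl⟩
    have hc : h⁻¹ * g ∈ Subgroup.centralizer ((pCore p G : Subgroup G) : Set G) := by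
      rw [Subgroup.mem_centralizer_iff]
      intro u hu
      obtain ⟨s, rfl⟩ := hOT hu
      have hsU : (s : Ω) ∈ ((pCore p G).comap ι).map (normalizerIn S R).subtype := ⟨s, hu, rfl⟩
      have h1 := hh ⟨s, Subgroup.mem_sup_left hsU⟩
      have h2 := hψU ⟨s, hsU⟩
      have h3 := pullConj_spec ι hι hU₀N g hcond ⟨s, hsU⟩
      have h4 : h * ι s * h⁻¹ = g * ι s * g⁻¹ := by
        have e1 : h * ι s * h⁻¹ = ι ⟨ψ ⟨s, Subgroup.mem_sup_left hsU⟩, hψv _⟩ := h1.symm
        have e2 : g * ι s * g⁻¹ = ι ⟨pullConj ι hι hU₀N g hcond ⟨s, hsU⟩,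
            pullConj_mem ι hι hU₀N g hcond _⟩ := h3.symm
        rw [e1, e2]
        congr 1
        exact Subtype.ext h2
      calc ι s * (h⁻¹ * g) = h⁻¹ * (h * ι s * h⁻¹) * g := by group
        _ = h⁻¹ * (g * ι s * g⁻¹) * g := by rw [h4]
        _ = h⁻¹ * g * ι s := by group
    have hk : h⁻¹ * g ∈ (R.subgroupOf (normalizerIn S R)).map ι := hle (hcent hc)
    have e : g * y * g⁻¹ = h * ((h⁻¹ * g) * y * (h⁻¹ * g)⁻¹) * h⁻¹ := by group
    rw [e]
    exact hhR _ (Subgroup.mul_mem _ (Subgroup.mul_mem _ hk hy) (Subgroup.inv_mem _ hk))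
  exact Cfsg.Agent.Lib.Helper18.le_pCore hRnormal hRp

end Cfsg.Agent.Lib.Helper27
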