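import Mathlib
import Cfsg.Prelude.Def_FusionSystem
import Cfsg.Prelude.Def_FusionComponents
import Cfsg.Agent.Lib.Helper18.Basic
import Cfsg.Agent.Lib.Helper26.FusionGen
import Cfsg.Agent.Lib.Helper27.Alperin
import Cfsg.Agent.Lib.Helper27.SubgroupFusion
import Cfsg.Agent.Lib.Helper27.NormalSub
import Cfsg.Agent.Lib.Helper27.HypQuot
import Cfsg.Agent.S5077

set_option autoImplicit false

namespace Cfsg.Agent.Lib.Helper27

open Cfsg Cfsg.FusionSystem Cfsg.Agent.Lib.Helper26

variable {G : Type*} [Group G] [Finite G] {p : ℕ} [Fact p.Prime]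

/-- `O^p(Aut_G(P))` is induced by `O^p(G)`. -/
theorem pResidual_autGroup_le (S : Subgroup G) {P : Subgroup G} (hP : P ≤ S) :
    (pResidual p ((groupFusionSystem S).autGroup P)).map
      ((groupFusionSystem S).autGroup P).subtype ≤ autInducedBy (pResidual p G) P := by
  have hA : (groupFusionSystem S).autGroup P = autInducedBy ⊤ P := groupFS_autGroup hP
  have hmemA : ∀ n : Subgroup.normalizer (P : Set G),
      P.normalizerMonoidHom n ∈ (groupFusionSystem S).autGroup P := by
    intro n
    rw [hA]
    exact mem_autInducedBy_iff.2 ⟨n, Subgroup.mem_top _, n.2, fun x => rfl⟩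
  let Φ : Subgroup.normalizer (P : Set G) →* (groupFusionSystem S).autGroup P :=
    P.normalizerMonoidHom.codRestrict _ hmemA
  have hΦ : Function.Surjective Φ := by
    intro a
    have ha : (a : MulAut P) ∈ autInducedBy ⊤ P := by
      rw [← hA]
      exact a.2
    obtain ⟨g, -, hgN, hg⟩ := mem_autInducedBy_iff.1 ha
    refine ⟨⟨g, hgN⟩, ?_⟩
    apply Subtype.ext
    apply MulEquiv.ext
    intro x
    apply Subtype.ext
    rw [hg]
    rfl
  have h1 := pResidual_le_map p Φ hΦ
  rintro _ ⟨b, hb, rfl⟩
  obtain ⟨n, hn, rfl⟩ := h1 hb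
  have hnO : (n : G) ∈ pResidual p G := by
    have h2 : (n : G) ∈ (pResidual p ↥(Subgroup.normalizer (P : Set G))).map
        (Subgroup.normalizer (P : Set G)).subtype := ⟨n, hn, rfl⟩
    rw [Cfsg.Agent.Lib.Helper18.map_pResidual_subtype] at h2
    have h3 := Cfsg.Agent.Lib.Helper18.pResOf_mono p (le_top : Subgroup.normalizer (P : Set G) ≤ ⊤) h2
    rwa [Cfsg.Agent.Lib.Helper18.pResOf_top] at h3
  exact mem_autInducedBy_iff.2 ⟨n, hnO, n.2, fun x => rfl⟩

/-- A saturated subsystem of `p`-power index of `F_S(G)` over `S ∩ O^p(G)` is the fusion system of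
`O^p(G)`. -/
theorem pResidual_system_unique (S : Sylow p G) (T : Subgroup G)
    (hT : T = (S : Subgroup G) ⊓ pResidual p G) (E : FusionSystem T) (hsat : E.IsSaturated p)
    (hsub : E.IsSubsystemOf (groupFusionSystem (S : Subgroup G)))
    (hidx : ∀ P : Subgroup G, P ≤ T →
      (pResidual p ((groupFusionSystem (S : Subgroup G)).autGroup P)).map
        ((groupFusionSystem (S : Subgroup G)).autGroup P).subtype ≤ E.autGroup P)
    (h : (S : Subgroup G) ⊓ pResidual p G ≤ pResidual p G) (P : Subgroup G) :
    E.Hom P = (fusionSystemOfSubgroup (pResidual p G) ((S : Subgroup G) ⊓ pResidual p G) h).Hom P := by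
  subst hT
  have hTS : (S : Subgroup G) ⊓ pResidual p G ≤ S := inf_le_left
  have hTp : IsPGroup p ↥((S : Subgroup G) ⊓ pResidual p G) := S.2.to_le hTS
  have hcard := card_sylow_inf_normal S (pResidual p G)
  have hKsat : (fusionSystemOfSubgroup (pResidual p G) ((S : Subgroup G) ⊓ pResidual p G) h).IsSaturated p :=
    subgroupFS_saturated h hcard
  have hKE : fusionSystemOfSubgroup (pResidual p G) ((S : Subgroup G) ⊓ pResidual p G) h ≤ E := by
    apply alperin p hTp _ hKsat E
    intro Q hQ
    have h77 := (Cfsg.Agent.S5077.result p hTp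
      (fusionSystemOfSubgroup (pResidual p G) ((S : Subgroup G) ⊓ pResidual p G) h)).1 hKsat
    have hQa : (fusionSystemOfSubgroup (pResidual p G) ((S : Subgroup G) ⊓ pResidual p G) h).IsFullyAutomized p Q := by
      rcases hQ with hQ | hQ
      · rw [hQ]
        exact Fusion.top_fullyAutomized _ hKsat
      · exact (h77.1 Q hQ.2.1).2
    obtain ⟨hQT, R, hR⟩ := hQa
    have hQfin : Finite Q := Finite.of_injective _ (Subgroup.inclusion_injective (hQT.trans hTS))
    have htop := Cfsg.Agent.Lib.Helper18.pResidual_sup_sylow R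
    have hle : (⊤ : Subgroup ((fusionSystemOfSubgroup (pResidual p G)
        ((S : Subgroup G) ⊓ pResidual p G) h).autGroup Q)) ≤ (E.autGroup Q).subgroupOf _ := by
      rw [← htop]
      refine sup_le ?_ ?_
      · refine (Subgroup.closure_le _).2 (fun a ha => ?_)
        rw [SetLike.mem_coe, Subgroup.mem_subgroupOf]
        have haK : (a : MulAut Q) ∈ autInducedBy (pResidual p G) Q := by
          rw [← subgroupFS_autGroup (hTK := h) hQT]
          exact a.2
        have haF : (a : MulAut Q) ∈ (groupFusionSystem (S : Subgroup G)).autGroup Q := by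
          rw [groupFS_autGroup (hQT.trans hTS)]
          obtain ⟨g, -, hgN, hg⟩ := mem_autInducedBy_iff.1 haK
          exact mem_autInducedBy_iff.2 ⟨g, Subgroup.mem_top _, hgN, hg⟩
        apply hidx Q hQT
        refine ⟨⟨a, haF⟩, Subgroup.subset_closure ?_, rfl⟩
        show (orderOf (⟨(a : MulAut Q), haF⟩ : (groupFusionSystem (S : Subgroup G)).autGroup Q)).Coprime p
        have h1 : orderOf (⟨(a : MulAut Q), haF⟩ : (groupFusionSystem (S : Subgroup G)).autGroup Q)
            = orderOf (a : MulAut Q) := (Subgroup.orderOf_coe _).symm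
        rw [h1, Subgroup.orderOf_coe]
        exact ha
      · intro r hr
        rw [hR] at hr
        rw [Subgroup.mem_subgroupOf] at hr ⊢
        exact Fusion.autInducedBy_le_autGroup E hQT hr
    intro α hα
    exact Subgroup.mem_subgroupOf.1 (hle (Subgroup.mem_top (⟨α, hα⟩ : (fusionSystemOfSubgroup
      (pResidual p G) ((S : Subgroup G) ⊓ pResidual p G) h).autGroup Q)))
  have hEK : E ≤ fusionSystemOfSubgroup (pResidual p G) ((S : Subgroup G) ⊓ pResidual p G) h := by
    apply alperin p hTp E hsat
    intro Q hQ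
    have h77 := (Cfsg.Agent.S5077.result p hTp E).1 hsat
    have hQa : E.IsFullyAutomized p Q := by
      rcases hQ with hQ | hQ
      · rw [hQ]
        exact Fusion.top_fullyAutomized _ hsat
      · exact (h77.1 Q hQ.2.1).2
    obtain ⟨hQT, R, hR⟩ := hQa
    have hQfin : Finite Q := Finite.of_injective _ (Subgroup.inclusion_injective (hQT.trans hTS))
    have htop := Cfsg.Agent.Lib.Helper18.pResidual_sup_sylow R
    rw [subgroupFS_autGroup hQT]
    have hle : (⊤ : Subgroup (E.autGroup Q)) ≤ (autInducedBy (pResidual p G) Q).subgroupOf _ := by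
      rw [← htop]
      refine sup_le ?_ ?_
      · refine (Subgroup.closure_le _).2 (fun a ha => ?_)
        rw [SetLike.mem_coe, Subgroup.mem_subgroupOf]
        have haF : (a : MulAut Q) ∈ (groupFusionSystem (S : Subgroup G)).autGroup Q := by
          have hmono : E.autGroup Q ≤ (groupFusionSystem (S : Subgroup G)).autGroup Q := by
            unfold FusionSystem.autGroup
            apply Subgroup.closure_mono
            intro β hβ
            exact hsub Q hβ
          exact hmono a.2
        apply pResidual_autGroup_le (S : Subgroup G) (hQT.trans hTS)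
        refine ⟨⟨a, haF⟩, Subgroup.subset_closure ?_, rfl⟩
        show (orderOf (⟨(a : MulAut Q), haF⟩ : (groupFusionSystem (S : Subgroup G)).autGroup Q)).Coprime p
        have h1 : orderOf (⟨(a : MulAut Q), haF⟩ : (groupFusionSystem (S : Subgroup G)).autGroup Q)
            = orderOf (a : MulAut Q) := (Subgroup.orderOf_coe _).symm
        rw [h1, Subgroup.orderOf_coe]
        exact ha
      · intro r hr
        rw [hR] at hr
        rw [Subgroup.mem_subgroupOf] at hr ⊢
        obtain ⟨g, hg, hgN, hgr⟩ := mem_autInducedBy_iff.1 hr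
        exact mem_autInducedBy_iff.2 ⟨g, hg.2, hgN, hgr⟩
    intro α hα
    exact Subgroup.mem_subgroupOf.1 (hle (Subgroup.mem_top (⟨α, hα⟩ : E.autGroup Q)))
  exact Set.Subset.antisymm (hEK P) (hKE P)

end Cfsg.Agent.Lib.Helper27
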