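import Mathlib
import Cfsg.Prelude.Def_FusionSystem
import Cfsg.Agent.Lib.Helper1.Cores
import Cfsg.Agent.Lib.Helper26.FusionAut
import Cfsg.Agent.Lib.Helper26.FusionSat
import Cfsg.Agent.Lib.Helper26.FusionNormal
import Cfsg.Agent.Lib.Helper27.Alperin
import Cfsg.Agent.Lib.Helper27.MaxClassEss
import Cfsg.Agent.Lib.Helper27.PStable
import Cfsg.Agent.S5077
import Cfsg.Agent.S5096

set_option autoImplicit false

namespace Cfsg.Agent.Lib.Helper27

open Cfsg Cfsg.FusionSystem Cfsg.Agent.Lib.Helper26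

variable {Ω : Type*} [Group Ω] {S : Subgroup Ω}

/-- Every `F`-automorphism of `Q` extends to an `F`-automorphism of `R`. -/
def AutExt (F : FusionSystem S) (Q R : Subgroup Ω) : Prop :=
  ∃ hQR : Q ≤ R, ∀ α ∈ F.autGroup Q, ∃ β ∈ F.autGroup R,
    ∀ q : Q, ((β ⟨q, hQR q.2⟩ : R) : Ω) = ((α q : Q) : Ω)

/-- Elements of `O_p(Aut_F(R))` are induced by elements of `S` when `R` is fully automized. -/
theorem pCore_induced [Finite S] (p : ℕ) [Fact p.Prime] (F : FusionSystem S) {R : Subgroup Ω}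
    (hfa : F.IsFullyAutomized p R) {α : MulAut R}
    (hα : α ∈ ((Cfsg.pCore p (F.autGroup R)).map (F.autGroup R).subtype :
      Subgroup (MulAut R))) :
    ∃ g ∈ S, ∀ x : R, ((α x : R) : Ω) = g * x * g⁻¹ := by
  obtain ⟨hRS, Syl, hSyl⟩ := hfa
  have hRfin : Finite R := finite_of_le hRS
  have hMfin : Finite (MulAut R) := inferInstance
  obtain ⟨y, hy, rfl⟩ := hα
  have h1 : y ∈ (Syl : Subgroup (F.autGroup R)) := Cfsg.Agent.Lib.Helper1.pCore_le_sylow Syl hy
  rw [hSyl] at h1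
  have h2 : (y : MulAut R) ∈ autInducedBy S R := Subgroup.mem_subgroupOf.mp h1
  exact Fusion.mem_autInducedBy_iff.1 h2

/-- The preimage in `S` of `O_p(Aut_F(R))`. -/
def radExt (p : ℕ) (F : FusionSystem S) (R : Subgroup Ω) : Subgroup Ω where
  carrier := {g | g ∈ S ∧ ∃ α ∈ ((Cfsg.pCore p (F.autGroup R)).map (F.autGroup R).subtype :
    Subgroup (MulAut R)), ∀ x : R, ((α x : R) : Ω) = g * x * g⁻¹}
  one_mem' := ⟨S.one_mem, 1, Subgroup.one_mem _, fun x => by simp⟩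
  mul_mem' := by
    rintro g h ⟨hg, α, hα, hαg⟩ ⟨hh, β, hβ, hβh⟩
    refine ⟨S.mul_mem hg hh, α * β, Subgroup.mul_mem _ hα hβ, fun x => ?_⟩
    show ((α (β x) : R) : Ω) = g * h * x * (g * h)⁻¹
    rw [hαg, hβh]
    group
  inv_mem' := by
    rintro g ⟨hg, α, hα, hαg⟩
    refine ⟨S.inv_mem hg, α⁻¹, Subgroup.inv_mem _ hα, fun x => ?_⟩
    have h := hαg (α⁻¹ x)
    rw [MulAut.apply_inv_self] at h
    rw [h]
    group

theorem radExt_le (p : ℕ) (F : FusionSystem S) (R : Subgroup Ω) : radExt p F R ≤ S :=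
  fun _ hg => hg.1

theorem le_radExt [Finite S] {p : ℕ} [Fact p.Prime] (hS : IsPGroup p S) (F : FusionSystem S)
    {R : Subgroup Ω} (hRS : R ≤ S) : R ≤ radExt p F R := by
  intro r hr
  exact ⟨hRS hr, MulAut.conj (⟨r, hr⟩ : R), Fusion.inn_le_pCore_map hS F hRS ⟨_, rfl⟩,
    fun x => rfl⟩

/-- If the preimage of `O_p(Aut_F(R))` is `R` itself, then `R` is radical. -/
theorem isRadical_of_radExt_le [Finite S] {p : ℕ} [Fact p.Prime] (hS : IsPGroup p S)
    (F : FusionSystem S) {R : Subgroup Ω} (hfa : F.IsFullyAutomized p R)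
    (h : radExt p F R ≤ R) : F.IsRadical p R := by
  have hRS : R ≤ S := hfa.1
  refine ⟨hRS, le_antisymm ?_ (Fusion.inn_le_pCore_map hS F hRS)⟩
  intro α hα
  obtain ⟨g, hgS, hg⟩ := pCore_induced p F hfa hα
  have hgR : g ∈ R := h ⟨hgS, α, hα, hg⟩
  refine ⟨⟨g, hgR⟩, ?_⟩
  apply MulEquiv.ext
  intro x
  apply Subtype.ext
  exact (hg x).symm

/-- Every `F`-automorphism of a fully automized receptive `R` extends to the preimage of
`O_p(Aut_F(R))`. -/
theorem exists_aut_radExt [Finite S] {p : ℕ} [Fact p.Prime] (hS : IsPGroup p S)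
    (F : FusionSystem S) {R : Subgroup Ω} (hfa : F.IsFullyAutomized p R)
    (hRr : F.IsReceptive R) {β : MulAut R} (hβ : β ∈ F.autGroup R) :
    ∃ γ ∈ F.autGroup (radExt p F R), ∀ r : R,
      ((γ ⟨r, le_radExt hS F hfa.1 r.2⟩ : radExt p F R) : Ω) = ((β r : R) : Ω) := by
  have hRS : R ≤ S := hfa.1
  have hβ' := (Fusion.mem_autGroup_iff F hRS).1 hβ
  have hrange : (R.subtype.comp β.toMonoidHom).range = R := Fusion.range_of_isIso β
  obtain ⟨ψ, hψ, hψφ⟩ := hRr.2 R _ hβ' hrange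
  have hRN : R ≤ extender S R (R.subtype.comp β.toMonoidHom) :=
    le_extender hRS (fun x => hRS (β x).2)
  have hle : radExt p F R ≤ extender S R (R.subtype.comp β.toMonoidHom) := by
    rintro g ⟨hgS, α, hα, hαg⟩
    have hgN : g ∈ Subgroup.normalizer (R : Set Ω) := Fusion.mem_normalizer_of_conj hαg
    have hc : β * α * β⁻¹ ∈ ((Cfsg.pCore p (F.autGroup R)).map (F.autGroup R).subtype :
        Subgroup (MulAut R)) := pCore_map_conj p (F.autGroup R) hβ hα
    obtain ⟨h, hhS, hh⟩ := pCore_induced p F hfa hc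
    refine Subgroup.subset_closure ⟨hgS, hgN, h, hhS, fun x hx => ?_⟩
    have e1 : (⟨g * x * g⁻¹, hx⟩ : R) = α x := Subtype.ext (hαg x).symm
    rw [e1]
    show ((β (α x) : R) : Ω) = h * ((β x : R) : Ω) * h⁻¹
    rw [← hh (β x)]
    show _ = ((β (α (β⁻¹ (β x))) : R) : Ω)
    rw [MulAut.inv_apply_self]
  have hmap : ∀ g : radExt p F R, ψ ⟨g, hle g.2⟩ ∈ radExt p F R := by
    intro g
    obtain ⟨hgS, α, hα, hαg⟩ := g.2
    refine ⟨(F.le_of_mem hψ).2 _, β * α * β⁻¹, pCore_map_conj p _ hβ hα, fun x => ?_⟩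
    have hx : (x : Ω) = ψ ⟨(β⁻¹ x : R), hRN (β⁻¹ x).2⟩ := by
      rw [hψφ _ (β⁻¹ x).2 _]
      show (x : Ω) = ((β (β⁻¹ x) : R) : Ω)
      rw [MulAut.apply_inv_self]
    have h1 : ((β (α (β⁻¹ x)) : R) : Ω) = ψ ⟨(α (β⁻¹ x) : R), hRN (α (β⁻¹ x)).2⟩ :=
      (hψφ _ (α (β⁻¹ x)).2 _).symm
    show ((β (α (β⁻¹ x)) : R) : Ω) = _
    rw [h1]
    conv_rhs => rw [hx]
    rw [← map_mul, ← map_inv, ← map_mul]
    congr 1
    apply Subtype.ext
    exact hαg (β⁻¹ x)
  obtain ⟨γ, hγ, hγψ⟩ := exists_aut_of_map_le F hle hψ hmap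
  exact ⟨γ, hγ, fun r => (hγψ ⟨r, le_radExt hS F hRS r.2⟩).trans (hψφ r r.2 _)⟩

/-- Overgroups (inside `S`) of centric subgroups are centric. -/
theorem isCentric_of_le_sub (F : FusionSystem S) {R R' : Subgroup Ω} (hR : F.IsCentric R)
    (hle : R ≤ R') (hR'S : R' ≤ S) : F.IsCentric R' := by
  refine ⟨hR'S, fun Q' hconj => ?_⟩
  obtain ⟨φ, hφ, hrange⟩ := hconj
  have hres := Fusion.restrict_mem F hφ hle
  have hRconj : F.IsConj R (φ.comp (Subgroup.inclusion hle)).range := ⟨_, hres, rfl⟩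
  have hc := hR.2 _ hRconj
  have hsub : (φ.comp (Subgroup.inclusion hle)).range ≤ Q' := by
    rintro _ ⟨x, rfl⟩
    rw [← hrange]
    exact ⟨_, rfl⟩
  intro z hz
  apply hsub
  apply hc
  exact ⟨hz.1, Subgroup.centralizer_le hsub hz.2⟩

/-- For fully centralized `Q`, the subgroup `Q C_S(Q)` is centric. -/
theorem isCentric_sup_centralizer [Finite S] (F : FusionSystem S) {Q : Subgroup Ω}
    (hfc : F.IsFullyCentralized Q) : F.IsCentric (Q ⊔ centralizerIn S Q) := by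
  have hQS := hfc.1
  refine ⟨sup_le hQS inf_le_left, fun Q' hconj => ?_⟩
  obtain ⟨φ, hφ, hrange⟩ := hconj
  have hφQ : φ.comp (Subgroup.inclusion (le_sup_left : Q ≤ Q ⊔ centralizerIn S Q)) ∈ F.Hom Q :=
    Fusion.restrict_mem F hφ le_sup_left
  have hcard := hfc.2 _ ⟨_, hφQ, rfl⟩
  have hsub : (φ.comp (Subgroup.inclusion (le_sup_left : Q ≤ Q ⊔ centralizerIn S Q))).range ≤
      Q' := by
    rintro _ ⟨x, rfl⟩
    rw [← hrange]
    exact ⟨_, rfl⟩
  have hI : ((centralizerIn S Q).subgroupOf (Q ⊔ centralizerIn S Q)).map φ ≤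
      centralizerIn S
        (φ.comp (Subgroup.inclusion (le_sup_left : Q ≤ Q ⊔ centralizerIn S Q))).range := by
    rintro _ ⟨w, hw, rfl⟩
    refine ⟨(F.le_of_mem hφ).2 w, ?_⟩
    show φ w ∈ Subgroup.centralizer _
    rw [Subgroup.mem_centralizer_iff]
    rintro _ ⟨q, rfl⟩
    show φ (Subgroup.inclusion le_sup_left q) * φ w = φ w * φ (Subgroup.inclusion le_sup_left q)
    rw [← map_mul, ← map_mul]
    congr 1
    apply Subtype.ext
    show (q : Ω) * w = w * q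
    have hw' : (w : Ω) ∈ centralizerIn S Q := Subgroup.mem_subgroupOf.mp hw
    exact Subgroup.mem_centralizer_iff.mp hw'.2 q q.2
  have hfin : Finite (centralizerIn S
      (φ.comp (Subgroup.inclusion (le_sup_left : Q ≤ Q ⊔ centralizerIn S Q))).range) :=
    finite_of_le inf_le_left
  have hIcard : Nat.card (((centralizerIn S Q).subgroupOf (Q ⊔ centralizerIn S Q)).map φ) =
      Nat.card (centralizerIn S Q) := by
    rw [Subgroup.card_map_of_injective (F.injective_of_mem hφ)]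
    exact Nat.card_congr (Subgroup.subgroupOfEquivOfLe le_sup_right).toEquiv
  have hIeq := Subgroup.eq_of_le_of_card_ge hI (by rw [hIcard]; exact hcard)
  intro z hz
  have hz' : z ∈ centralizerIn S
      (φ.comp (Subgroup.inclusion (le_sup_left : Q ≤ Q ⊔ centralizerIn S Q))).range :=
    ⟨hz.1, Subgroup.centralizer_le hsub hz.2⟩
  rw [← hIeq] at hz'
  obtain ⟨w, -, rfl⟩ := hz'
  rw [← hrange]
  exact ⟨w, rfl⟩

/-- For receptive `Q`, every `F`-automorphism of `Q` extends to `Q C_S(Q)`. -/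
theorem autExt_sup_centralizer [Finite S] (F : FusionSystem S) {Q : Subgroup Ω}
    (hQr : F.IsReceptive Q) : AutExt F Q (Q ⊔ centralizerIn S Q) := by
  have hQS := hQr.1
  refine ⟨le_sup_left, fun α hα => ?_⟩
  have hα' := (Fusion.mem_autGroup_iff F hQS).1 hα
  have hrange : (Q.subtype.comp α.toMonoidHom).range = Q := Fusion.range_of_isIso α
  obtain ⟨ψ, hψ, hψα⟩ := hQr.2 Q _ hα' hrange
  have hQN : Q ≤ extender S Q (Q.subtype.comp α.toMonoidHom) :=
    le_extender hQS (fun x => hQS (α x).2)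
  have hle : Q ⊔ centralizerIn S Q ≤ extender S Q (Q.subtype.comp α.toMonoidHom) :=
    sup_le hQN (centralizerIn_le_extender _)
  have hmap : ∀ z : ↥(Q ⊔ centralizerIn S Q), ψ ⟨z, hle z.2⟩ ∈ Q ⊔ centralizerIn S Q := by
    have hsv := Fusion.sup_values (ψ.comp (Subgroup.inclusion hle)) (Q ⊔ centralizerIn S Q) ?_ ?_
    · exact hsv
    · intro x
      apply (le_sup_left : Q ≤ Q ⊔ centralizerIn S Q)
      have h1 : ψ ⟨x, hle ((le_sup_left : Q ≤ Q ⊔ centralizerIn S Q) x.2)⟩ = (Q.subtype.comp α.toMonoidHom) ⟨x, x.2⟩ :=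
        hψα x x.2 _
      show ψ ⟨x, hle ((le_sup_left : Q ≤ Q ⊔ centralizerIn S Q) x.2)⟩ ∈ Q
      rw [h1]
      exact (α x).2
    · intro c
      apply (le_sup_right : centralizerIn S Q ≤ Q ⊔ centralizerIn S Q)
      refine ⟨(F.le_of_mem hψ).2 _, ?_⟩
      show ψ ⟨c, hle ((le_sup_right : centralizerIn S Q ≤ Q ⊔ centralizerIn S Q) c.2)⟩ ∈ Subgroup.centralizer (Q : Set Ω)
      rw [Subgroup.mem_centralizer_iff]
      intro q hq
      obtain ⟨q0, hq0⟩ : ∃ q0 : Q, α q0 = ⟨q, hq⟩ :=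
        ⟨α.symm ⟨q, hq⟩, MulEquiv.apply_symm_apply _ _⟩
      have e : q = ψ ⟨q0, hQN q0.2⟩ := by
        have h1 : ψ ⟨q0, hQN q0.2⟩ = (Q.subtype.comp α.toMonoidHom) ⟨q0, q0.2⟩ := hψα q0 q0.2 _
        rw [h1]
        show q = ((α q0 : Q) : Ω)
        rw [hq0]
      rw [e, ← map_mul, ← map_mul]
      congr 1
      apply Subtype.ext
      show (q0 : Ω) * c = c * q0
      exact Subgroup.mem_centralizer_iff.mp c.2.2 q0 q0.2
  obtain ⟨γ, hγ, hγψ⟩ := exists_aut_of_map_le F hle hψ hmap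
  exact ⟨γ, hγ, fun q => (hγψ ⟨q, (le_sup_left : Q ≤ Q ⊔ centralizerIn S Q) q.2⟩).trans (hψα q q.2 _)⟩

/-- Final step: if `N_F(R)` is `p`-stable and every `F`-automorphism of `Q` extends to `R`, a
quadratic `F`-automorphism of `Q` lies in `O_p(Aut_F(Q))`. -/
theorem pstable_frc_final [Finite S] (p : ℕ) [Fact p.Prime] (F : FusionSystem S)
    {R : Subgroup Ω} (hRS : R ≤ S) (N : FusionSystem (normalizerIn S R))
    (hN : F.IsNormalizerSystem R N) (hst : PStableSys p N) {Q : Subgroup Ω}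
    (hExt : AutExt F Q R) {χ : MulAut Q} (hχ : χ ∈ F.autGroup Q)
    (hq : ∀ a : ↥Q, (χ a⁻¹) * a * (χ a⁻¹) * (χ (χ a)) = 1) :
    χ ∈ ((Cfsg.pCore p ↥(F.autGroup Q)).map (F.autGroup Q).subtype : Subgroup (MulAut ↥Q)) := by
  obtain ⟨hQR, hext⟩ := hExt
  have hRN : R ≤ normalizerIn S R := le_inf hRS Subgroup.le_normalizer
  have hQN : Q ≤ normalizerIn S R := hQR.trans hRN
  have hQS : Q ≤ S := hQR.trans hRS
  have hNfin : Finite (normalizerIn S R) := finite_of_le inf_le_left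
  have hle := normalizer_autGroup_le F R N hN hQN
  have hge : F.autGroup Q ≤ N.autGroup Q := by
    intro α hα
    obtain ⟨β, hβ, hβα⟩ := hext α hα
    have hβ' := (Fusion.mem_autGroup_iff F hRS).1 hβ
    have hα' := (Fusion.mem_autGroup_iff F hQS).1 hα
    obtain ⟨ψ, hψ, hψβ⟩ := hom_transport_eq F (sup_eq_right.mpr hQR).symm hβ'
    rw [Fusion.mem_autGroup_iff N hQN]
    show Q.subtype.comp (α : Q ≃* Q).toMonoidHom ∈ N.Hom Q
    rw [hN Q]
    refine ⟨hα', hQN, fun x => hQN (α x).2, ψ, hψ, fun x => ?_, ?_⟩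
    · have h1 : ψ ⟨x, (le_sup_left : Q ≤ Q ⊔ R) x.2⟩ =
          (R.subtype.comp (MulEquiv.toMonoidHom β)) ⟨x, hQR x.2⟩ := hψβ x (hQR x.2) _
      show ψ ⟨x, (le_sup_left : Q ≤ Q ⊔ R) x.2⟩ = ((α x : Q) : Ω)
      rw [h1]
      exact hβα x
    · apply le_antisymm
      · rintro _ ⟨y, hy, rfl⟩
        have hyR : (y : Ω) ∈ R := Subgroup.mem_subgroupOf.mp hy
        have hy2 : ψ y = (R.subtype.comp (MulEquiv.toMonoidHom β)) ⟨y, hyR⟩ := hψβ y hyR y.2
        show ψ y ∈ R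
        rw [hy2]
        exact (β ⟨y, hyR⟩).2
      · intro r hr
        obtain ⟨r0, hr0⟩ : ∃ r0 : R, β r0 = ⟨r, hr⟩ :=
          ⟨β.symm ⟨r, hr⟩, MulEquiv.apply_symm_apply _ _⟩
        refine ⟨⟨r0, (le_sup_right : R ≤ Q ⊔ R) r0.2⟩, Subgroup.mem_subgroupOf.mpr r0.2, ?_⟩
        have hy2 : ψ ⟨r0, (le_sup_right : R ≤ Q ⊔ R) r0.2⟩ =
            (R.subtype.comp (MulEquiv.toMonoidHom β)) ⟨r0, r0.2⟩ := hψβ r0 r0.2 _
        rw [hy2]
        show ((β r0 : R) : Ω) = r
        rw [hr0]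
  have h1 := pstable_all p N hst hQN (hge hχ) hq
  exact pCore_map_congr p (le_antisymm hle hge) h1

/-- Transport of the data along an isomorphism of the system. -/
theorem autExt_transport [Finite S] (p : ℕ) [Fact p.Prime] (F : FusionSystem S)
    {R R₁ : Subgroup Ω} {e : R ≃* R₁} (he : Fusion.IsIso F e) {Q : Subgroup Ω}
    (hExt : AutExt F Q R) {χ : MulAut Q} (hχ : χ ∈ F.autGroup Q)
    (hq : ∀ a : ↥Q, (χ a⁻¹) * a * (χ a⁻¹) * (χ (χ a)) = 1) :
    ∃ (Q₁ : Subgroup Ω) (χ₁ : MulAut Q₁), AutExt F Q₁ R₁ ∧ χ₁ ∈ F.autGroup Q₁ ∧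
      (∀ a : ↥Q₁, (χ₁ a⁻¹) * a * (χ₁ a⁻¹) * (χ₁ (χ₁ a)) = 1) ∧
      (χ₁ ∈ ((Cfsg.pCore p ↥(F.autGroup Q₁)).map (F.autGroup Q₁).subtype :
          Subgroup (MulAut ↥Q₁)) →
        χ ∈ ((Cfsg.pCore p ↥(F.autGroup Q)).map (F.autGroup Q).subtype :
          Subgroup (MulAut ↥Q))) := by
  obtain ⟨hQR, hext⟩ := hExt
  have hR₁S : R₁ ≤ S := he.le_right
  have hφ : (R₁.subtype.comp e.toMonoidHom).comp (Subgroup.inclusion hQR) ∈ F.Hom Q :=
    Fusion.restrict_mem F he hQR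
  have he' : Fusion.IsIso F (Fusion.equivOfRange
      ((R₁.subtype.comp e.toMonoidHom).comp (Subgroup.inclusion hQR))
      (F.injective_of_mem hφ) rfl) := Fusion.isIso_equivOfRange F hφ rfl
  have hQ₁R₁ : ((R₁.subtype.comp e.toMonoidHom).comp (Subgroup.inclusion hQR)).range ≤ R₁ := by
    rintro _ ⟨q, rfl⟩
    exact (e ⟨q, hQR q.2⟩).2
  have hQ₁S := hQ₁R₁.trans hR₁S
  refine ⟨((R₁.subtype.comp e.toMonoidHom).comp (Subgroup.inclusion hQR)).range,
    MulAut.congr (Fusion.equivOfRange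
      ((R₁.subtype.comp e.toMonoidHom).comp (Subgroup.inclusion hQR))
      (F.injective_of_mem hφ) rfl) χ, ⟨hQ₁R₁, ?_⟩, Fusion.congr_mem_autGroup F he' hχ,
    quad_congr _ hq, ?_⟩
  · intro α₁ hα₁
    obtain ⟨β, hβ, hβα⟩ := hext _ (Fusion.congr_mem_autGroup F he'.symm hα₁)
    refine ⟨MulAut.congr e β, Fusion.congr_mem_autGroup F he hβ, fun q₁ => ?_⟩
    obtain ⟨q, rfl⟩ := (Fusion.equivOfRange
      ((R₁.subtype.comp e.toMonoidHom).comp (Subgroup.inclusion hQR))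
      (F.injective_of_mem hφ) rfl).surjective q₁
    have e1 : (⟨((Fusion.equivOfRange
        ((R₁.subtype.comp e.toMonoidHom).comp (Subgroup.inclusion hQR))
        (F.injective_of_mem hφ) rfl q : _) : Ω), hQ₁R₁ (Fusion.equivOfRange
        ((R₁.subtype.comp e.toMonoidHom).comp (Subgroup.inclusion hQR))
        (F.injective_of_mem hφ) rfl q).2⟩ : R₁) = e ⟨q, hQR q.2⟩ := Subtype.ext rfl
    rw [e1]
    show ((e (β (e.symm (e ⟨q, hQR q.2⟩))) : R₁) : Ω) = _
    rw [MulEquiv.symm_apply_apply]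
    have e2 : β ⟨q, hQR q.2⟩ = ⟨_, hQR (MulAut.congr (Fusion.equivOfRange
        ((R₁.subtype.comp e.toMonoidHom).comp (Subgroup.inclusion hQR))
        (F.injective_of_mem hφ) rfl).symm α₁ q).2⟩ := Subtype.ext (hβα q)
    rw [e2]
    show (((Fusion.equivOfRange
        ((R₁.subtype.comp e.toMonoidHom).comp (Subgroup.inclusion hQR))
        (F.injective_of_mem hφ) rfl) ((Fusion.equivOfRange
        ((R₁.subtype.comp e.toMonoidHom).comp (Subgroup.inclusion hQR))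
        (F.injective_of_mem hφ) rfl).symm (α₁ ((Fusion.equivOfRange
        ((R₁.subtype.comp e.toMonoidHom).comp (Subgroup.inclusion hQR))
        (F.injective_of_mem hφ) rfl) q))) : _) : Ω) = _
    rw [MulEquiv.apply_symm_apply]
  · intro h1
    have hQ₁fin : Finite ((R₁.subtype.comp e.toMonoidHom).comp (Subgroup.inclusion hQR)).range :=
      finite_of_le hQ₁S
    have hMfin : Finite
        (MulAut ((R₁.subtype.comp e.toMonoidHom).comp (Subgroup.inclusion hQR)).range) :=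
      inferInstance
    have h2 := pCore_map_equiv p (MulAut.congr (Fusion.equivOfRange
      ((R₁.subtype.comp e.toMonoidHom).comp (Subgroup.inclusion hQR))
      (F.injective_of_mem hφ) rfl)).symm (F.autGroup _) (F.autGroup Q) ?_ ?_ h1
    · have e3 : (MulAut.congr (Fusion.equivOfRange
          ((R₁.subtype.comp e.toMonoidHom).comp (Subgroup.inclusion hQR))
          (F.injective_of_mem hφ) rfl)).symm (MulAut.congr (Fusion.equivOfRange
          ((R₁.subtype.comp e.toMonoidHom).comp (Subgroup.inclusion hQR))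
          (F.injective_of_mem hφ) rfl) χ) = χ := MulEquiv.symm_apply_apply _ _
      rw [e3] at h2
      exact h2
    · intro a ha
      exact Fusion.congr_mem_autGroup F he'.symm ha
    · intro a ha
      exact Fusion.congr_mem_autGroup F he' ha

/-- The inductive claim: for centric `R` to which all `F`-automorphisms of `Q` extend, quadratic
`F`-automorphisms of `Q` lie in `O_p(Aut_F(Q))`. -/
theorem pstable_frc_claim [Finite S] (p : ℕ) [Fact p.Prime] (hS : IsPGroup p S)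
    (F : FusionSystem S) (hF : F.IsSaturated p)
    (h : ∀ R : Subgroup Ω, F.IsFullyNormalized R → F.IsCentric R → F.IsRadical p R →
      ∀ N : FusionSystem (normalizerIn S R), F.IsNormalizerSystem R N → PStableSys p N) :
    ∀ n : ℕ, ∀ R : Subgroup Ω, R ≤ S → Nat.card S - Nat.card R = n → F.IsCentric R →
      ∀ Q : Subgroup Ω, AutExt F Q R → ∀ χ : MulAut Q, χ ∈ F.autGroup Q →
      (∀ a : ↥Q, (χ a⁻¹) * a * (χ a⁻¹) * (χ (χ a)) = 1) →
      χ ∈ ((Cfsg.pCore p ↥(F.autGroup Q)).map (F.autGroup Q).subtype :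
        Subgroup (MulAut ↥Q)) := by
  intro n
  induction n using Nat.strong_induction_on with
  | _ n IH =>
    intro R hRS hn hRc Q hExt χ hχ hq
    have h77 := (Cfsg.Agent.S5077.result p hS F).1 hF
    obtain ⟨R₁, hconj, hfn⟩ := Fusion.exists_fullyNormalized_conj F hRS
    obtain ⟨e, he⟩ := (Fusion.isConj_iff_exists_iso F).1 hconj
    obtain ⟨Q₁, χ₁, hExt₁, hχ₁, hq₁, hback⟩ := autExt_transport p F he hExt hχ hq
    apply hback
    have hR₁S : R₁ ≤ S := hfn.1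
    have hcard : Nat.card R₁ = Nat.card R := (Nat.card_congr e.toEquiv).symm
    have hR₁c : F.IsCentric R₁ :=
      ⟨hR₁S, fun Q' hQ' => hRc.2 Q' (Fusion.isConj_trans F hconj hQ')⟩
    obtain ⟨hfc, hfa⟩ := h77.1 R₁ hfn
    have hrec := h77.2 R₁ hfc
    by_cases hrad : F.IsRadical p R₁
    · obtain ⟨N, hN⟩ := Cfsg.Agent.S5096.result F R₁ hR₁S
      exact pstable_frc_final p F hR₁S N hN (h R₁ hfn hR₁c hrad N hN) hExt₁ hχ₁ hq₁
    · have hne : ¬ radExt p F R₁ ≤ R₁ := fun hle => hrad (isRadical_of_radExt_le hS F hfa hle)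
      have hle' : R₁ ≤ radExt p F R₁ := le_radExt hS F hR₁S
      have hlt : R₁ < radExt p F R₁ := lt_of_le_not_ge hle' hne
      have hR'S := radExt_le p F R₁
      have hR'fin : Finite (radExt p F R₁) := finite_of_le hR'S
      have hcardlt : Nat.card R₁ < Nat.card (radExt p F R₁) := card_lt_of_lt' hlt
      have hcardle : Nat.card (radExt p F R₁) ≤ Nat.card S := Subgroup.card_le_of_le hR'S
      have hExt' : AutExt F Q₁ (radExt p F R₁) := by
        obtain ⟨hQR, hext⟩ := hExt₁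
        refine ⟨hQR.trans hle', fun α hα => ?_⟩
        obtain ⟨β, hβ, hβα⟩ := hext α hα
        obtain ⟨γ, hγ, hγβ⟩ := exists_aut_radExt hS F hfa hrec hβ
        exact ⟨γ, hγ, fun q => (hγβ ⟨q, hQR q.2⟩).trans (hβα q)⟩
      exact IH (Nat.card S - Nat.card (radExt p F R₁)) (by omega) _ hR'S rfl
        (isCentric_of_le_sub F hR₁c hle' hR'S) Q₁ hExt' χ₁ hχ₁ hq₁

/-- If the normalizer systems of the fully normalized centric radical subgroups are `p`-stable,
so is the system. -/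
theorem pstable_of_frc [Finite S] (p : ℕ) [Fact p.Prime] (hS : IsPGroup p S)
    (F : FusionSystem S) (hF : F.IsSaturated p)
    (h : ∀ R : Subgroup Ω, F.IsFullyNormalized R → F.IsCentric R → F.IsRadical p R →
      ∀ N : FusionSystem (normalizerIn S R), F.IsNormalizerSystem R N → PStableSys p N) :
    PStableSys p F := by
  intro Q hQ χ hχ hq
  have h77 := (Cfsg.Agent.S5077.result p hS F).1 hF
  obtain ⟨hfc, hfa⟩ := h77.1 Q hQ
  have hrec := h77.2 Q hfc
  have hR₀S : Q ⊔ centralizerIn S Q ≤ S := sup_le hQ.1 inf_le_left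
  exact pstable_frc_claim p hS F hF h _ _ hR₀S rfl (isCentric_sup_centralizer F hfc) Q
    (autExt_sup_centralizer F hrec) χ hχ hq

theorem pstable_iff_frc [Finite S] (p : ℕ) [Fact p.Prime] (hS : IsPGroup p S)
    (F : FusionSystem S) (hF : F.IsSaturated p) :
    PStableSys p F ↔ ∀ R : Subgroup Ω, F.IsFullyNormalized R → F.IsCentric R →
      F.IsRadical p R → ∀ N : FusionSystem (normalizerIn S R), F.IsNormalizerSystem R N →
      PStableSys p N :=
  ⟨fun hst R _ _ _ N hN => pstable_normalizer p F hst R N hN, pstable_of_frc p hS F hF⟩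

end Cfsg.Agent.Lib.Helper27
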