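import Mathlib
import Cfsg.Prelude.Def_FusionSystem
import Cfsg.Prelude.Def_LocalEven
import Cfsg.Agent.Lib.Helper1.Cores
import Cfsg.Agent.Lib.Helper27.PStable
import Cfsg.Agent.Lib.Helper27.NormalSub
import Cfsg.Agent.Lib.Helper27.SylowAux

set_option autoImplicit false

namespace Cfsg.Agent.Lib.Helper27

open Cfsg Cfsg.FusionSystem

section QuotCore

variable {N : Type*} [Group N]

/-- Membership in `O_p` of a quotient, in terms of a normal subgroup upstairs. -/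
theorem mk_mem_pCore_iff [Finite N] (p : ℕ) [Fact p.Prime] (K : Subgroup N) [K.Normal] (x : N) :
    (QuotientGroup.mk (s := K) x) ∈ Cfsg.pCore p (N ⧸ K) ↔
      ∃ M : Subgroup N, M.Normal ∧ K ≤ M ∧ x ∈ M ∧ ∀ m ∈ M, ∃ k : ℕ, m ^ (p ^ k) ∈ K := by
  constructor
  · intro h
    refine ⟨(Cfsg.pCore p (N ⧸ K)).comap (QuotientGroup.mk' K), ?_, ?_, h, ?_⟩
    · exact (Cfsg.Agent.Lib.Helper1.pCore_normal (G := N ⧸ K) p).comap _
    · intro k hk
      rw [Subgroup.mem_comap]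
      have : (QuotientGroup.mk' K) k = 1 := (QuotientGroup.eq_one_iff k).mpr hk
      rw [this]
      exact Subgroup.one_mem _
    · intro m hm
      have hP := Cfsg.Agent.Lib.Helper1.pCore_isPGroup (G := N ⧸ K) p
      obtain ⟨k, hk⟩ := hP ⟨_, hm⟩
      refine ⟨k, ?_⟩
      have h1 : ((QuotientGroup.mk' K) m) ^ (p ^ k) = 1 := congrArg Subtype.val hk
      rw [← map_pow] at h1
      exact (QuotientGroup.eq_one_iff _).mp h1
  · rintro ⟨M, hMn, hKM, hxM, hpow⟩
    have hN : (M.map (QuotientGroup.mk' K)).Normal :=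
      hMn.map _ (QuotientGroup.mk'_surjective K)
    have hP : IsPGroup p (M.map (QuotientGroup.mk' K)) := by
      rintro ⟨_, m, hm, rfl⟩
      obtain ⟨k, hk⟩ := hpow m hm
      refine ⟨k, Subtype.ext ?_⟩
      show ((QuotientGroup.mk' K) m) ^ (p ^ k) = 1
      rw [← map_pow]
      exact (QuotientGroup.eq_one_iff _).mpr hk
    exact Cfsg.Agent.Lib.Helper1.le_pCore p hN hP ⟨x, hxM, rfl⟩

/-- Membership in `O_p` of the image of a homomorphism, in terms of a normal subgroup upstairs. -/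
theorem map_mem_pCore_range_iff {A : Type*} [Group A] [Finite A] (p : ℕ) [Fact p.Prime]
    (f : N →* A) (x : N) :
    f x ∈ (Cfsg.pCore p f.range).map f.range.subtype ↔
      ∃ M : Subgroup N, M.Normal ∧ f.ker ≤ M ∧ x ∈ M ∧
        ∀ m ∈ M, ∃ k : ℕ, m ^ (p ^ k) ∈ f.ker := by
  constructor
  · intro h
    refine ⟨((Cfsg.pCore p f.range).map f.range.subtype).comap f, ⟨fun m hm n => ?_⟩, ?_, h, ?_⟩
    · rw [Subgroup.mem_comap] at hm ⊢
      rw [map_mul, map_mul, map_inv]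
      exact pCore_map_conj p f.range ⟨n, rfl⟩ hm
    · intro k hk
      rw [Subgroup.mem_comap, MonoidHom.mem_ker.mp hk]
      exact Subgroup.one_mem _
    · intro m hm
      have hP := pCore_map_isPGroup p f.range
      obtain ⟨k, hk⟩ := hP ⟨_, hm⟩
      refine ⟨k, ?_⟩
      rw [MonoidHom.mem_ker, map_pow]
      exact congrArg Subtype.val hk
  · rintro ⟨M, hMn, hKM, hxM, hpow⟩
    apply mem_pCore_map_of_normal p f.range (M.map f) ?_ ?_ ?_ ⟨x, hxM, rfl⟩
    · rintro _ ⟨m, -, rfl⟩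
      exact ⟨m, rfl⟩
    · rintro ⟨_, m, hm, rfl⟩
      obtain ⟨k, hk⟩ := hpow m hm
      refine ⟨k, Subtype.ext ?_⟩
      show (f m) ^ (p ^ k) = 1
      rw [← map_pow]
      exact MonoidHom.mem_ker.mp hk
    · rintro _ ⟨n, rfl⟩ _ ⟨m, hm, rfl⟩
      exact ⟨n * m * n⁻¹, hMn.conj_mem m hm n, by simp⟩

theorem mk_mem_pCore_iff_map {A : Type*} [Group A] [Finite A] [Finite N] (p : ℕ) [Fact p.Prime]
    (f : N →* A) (K : Subgroup N) [K.Normal] (hK : f.ker = K) (x : N) :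
    (QuotientGroup.mk (s := K) x) ∈ Cfsg.pCore p (N ⧸ K) ↔
      f x ∈ (Cfsg.pCore p f.range).map f.range.subtype := by
  rw [mk_mem_pCore_iff, map_mem_pCore_range_iff, hK]

end QuotCore

section Quad

variable {G : Type*} [Group G]

/-- The commutator condition `[Q, g, g] = 1` gives the quadratic identity for conjugation by
`g`. -/
theorem quad_of_comm {Q : Subgroup G} {g : G} (hg : g ∈ Subgroup.normalizer (Q : Set G))
    (h : ⁅⁅Q, Subgroup.zpowers g⁆, Subgroup.zpowers g⁆ = ⊥) (a : Q) :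
    (Q.normalizerMonoidHom ⟨g, hg⟩ a⁻¹) * a * (Q.normalizerMonoidHom ⟨g, hg⟩ a⁻¹) *
      (Q.normalizerMonoidHom ⟨g, hg⟩ (Q.normalizerMonoidHom ⟨g, hg⟩ a)) = 1 := by
  apply Subtype.ext
  show g * (a : G)⁻¹ * g⁻¹ * a * (g * (a : G)⁻¹ * g⁻¹) * (g * (g * a * g⁻¹) * g⁻¹) = 1
  have h1 := Subgroup.commutator_eq_bot_iff_le_centralizer.mp h
  have h2 := h1 (Subgroup.commutator_mem_commutator a.2 (Subgroup.mem_zpowers g))
  have h3 := Subgroup.mem_centralizer_iff.mp h2 g (Subgroup.mem_zpowers g)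
  rw [commutatorElement_def] at h3
  obtain ⟨c, hc⟩ : ∃ c : G, c = (a : G) * g * (a : G)⁻¹ * g⁻¹ := ⟨_, rfl⟩
  rw [← hc] at h3
  have h4 : g * c⁻¹ = c⁻¹ * g := (show Commute g c from h3).inv_right
  calc g * (a : G)⁻¹ * g⁻¹ * a * (g * (a : G)⁻¹ * g⁻¹) * (g * (g * a * g⁻¹) * g⁻¹)
      = (a : G)⁻¹ * c * c * (g * c⁻¹) * a * g⁻¹ := by rw [hc]; group
    _ = (a : G)⁻¹ * c * c * (c⁻¹ * g) * a * g⁻¹ := by rw [h4]
    _ = 1 := by rw [hc]; group

/-- The quadratic identity for conjugation by `g` gives the commutator condition. -/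
theorem comm_of_quad {Q : Subgroup G} {g : G} (hg : g ∈ Subgroup.normalizer (Q : Set G))
    (h : ∀ a : Q, (Q.normalizerMonoidHom ⟨g, hg⟩ a⁻¹) * a * (Q.normalizerMonoidHom ⟨g, hg⟩ a⁻¹) *
      (Q.normalizerMonoidHom ⟨g, hg⟩ (Q.normalizerMonoidHom ⟨g, hg⟩ a)) = 1) :
    ⁅⁅Q, Subgroup.zpowers g⁆, Subgroup.zpowers g⁆ = ⊥ := by
  have key : ∀ a ∈ Q, g * (a * g * a⁻¹ * g⁻¹) = (a * g * a⁻¹ * g⁻¹) * g := by
    intro a ha
    have hT : g * a⁻¹ * g⁻¹ * a * (g * a⁻¹ * g⁻¹) * (g * (g * a * g⁻¹) * g⁻¹) = 1 :=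
      congrArg Subtype.val (h ⟨a, ha⟩)
    obtain ⟨c, hc⟩ : ∃ c : G, c = a * g * a⁻¹ * g⁻¹ := ⟨_, rfl⟩
    rw [← hc]
    have h5 : c * g * c⁻¹ = g := by
      calc c * g * c⁻¹
          = c⁻¹ * a * (g * a⁻¹ * g⁻¹ * a * (g * a⁻¹ * g⁻¹) * (g * (g * a * g⁻¹) * g⁻¹)) * g * a⁻¹ := by
            rw [hc]; group
        _ = c⁻¹ * a * 1 * g * a⁻¹ := by rw [hT]
        _ = g := by rw [hc]; group
    calc g * c = (c * g * c⁻¹) * c := by rw [h5]
      _ = c * g := by group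
  -- the subgroup of `z` commuting with `g`-powers with all `[a, z]` centralizing `⟨g⟩`
  let Y : Subgroup G :=
    { carrier := {z | z ∈ Subgroup.centralizer (Subgroup.zpowers g : Set G) ∧
        ∀ a ∈ Q, a * z * a⁻¹ * z⁻¹ ∈ Subgroup.centralizer (Subgroup.zpowers g : Set G)}
      one_mem' := ⟨Subgroup.one_mem _, fun a _ => by simp⟩
      mul_mem' := by
        rintro z₁ z₂ ⟨h1, h1'⟩ ⟨h2, h2'⟩
        refine ⟨Subgroup.mul_mem _ h1 h2, fun a ha => ?_⟩
        have e : a * (z₁ * z₂) * a⁻¹ * (z₁ * z₂)⁻¹ =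
            (a * z₁ * a⁻¹ * z₁⁻¹) * (z₁ * (a * z₂ * a⁻¹ * z₂⁻¹) * z₁⁻¹) := by group
        rw [e]
        exact Subgroup.mul_mem _ (h1' a ha)
          (Subgroup.mul_mem _ (Subgroup.mul_mem _ h1 (h2' a ha)) (Subgroup.inv_mem _ h1))
      inv_mem' := by
        rintro z ⟨h1, h1'⟩
        refine ⟨Subgroup.inv_mem _ h1, fun a ha => ?_⟩
        have e : a * z⁻¹ * a⁻¹ * z⁻¹⁻¹ = z⁻¹ * (a * z * a⁻¹ * z⁻¹)⁻¹ * z := by group
        rw [e]
        exact Subgroup.mul_mem _ (Subgroup.mul_mem _ (Subgroup.inv_mem _ h1)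
          (Subgroup.inv_mem _ (h1' a ha))) h1 }
  have hgC : g ∈ Subgroup.centralizer (Subgroup.zpowers g : Set G) := by
    rw [Subgroup.mem_centralizer_iff]
    intro z hz
    obtain ⟨k, rfl⟩ := Subgroup.mem_zpowers_iff.mp hz
    exact (Commute.zpow_self g k)
  have hcen : ∀ c : G, g * c = c * g → c ∈ Subgroup.centralizer (Subgroup.zpowers g : Set G) := by
    intro c hc
    rw [Subgroup.mem_centralizer_iff]
    intro z hz
    obtain ⟨k, rfl⟩ := Subgroup.mem_zpowers_iff.mp hz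
    exact ((show Commute g c from hc).zpow_left k)
  have hgY : g ∈ Y := ⟨hgC, fun a ha => hcen _ (key a ha)⟩
  have hzY : Subgroup.zpowers g ≤ Y := Subgroup.zpowers_le.mpr hgY
  rw [Subgroup.commutator_eq_bot_iff_le_centralizer, Subgroup.commutator_le]
  intro a ha z hz
  rw [commutatorElement_def]
  exact (hzY hz).2 a ha

end Quad

section GrpMain

variable {G : Type*} [Group G]

/-- Conjugation by `x`, from `N(P₀)` to `N(x P₀ x⁻¹)`. -/
def conjNormMap (x : G) (P₀ : Subgroup G) :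
    ↥(Subgroup.normalizer (P₀ : Set G)) →* ↥(Subgroup.normalizer (cj x P₀ : Set G)) :=
  MonoidHom.mk' (fun n => ⟨x * n * x⁻¹, by
      rw [normalizer_cj]
      exact conj_mem_cj n.2⟩)
    (fun a b => Subtype.ext (by
      show x * ((a : G) * b) * x⁻¹ = (x * a * x⁻¹) * (x * b * x⁻¹)
      group))

/-- Conjugation by `x` followed by the action on `x P₀ x⁻¹`. -/
def conjNormHom (x : G) (P₀ : Subgroup G) :
    ↥(Subgroup.normalizer (P₀ : Set G)) →* MulAut (cj x P₀) :=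
  (cj x P₀).normalizerMonoidHom.comp (conjNormMap x P₀)

theorem conjNormHom_ker (x : G) (P₀ : Subgroup G) :
    (conjNormHom x P₀).ker =
      (Subgroup.centralizer (P₀ : Set G)).subgroupOf (Subgroup.normalizer (P₀ : Set G)) := by
  ext n
  have h1 : n ∈ (conjNormHom x P₀).ker ↔
      conjNormMap x P₀ n ∈ (cj x P₀).normalizerMonoidHom.ker := by
    rw [MonoidHom.mem_ker, MonoidHom.mem_ker]
    rfl
  rw [h1, Subgroup.normalizerMonoidHom_ker, Subgroup.mem_subgroupOf, Subgroup.mem_subgroupOf,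
    centralizer_cj, mem_cj]
  have e : x⁻¹ * ((conjNormMap x P₀ n : ↥(Subgroup.normalizer (cj x P₀ : Set G))) : G) * x = n := by
    show x⁻¹ * (x * (n : G) * x⁻¹) * x = n
    group
  rw [e]

theorem conjNormHom_range (x : G) (P₀ : Subgroup G) :
    (conjNormHom x P₀).range = autInducedBy ⊤ (cj x P₀) := by
  ext α
  rw [mem_autInducedBy_iff]
  constructor
  · rintro ⟨n, rfl⟩
    exact ⟨x * n * x⁻¹, Subgroup.mem_top _, (conjNormMap x P₀ n).2, fun y => rfl⟩
  · rintro ⟨y, -, hyN, hy⟩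
    have hn : x⁻¹ * y * x ∈ Subgroup.normalizer (P₀ : Set G) := by
      rw [normalizer_cj, mem_cj] at hyN
      exact hyN
    refine ⟨⟨x⁻¹ * y * x, hn⟩, ?_⟩
    apply MulEquiv.ext
    intro a
    apply Subtype.ext
    rw [hy a]
    show (x * (x⁻¹ * y * x) * x⁻¹) * (a : G) * (x * (x⁻¹ * y * x) * x⁻¹)⁻¹ = y * a * y⁻¹
    group

theorem normalizerMonoidHom_range_eq (Q : Subgroup G) :
    Q.normalizerMonoidHom.range = autInducedBy ⊤ Q := by
  ext α
  rw [mem_autInducedBy_iff]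
  constructor
  · rintro ⟨n, rfl⟩
    exact ⟨n, Subgroup.mem_top _, n.2, fun y => rfl⟩
  · rintro ⟨y, -, hyN, hy⟩
    refine ⟨⟨y, hyN⟩, ?_⟩
    apply MulEquiv.ext
    intro a
    apply Subtype.ext
    rw [hy a]
    rfl

/-- A finite group is `p`-stable in the normalizer form iff its fusion system on a Sylow
`p`-subgroup is `p`-stable. -/
theorem normalizerPStable_iff [Finite G] {p : ℕ} [Fact p.Prime] (P : Sylow p G) :
    Cfsg.IsNormalizerPStable p G ↔ PStableSys p (groupFusionSystem (P : Subgroup G)) := by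
  constructor
  · intro h Q hQ χ hχ hq
    have hQP : Q ≤ P := hQ.1
    have hQp : IsPGroup p Q := P.isPGroup'.to_le hQP
    rw [groupFS_autGroup hQP] at hχ
    obtain ⟨g, -, hgN, hg⟩ := mem_autInducedBy_iff.mp hχ
    have hχeq : χ = Q.normalizerMonoidHom ⟨g, hgN⟩ := by
      apply MulEquiv.ext
      intro a
      apply Subtype.ext
      rw [hg a]
      rfl
    subst hχeq
    have hquad := comm_of_quad hgN hq
    have h1 := h Q hQp g hgN hquad
    have h2 := (mk_mem_pCore_iff_map p Q.normalizerMonoidHom _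
      (Subgroup.normalizerMonoidHom_ker Q) ⟨g, hgN⟩).mp h1
    exact pCore_map_congr p
      ((normalizerMonoidHom_range_eq Q).trans (groupFS_autGroup hQP).symm) h2
  · intro hst P₀ hP₀ g hg hquad
    obtain ⟨x, hx⟩ := exists_cj_le_sylow P hP₀
    have hrange := conjNormHom_range x P₀
    have hχ₀ : conjNormHom x P₀ ⟨g, hg⟩ ∈
        (groupFusionSystem (P : Subgroup G)).autGroup (cj x P₀) := by
      rw [groupFS_autGroup hx, ← hrange]
      exact ⟨_, rfl⟩
    have hquad' : ⁅⁅cj x P₀, Subgroup.zpowers (x * g * x⁻¹)⁆,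
        Subgroup.zpowers (x * g * x⁻¹)⁆ = ⊥ := by
      have e : Subgroup.zpowers (x * g * x⁻¹) =
          (Subgroup.zpowers g).map (MulAut.conj x).toMonoidHom := by
        rw [MonoidHom.map_zpowers]
        rfl
      rw [e, ← Subgroup.map_commutator, ← Subgroup.map_commutator, hquad, Subgroup.map_bot]
    have hq₀ := quad_of_comm (conjNormMap x P₀ ⟨g, hg⟩).2 hquad'
    have h1 := pstable_all p _ hst hx hχ₀ hq₀
    have h2 := pCore_map_congr p ((groupFS_autGroup hx).trans hrange.symm) h1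
    exact (mk_mem_pCore_iff_map p (conjNormHom x P₀) _ (conjNormHom_ker x P₀) ⟨g, hg⟩).mpr h2

end GrpMain

end Cfsg.Agent.Lib.Helper27
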