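import Mathlib

set_option autoImplicit false

namespace Cfsg.Agent.Lib.Helper27

section PowZPure

open Polynomial

/-- In a commutative ring, if `(1 + s)^p = 1` and `s^(n(p-1)+1) = 0` then `p^n s = 0`. -/
theorem ring_pow_mul_eq_zero {A : Type*} [CommRing A] (p : ℕ) (hp : p.Prime) (n : ℕ) (s : A)
    (h1 : (1 + s) ^ p = 1) (h2 : s ^ (n * (p - 1) + 1) = 0) : (p : A) ^ n * s = 0 := by
  have hmem : 1 ∈ Finset.Ioo 0 p := Finset.mem_Ioo.2 ⟨Nat.one_pos, hp.one_lt⟩
  have hsum : ∑ k ∈ Finset.Ioo 0 p, s ^ (k - 1) * (1 : A) ^ (p - k - 1) * ((p.choose k / p : ℕ) : A)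
      = 1 + s * ∑ k ∈ (Finset.Ioo 0 p).erase 1, s ^ (k - 2) * ((p.choose k / p : ℕ) : A) := by
    rw [← Finset.add_sum_erase _ _ hmem, Finset.mul_sum]
    congr 1
    · simp [Nat.div_self hp.pos]
    · apply Finset.sum_congr rfl
      intro k hk
      obtain ⟨hk1, hk2⟩ := Finset.mem_erase.1 hk
      have hk3 := (Finset.mem_Ioo.1 hk2).1
      have e : k - 1 = (k - 2) + 1 := by omega
      rw [e, pow_succ, one_pow]
      ring
  have h := add_pow_prime_eq hp s (1 : A)
  obtain ⟨q, hq⟩ : ∃ q : A, ∑ k ∈ Finset.Ioo 0 p,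
      s ^ (k - 1) * (1 : A) ^ (p - k - 1) * ((p.choose k / p : ℕ) : A) = 1 + s * q := ⟨_, hsum⟩
  rw [hq] at h
  have h3 : (s + 1) ^ p = 1 := by rw [add_comm]; exact h1
  rw [h3, one_pow, mul_one] at h
  have key : (p : A) * s * (1 + s * q) = - s ^ p := by
    linear_combination -h
  obtain ⟨w, hw⟩ : ∃ w : A, (1 + s * q) * w = 1 := by
    refine ⟨∑ i ∈ Finset.range (n * (p - 1) + 1), (-(s * q)) ^ i, ?_⟩
    have h4 := mul_neg_geom_sum (-(s * q)) (n * (p - 1) + 1)
    rw [sub_neg_eq_add, neg_pow, mul_pow, h2, zero_mul, mul_zero, sub_zero] at h4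
    exact h4
  have hps : (p : A) * s = s ^ p * (-w) := by
    calc (p : A) * s = (p : A) * s * ((1 + s * q) * w) := by rw [hw, mul_one]
      _ = ((p : A) * s * (1 + s * q)) * w := by ring
      _ = s ^ p * (-w) := by rw [key]; ring
  have hk : ∀ k : ℕ, (p : A) ^ k * s = s ^ (k * (p - 1) + 1) * (-w) ^ k := by
    intro k
    induction k with
    | zero => simp
    | succ k ih =>
      have e : (k + 1) * (p - 1) + 1 = p + k * (p - 1) := by
        have := hp.one_lt
        rw [Nat.succ_mul]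
        generalize k * (p - 1) = a
        omega
      calc (p : A) ^ (k + 1) * s = (p : A) * ((p : A) ^ k * s) := by ring
        _ = (p : A) * (s ^ (k * (p - 1) + 1) * (-w) ^ k) := by rw [ih]
        _ = ((p : A) * s) * (s ^ (k * (p - 1)) * (-w) ^ k) := by ring
        _ = s ^ p * (-w) * (s ^ (k * (p - 1)) * (-w) ^ k) := by rw [hps]
        _ = s ^ ((k + 1) * (p - 1) + 1) * (-w) ^ (k + 1) := by rw [e]; ring
  rw [hk n, h2, zero_mul]

theorem exists_poly_identity (p : ℕ) (hp : p.Prime) (n : ℕ) :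
    ∃ G H : ℤ[X], (p : ℤ[X]) ^ n * X = G * X ^ (n * (p - 1) + 1) + H * ((1 + X) ^ p - 1) := by
  obtain ⟨I, hI⟩ : ∃ I : Ideal ℤ[X],
      I = Ideal.span {X ^ (n * (p - 1) + 1), (1 + X) ^ p - 1} := ⟨_, rfl⟩
  have h1 : (1 + Ideal.Quotient.mk I X) ^ p = 1 := by
    have h0 : Ideal.Quotient.mk I ((1 + X) ^ p - 1) = 0 := by
      apply Ideal.Quotient.eq_zero_iff_mem.2
      rw [hI]
      exact Ideal.subset_span (Set.mem_insert_of_mem _ (Set.mem_singleton _))
    rw [map_sub, map_pow, map_add, map_one, sub_eq_zero] at h0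
    exact h0
  have h2 : (Ideal.Quotient.mk I X) ^ (n * (p - 1) + 1) = 0 := by
    rw [← map_pow]
    apply Ideal.Quotient.eq_zero_iff_mem.2
    rw [hI]
    exact Ideal.subset_span (Set.mem_insert _ _)
  have h3 := ring_pow_mul_eq_zero p hp n (Ideal.Quotient.mk I X) h1 h2
  have h4 : Ideal.Quotient.mk I ((p : ℤ[X]) ^ n * X) = 0 := by
    rw [map_mul, map_pow, map_natCast]
    exact h3
  have h5 := Ideal.Quotient.eq_zero_iff_mem.1 h4
  rw [hI] at h5
  obtain ⟨G, H, hGH⟩ := Ideal.mem_span_pair.1 h5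
  exact ⟨G, H, hGH.symm⟩

/-- An endomorphism `t` of an abelian group with `t^p = 1` whose commutator map is nilpotent of
index `n(p-1)+1`: the commutators have order dividing `p^n`. -/
theorem comm_pow_eq_one_of_iter {U : Type*} [CommGroup U] (p : ℕ) (hp : p.Prime) (n : ℕ)
    (t : U →* U) (ht : ∀ u, t^[p] u = u)
    (hs : ∀ u, (fun v => v⁻¹ * t v)^[n * (p - 1) + 1] u = 1) (u : U) :
    (u⁻¹ * t u) ^ (p ^ n) = 1 := by
  obtain ⟨T, hTdef⟩ : ∃ T : Module.End ℤ (Additive U),
      ∀ v : U, T (Additive.ofMul v) = Additive.ofMul (t v) :=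
    ⟨(MonoidHom.toAdditive t).toIntLinearMap, fun v => rfl⟩
  have hTit : ∀ (k : ℕ) (v : U), (⇑T)^[k] (Additive.ofMul v) = Additive.ofMul (t^[k] v) := by
    intro k v
    induction k with
    | zero => rfl
    | succ k ih => rw [Function.iterate_succ_apply', ih, Function.iterate_succ_apply', hTdef]
  obtain ⟨s, hsdef⟩ : ∃ s : Module.End ℤ (Additive U), s = T - 1 := ⟨_, rfl⟩
  have hsv : ∀ v : U, s (Additive.ofMul v) = Additive.ofMul (v⁻¹ * t v) := by
    intro v
    rw [hsdef, LinearMap.sub_apply, Module.End.one_apply, hTdef, ← ofMul_div, div_eq_mul_inv,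
      mul_comm]
  have hsit : ∀ (k : ℕ) (v : U), (⇑s)^[k] (Additive.ofMul v) =
      Additive.ofMul ((fun v => v⁻¹ * t v)^[k] v) := by
    intro k v
    induction k with
    | zero => rfl
    | succ k ih => rw [Function.iterate_succ_apply', ih, Function.iterate_succ_apply', hsv]
  have hs0 : s ^ (n * (p - 1) + 1) = 0 := by
    apply LinearMap.ext
    intro m
    obtain ⟨v, rfl⟩ : ∃ v, Additive.ofMul v = m := ⟨Additive.toMul m, rfl⟩
    rw [Module.End.pow_apply, hsit, hs]
    rfl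
  have hT1 : (1 + s) ^ p = 1 := by
    have e : 1 + s = T := by rw [hsdef]; abel
    rw [e]
    apply LinearMap.ext
    intro m
    obtain ⟨v, rfl⟩ : ∃ v, Additive.ofMul v = m := ⟨Additive.toMul m, rfl⟩
    rw [Module.End.pow_apply, hTit, ht]
    rfl
  obtain ⟨G, H, hGH⟩ := exists_poly_identity p hp n
  have h := congrArg (Polynomial.aeval s) hGH
  simp only [map_mul, map_add, map_sub, map_pow, Polynomial.aeval_X, map_natCast, map_one] at h
  rw [hs0, hT1, sub_self, mul_zero, mul_zero, add_zero] at h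
  have h' : ((p : Module.End ℤ (Additive U)) ^ n * s) (Additive.ofMul u) = 0 := by
    rw [h]
    rfl
  rw [Module.End.mul_apply, hsv, ← Nat.cast_pow, Module.End.natCast_apply, ← ofMul_pow] at h'
  exact ofMul_eq_zero.1 h'

end PowZPure

end Cfsg.Agent.Lib.Helper27
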