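import Mathlib
import Cfsg.Agent.Lib.Helper27.PowZA
import Cfsg.Agent.Lib.Helper27.PPowerNormal
import Cfsg.Agent.Lib.Helper27.Induct
import Cfsg.Agent.Lib.Helper27.EssGen
import Cfsg.Agent.Lib.Helper27.NormalCrit
import Cfsg.Agent.Lib.Helper27.SylowAux

set_option autoImplicit false

namespace Cfsg.Agent.Lib.Helper27

open Cfsg Cfsg.FusionSystem Cfsg.Agent.Lib.Helper26
open scoped commutatorElement

section PowZ

variable {Ω : Type*} [Group Ω] {S : Subgroup Ω}

theorem conj_pow_center_fixed (E : Subgroup Ω) (hES : E ≤ S) (p : ℕ) (hp : p.Prime) (n : ℕ)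
    (hcl : Subgroup.lowerCentralSeries S (n * (p - 1) + 1) = ⊥) (x : Ω) (hxS : x ∈ S)
    (hxp : x ^ p ∈ E) (cx : MulAut E)
    (hcx : ∀ e : E, ((cx e : E) : Ω) = x * e * x⁻¹) (u : E) (hu : ∀ e : E, u * e = e * u) :
    cx (u ^ (p ^ n)) = u ^ (p ^ n) := by
  have hcxZ : ∀ z : E, z ∈ Subgroup.center E → cx z ∈ Subgroup.center E := by
    intro z hz
    rw [Subgroup.mem_center_iff] at hz ⊢
    intro e
    have h1 := hz (cx⁻¹ e)
    have h2 := congrArg cx h1
    rw [map_mul, map_mul, MulAut.apply_inv_self] at h2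
    exact h2
  obtain ⟨t, ht⟩ : ∃ t : Subgroup.center E →* Subgroup.center E,
      ∀ z : Subgroup.center E, ((t z : Subgroup.center E) : E) = cx z :=
    ⟨((cx : E ≃* E).toMonoidHom.comp (Subgroup.center E).subtype).codRestrict (Subgroup.center E)
      (fun z => hcxZ z z.2), fun z => rfl⟩
  have htit : ∀ (k : ℕ) (z : Subgroup.center E),
      (((t^[k] z : Subgroup.center E) : E)) = (cx ^ k) z := by
    intro k z
    induction k with
    | zero => simp
    | succ k ih => rw [Function.iterate_succ_apply', ht, ih, pow_succ' cx k, MulAut.mul_apply]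
  have htp : ∀ z : Subgroup.center E, t^[p] z = z := by
    intro z
    apply Subtype.ext
    rw [htit]
    apply Subtype.ext
    rw [conj_pow_apply hcx p]
    have h1 := (Subgroup.mem_center_iff.1 z.2) ⟨x ^ p, hxp⟩
    have h2 : x ^ p * ((z : E) : Ω) = ((z : E) : Ω) * x ^ p := congrArg Subtype.val h1
    rw [h2]
    group
  have hlcs : ∀ (k : ℕ) (z : Subgroup.center E),
      ((((fun v : Subgroup.center E => v⁻¹ * t v)^[k] z : Subgroup.center E) : E) : Ω) ∈
        Subgroup.lowerCentralSeries S k := by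
    intro k z
    induction k with
    | zero => exact hES (z : E).2
    | succ k ih =>
      rw [Function.iterate_succ_apply', Subgroup.lowerCentralSeries_succ]
      obtain ⟨v, hv⟩ : ∃ v : Subgroup.center E,
          v = (fun v : Subgroup.center E => v⁻¹ * t v)^[k] z := ⟨_, rfl⟩
      rw [← hv] at ih ⊢
      have e : (((v⁻¹ * t v : Subgroup.center E) : E) : Ω) = ⁅(((v : E) : Ω))⁻¹, x⁆ := by
        show ((v : E) : Ω)⁻¹ * (((t v : Subgroup.center E) : E) : Ω) = _
        rw [ht, hcx, commutatorElement_def]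
        group
      show (((v⁻¹ * t v : Subgroup.center E) : E) : Ω) ∈ _
      rw [e]
      exact Subgroup.commutator_mem_commutator (Subgroup.inv_mem _ ih) hxS
  have hs : ∀ z : Subgroup.center E,
      (fun v : Subgroup.center E => v⁻¹ * t v)^[n * (p - 1) + 1] z = 1 := by
    intro z
    have h1 := hlcs (n * (p - 1) + 1) z
    rw [hcl, Subgroup.mem_bot] at h1
    exact Subtype.ext (Subtype.ext h1)
  have hu' : u ∈ Subgroup.center E := Subgroup.mem_center_iff.2 (fun e => (hu e).symm)
  letI instC : CommGroup ↥(Subgroup.center ↥E) :=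
    { (inferInstance : Group ↥(Subgroup.center ↥E)) with
      mul_comm := fun a b => Subtype.ext (Subgroup.mem_center_iff.1 b.2 (a : E)) }
  have h3 := comm_pow_eq_one_of_iter (U := ↥(Subgroup.center ↥E)) p hp n t htp hs ⟨u, hu'⟩
  have h4 : (u⁻¹ * cx u) ^ (p ^ n) = 1 := by
    have h6 : ((t ⟨u, hu'⟩ : Subgroup.center E) : E) = cx u := ht ⟨u, hu'⟩
    rw [← h6]
    exact congrArg (fun z : Subgroup.center E => (z : E)) h3
  have hc : Commute u (u⁻¹ * cx u) := hu _
  have e : cx u = u * (u⁻¹ * cx u) := by group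
  rw [map_pow, e, hc.mul_pow, h4, mul_one]

set_option maxHeartbeats 1600000 in
/-- For `S` of class at most `n(p-1)+1`, the `p^n`-th powers of `Z(S)` generate a subgroup normal
in every saturated fusion system over `S`. -/
theorem powerClosure_center_isNormal [Finite S] (p : ℕ) [Fact p.Prime] (hS : IsPGroup p S)
    (F : FusionSystem S) (hF : F.IsSaturated p) (n : ℕ)
    (hcl : Subgroup.lowerCentralSeries S (n * (p - 1) + 1) = ⊥) :
    F.IsNormal (Cfsg.powerClosure p n (S ⊓ Subgroup.centralizer (S : Set Ω))) := by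
  have hp : p.Prime := Fact.out
  obtain ⟨Z, hZ⟩ : ∃ Z : Subgroup Ω, Z = S ⊓ Subgroup.centralizer (S : Set Ω) := ⟨_, rfl⟩
  obtain ⟨W, hW⟩ : ∃ W : Subgroup Ω, W = Cfsg.powerClosure p n Z := ⟨_, rfl⟩
  rw [← hZ, ← hW]
  have hZS : Z ≤ S := by rw [hZ]; exact inf_le_left
  have hZc : ∀ z ∈ Z, ∀ s ∈ S, s * z = z * s := by
    intro z hz s hs
    rw [hZ] at hz
    exact (Subgroup.mem_centralizer_iff.1 hz.2 s hs)
  have hWZ : W ≤ Z := by
    rw [hW]
    unfold Cfsg.powerClosure
    rw [Subgroup.closure_le]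
    rintro y ⟨z, hz, rfl⟩
    exact Z.pow_mem hz _
  have hWS : W ≤ S := hWZ.trans hZS
  have hgenW : ∀ z ∈ Z, z ^ (p ^ n) ∈ W := by
    intro z hz
    rw [hW]
    exact Subgroup.subset_closure ⟨z, hz, rfl⟩
  have hWle : ∀ V : Subgroup Ω, (∀ z ∈ Z, z ^ (p ^ n) ∈ V) → W ≤ V := by
    intro V hV
    rw [hW]
    unfold Cfsg.powerClosure
    rw [Subgroup.closure_le]
    rintro y ⟨z, hz, rfl⟩
    exact hV z hz
  have hTn : ∀ s ∈ S, ∀ y : Ω, s * y * s⁻¹ ∈ W ↔ y ∈ W := by
    intro s hs y
    constructor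
    · intro h
      have h1 := hZc _ (hWZ h) s hs
      have e : s * y * s⁻¹ = y := by
        have h2 : s * (s * y * s⁻¹) = s * y := by rw [h1]; group
        exact mul_left_cancel h2
      rw [e] at h
      exact h
    · intro h
      have h1 := hZc y (hWZ h) s hs
      have e : s * y * s⁻¹ = y := by rw [h1]; group
      rw [e]
      exact h
  have key : F ≤ memSystem F W hTn := by
    apply fusion_induction p hS F hF
    intro P hPa hPr IH
    have hPS : P ≤ S := hPa.1
    have hPfin : Finite P := finite_of_le hPS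
    by_cases hPtop : P = S
    · have hSP : S ≤ P := by rw [hPtop]
      intro α hα
      rw [Fusion.mem_autGroup_iff _ hPS]
      refine ⟨(Fusion.mem_autGroup_iff F hPS).1 hα, fun x => ?_⟩
      have claim : ∀ (β : MulAut P) (y : P), (y : Ω) ∈ W → ((β y : P) : Ω) ∈ W := by
        intro β y hy
        have hle := hWle (((W.subgroupOf P).comap β.toMonoidHom).map P.subtype) (by
          intro z hz
          have hzP : z ∈ P := hSP (hZS hz)
          refine ⟨⟨z, hzP⟩ ^ (p ^ n), ?_, rfl⟩
          show β (⟨z, hzP⟩ ^ (p ^ n)) ∈ W.subgroupOf P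
          rw [Subgroup.mem_subgroupOf, map_pow]
          show ((β ⟨z, hzP⟩ : P) : Ω) ^ (p ^ n) ∈ W
          apply hgenW
          rw [hZ]
          refine ⟨hPS (β ⟨z, hzP⟩).2, ?_⟩
          show ((β ⟨z, hzP⟩ : P) : Ω) ∈ Subgroup.centralizer (S : Set Ω)
          rw [Subgroup.mem_centralizer_iff]
          intro h hh
          have hhP : h ∈ P := hSP hh
          have h1 := hZc z hz ((β⁻¹ ⟨h, hhP⟩ : P) : Ω) (hPS (β⁻¹ ⟨h, hhP⟩).2)
          have h2 : (β⁻¹ ⟨h, hhP⟩ : P) * ⟨z, hzP⟩ = ⟨z, hzP⟩ * β⁻¹ ⟨h, hhP⟩ := Subtype.ext h1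
          have h3 := congrArg β h2
          rw [map_mul, map_mul, MulAut.apply_inv_self] at h3
          exact congrArg Subtype.val h3)
        obtain ⟨y', hy', hyy'⟩ := hle hy
        have e : y' = y := Subtype.ext hyy'
        rw [e] at hy'
        exact Subgroup.mem_subgroupOf.1 hy'
      show ((α x : P) : Ω) ∈ W ↔ (x : Ω) ∈ W
      constructor
      · intro h
        have h1 := claim α⁻¹ (α x) h
        rw [MulAut.inv_apply_self] at h1
        exact h1
      · exact claim α x
    by_cases hess : F.IsEssential p P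
    · have hPlt : P < S := lt_of_isEssential F hF hess
      have hcen : centralizerIn S P ≤ P := hess.1.2 P (Fusion.isConj_refl F hPS)
      obtain ⟨y₀, hy₀S, hy₀N, hy₀P⟩ := exists_mem_normalizer_not_mem hS hPlt
      obtain ⟨x, hxS, hxN, hxP, hxpP⟩ : ∃ x ∈ S, x ∈ Subgroup.normalizer (P : Set Ω) ∧ x ∉ P ∧
          x ^ p ∈ P := by
        have hex : ∃ m : ℕ, y₀ ^ (p ^ m) ∈ P := by
          obtain ⟨k, hk⟩ := hS ⟨y₀, hy₀S⟩
          refine ⟨k, ?_⟩
          have h1 : y₀ ^ (p ^ k) = 1 := congrArg Subtype.val hk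
          rw [h1]
          exact P.one_mem
        classical
        have hmin := @Nat.find_min _ _ hex
        have hspec := Nat.find_spec hex
        have hm0 : Nat.find hex ≠ 0 := by
          intro h0
          rw [h0, pow_zero, pow_one] at hspec
          exact hy₀P hspec
        obtain ⟨m, hm'⟩ := Nat.exists_eq_succ_of_ne_zero hm0
        have h2 := hspec
        rw [hm'] at h2
        refine ⟨y₀ ^ (p ^ m), S.pow_mem hy₀S _, pow_mem hy₀N _, ?_, ?_⟩
        · exact hmin (by rw [hm']; exact Nat.lt_succ_self m)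
        · rw [← pow_mul, ← pow_succ]
          exact h2
      obtain ⟨cx, hcx⟩ : ∃ cx : MulAut P, ∀ e : P, ((cx e : P) : Ω) = x * e * x⁻¹ :=
        ⟨P.normalizerMonoidHom ⟨x, hxN⟩, fun e => rfl⟩
      have hcxS : cx ∈ autInducedBy S P := Fusion.mem_autInducedBy_iff.2 ⟨x, hxS, hcx⟩
      have hcxF : cx ∈ F.autGroup P := Fusion.autInducedBy_le_autGroup F hPS hcxS
      obtain ⟨K₀, hK₀⟩ : ∃ K₀ : Subgroup (MulAut P), ∀ c : MulAut P, c ∈ K₀ ↔
          ∀ u : P, (∀ e : P, u * e = e * u) → c (u ^ (p ^ n)) = u ^ (p ^ n) :=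
        ⟨{ carrier := {c | ∀ u : P, (∀ e : P, u * e = e * u) → c (u ^ (p ^ n)) = u ^ (p ^ n)}
           one_mem' := fun u _ => rfl
           mul_mem' := by
             intro a b ha hb u hu
             show a (b (u ^ (p ^ n))) = _
             rw [hb u hu, ha u hu]
           inv_mem' := by
             intro a ha u hu
             have h1 := ha u hu
             have h2 := congrArg (a⁻¹ : MulAut P) h1
             rw [MulAut.inv_apply_self] at h2
             exact h2.symm }, fun c => Iff.rfl⟩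
      have hcxK : cx ∈ K₀ := (hK₀ cx).2
        (fun u hu => conj_pow_center_fixed P hPS p hp n hcl x hxS hxpP cx hcx u hu)
      have hK₀conj : ∀ g c : MulAut P, c ∈ K₀ → g * c * g⁻¹ ∈ K₀ := by
        intro g c hc
        rw [hK₀] at hc ⊢
        intro u hu
        have hu' : ∀ e : P, g⁻¹ u * e = e * g⁻¹ u := by
          intro e
          have h1 := hu (g e)
          have h2 := congrArg (g⁻¹ : MulAut P) h1
          rw [map_mul, map_mul, MulAut.inv_apply_self] at h2
          exact h2
        have h3 := hc (g⁻¹ u) hu'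
        show g (c (g⁻¹ (u ^ (p ^ n)))) = _
        rw [map_pow, h3, ← map_pow, MulAut.apply_inv_self]
      have hfixW : ∀ κ ∈ K₀, ∀ y : P, (y : Ω) ∈ W → κ y = y := by
        intro κ hκ y hy
        have hle := hWle ((κ.toMonoidHom.eqLocus (MonoidHom.id P)).map P.subtype) (by
          intro z hz
          have hzP : z ∈ P := hcen ⟨hZS hz, by
            show z ∈ Subgroup.centralizer (P : Set Ω)
            rw [Subgroup.mem_centralizer_iff]
            intro e he
            exact hZc z hz e (hPS he)⟩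
          have hzc : ∀ e : P, (⟨z, hzP⟩ : P) * e = e * ⟨z, hzP⟩ :=
            fun e => Subtype.ext (hZc z hz e (hPS e.2)).symm
          refine ⟨⟨z, hzP⟩ ^ (p ^ n), ?_, rfl⟩
          exact (hK₀ κ).1 hκ _ hzc)
        obtain ⟨y', hy', hyy'⟩ := hle hy
        have e : y' = y := Subtype.ext hyy'
        rw [e] at hy'
        exact hy'
      have hK₀B : ∀ κ ∈ K₀, κ ∈ F.autGroup P → κ ∈ (memSystem F W hTn).autGroup P := by
        intro κ hκ hκF
        rw [Fusion.mem_autGroup_iff _ hPS]
        refine ⟨(Fusion.mem_autGroup_iff F hPS).1 hκF, fun y => ?_⟩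
        show ((κ y : P) : Ω) ∈ W ↔ (y : Ω) ∈ W
        constructor
        · intro h
          have h1 := hfixW κ⁻¹ (K₀.inv_mem hκ) (κ y) h
          rw [MulAut.inv_apply_self] at h1
          rw [h1]
          exact h
        · intro h
          rw [hfixW κ hκ y h]
          exact h
      intro α hα
      obtain ⟨-, R, hR⟩ := hPa
      haveI hfinAut : Finite (MulAut P) :=
        Finite.of_injective (fun f : MulAut P => (f : P → P)) DFunLike.coe_injective
      haveI hNn : (K₀.subgroupOf (F.autGroup P)).Normal := ⟨fun c hc g => by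
        rw [Subgroup.mem_subgroupOf] at hc ⊢
        exact hK₀conj g c hc⟩
      have hRle : (R : Subgroup (F.autGroup P)) ≤
          (R : Subgroup (F.autGroup P)) ⊔ K₀.subgroupOf (F.autGroup P) := le_sup_left
      obtain ⟨δ, hδ⟩ : ∃ δ : MulAut P, δ = α * cx * α⁻¹ := ⟨_, rfl⟩
      have hδA : δ ∈ F.autGroup P := by
        rw [hδ]
        exact mul_mem (mul_mem hα hcxF) (inv_mem hα)
      have hδK : δ ∈ K₀ := by
        rw [hδ]
        exact hK₀conj α cx hcxK
      obtain ⟨δH, hδHdef⟩ : ∃ δH : ↥((R : Subgroup (F.autGroup P)) ⊔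
          K₀.subgroupOf (F.autGroup P)), ((δH : F.autGroup P) : MulAut P) = δ :=
        ⟨⟨⟨δ, hδA⟩, Subgroup.mem_sup_right (Subgroup.mem_subgroupOf.2 hδK)⟩, rfl⟩
      obtain ⟨k, hk⟩ : ∃ k : ℕ, cx ^ (p ^ k) = 1 := by
        have hcxR : (⟨cx, hcxF⟩ : F.autGroup P) ∈ (R : Subgroup (F.autGroup P)) := by
          rw [hR, Subgroup.mem_subgroupOf]
          exact hcxS
        obtain ⟨k, hk⟩ := R.isPGroup' ⟨⟨cx, hcxF⟩, hcxR⟩
        exact ⟨k, congrArg (fun z : (R : Subgroup (F.autGroup P)) =>
          ((z : F.autGroup P) : MulAut P)) hk⟩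
      have hδk : δ ^ (p ^ k) = 1 := by
        rw [hδ, conj_pow, hk]
        group
      have hδHk : δH ^ (p ^ k) = 1 := by
        apply Subtype.ext
        apply Subtype.ext
        show ((δH : F.autGroup P) : MulAut P) ^ (p ^ k) = 1
        rw [hδHdef]
        exact hδk
      have hpg : IsPGroup p (Subgroup.zpowers δH) := by
        rintro ⟨g, hg⟩
        obtain ⟨j, rfl⟩ := Subgroup.mem_zpowers_iff.1 hg
        refine ⟨k, Subtype.ext ?_⟩
        show (δH ^ j) ^ (p ^ k) = 1
        rw [← zpow_natCast, ← zpow_mul, mul_comm, zpow_mul, zpow_natCast, hδHk, one_zpow]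
      obtain ⟨h, hh⟩ := exists_cj_le_sylow (R.subtype hRle) hpg
      have h1 : h * δH * h⁻¹ ∈ ((R.subtype hRle : Sylow p _) : Subgroup _) :=
        hh (conj_mem_cj (Subgroup.mem_zpowers δH))
      rw [Sylow.coe_subtype, Subgroup.mem_subgroupOf] at h1
      obtain ⟨r, hr, ν, hν, hrν⟩ := Subgroup.mem_sup_of_normal_right.1 h.2
      have h2 : ν * (δH : F.autGroup P) * ν⁻¹ ∈ (R : Subgroup (F.autGroup P)) := by
        have e : ν * (δH : F.autGroup P) * ν⁻¹ =
            r⁻¹ * ((h : F.autGroup P) * (δH : F.autGroup P) * (h : F.autGroup P)⁻¹) * r := by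
          rw [← hrν]
          group
        rw [e]
        exact mul_mem (mul_mem (inv_mem hr) h1) hr
      have h2' : ((ν * (δH : F.autGroup P) * ν⁻¹ : F.autGroup P) : MulAut P) ∈
          autInducedBy S P := Subgroup.mem_subgroupOf.1 ((SetLike.ext_iff.1 hR _).1 h2)
      obtain ⟨κ, hκ⟩ : ∃ κ : MulAut P, κ = (ν : MulAut P) := ⟨_, rfl⟩
      have hκK : κ ∈ K₀ := by rw [hκ]; exact Subgroup.mem_subgroupOf.1 hν
      have hκF : κ ∈ F.autGroup P := by rw [hκ]; exact ν.2
      obtain ⟨β, hβ⟩ : ∃ β : MulAut P, β = κ * α := ⟨_, rfl⟩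
      have hβF : β ∈ F.autGroup P := by rw [hβ]; exact mul_mem hκF hα
      have h3 : β * cx * β⁻¹ ∈ autInducedBy S P := by
        have e : β * cx * β⁻¹ = κ * δ * κ⁻¹ := by rw [hβ, hδ]; group
        rw [e, ← hδHdef, hκ]
        exact h2'
      obtain ⟨g, hgS, hg⟩ := Fusion.mem_autInducedBy_iff.1 h3
      have hxX : x ∈ extender S P (P.subtype.comp (β : P ≃* P).toMonoidHom) := by
        refine Subgroup.subset_closure ⟨hxS, hxN, g, hgS, fun e he => ?_⟩
        have h1 := hg (β e)
        rw [MulAut.mul_apply, MulAut.mul_apply, MulAut.inv_apply_self] at h1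
        have h2 : (⟨x * (e : Ω) * x⁻¹, he⟩ : P) = cx e := Subtype.ext (hcx e).symm
        rw [h2]
        exact h1
      have hN : P < extender S P (P.subtype.comp β.toMonoidHom) :=
        lt_of_le_not_ge (le_extender hPS (fun e => hPS (β e).2)) (fun hle => hxP (hle hxX))
      have hβmem := mem_autGroup_of_extender_lt F (memSystem F W hTn) hPr IH hβF hN
      have hκmem := hK₀B κ hκK hκF
      have e : α = κ⁻¹ * β := by rw [hβ]; group
      rw [e]
      exact mul_mem (inv_mem hκmem) hβmem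
    · have hPlt : P < S := lt_of_le_of_ne hPS hPtop
      apply autGroup_le_of_extender hS F hPlt hPa hPr hess
      intro α hα hN
      exact mem_autGroup_of_extender_lt F (memSystem F W hTn) hPr IH hα hN
  have hWsc : F.StronglyClosed W :=
    ⟨hWS, fun R hR φ hφ x => ((key R hφ).2 x).2 (hR x.2)⟩
  apply isNormal_of_forall_essential p hS F hF W
  intro P hP
  have hPS : P ≤ S := by
    rcases hP with h | h
    · rw [h]
    · exact h.1.1
  refine ⟨?_, fun α hα => autGroup_map_of_stronglyClosed F hWsc hPS hα⟩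
  rcases hP with h | h
  · rw [h]
    exact hWS
  · intro w hw
    apply h.1.2 P (Fusion.isConj_refl F hPS)
    refine ⟨hWS hw, ?_⟩
    show w ∈ Subgroup.centralizer (P : Set Ω)
    rw [Subgroup.mem_centralizer_iff]
    intro e he
    exact hZc w (hWZ hw) e (hPS he)

end PowZ

end Cfsg.Agent.Lib.Helper27
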