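import Mathlib

set_option autoImplicit false

namespace Cfsg.Agent.Lib.Helper27

open scoped commutatorElement

section PowZExp

theorem conj_pow_of_central_comm {Q : Type*} [Group Q] (a b : Q)
    (hc : ∀ g : Q, (a * b * a⁻¹ * b⁻¹) * g = g * (a * b * a⁻¹ * b⁻¹)) (i : ℕ) :
    a ^ i * b * (a ^ i)⁻¹ * b⁻¹ = (a * b * a⁻¹ * b⁻¹) ^ i := by
  induction i with
  | zero => simp
  | succ i ih =>
    have hci : ∀ g : Q, (a * b * a⁻¹ * b⁻¹) ^ i * g = g * (a * b * a⁻¹ * b⁻¹) ^ i :=
      fun g => ((Commute.pow_left (show Commute (a * b * a⁻¹ * b⁻¹) g from hc g) i)).eq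
    calc a ^ (i + 1) * b * (a ^ (i + 1))⁻¹ * b⁻¹
        = a * (a ^ i * b * (a ^ i)⁻¹ * b⁻¹) * b * a⁻¹ * b⁻¹ := by
          rw [pow_succ']
          group
      _ = a * ((a * b * a⁻¹ * b⁻¹) ^ i) * b * a⁻¹ * b⁻¹ := by rw [ih]
      _ = ((a * b * a⁻¹ * b⁻¹) ^ i * a) * b * a⁻¹ * b⁻¹ := by rw [hci a]
      _ = (a * b * a⁻¹ * b⁻¹) ^ (i + 1) := by
          rw [pow_succ]
          simp only [mul_assoc]

/-- If the centre has exponent dividing `m`, so does every factor of the upper central series. -/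
theorem pow_mem_upperCentralSeries {G : Type*} [Group G] (m : ℕ)
    (hm : ∀ z ∈ Subgroup.center G, z ^ m = 1) :
    ∀ k : ℕ, ∀ x ∈ Subgroup.upperCentralSeries G (k + 1),
      x ^ m ∈ Subgroup.upperCentralSeries G k := by
  intro k
  induction k with
  | zero =>
    intro x hx
    have hx' : x ∈ Subgroup.upperCentralSeries G 1 := hx
    rw [Subgroup.upperCentralSeries_one] at hx'
    rw [Subgroup.upperCentralSeries_zero, Subgroup.mem_bot]
    exact hm x hx'
  | succ k ih =>
    intro x hx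
    rw [Subgroup.mem_upperCentralSeries_succ_iff] at hx ⊢
    intro y
    obtain ⟨π, hπ1, hπs⟩ : ∃ π : G →* G ⧸ Subgroup.upperCentralSeries G k,
        (∀ g, π g = 1 ↔ g ∈ Subgroup.upperCentralSeries G k) ∧ Function.Surjective π :=
      ⟨QuotientGroup.mk' _, fun g => QuotientGroup.eq_one_iff g, QuotientGroup.mk'_surjective _⟩
    have hxy : ⁅x, y⁆ ∈ Subgroup.upperCentralSeries G (k + 1) := hx y
    have hc : ∀ q : G ⧸ Subgroup.upperCentralSeries G k,
        (π x * π y * (π x)⁻¹ * (π y)⁻¹) * q = q * (π x * π y * (π x)⁻¹ * (π y)⁻¹) := by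
      intro q
      obtain ⟨g, rfl⟩ := hπs q
      have h1 := (Subgroup.mem_upperCentralSeries_succ_iff.1 hxy) g
      have h2 := (hπ1 _).2 h1
      rw [commutatorElement_def, commutatorElement_def] at h2
      simp only [map_mul, map_inv] at h2
      have h3 := mul_inv_eq_one.1 h2
      exact (mul_inv_eq_iff_eq_mul.1 h3)
    have h4 := conj_pow_of_central_comm (π x) (π y) hc m
    have h5 : ⁅x, y⁆ ^ m ∈ Subgroup.upperCentralSeries G k := ih _ hxy
    have h6 := (hπ1 _).2 h5
    rw [map_pow, commutatorElement_def] at h6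
    simp only [map_mul, map_inv] at h6
    rw [h6] at h4
    apply (hπ1 _).1
    rw [commutatorElement_def]
    simp only [map_mul, map_inv, map_pow]
    exact h4

theorem pow_pow_eq_one_of_mem_upperCentralSeries {G : Type*} [Group G] (m : ℕ)
    (hm : ∀ z ∈ Subgroup.center G, z ^ m = 1) :
    ∀ k : ℕ, ∀ x ∈ Subgroup.upperCentralSeries G k, x ^ (m ^ k) = 1 := by
  intro k
  induction k with
  | zero =>
    intro x hx
    rw [Subgroup.upperCentralSeries_zero, Subgroup.mem_bot] at hx
    rw [hx, one_pow]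
  | succ k ih =>
    intro x hx
    have h1 := pow_mem_upperCentralSeries m hm k x hx
    have h2 := ih _ h1
    rw [← pow_mul, ← pow_succ'] at h2
    exact h2

end PowZExp

end Cfsg.Agent.Lib.Helper27
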