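import Cfsg.Agent.Lib.Helper27.ProdSys
import Cfsg.Agent.Lib.Helper27.NormalSub
import Cfsg.Agent.Lib.Helper26.FusionAut
import Cfsg.Agent.Lib.Helper26.FusionSat

set_option autoImplicit false

namespace Cfsg.Agent.Lib.Helper27

open Cfsg Cfsg.FusionSystem Cfsg.Agent.Lib.Helper26

section Pure

variable {G : Type*} [Group G]

/-- Some conjugate of a subgroup meets a given Sylow subgroup in a Sylow subgroup of itself. -/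
theorem exists_cj_sylow_inf [Finite G] {p : ℕ} [Fact p.Prime] {R : Subgroup G}
    (hR : Nat.card R = p ^ (Nat.card G).factorization p) (H : Subgroup G) :
    ∃ a : G, Nat.card (R.subgroupOf (cj a H)) = p ^ (Nat.card (cj a H)).factorization p := by
  obtain ⟨T, -, hTH, hTp, hTc⟩ :=
    exists_sylow_between (p := p) (bot_le : (⊥ : Subgroup G) ≤ H) IsPGroup.of_bot
  obtain ⟨a, ha⟩ := exists_cj_le_sylow (Sylow.ofCard R hR) hTp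
  have ha' : cj a T ≤ R := ha
  refine ⟨a, ?_⟩
  have hRp : IsPGroup p R := IsPGroup.of_card hR
  have h1 : Nat.card (R.subgroupOf (cj a H)) = Nat.card ↥(R ⊓ cj a H) := by
    rw [← Subgroup.inf_subgroupOf_right]
    exact Nat.card_congr (Subgroup.subgroupOfEquivOfLe inf_le_right).toEquiv
  rw [h1]
  apply le_antisymm
  · exact card_le_pPart inf_le_right (hRp.to_le inf_le_left)
  · rw [card_cj, ← hTc, ← card_cj a T]
    exact Subgroup.card_le_of_le (le_inf ha' (cj_mono hTH))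

/-- The image of a Sylow subgroup under a homomorphism is a Sylow subgroup of the range. -/
theorem exists_sylow_of_map {M 𝔖 : Type*} [Group M] [Group 𝔖] [Finite 𝔖] {p : ℕ} [Fact p.Prime]
    (ρ : 𝔖 →* M) (V : Subgroup 𝔖) (hV : Nat.card V = p ^ (Nat.card 𝔖).factorization p)
    {A U : Subgroup M} (hA : ρ.range = A) (hU : V.map ρ = U) :
    ∃ R : Sylow p A, (R : Subgroup A) = U.subgroupOf A := by
  subst hA hU
  refine ⟨(Sylow.ofCard V hV).mapSurjective ρ.rangeRestrict_surjective, ?_⟩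
  rw [Sylow.coe_mapSurjective]
  ext ⟨β, hβ⟩
  rw [Subgroup.mem_subgroupOf]
  constructor
  · rintro ⟨v, hv, hvβ⟩
    exact ⟨v, hv, congrArg Subtype.val hvβ⟩
  · rintro ⟨v, hv, hvβ⟩
    exact ⟨v, hv, Subtype.ext hvβ⟩

variable {𝔸 : Type*} [Group 𝔸]

/-- The stabilizer of a subgroup under an action by automorphisms. -/
def stabOf (θ : 𝔸 →* MulAut G) (K : Subgroup G) : Subgroup 𝔸 where
  carrier := {a | K.map (θ a).toMonoidHom = K}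
  one_mem' := by
    show K.map (θ 1).toMonoidHom = K
    rw [map_one]
    exact Subgroup.map_id K
  mul_mem' := by
    intro a b ha hb
    show K.map (θ (a * b)).toMonoidHom = K
    rw [map_mul]
    have h : (θ a * θ b).toMonoidHom = (θ a).toMonoidHom.comp (θ b).toMonoidHom := rfl
    rw [h, ← Subgroup.map_map]
    have hb' : K.map (θ b).toMonoidHom = K := hb
    rw [hb']
    exact ha
  inv_mem' := by
    intro a ha
    have ha' : K.map (θ a).toMonoidHom = K := ha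
    show K.map (θ a⁻¹).toMonoidHom = K
    conv_lhs => rw [← ha']
    rw [Subgroup.map_map]
    have h : (θ a⁻¹).toMonoidHom.comp (θ a).toMonoidHom = MonoidHom.id G := by
      ext x
      show θ a⁻¹ (θ a x) = x
      rw [map_inv]
      exact MulAut.inv_apply_self _ _ _
    rw [h]
    exact Subgroup.map_id K

theorem mem_stabOf {θ : 𝔸 →* MulAut G} {K : Subgroup G} {a : 𝔸} :
    a ∈ stabOf θ K ↔ K.map (θ a).toMonoidHom = K := Iff.rfl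

theorem map_theta_mul (θ : 𝔸 →* MulAut G) (K : Subgroup G) (x y : 𝔸) :
    K.map (θ (x * y)).toMonoidHom = (K.map (θ y).toMonoidHom).map (θ x).toMonoidHom := by
  rw [map_mul, Subgroup.map_map]
  rfl

theorem map_theta_inv (θ : 𝔸 →* MulAut G) (K : Subgroup G) (x : 𝔸) :
    (K.map (θ x).toMonoidHom).map (θ x⁻¹).toMonoidHom = K := by
  rw [← map_theta_mul, inv_mul_cancel, map_one]
  exact Subgroup.map_id K

theorem cj_stabOf (θ : 𝔸 →* MulAut G) (K : Subgroup G) (a : 𝔸) :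
    cj a (stabOf θ K) = stabOf θ (K.map (θ a).toMonoidHom) := by
  ext b
  rw [mem_cj, mem_stabOf, mem_stabOf]
  constructor
  · intro h
    rw [← map_theta_mul]
    have h2 : b * a = a * (a⁻¹ * b * a) := by group
    rw [h2, map_theta_mul, h]
  · intro h
    have h2 : a⁻¹ * b * a = a⁻¹ * (b * a) := by group
    rw [h2, map_theta_mul, map_theta_mul, h, map_theta_inv]

theorem mem_stabOf_of_forall {θ : 𝔸 →* MulAut G} {K : Subgroup G} [Finite K] {a : 𝔸}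
    (h : ∀ x ∈ K, θ a x ∈ K) : a ∈ stabOf θ K := by
  rw [mem_stabOf]
  have hle : K.map (θ a).toMonoidHom ≤ K := by
    rintro _ ⟨x, hx, rfl⟩
    exact h x hx
  apply Subgroup.eq_of_le_of_card_ge hle
  rw [Subgroup.card_map_of_injective (θ a).injective]

/-- The restriction homomorphism from the stabilizer of `K` to the automorphisms of the image
of `K` under an injective homomorphism. -/
theorem exists_resHom {M : Type*} [Group M] (j : G →* M) (hj : Function.Injective j)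
    (θ : 𝔸 →* MulAut G) (K : Subgroup G) :
    ∃ ρ : ↥(stabOf θ K) →* MulAut ↥(K.map j), ∀ (s : ↥(stabOf θ K)) (x : G) (hx : x ∈ K),
      ((ρ s ⟨j x, Subgroup.mem_map_of_mem j hx⟩ : ↥(K.map j)) : M) = j (θ s.1 x) := by
  have hmem : ∀ (s : ↥(stabOf θ K)) (x : G), x ∈ K → θ s.1 x ∈ K := fun s x hx => by
    have h := mem_stabOf.mp s.2
    have h2 : θ s.1 x ∈ K.map (θ s.1).toMonoidHom := Subgroup.mem_map_of_mem _ hx
    rwa [h] at h2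
  let res : ↥(stabOf θ K) →* MulAut K :=
    { toFun := fun s =>
        { toFun := fun x => ⟨θ s.1 x, hmem s x x.2⟩
          invFun := fun x => ⟨θ (s⁻¹).1 x, hmem s⁻¹ x x.2⟩
          left_inv := fun x => by
            apply Subtype.ext
            show θ (s⁻¹).1 (θ s.1 x) = x
            rw [Subgroup.coe_inv, map_inv]
            exact MulAut.inv_apply_self _ _ _
          right_inv := fun x => by
            apply Subtype.ext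
            show θ s.1 (θ (s⁻¹).1 x) = x
            rw [Subgroup.coe_inv, map_inv]
            exact MulAut.apply_inv_self _ _ _
          map_mul' := fun x y => by
            apply Subtype.ext
            show θ s.1 ((x : G) * (y : G)) = θ s.1 x * θ s.1 y
            exact map_mul _ _ _ }
      map_one' := by
        apply MulEquiv.ext
        intro x
        apply Subtype.ext
        show θ (1 : ↥(stabOf θ K)).1 x = x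
        rw [Subgroup.coe_one, map_one]
        rfl
      map_mul' := fun s t => by
        apply MulEquiv.ext
        intro x
        apply Subtype.ext
        show θ (s * t).1 x = θ s.1 (θ t.1 x)
        rw [Subgroup.coe_mul, map_mul]
        rfl }
  refine ⟨(MulAut.congr (K.equivMapOfInjective j hj)).toMonoidHom.comp res, ?_⟩
  intro s x hx
  have h1 : (K.equivMapOfInjective j hj).symm ⟨j x, Subgroup.mem_map_of_mem j hx⟩ = ⟨x, hx⟩ := by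
    rw [MulEquiv.symm_apply_eq]
    apply Subtype.ext
    rfl
  show (((K.equivMapOfInjective j hj) (res s ((K.equivMapOfInjective j hj).symm
    ⟨j x, Subgroup.mem_map_of_mem j hx⟩)) : ↥(K.map j)) : M) = j (θ s.1 x)
  rw [h1]
  rfl

theorem resHom_eq {M : Type*} [Group M] {j : G →* M} {θ : 𝔸 →* MulAut G} {K : Subgroup G}
    {ρ : ↥(stabOf θ K) →* MulAut ↥(K.map j)}
    (hρ : ∀ (s : ↥(stabOf θ K)) (x : G) (hx : x ∈ K),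
      ((ρ s ⟨j x, Subgroup.mem_map_of_mem j hx⟩ : ↥(K.map j)) : M) = j (θ s.1 x))
    {a : 𝔸} (ha : a ∈ stabOf θ K) {β : MulAut ↥(K.map j)}
    (hβ : ∀ (x : G) (hx : x ∈ K),
      ((β ⟨j x, Subgroup.mem_map_of_mem j hx⟩ : ↥(K.map j)) : M) = j (θ a x)) :
    ρ ⟨a, ha⟩ = β := by
  apply MulEquiv.ext
  rintro ⟨_, x, hx, rfl⟩
  apply Subtype.ext
  rw [hρ ⟨a, ha⟩ x hx]
  exact (hβ x hx).symm

end Pure

section Prod

variable {Ω₁ Ω₂ : Type*} [Group Ω₁] [Group Ω₂] {S₁ : Subgroup Ω₁} {S₂ : Subgroup Ω₂}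
  {F₁ : FusionSystem S₁} {F₂ : FusionSystem S₂} {E : FusionSystem (S₁.prod S₂)}

theorem prodSys_mem (hE : IsProductSystem F₁ F₂ E) {P : Subgroup (Ω₁ × Ω₂)}
    (hP : P ≤ S₁.prod S₂) {D₁ : Subgroup Ω₁} {D₂ : Subgroup Ω₂}
    (h1 : ∀ x ∈ P, x.1 ∈ D₁) (h2 : ∀ x ∈ P, x.2 ∈ D₂)
    {φ₁ : D₁ →* Ω₁} {φ₂ : D₂ →* Ω₂} (hφ₁ : φ₁ ∈ F₁.Hom D₁) (hφ₂ : φ₂ ∈ F₂.Hom D₂)
    (ψ : P →* Ω₁ × Ω₂)
    (hψ : ∀ x : P, ψ x = (φ₁ ⟨x.1.1, h1 _ x.2⟩, φ₂ ⟨x.1.2, h2 _ x.2⟩)) :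
    ψ ∈ E.Hom P := by
  rw [hE]
  have hm1 : P.map (MonoidHom.fst Ω₁ Ω₂) ≤ D₁ := by
    rintro _ ⟨x, hx, rfl⟩
    exact h1 x hx
  have hm2 : P.map (MonoidHom.snd Ω₁ Ω₂) ≤ D₂ := by
    rintro _ ⟨x, hx, rfl⟩
    exact h2 x hx
  refine ⟨hP, _, Fusion.restrict_mem F₁ hφ₁ hm1, _, Fusion.restrict_mem F₂ hφ₂ hm2, ?_⟩
  intro x _ _
  rw [hψ]
  rfl

theorem prodSys_hom (hE : IsProductSystem F₁ F₂ E) {P : Subgroup (Ω₁ × Ω₂)}
    {ψ : P →* Ω₁ × Ω₂} (hψ : ψ ∈ E.Hom P) {D₁ : Subgroup Ω₁} {D₂ : Subgroup Ω₂}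
    (h1 : P.map (MonoidHom.fst Ω₁ Ω₂) = D₁) (h2 : P.map (MonoidHom.snd Ω₁ Ω₂) = D₂) :
    ∃ φ₁ ∈ F₁.Hom D₁, ∃ φ₂ ∈ F₂.Hom D₂, ∀ (x : P) (hx1 : x.1.1 ∈ D₁) (hx2 : x.1.2 ∈ D₂),
      ψ x = (φ₁ ⟨x.1.1, hx1⟩, φ₂ ⟨x.1.2, hx2⟩) := by
  subst h1 h2
  exact ((hE P ψ).1 hψ).2

/-- The inclusion of `B₁ × B₂` into the ambient product. -/
abbrev jmap (B₁ : Subgroup Ω₁) (B₂ : Subgroup Ω₂) : ↥B₁ × ↥B₂ →* Ω₁ × Ω₂ :=
  B₁.subtype.prodMap B₂.subtype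

theorem jmap_injective (B₁ : Subgroup Ω₁) (B₂ : Subgroup Ω₂) :
    Function.Injective (jmap B₁ B₂) := by
  intro x y h
  have h1 : (x.1 : Ω₁) = y.1 := congrArg Prod.fst h
  have h2 : (x.2 : Ω₂) = y.2 := congrArg Prod.snd h
  exact Prod.ext (Subtype.ext h1) (Subtype.ext h2)

/-- The product action of pairs of automorphisms. -/
def thetaHom {B₁ : Subgroup Ω₁} {B₂ : Subgroup Ω₂} (A₁ : Subgroup (MulAut B₁))
    (A₂ : Subgroup (MulAut B₂)) : ↥A₁ × ↥A₂ →* MulAut (↥B₁ × ↥B₂) where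
  toFun a := MulEquiv.prodCongr (a.1 : MulAut B₁) (a.2 : MulAut B₂)
  map_one' := by
    apply MulEquiv.ext
    intro x
    rfl
  map_mul' a b := by
    apply MulEquiv.ext
    intro x
    rfl

theorem thetaHom_apply {B₁ : Subgroup Ω₁} {B₂ : Subgroup Ω₂} (A₁ : Subgroup (MulAut B₁))
    (A₂ : Subgroup (MulAut B₂)) (a : ↥A₁ × ↥A₂) (x : ↥B₁ × ↥B₂) :
    thetaHom A₁ A₂ a x = ((a.1 : MulAut B₁) x.1, (a.2 : MulAut B₂) x.2) := rfl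

variable {B₁ : Subgroup Ω₁} {B₂ : Subgroup Ω₂}

theorem map_jmap_le (hB₁ : B₁ ≤ S₁) (hB₂ : B₂ ≤ S₂) (K : Subgroup (↥B₁ × ↥B₂)) :
    K.map (jmap B₁ B₂) ≤ S₁.prod S₂ := by
  rintro _ ⟨x, -, rfl⟩
  exact ⟨hB₁ x.1.2, hB₂ x.2.2⟩

theorem map_jmap_fst {K : Subgroup (↥B₁ × ↥B₂)} (hK1 : ∀ b : B₁, ∃ x ∈ K, x.1 = b) :
    (K.map (jmap B₁ B₂)).map (MonoidHom.fst Ω₁ Ω₂) = B₁ := by
  ext y
  constructor
  · rintro ⟨_, ⟨x, -, rfl⟩, rfl⟩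
    exact x.1.2
  · intro hy
    obtain ⟨x, hx, hx1⟩ := hK1 ⟨y, hy⟩
    exact ⟨jmap B₁ B₂ x, ⟨x, hx, rfl⟩, congrArg Subtype.val hx1⟩

theorem map_jmap_snd {K : Subgroup (↥B₁ × ↥B₂)} (hK2 : ∀ b : B₂, ∃ x ∈ K, x.2 = b) :
    (K.map (jmap B₁ B₂)).map (MonoidHom.snd Ω₁ Ω₂) = B₂ := by
  ext y
  constructor
  · rintro ⟨_, ⟨x, -, rfl⟩, rfl⟩
    exact x.2.2
  · intro hy
    obtain ⟨x, hx, hx1⟩ := hK2 ⟨y, hy⟩
    exact ⟨jmap B₁ B₂ x, ⟨x, hx, rfl⟩, congrArg Subtype.val hx1⟩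

/-- A pair of automorphisms of the factors gives a map of the product system. -/
theorem theta_mem_hom (hE : IsProductSystem F₁ F₂ E) (hB₁ : B₁ ≤ S₁) (hB₂ : B₂ ≤ S₂)
    (K : Subgroup (↥B₁ × ↥B₂)) (a : ↥(F₁.autGroup B₁) × ↥(F₂.autGroup B₂))
    (ψ : ↥(K.map (jmap B₁ B₂)) →* Ω₁ × Ω₂)
    (hψ : ∀ (x : ↥B₁ × ↥B₂) (hx : x ∈ K), ψ ⟨jmap B₁ B₂ x, Subgroup.mem_map_of_mem _ hx⟩
      = jmap B₁ B₂ (thetaHom (F₁.autGroup B₁) (F₂.autGroup B₂) a x)) :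
    ψ ∈ E.Hom (K.map (jmap B₁ B₂)) := by
  have h1 : ∀ y ∈ K.map (jmap B₁ B₂), y.1 ∈ B₁ := by
    rintro _ ⟨x, -, rfl⟩
    exact x.1.2
  have h2 : ∀ y ∈ K.map (jmap B₁ B₂), y.2 ∈ B₂ := by
    rintro _ ⟨x, -, rfl⟩
    exact x.2.2
  have ha1 : B₁.subtype.comp (a.1 : MulAut B₁).toMonoidHom ∈ F₁.Hom B₁ :=
    (Fusion.mem_autGroup_iff F₁ hB₁).1 a.1.2
  have ha2 : B₂.subtype.comp (a.2 : MulAut B₂).toMonoidHom ∈ F₂.Hom B₂ :=
    (Fusion.mem_autGroup_iff F₂ hB₂).1 a.2.2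
  refine prodSys_mem hE (map_jmap_le hB₁ hB₂ K) h1 h2 ha1 ha2 ψ ?_
  rintro ⟨_, x, hx, rfl⟩
  rw [hψ x hx]
  rfl

/-- Every `E`-map of `K.map j` into itself comes from a pair of automorphisms. -/
theorem exists_theta_of_hom [Finite S₁] [Finite S₂] (hE : IsProductSystem F₁ F₂ E)
    (hB₁ : B₁ ≤ S₁) (hB₂ : B₂ ≤ S₂) {K : Subgroup (↥B₁ × ↥B₂)}
    (hK1 : ∀ b : B₁, ∃ x ∈ K, x.1 = b) (hK2 : ∀ b : B₂, ∃ x ∈ K, x.2 = b)
    {ψ : ↥(K.map (jmap B₁ B₂)) →* Ω₁ × Ω₂} (hψ : ψ ∈ E.Hom (K.map (jmap B₁ B₂)))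
    (hval : ∀ y, ψ y ∈ K.map (jmap B₁ B₂)) :
    ∃ a ∈ stabOf (thetaHom (F₁.autGroup B₁) (F₂.autGroup B₂)) K,
      ∀ (x : ↥B₁ × ↥B₂) (hx : x ∈ K), ψ ⟨jmap B₁ B₂ x, Subgroup.mem_map_of_mem _ hx⟩
        = jmap B₁ B₂ (thetaHom (F₁.autGroup B₁) (F₂.autGroup B₂) a x) := by
  have hfin1 : Finite B₁ := Fusion.finite_of_le hB₁
  have hfin2 : Finite B₂ := Fusion.finite_of_le hB₂
  obtain ⟨φ₁, hφ₁, φ₂, hφ₂, hφ⟩ := prodSys_hom hE hψ (map_jmap_fst hK1) (map_jmap_snd hK2)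
  have hr₁ : φ₁.range = B₁ := by
    apply Subgroup.eq_of_le_of_card_ge
    · rintro _ ⟨b, rfl⟩
      obtain ⟨x, hx, hx1⟩ := hK1 b
      obtain ⟨z, hz, hzeq⟩ := hval ⟨jmap B₁ B₂ x, Subgroup.mem_map_of_mem _ hx⟩
      have h3 := hφ ⟨jmap B₁ B₂ x, Subgroup.mem_map_of_mem _ hx⟩ x.1.2 x.2.2
      rw [← hzeq] at h3
      have h4 : (z.1 : Ω₁) = φ₁ x.1 := congrArg Prod.fst h3
      rw [← hx1, ← h4]
      exact z.1.2
    · exact le_of_eq (Nat.card_congr (Equiv.ofInjective _ (F₁.injective_of_mem hφ₁)))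
  have hr₂ : φ₂.range = B₂ := by
    apply Subgroup.eq_of_le_of_card_ge
    · rintro _ ⟨b, rfl⟩
      obtain ⟨x, hx, hx1⟩ := hK2 b
      obtain ⟨z, hz, hzeq⟩ := hval ⟨jmap B₁ B₂ x, Subgroup.mem_map_of_mem _ hx⟩
      have h3 := hφ ⟨jmap B₁ B₂ x, Subgroup.mem_map_of_mem _ hx⟩ x.1.2 x.2.2
      rw [← hzeq] at h3
      have h4 : (z.2 : Ω₂) = φ₂ x.2 := congrArg Prod.snd h3
      rw [← hx1, ← h4]
      exact z.2.2
    · exact le_of_eq (Nat.card_congr (Equiv.ofInjective _ (F₂.injective_of_mem hφ₂)))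
  have hα₁ : Fusion.equivOfRange φ₁ (F₁.injective_of_mem hφ₁) hr₁ ∈ F₁.autGroup B₁ :=
    (Fusion.mem_autGroup_iff F₁ hB₁).2 (Fusion.isIso_equivOfRange F₁ hφ₁ hr₁)
  have hα₂ : Fusion.equivOfRange φ₂ (F₂.injective_of_mem hφ₂) hr₂ ∈ F₂.autGroup B₂ :=
    (Fusion.mem_autGroup_iff F₂ hB₂).2 (Fusion.isIso_equivOfRange F₂ hφ₂ hr₂)
  have key : ∀ (x : ↥B₁ × ↥B₂) (hx : x ∈ K), ψ ⟨jmap B₁ B₂ x, Subgroup.mem_map_of_mem _ hx⟩
        = jmap B₁ B₂ (thetaHom (F₁.autGroup B₁) (F₂.autGroup B₂) (⟨_, hα₁⟩, ⟨_, hα₂⟩) x) := by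
    intro x hx
    rw [hφ ⟨jmap B₁ B₂ x, Subgroup.mem_map_of_mem _ hx⟩ x.1.2 x.2.2]
    rfl
  refine ⟨(⟨_, hα₁⟩, ⟨_, hα₂⟩), ?_, key⟩
  have hKfin : Finite K := inferInstance
  apply mem_stabOf_of_forall
  intro x hx
  obtain ⟨z, hz, hzeq⟩ := hval ⟨jmap B₁ B₂ x, Subgroup.mem_map_of_mem _ hx⟩
  rw [key x hx] at hzeq
  rw [← jmap_injective B₁ B₂ hzeq]
  exact hz

/-- Fully automized subgroups of the product system. -/
theorem prod_fullyAutomized [Finite S₁] [Finite S₂] {p : ℕ} [Fact p.Prime]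
    (hE : IsProductSystem F₁ F₂ E)
    (hB₁ : B₁ ≤ S₁) (hB₂ : B₂ ≤ S₂) {K : Subgroup (↥B₁ × ↥B₂)}
    (hK1 : ∀ b : B₁, ∃ x ∈ K, x.1 = b) (hK2 : ∀ b : B₂, ∃ x ∈ K, x.2 = b)
    (hcard : Nat.card ((((autInducedBy S₁ B₁).subgroupOf (F₁.autGroup B₁)).prod
        ((autInducedBy S₂ B₂).subgroupOf (F₂.autGroup B₂))).subgroupOf
          (stabOf (thetaHom (F₁.autGroup B₁) (F₂.autGroup B₂)) K))
      = p ^ (Nat.card (stabOf (thetaHom (F₁.autGroup B₁) (F₂.autGroup B₂)) K)).factorization p) :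
    E.IsFullyAutomized p (K.map (jmap B₁ B₂)) := by
  have hfin1 : Finite B₁ := Fusion.finite_of_le hB₁
  have hfin2 : Finite B₂ := Fusion.finite_of_le hB₂
  have hQS : K.map (jmap B₁ B₂) ≤ S₁.prod S₂ := map_jmap_le hB₁ hB₂ K
  refine ⟨hQS, ?_⟩
  obtain ⟨ρ, hρ⟩ := exists_resHom (jmap B₁ B₂) (jmap_injective B₁ B₂)
    (thetaHom (F₁.autGroup B₁) (F₂.autGroup B₂)) K
  have hfinA : Finite (↥(F₁.autGroup B₁) × ↥(F₂.autGroup B₂)) := inferInstance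
  refine exists_sylow_of_map ρ _ hcard ?_ ?_
  · -- the range is the automorphism group
    apply le_antisymm
    · rintro _ ⟨s, rfl⟩
      rw [Fusion.mem_autGroup_iff E hQS]
      exact theta_mem_hom hE hB₁ hB₂ K s.1 _ (fun x hx => hρ s x hx)
    · intro β hβ
      have hβ' := (Fusion.mem_autGroup_iff E hQS).1 hβ
      obtain ⟨a, ha, haβ⟩ := exists_theta_of_hom hE hB₁ hB₂ hK1 hK2 hβ' (fun y => (β y).2)
      exact ⟨⟨a, ha⟩, resHom_eq hρ ha haβ⟩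
  · -- the image of the Sylow part is `Aut_S`
    apply le_antisymm
    · rintro _ ⟨s, hs, rfl⟩
      have hs' := Subgroup.mem_subgroupOf.mp hs
      obtain ⟨g₁, hg₁, hg₁'⟩ := Fusion.mem_autInducedBy_iff.1 (Subgroup.mem_subgroupOf.mp hs'.1)
      obtain ⟨g₂, hg₂, hg₂'⟩ := Fusion.mem_autInducedBy_iff.1 (Subgroup.mem_subgroupOf.mp hs'.2)
      rw [Fusion.mem_autInducedBy_iff]
      refine ⟨(g₁, g₂), ⟨hg₁, hg₂⟩, ?_⟩
      rintro ⟨_, x, hx, rfl⟩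
      rw [hρ s x hx]
      exact Prod.ext (hg₁' x.1) (hg₂' x.2)
    · intro β hβ
      obtain ⟨g, hg, hgβ⟩ := Fusion.mem_autInducedBy_iff.1 hβ
      have hβ' := (Fusion.mem_autGroup_iff E hQS).1 (Fusion.autInducedBy_le_autGroup E hQS hβ)
      obtain ⟨a, ha, haβ⟩ := exists_theta_of_hom hE hB₁ hB₂ hK1 hK2 hβ' (fun y => (β y).2)
      refine ⟨⟨a, ha⟩, Subgroup.mem_subgroupOf.mpr (Subgroup.mem_prod.mpr ⟨?_, ?_⟩),
        resHom_eq hρ ha haβ⟩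
      · show a.1 ∈ (autInducedBy S₁ B₁).subgroupOf (F₁.autGroup B₁)
        rw [Subgroup.mem_subgroupOf, Fusion.mem_autInducedBy_iff]
        refine ⟨g.1, hg.1, fun b => ?_⟩
        obtain ⟨x, hx, hx1⟩ := hK1 b
        have h1 := (haβ x hx).symm.trans (hgβ ⟨jmap B₁ B₂ x, Subgroup.mem_map_of_mem _ hx⟩)
        rw [← hx1]
        exact congrArg Prod.fst h1
      · show a.2 ∈ (autInducedBy S₂ B₂).subgroupOf (F₂.autGroup B₂)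
        rw [Subgroup.mem_subgroupOf, Fusion.mem_autInducedBy_iff]
        refine ⟨g.2, hg.2, fun b => ?_⟩
        obtain ⟨x, hx, hx1⟩ := hK2 b
        have h1 := (haβ x hx).symm.trans (hgβ ⟨jmap B₁ B₂ x, Subgroup.mem_map_of_mem _ hx⟩)
        rw [← hx1]
        exact congrArg Prod.snd h1

theorem extender_fst_le {P : Subgroup (Ω₁ × Ω₂)}
    {ψ : P →* Ω₁ × Ω₂} {ψ₁ : ↥(P.map (MonoidHom.fst Ω₁ Ω₂)) →* Ω₁}
    {ψ₂ : ↥(P.map (MonoidHom.snd Ω₁ Ω₂)) →* Ω₂}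
    (hψeq : ∀ (x : P) (hx1 : x.1.1 ∈ P.map (MonoidHom.fst Ω₁ Ω₂))
      (hx2 : x.1.2 ∈ P.map (MonoidHom.snd Ω₁ Ω₂)), ψ x = (ψ₁ ⟨x.1.1, hx1⟩, ψ₂ ⟨x.1.2, hx2⟩)) :
    ∀ g ∈ extender (S₁.prod S₂) P ψ,
      g.1 ∈ extender S₁ (P.map (MonoidHom.fst Ω₁ Ω₂)) ψ₁ := by
  have hle : extender (S₁.prod S₂) P ψ ≤
      (extender S₁ (P.map (MonoidHom.fst Ω₁ Ω₂)) ψ₁).comap (MonoidHom.fst Ω₁ Ω₂) := by
    unfold extender
    rw [Subgroup.closure_le]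
    rintro g ⟨hgS, hgN, h, hhS, hh⟩
    apply Subgroup.subset_closure
    have hgN' := Subgroup.mem_normalizer_iff.1 hgN
    refine ⟨hgS.1, ?_, h.1, hhS.1, ?_⟩
    · rw [Subgroup.mem_normalizer_iff]
      intro y
      constructor
      · rintro ⟨x, hx, rfl⟩
        exact ⟨g * x * g⁻¹, (hgN' x).1 hx, rfl⟩
      · rintro ⟨x, hx, hxy⟩
        refine ⟨g⁻¹ * x * g, ?_, ?_⟩
        · apply (hgN' (g⁻¹ * x * g)).2
          have h2 : g * (g⁻¹ * x * g) * g⁻¹ = x := by group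
          rw [h2]
          exact hx
        · show g.1⁻¹ * x.1 * g.1 = y
          have h3 : x.1 = g.1 * y * g.1⁻¹ := hxy
          rw [h3]
          group
    · rintro ⟨_, x, hx, rfl⟩ hy
      have hx' : g * x * g⁻¹ ∈ P := (hgN' x).1 hx
      have e1 := hh ⟨x, hx⟩ hx'
      have e2 := hψeq ⟨g * x * g⁻¹, hx'⟩ (fst_mem_map _) (snd_mem_map _)
      have e3 := hψeq ⟨x, hx⟩ (fst_mem_map _) (snd_mem_map _)
      rw [e2, e3] at e1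
      exact congrArg Prod.fst e1
  exact fun g hg => hle hg

theorem extender_snd_le {P : Subgroup (Ω₁ × Ω₂)}
    {ψ : P →* Ω₁ × Ω₂} {ψ₁ : ↥(P.map (MonoidHom.fst Ω₁ Ω₂)) →* Ω₁}
    {ψ₂ : ↥(P.map (MonoidHom.snd Ω₁ Ω₂)) →* Ω₂}
    (hψeq : ∀ (x : P) (hx1 : x.1.1 ∈ P.map (MonoidHom.fst Ω₁ Ω₂))
      (hx2 : x.1.2 ∈ P.map (MonoidHom.snd Ω₁ Ω₂)), ψ x = (ψ₁ ⟨x.1.1, hx1⟩, ψ₂ ⟨x.1.2, hx2⟩)) :
    ∀ g ∈ extender (S₁.prod S₂) P ψ,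
      g.2 ∈ extender S₂ (P.map (MonoidHom.snd Ω₁ Ω₂)) ψ₂ := by
  have hle : extender (S₁.prod S₂) P ψ ≤
      (extender S₂ (P.map (MonoidHom.snd Ω₁ Ω₂)) ψ₂).comap (MonoidHom.snd Ω₁ Ω₂) := by
    unfold extender
    rw [Subgroup.closure_le]
    rintro g ⟨hgS, hgN, h, hhS, hh⟩
    apply Subgroup.subset_closure
    have hgN' := Subgroup.mem_normalizer_iff.1 hgN
    refine ⟨hgS.2, ?_, h.2, hhS.2, ?_⟩
    · rw [Subgroup.mem_normalizer_iff]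
      intro y
      constructor
      · rintro ⟨x, hx, rfl⟩
        exact ⟨g * x * g⁻¹, (hgN' x).1 hx, rfl⟩
      · rintro ⟨x, hx, hxy⟩
        refine ⟨g⁻¹ * x * g, ?_, ?_⟩
        · apply (hgN' (g⁻¹ * x * g)).2
          have h2 : g * (g⁻¹ * x * g) * g⁻¹ = x := by group
          rw [h2]
          exact hx
        · show g.2⁻¹ * x.2 * g.2 = y
          have h3 : x.2 = g.2 * y * g.2⁻¹ := hxy
          rw [h3]
          group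
    · rintro ⟨_, x, hx, rfl⟩ hy
      have hx' : g * x * g⁻¹ ∈ P := (hgN' x).1 hx
      have e1 := hh ⟨x, hx⟩ hx'
      have e2 := hψeq ⟨g * x * g⁻¹, hx'⟩ (fst_mem_map _) (snd_mem_map _)
      have e3 := hψeq ⟨x, hx⟩ (fst_mem_map _) (snd_mem_map _)
      rw [e2, e3] at e1
      exact congrArg Prod.snd e1
  exact fun g hg => hle hg

/-- Receptive subgroups of the product system. -/
theorem prod_receptive (hE : IsProductSystem F₁ F₂ E)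
    (hB₁ : B₁ ≤ S₁) (hB₂ : B₂ ≤ S₂) {K : Subgroup (↥B₁ × ↥B₂)}
    (hK1 : ∀ b : B₁, ∃ x ∈ K, x.1 = b) (hK2 : ∀ b : B₂, ∃ x ∈ K, x.2 = b)
    (hR₁ : F₁.IsReceptive B₁) (hR₂ : F₂.IsReceptive B₂) :
    E.IsReceptive (K.map (jmap B₁ B₂)) := by
  refine ⟨map_jmap_le hB₁ hB₂ K, ?_⟩
  intro P ψ hψ hrange
  obtain ⟨ψ₁, hψ₁, ψ₂, hψ₂, hψeq⟩ := prodSys_hom hE hψ rfl rfl
  have hr₁ : ψ₁.range = B₁ := by
    ext y
    constructor
    · rintro ⟨⟨_, x, hx, rfl⟩, rfl⟩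
      have h1 : ψ ⟨x, hx⟩ ∈ K.map (jmap B₁ B₂) := hrange ▸ ⟨_, rfl⟩
      obtain ⟨z, hz, hzeq⟩ := h1
      have h2 := hψeq ⟨x, hx⟩ (fst_mem_map _) (snd_mem_map _)
      rw [← hzeq] at h2
      have h3 : (z.1 : Ω₁) = ψ₁ ⟨x.1, fst_mem_map ⟨x, hx⟩⟩ := congrArg Prod.fst h2
      exact h3 ▸ z.1.2
    · intro hy
      obtain ⟨z, hz, hz1⟩ := hK1 ⟨y, hy⟩
      have h1 : jmap B₁ B₂ z ∈ ψ.range := hrange ▸ Subgroup.mem_map_of_mem _ hz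
      obtain ⟨x, hx⟩ := h1
      have h2 := hψeq x (fst_mem_map _) (snd_mem_map _)
      rw [hx] at h2
      refine ⟨⟨x.1.1, fst_mem_map x⟩, ?_⟩
      have h3 : (z.1 : Ω₁) = ψ₁ ⟨x.1.1, fst_mem_map x⟩ := congrArg Prod.fst h2
      rw [← h3, hz1]
  have hr₂ : ψ₂.range = B₂ := by
    ext y
    constructor
    · rintro ⟨⟨_, x, hx, rfl⟩, rfl⟩
      have h1 : ψ ⟨x, hx⟩ ∈ K.map (jmap B₁ B₂) := hrange ▸ ⟨_, rfl⟩
      obtain ⟨z, hz, hzeq⟩ := h1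
      have h2 := hψeq ⟨x, hx⟩ (fst_mem_map _) (snd_mem_map _)
      rw [← hzeq] at h2
      have h3 : (z.2 : Ω₂) = ψ₂ ⟨x.2, snd_mem_map ⟨x, hx⟩⟩ := congrArg Prod.snd h2
      exact h3 ▸ z.2.2
    · intro hy
      obtain ⟨z, hz, hz1⟩ := hK2 ⟨y, hy⟩
      have h1 : jmap B₁ B₂ z ∈ ψ.range := hrange ▸ Subgroup.mem_map_of_mem _ hz
      obtain ⟨x, hx⟩ := h1
      have h2 := hψeq x (fst_mem_map _) (snd_mem_map _)
      rw [hx] at h2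
      refine ⟨⟨x.1.2, snd_mem_map x⟩, ?_⟩
      have h3 : (z.2 : Ω₂) = ψ₂ ⟨x.1.2, snd_mem_map x⟩ := congrArg Prod.snd h2
      rw [← h3, hz1]
  obtain ⟨χ₁, hχ₁, hχ₁'⟩ := hR₁.2 _ ψ₁ hψ₁ hr₁
  obtain ⟨χ₂, hχ₂, hχ₂'⟩ := hR₂.2 _ ψ₂ hψ₂ hr₂
  have hN1 := extender_fst_le (S₁ := S₁) (S₂ := S₂) hψeq
  have hN2 := extender_snd_le (S₁ := S₁) (S₂ := S₂) hψeq
  have hNS : extender (S₁.prod S₂) P ψ ≤ S₁.prod S₂ :=
    (Fusion.extender_le_normalizerIn P ψ).trans inf_le_left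
  refine ⟨MonoidHom.prod
    (χ₁.comp (((MonoidHom.fst Ω₁ Ω₂).comp (extender (S₁.prod S₂) P ψ).subtype).codRestrict _
      (fun x => hN1 x x.2)))
    (χ₂.comp (((MonoidHom.snd Ω₁ Ω₂).comp (extender (S₁.prod S₂) P ψ).subtype).codRestrict _
      (fun x => hN2 x x.2))), ?_, ?_⟩
  · exact prodSys_mem hE hNS hN1 hN2 hχ₁ hχ₂ _ (fun x => rfl)
  · intro x hP hN
    rw [hψeq ⟨x, hP⟩ (fst_mem_map _) (snd_mem_map _)]
    exact Prod.ext (hχ₁' x.1 _ _) (hχ₂' x.2 _ _)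

/-- The direct product of two saturated fusion systems is saturated. -/
theorem prod_saturated [Finite S₁] [Finite S₂] {p : ℕ} [Fact p.Prime]
    (hF₁ : F₁.IsSaturated p) (hF₂ : F₂.IsSaturated p) (hE : IsProductSystem F₁ F₂ E) :
    E.IsSaturated p := by
  intro P hP
  have hP₁ : P.map (MonoidHom.fst Ω₁ Ω₂) ≤ S₁ := by
    rintro _ ⟨x, hx, rfl⟩
    exact (hP hx).1
  have hP₂ : P.map (MonoidHom.snd Ω₁ Ω₂) ≤ S₂ := by
    rintro _ ⟨x, hx, rfl⟩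
    exact (hP hx).2
  obtain ⟨B₁, ⟨φ₁, hφ₁, hr₁⟩, hFA₁, hRec₁⟩ := hF₁ _ hP₁
  obtain ⟨B₂, ⟨φ₂, hφ₂, hr₂⟩, hFA₂, hRec₂⟩ := hF₂ _ hP₂
  have hB₁ : B₁ ≤ S₁ := hFA₁.1
  have hB₂ : B₂ ≤ S₂ := hFA₂.1
  have hfin1 : Finite B₁ := Fusion.finite_of_le hB₁
  have hfin2 : Finite B₂ := Fusion.finite_of_le hB₂
  obtain ⟨R₁, hR₁⟩ := hFA₁.2
  obtain ⟨R₂, hR₂⟩ := hFA₂.2
  have hv₁ : ∀ x : ↥(P.map (MonoidHom.fst Ω₁ Ω₂)), φ₁ x ∈ B₁ := fun x => hr₁ ▸ ⟨x, rfl⟩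
  have hv₂ : ∀ x : ↥(P.map (MonoidHom.snd Ω₁ Ω₂)), φ₂ x ∈ B₂ := fun x => hr₂ ▸ ⟨x, rfl⟩
  obtain ⟨Φ₁, hΦ₁⟩ : ∃ Φ₁ : P →* B₁, Φ₁ = (φ₁.codRestrict B₁ hv₁).comp
      (((MonoidHom.fst Ω₁ Ω₂).comp P.subtype).codRestrict _ (fun x => fst_mem_map x)) := ⟨_, rfl⟩
  obtain ⟨Φ₂, hΦ₂⟩ : ∃ Φ₂ : P →* B₂, Φ₂ = (φ₂.codRestrict B₂ hv₂).comp
      (((MonoidHom.snd Ω₁ Ω₂).comp P.subtype).codRestrict _ (fun x => snd_mem_map x)) := ⟨_, rfl⟩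
  have hRcard : Nat.card (((autInducedBy S₁ B₁).subgroupOf (F₁.autGroup B₁)).prod
      ((autInducedBy S₂ B₂).subgroupOf (F₂.autGroup B₂))) =
        p ^ (Nat.card (↥(F₁.autGroup B₁) × ↥(F₂.autGroup B₂))).factorization p := by
    rw [Nat.card_congr (Subgroup.prodEquiv _ _).toEquiv, Nat.card_prod, Nat.card_prod, ← hR₁,
      ← hR₂, R₁.card_eq_multiplicity, R₂.card_eq_multiplicity,
      Nat.factorization_mul Nat.card_pos.ne' Nat.card_pos.ne', ← pow_add]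
    rfl
  obtain ⟨a, ha⟩ := exists_cj_sylow_inf hRcard
    (stabOf (thetaHom (F₁.autGroup B₁) (F₂.autGroup B₂)) (Φ₁.prod Φ₂).range)
  rw [cj_stabOf] at ha
  have hK1 : ∀ b : B₁, ∃ x ∈ (Φ₁.prod Φ₂).range.map
      (thetaHom (F₁.autGroup B₁) (F₂.autGroup B₂) a).toMonoidHom, x.1 = b := by
    intro b
    have hb : (((a.1 : MulAut B₁)⁻¹ b : B₁) : Ω₁) ∈ φ₁.range := hr₁ ▸ ((a.1 : MulAut B₁)⁻¹ b).2
    obtain ⟨⟨_, x, hx, rfl⟩, hy⟩ := hb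
    refine ⟨thetaHom _ _ a ((Φ₁.prod Φ₂) ⟨x, hx⟩), Subgroup.mem_map_of_mem _ ⟨⟨x, hx⟩, rfl⟩, ?_⟩
    show (a.1 : MulAut B₁) (Φ₁ ⟨x, hx⟩) = b
    have h1 : Φ₁ ⟨x, hx⟩ = (a.1 : MulAut B₁)⁻¹ b := by
      rw [hΦ₁]
      exact Subtype.ext hy
    rw [h1]
    exact MulAut.apply_inv_self _ _ _
  have hK2 : ∀ b : B₂, ∃ x ∈ (Φ₁.prod Φ₂).range.map
      (thetaHom (F₁.autGroup B₁) (F₂.autGroup B₂) a).toMonoidHom, x.2 = b := by
    intro b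
    have hb : (((a.2 : MulAut B₂)⁻¹ b : B₂) : Ω₂) ∈ φ₂.range := hr₂ ▸ ((a.2 : MulAut B₂)⁻¹ b).2
    obtain ⟨⟨_, x, hx, rfl⟩, hy⟩ := hb
    refine ⟨thetaHom _ _ a ((Φ₁.prod Φ₂) ⟨x, hx⟩), Subgroup.mem_map_of_mem _ ⟨⟨x, hx⟩, rfl⟩, ?_⟩
    show (a.2 : MulAut B₂) (Φ₂ ⟨x, hx⟩) = b
    have h1 : Φ₂ ⟨x, hx⟩ = (a.2 : MulAut B₂)⁻¹ b := by
      rw [hΦ₂]
      exact Subtype.ext hy
    rw [h1]
    exact MulAut.apply_inv_self _ _ _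
  refine ⟨((Φ₁.prod Φ₂).range.map (thetaHom _ _ a).toMonoidHom).map (jmap B₁ B₂), ?_,
    prod_fullyAutomized hE hB₁ hB₂ hK1 hK2 ha, prod_receptive hE hB₁ hB₂ hK1 hK2 hRec₁ hRec₂⟩
  refine ⟨(jmap B₁ B₂).comp ((thetaHom (F₁.autGroup B₁) (F₂.autGroup B₂) a).toMonoidHom.comp
    (Φ₁.prod Φ₂)), ?_, ?_⟩
  · have ha1 := (Fusion.mem_autGroup_iff F₁ hB₁).1 a.1.2
    have ha2 := (Fusion.mem_autGroup_iff F₂ hB₂).1 a.2.2
    have hc1 := F₁.comp_mem hφ₁ ha1 hv₁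
    have hc2 := F₂.comp_mem hφ₂ ha2 hv₂
    have hm1 : ∀ x ∈ P, x.1 ∈ P.map (MonoidHom.fst Ω₁ Ω₂) := fun x hx => ⟨x, hx, rfl⟩
    have hm2 : ∀ x ∈ P, x.2 ∈ P.map (MonoidHom.snd Ω₁ Ω₂) := fun x hx => ⟨x, hx, rfl⟩
    refine prodSys_mem hE hP hm1 hm2 hc1 hc2 _ ?_
    intro x
    rw [hΦ₁, hΦ₂]
    rfl
  · rw [MonoidHom.range_comp, MonoidHom.range_comp]

end Prod

end Cfsg.Agent.Lib.Helper27
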