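import Cfsg.Agent.Lib.Helper27.Basic

set_option autoImplicit false

namespace Cfsg.Agent.Lib.Helper27

open Cfsg Cfsg.FusionSystem

variable {Ω₁ Ω₂ : Type*} [Group Ω₁] [Group Ω₂] {S₁ : Subgroup Ω₁} {S₂ : Subgroup Ω₂}

/-- The maps of the direct product of two fusion systems with source `P`. -/
def prodHom (F₁ : FusionSystem S₁) (F₂ : FusionSystem S₂) (P : Subgroup (Ω₁ × Ω₂)) :
    Set (P →* Ω₁ × Ω₂) :=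
  {φ | P ≤ S₁.prod S₂ ∧
      ∃ φ₁ ∈ F₁.Hom (P.map (MonoidHom.fst Ω₁ Ω₂)), ∃ φ₂ ∈ F₂.Hom (P.map (MonoidHom.snd Ω₁ Ω₂)),
        ∀ (x : P) (h₁ : (x : Ω₁ × Ω₂).1 ∈ P.map (MonoidHom.fst Ω₁ Ω₂))
          (h₂ : (x : Ω₁ × Ω₂).2 ∈ P.map (MonoidHom.snd Ω₁ Ω₂)),
          φ x = (φ₁ ⟨(x : Ω₁ × Ω₂).1, h₁⟩, φ₂ ⟨(x : Ω₁ × Ω₂).2, h₂⟩)}

theorem fst_mem_map {P : Subgroup (Ω₁ × Ω₂)} (x : P) :
    (x : Ω₁ × Ω₂).1 ∈ P.map (MonoidHom.fst Ω₁ Ω₂) := ⟨x, x.2, rfl⟩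

theorem snd_mem_map {P : Subgroup (Ω₁ × Ω₂)} (x : P) :
    (x : Ω₁ × Ω₂).2 ∈ P.map (MonoidHom.snd Ω₁ Ω₂) := ⟨x, x.2, rfl⟩

/-- The direct product of two fusion systems. -/
def prodSystem (F₁ : FusionSystem S₁) (F₂ : FusionSystem S₂) : FusionSystem (S₁.prod S₂) where
  Hom P := prodHom F₁ F₂ P
  le_of_mem := by
    rintro P φ ⟨hP, φ₁, hφ₁, φ₂, hφ₂, h⟩
    refine ⟨hP, fun x => ?_⟩
    rw [h x (fst_mem_map x) (snd_mem_map x)]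
    exact ⟨(F₁.le_of_mem hφ₁).2 _, (F₂.le_of_mem hφ₂).2 _⟩
  injective_of_mem := by
    rintro P φ ⟨hP, φ₁, hφ₁, φ₂, hφ₂, h⟩ x y hxy
    rw [h x (fst_mem_map x) (snd_mem_map x), h y (fst_mem_map y) (snd_mem_map y)] at hxy
    have h1 := F₁.injective_of_mem hφ₁ (congrArg Prod.fst hxy)
    have h2 := F₂.injective_of_mem hφ₂ (congrArg Prod.snd hxy)
    exact Subtype.ext (Prod.ext (congrArg Subtype.val h1) (congrArg Subtype.val h2))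
  conj_mem := by
    intro P g hP hg
    have hP₁ : P.map (MonoidHom.fst Ω₁ Ω₂) ≤ S₁ := by
      rintro _ ⟨x, hx, rfl⟩
      exact (hP hx).1
    have hP₂ : P.map (MonoidHom.snd Ω₁ Ω₂) ≤ S₂ := by
      rintro _ ⟨x, hx, rfl⟩
      exact (hP hx).2
    exact ⟨hP, conjHom _ g.1, F₁.conj_mem hP₁ hg.1, conjHom _ g.2, F₂.conj_mem hP₂ hg.2,
      fun x h₁ h₂ => rfl⟩
  comp_mem := by
    rintro P R φ ψ ⟨hP, φ₁, hφ₁, φ₂, hφ₂, hφ⟩ ⟨hR, ψ₁, hψ₁, ψ₂, hψ₂, hψ⟩ h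
    have h₁ : ∀ y : ↥(P.map (MonoidHom.fst Ω₁ Ω₂)), φ₁ y ∈ R.map (MonoidHom.fst Ω₁ Ω₂) := by
      rintro ⟨_, x, hx, rfl⟩
      refine ⟨φ ⟨x, hx⟩, h ⟨x, hx⟩, ?_⟩
      rw [hφ ⟨x, hx⟩ (fst_mem_map _) (snd_mem_map _)]
      rfl
    have h₂ : ∀ y : ↥(P.map (MonoidHom.snd Ω₁ Ω₂)), φ₂ y ∈ R.map (MonoidHom.snd Ω₁ Ω₂) := by
      rintro ⟨_, x, hx, rfl⟩
      refine ⟨φ ⟨x, hx⟩, h ⟨x, hx⟩, ?_⟩
      rw [hφ ⟨x, hx⟩ (fst_mem_map _) (snd_mem_map _)]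
      rfl
    refine ⟨hP, _, F₁.comp_mem hφ₁ hψ₁ h₁, _, F₂.comp_mem hφ₂ hψ₂ h₂, fun x hx₁ hx₂ => ?_⟩
    show ψ (φ.codRestrict R h x) = _
    rw [hψ _ (fst_mem_map _) (snd_mem_map _)]
    have e := hφ x hx₁ hx₂
    refine Prod.ext ?_ ?_
    · show ψ₁ _ = ψ₁ _
      congr 1
      exact Subtype.ext (congrArg Prod.fst e)
    · show ψ₂ _ = ψ₂ _
      congr 1
      exact Subtype.ext (congrArg Prod.snd e)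
  inv_mem := by
    rintro P φ ⟨hP, φ₁, hφ₁, φ₂, hφ₂, hφ⟩
    obtain ⟨ψ₁, hψ₁, hψ₁inv⟩ := F₁.inv_mem hφ₁
    obtain ⟨ψ₂, hψ₂, hψ₂inv⟩ := F₂.inv_mem hφ₂
    have hle₁ : φ.range.map (MonoidHom.fst Ω₁ Ω₂) ≤ φ₁.range := by
      rintro _ ⟨_, ⟨x, rfl⟩, rfl⟩
      refine ⟨⟨_, fst_mem_map x⟩, ?_⟩
      rw [hφ x (fst_mem_map _) (snd_mem_map _)]
      rfl
    have hle₂ : φ.range.map (MonoidHom.snd Ω₁ Ω₂) ≤ φ₂.range := by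
      rintro _ ⟨_, ⟨x, rfl⟩, rfl⟩
      refine ⟨⟨_, snd_mem_map x⟩, ?_⟩
      rw [hφ x (fst_mem_map _) (snd_mem_map _)]
      rfl
    let ψ : φ.range →* Ω₁ × Ω₂ :=
      ((ψ₁.comp (Subgroup.inclusion hle₁)).comp ((MonoidHom.fst Ω₁ Ω₂).subgroupMap φ.range)).prod
        ((ψ₂.comp (Subgroup.inclusion hle₂)).comp ((MonoidHom.snd Ω₁ Ω₂).subgroupMap φ.range))
    have hrange : φ.range ≤ S₁.prod S₂ := by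
      rintro _ ⟨x, rfl⟩
      rw [hφ x (fst_mem_map _) (snd_mem_map _)]
      exact ⟨(F₁.le_of_mem hφ₁).2 _, (F₂.le_of_mem hφ₂).2 _⟩
    refine ⟨ψ, ⟨hrange, _, restrict_mem F₁ hψ₁ hle₁, _, restrict_mem F₂ hψ₂ hle₂,
      fun x h₁ h₂ => rfl⟩, fun x => ?_⟩
    have e := hφ x (fst_mem_map _) (snd_mem_map _)
    refine Prod.ext ?_ ?_
    · show ψ₁ _ = (x : Ω₁ × Ω₂).1
      refine Eq.trans ?_ (hψ₁inv ⟨_, fst_mem_map x⟩)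
      congr 1
      exact Subtype.ext (congrArg Prod.fst e)
    · show ψ₂ _ = (x : Ω₁ × Ω₂).2
      refine Eq.trans ?_ (hψ₂inv ⟨_, snd_mem_map x⟩)
      congr 1
      exact Subtype.ext (congrArg Prod.snd e)

theorem isProductSystem_prodSystem (F₁ : FusionSystem S₁) (F₂ : FusionSystem S₂) :
    IsProductSystem F₁ F₂ (prodSystem F₁ F₂) := fun _ _ => Iff.rfl

end Cfsg.Agent.Lib.Helper27
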