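import Mathlib
import Cfsg.Prelude.Def_FusionSystem
import Cfsg.Agent.Lib.Helper27.FocalNormal
import Cfsg.Agent.Lib.Helper27.IterComm
import Cfsg.Agent.Lib.Helper21.CoprimeP

set_option autoImplicit false

namespace Cfsg.Agent.Lib.Helper27

open Cfsg Cfsg.FusionSystem Cfsg.Agent.Lib.Helper26

open scoped commutatorElement

section PureSmall

variable {Q : Type*} [Group Q]

theorem frattini_map_lt {U : Subgroup Q} [Finite U] (hU : U ≠ ⊥) :
    (frattini ↥U).map U.subtype < U := by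
  refine lt_of_le_of_ne (Subgroup.map_subtype_le _) ?_
  intro heq
  have h1 : frattini ↥U = ⊤ := by
    apply Subgroup.map_injective U.subtype_injective
    rw [heq, ← MonoidHom.range_eq_map, Subgroup.range_subtype]
  have : Nontrivial ↥U := (Subgroup.nontrivial_iff_ne_bot U).mpr hU
  rcases eq_top_or_exists_le_coatom (⊥ : Subgroup ↥U) with h | ⟨K, hK, -⟩
  · exact bot_ne_top h
  · exact hK.1 (top_le_iff.mp (h1 ▸ frattini_le_coatom hK))

/-- Step 1: a minimal invariant subgroup on which the (conjugation invariant) set `B` of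
`p'`-automorphisms acts nontrivially is generated by the elements `u⁻¹ β(u)`. -/
theorem gen_of_minimal [Finite Q] {p : ℕ} [Fact p.Prime] (hQ : IsPGroup p Q)
    (G : Subgroup (MulAut Q)) (B : Set (MulAut Q)) (hBG : B ⊆ G)
    (hBconj : ∀ γ ∈ G, ∀ β ∈ B, γ * β * γ⁻¹ ∈ B)
    (hBcop : ∀ β ∈ B, (orderOf β).Coprime p)
    (U : Subgroup Q) (hUinv : ∀ γ ∈ G, ∀ x ∈ U, γ x ∈ U)
    (hmin : ∀ V : Subgroup Q, V ≤ U → V ≠ U → (∀ γ ∈ G, ∀ x ∈ V, γ x ∈ V) →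
      ∀ β ∈ B, ∀ x ∈ V, β x = x)
    (hnt : ∃ β ∈ B, ∃ x ∈ U, β x ≠ x) :
    Subgroup.closure {y : Q | ∃ u ∈ U, ∃ β ∈ B, y = u⁻¹ * β u} = U := by
  obtain ⟨e, he⟩ := (IsPGroup.iff_card).1 hQ
  obtain ⟨β₁, hβ₁, x₁, hx₁U, hx₁⟩ := hnt
  obtain ⟨U0, hU0def⟩ : ∃ U0 : Subgroup Q,
      U0 = Subgroup.closure {y : Q | ∃ u ∈ U, ∃ β ∈ B, y = u⁻¹ * β u} := ⟨_, rfl⟩
  rw [← hU0def]
  have hU0le : U0 ≤ U := by
    rw [hU0def, Subgroup.closure_le]
    rintro _ ⟨u, hu, β, hβ, rfl⟩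
    exact U.mul_mem (U.inv_mem hu) (hUinv β (hBG hβ) u hu)
  have hU0inv : ∀ γ ∈ G, ∀ x ∈ U0, γ x ∈ U0 := by
    intro γ hγ x hx
    have hle : U0 ≤ U0.comap (γ : Q ≃* Q).toMonoidHom := by
      conv_lhs => rw [hU0def]
      rw [Subgroup.closure_le]
      rintro _ ⟨u, hu, β, hβ, rfl⟩
      show γ (u⁻¹ * β u) ∈ U0
      rw [hU0def]
      apply Subgroup.subset_closure
      refine ⟨γ u, hUinv γ hγ u hu, γ * β * γ⁻¹, hBconj γ hγ β hβ, ?_⟩
      rw [map_mul, map_inv, MulAut.mul_apply, MulAut.mul_apply, MulAut.inv_apply_self]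
    exact hle hx
  by_contra hne
  have hfix := hmin U0 hU0le hne hU0inv β₁ hβ₁
  apply hx₁
  have hc : Nat.Coprime (Nat.card Q ^ 2) (orderOf β₁) := by
    rw [he, ← pow_mul]
    exact Nat.Coprime.pow_left _ (hBcop β₁ hβ₁).symm
  apply fix_of_pow_fix_coprime hc
  apply fix_of_stab_chain β₁ 2 (fun i => if i = 0 then ⊥ else if i = 1 then U0 else U)
  · simp
  · intro i hi
    interval_cases i
    · simp
    · simpa using hU0le
  · intro i hi x hx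
    interval_cases i
    · have hx' : x ∈ U0 := by simpa using hx
      show x⁻¹ * β₁ x ∈ (⊥ : Subgroup Q)
      rw [hfix x hx', inv_mul_cancel]
      exact Subgroup.one_mem _
    · have hx' : x ∈ U := by simpa using hx
      show x⁻¹ * β₁ x ∈ U0
      rw [hU0def]
      exact Subgroup.subset_closure ⟨x, hx', β₁, hβ₁, rfl⟩
  · simpa using hx₁U

/-- Step 2: in the minimal situation, a subgroup containing the `p`-th powers and the commutators
of `U` is fixed by `B` and central in `U`. -/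
theorem central_of_minimal [Finite Q] {p : ℕ} [Fact p.Prime] (hQ : IsPGroup p Q)
    (G : Subgroup (MulAut Q)) (B : Set (MulAut Q))
    (U : Subgroup Q) (hUinv : ∀ γ ∈ G, ∀ x ∈ U, γ x ∈ U)
    (hmin : ∀ V : Subgroup Q, V ≤ U → V ≠ U → (∀ γ ∈ G, ∀ x ∈ V, γ x ∈ V) →
      ∀ β ∈ B, ∀ x ∈ V, β x = x)
    (hgen : Subgroup.closure {y : Q | ∃ u ∈ U, ∃ β ∈ B, y = u⁻¹ * β u} = U) (hUne : U ≠ ⊥) :
    ∃ V1 : Subgroup Q, (∀ u ∈ U, u ^ p ∈ V1) ∧ (∀ u ∈ U, ∀ v ∈ U, u * v * u⁻¹ * v⁻¹ ∈ V1) ∧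
      (∀ β ∈ B, ∀ c ∈ V1, β c = c) ∧ (∀ c ∈ V1, ∀ u ∈ U, c * u = u * c) := by
  obtain ⟨V1, hV1def⟩ : ∃ V1 : Subgroup Q, V1 = Subgroup.closure
      ({y : Q | ∃ u ∈ U, y = u ^ p} ∪
        {y : Q | ∃ u ∈ U, ∃ v ∈ U, y = u * v * u⁻¹ * v⁻¹}) := ⟨_, rfl⟩
  have hV1pow : ∀ u ∈ U, u ^ p ∈ V1 := fun u hu => by
    rw [hV1def]
    exact Subgroup.subset_closure (Or.inl ⟨u, hu, rfl⟩)
  have hV1comm : ∀ u ∈ U, ∀ v ∈ U, u * v * u⁻¹ * v⁻¹ ∈ V1 := fun u hu v hv => by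
    rw [hV1def]
    exact Subgroup.subset_closure (Or.inr ⟨u, hu, v, hv, rfl⟩)
  have hV1gen : ∀ (f : Q →* Q), (∀ u ∈ U, f u ∈ U) → ∀ x ∈ V1, f x ∈ V1 := by
    intro f hf x hx
    have hle : V1 ≤ V1.comap f := by
      conv_lhs => rw [hV1def]
      rw [Subgroup.closure_le]
      rintro _ (⟨u, hu, rfl⟩ | ⟨u, hu, v, hv, rfl⟩)
      · show f (u ^ p) ∈ V1
        rw [map_pow]
        exact hV1pow _ (hf u hu)
      · show f (u * v * u⁻¹ * v⁻¹) ∈ V1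
        rw [map_mul, map_mul, map_mul, map_inv, map_inv]
        exact hV1comm _ (hf u hu) _ (hf v hv)
    exact hle hx
  have hV1le : V1 ≤ U := by
    rw [hV1def, Subgroup.closure_le]
    rintro _ (⟨u, hu, rfl⟩ | ⟨u, hu, v, hv, rfl⟩)
    · exact U.pow_mem hu p
    · exact U.mul_mem (U.mul_mem (U.mul_mem hu hv) (U.inv_mem hu)) (U.inv_mem hv)
  have hV1inv : ∀ γ ∈ G, ∀ x ∈ V1, γ x ∈ V1 := fun γ hγ x hx =>
    hV1gen (γ : Q ≃* Q).toMonoidHom (fun u hu => hUinv γ hγ u hu) x hx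
  have hV1conj : ∀ u ∈ U, ∀ c ∈ V1, u * c * u⁻¹ ∈ V1 := fun u hu c hc =>
    hV1gen (MulAut.conj u).toMonoidHom (fun v hv => by
      show u * v * u⁻¹ ∈ U
      exact U.mul_mem (U.mul_mem hu hv) (U.inv_mem hu)) c hc
  have hV1ne : V1 ≠ U := by
    have hS0 := Cfsg.Agent.S0012.result (G := ↥U) p (hQ.to_subgroup U)
    have hΦlt := frattini_map_lt hUne
    have hle : V1 ≤ (frattini ↥U).map U.subtype := by
      rw [hV1def, Subgroup.closure_le]
      rintro _ (⟨u, hu, rfl⟩ | ⟨u, hu, v, hv, rfl⟩)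
      · exact ⟨_, hS0.2 ⟨u, hu⟩, rfl⟩
      · refine ⟨⁅(⟨u, hu⟩ : ↥U), ⟨v, hv⟩⁆, hS0.1 ?_, rfl⟩
        rw [commutator_def]
        exact Subgroup.commutator_mem_commutator (Subgroup.mem_top _) (Subgroup.mem_top _)
    intro heq
    rw [heq] at hle
    exact absurd hle (not_le_of_gt hΦlt)
  have hV1fix := hmin V1 hV1le hV1ne hV1inv
  refine ⟨V1, hV1pow, hV1comm, hV1fix, ?_⟩
  intro c hc u hu
  have hle : Subgroup.closure {y : Q | ∃ u ∈ U, ∃ β ∈ B, y = u⁻¹ * β u} ≤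
      Subgroup.centralizer {c} := by
    rw [Subgroup.closure_le]
    rintro _ ⟨w, hw, β, hβ, rfl⟩
    show _ ∈ Subgroup.centralizer ({c} : Set Q)
    rw [Subgroup.mem_centralizer_iff]
    intro d hd
    rw [Set.mem_singleton_iff.mp hd]
    have h1 : β (w * c * w⁻¹) = w * c * w⁻¹ := hV1fix β hβ _ (hV1conj w hw c hc)
    rw [map_mul, map_mul, map_inv, hV1fix β hβ c hc] at h1
    have h2 : β w * c = w * c * w⁻¹ * β w := by
      rw [← h1]
      group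
    calc c * (w⁻¹ * β w) = w⁻¹ * (w * c * w⁻¹ * β w) := by group
      _ = w⁻¹ * (β w * c) := by rw [h2]
      _ = w⁻¹ * β w * c := by group
  have hu0 : u ∈ Subgroup.closure {y : Q | ∃ u ∈ U, ∃ β ∈ B, y = u⁻¹ * β u} := by
    rw [hgen]
    exact hu
  have h3 := hle hu0
  rw [Subgroup.mem_centralizer_iff] at h3
  exact h3 c rfl

/-- Step 3: in the minimal situation `U` has exponent dividing `m`. -/
theorem exp_of_minimal [Finite Q] {p : ℕ} [Fact p.Prime] (hQ : IsPGroup p Q)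
    (m : ℕ) (hm1 : p ∣ m) (hm2 : p ∣ m * (m - 1) / 2)
    (G : Subgroup (MulAut Q)) (B : Set (MulAut Q)) (hBG : B ⊆ G)
    (hBconj : ∀ γ ∈ G, ∀ β ∈ B, γ * β * γ⁻¹ ∈ B)
    (hBcop : ∀ β ∈ B, (orderOf β).Coprime p)
    (U : Subgroup Q) (hUinv : ∀ γ ∈ G, ∀ x ∈ U, γ x ∈ U)
    (hmin : ∀ V : Subgroup Q, V ≤ U → V ≠ U → (∀ γ ∈ G, ∀ x ∈ V, γ x ∈ V) →
      ∀ β ∈ B, ∀ x ∈ V, β x = x)
    (hnt : ∃ β ∈ B, ∃ x ∈ U, β x ≠ x) :
    ∀ u ∈ U, u ^ m = 1 := by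
  have hgen := gen_of_minimal hQ G B hBG hBconj hBcop U hUinv hmin hnt
  have hUne : U ≠ ⊥ := by
    obtain ⟨β₁, -, x₁, hx₁U, hx₁⟩ := hnt
    rintro rfl
    apply hx₁
    rw [Subgroup.mem_bot.mp hx₁U, map_one]
  obtain ⟨V1, hV1pow, hV1comm, hV1fix, hV1cent⟩ :=
    central_of_minimal hQ G B U hUinv hmin hgen hUne
  obtain ⟨m', hm'⟩ := hm1
  obtain ⟨e', he'⟩ := hm2
  have hmul : ∀ x ∈ U, ∀ y ∈ U, (x * y) ^ m = x ^ m * y ^ m := by
    intro x hx y hy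
    have hcV := hV1comm y hy x hx
    have hcx : Commute (y * x * y⁻¹ * x⁻¹) x := hV1cent _ hcV x hx
    have hcy : Commute (y * x * y⁻¹ * x⁻¹) y := hV1cent _ hcV y hy
    have hyx : y * x = (y * x * y⁻¹ * x⁻¹) * x * y := by group
    have hcp : (y * x * y⁻¹ * x⁻¹) ^ p = 1 := by
      have h1 : y * x * y⁻¹ = (y * x * y⁻¹ * x⁻¹) * x := by group
      have h2 := Helper21.conj_pow_of_central h1 hcy p
      have h3 : y ^ p * x = x * y ^ p := hV1cent _ (hV1pow y hy) x hx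
      have h4 : y ^ p * x * (y ^ p)⁻¹ = x := by
        rw [h3]
        group
      rw [h4] at h2
      exact mul_eq_right.mp h2.symm
    rw [Helper21.mul_pow_of_central hyx hcx hcy, he', pow_mul, hcp, one_pow, one_mul]
  have hpowm : ∀ x ∈ U, x ^ m ∈ V1 := fun x hx => by
    rw [hm', pow_mul]
    exact V1.pow_mem (hV1pow x hx) m'
  have hexp0 : ∀ u ∈ Subgroup.closure {y : Q | ∃ u ∈ U, ∃ β ∈ B, y = u⁻¹ * β u},
      u ∈ U ∧ u ^ m = 1 := by
    intro u hu0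
    induction hu0 using Subgroup.closure_induction with
    | mem y hy =>
      obtain ⟨w, hw, β, hβ, rfl⟩ := hy
      have hbw : β w ∈ U := hUinv β (hBG hβ) w hw
      refine ⟨U.mul_mem (U.inv_mem hw) hbw, ?_⟩
      rw [hmul _ (U.inv_mem hw) _ hbw, inv_pow, ← map_pow, hV1fix β hβ _ (hpowm w hw),
        inv_mul_cancel]
    | one => exact ⟨U.one_mem, one_pow _⟩
    | mul x y _ _ ihx ihy =>
      exact ⟨U.mul_mem ihx.1 ihy.1, by rw [hmul x ihx.1 y ihy.1, ihx.2, ihy.2, one_mul]⟩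
    | inv x _ ih => exact ⟨U.inv_mem ih.1, by rw [inv_pow, ih.2, inv_one]⟩
  intro u hu
  have hu0 : u ∈ Subgroup.closure {y : Q | ∃ u ∈ U, ∃ β ∈ B, y = u⁻¹ * β u} := by
    rw [hgen]
    exact hu
  exact (hexp0 u hu0).2

/-- Step 4: the closure of the `G`-conjugates of `P` stabilizes the chain `U ⊓ Y i`. -/
theorem stab_of_conj_closure (G : Subgroup (MulAut Q)) (P : Set (MulAut Q)) (hPG : P ⊆ G)
    (U : Subgroup Q) (hUinv : ∀ γ ∈ G, ∀ x ∈ U, γ x ∈ U)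
    (n : ℕ) (Y : ℕ → Subgroup Q)
    (hUY : ∀ γ ∈ G, ∀ i, ∀ x ∈ U, x ∈ Y i → γ x ∈ Y i)
    (haU : ∀ t ∈ P, ∀ i < n, ∀ x ∈ U, x ∈ Y (i + 1) → x⁻¹ * t x ∈ Y i) :
    ∀ β ∈ Subgroup.closure {τ : MulAut Q | ∃ γ ∈ G, ∃ t ∈ P, τ = γ * t * γ⁻¹},
      β ∈ G ∧ ∀ i < n, ∀ x ∈ U, x ∈ Y (i + 1) → x⁻¹ * β x ∈ Y i := by
  intro β hβ
  induction hβ using Subgroup.closure_induction with
  | mem c hc =>
    obtain ⟨d, hd, t, ht, rfl⟩ := hc
    have hdi : d⁻¹ ∈ G := G.inv_mem hd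
    refine ⟨G.mul_mem (G.mul_mem hd (hPG ht)) hdi, ?_⟩
    intro i hi x hx hxY
    have hv : d⁻¹ x ∈ U := hUinv _ hdi x hx
    have hvY : d⁻¹ x ∈ Y (i + 1) := hUY _ hdi _ x hx hxY
    have hw := haU t ht i hi _ hv hvY
    have hwU : (d⁻¹ x)⁻¹ * t (d⁻¹ x) ∈ U := U.mul_mem (U.inv_mem hv) (hUinv _ (hPG ht) _ hv)
    have h1 := hUY _ hd i _ hwU hw
    have e1 : x⁻¹ * (d * t * d⁻¹) x = d ((d⁻¹ x)⁻¹ * t (d⁻¹ x)) := by
      rw [map_mul, map_inv, MulAut.apply_inv_self, MulAut.mul_apply, MulAut.mul_apply]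
    rw [e1]
    exact h1
  | one =>
    refine ⟨G.one_mem, ?_⟩
    intro i hi x hx hxY
    show x⁻¹ * x ∈ Y i
    rw [inv_mul_cancel]
    exact Subgroup.one_mem _
  | mul c d _ _ ihc ihd =>
    refine ⟨G.mul_mem ihc.1 ihd.1, ?_⟩
    intro i hi x hx hxY
    have hdx : d x ∈ U := hUinv _ ihd.1 x hx
    have hdxY : d x ∈ Y (i + 1) := hUY _ ihd.1 _ x hx hxY
    have h1 := ihd.2 i hi x hx hxY
    have h2 := ihc.2 i hi _ hdx hdxY
    have e1 : x⁻¹ * (c * d) x = (x⁻¹ * d x) * ((d x)⁻¹ * c (d x)) := by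
      rw [MulAut.mul_apply]
      group
    rw [e1]
    exact (Y i).mul_mem h1 h2
  | inv c _ ih =>
    have hci : c⁻¹ ∈ G := G.inv_mem ih.1
    refine ⟨hci, ?_⟩
    intro i hi x hx hxY
    have hv : c⁻¹ x ∈ U := hUinv _ hci x hx
    have hvY : c⁻¹ x ∈ Y (i + 1) := hUY _ hci _ x hx hxY
    have h1 := ih.2 i hi _ hv hvY
    rw [MulAut.apply_inv_self] at h1
    have e1 : x⁻¹ * c⁻¹ x = ((c⁻¹ x)⁻¹ * x)⁻¹ := by group
    rw [e1]
    exact (Y i).inv_mem h1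

/-- The key group-theoretic lemma.  `G` is a group of automorphisms of the finite `p`-group `Q`,
`H` a `G`-invariant subgroup containing all `x⁻¹ β(x)` for `p'`-elements `β ∈ G`, and
`Y 0 ≤ ⋯ ≤ Y n` a chain from `1` to `Q`.  Suppose the elements of `P ⊆ G` stabilize the chain on
the elements of exponent `m` of `H`, and every element of `G` maps the elements of exponent `m` of
`H ∩ Y i` into `Y i`.  Then the subgroup generated by the `G`-conjugates of `P` has no nontrivial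
`p'`-element. -/
theorem eq_one_of_small [Finite Q] {p : ℕ} [Fact p.Prime] (hQ : IsPGroup p Q)
    (m : ℕ) (hm1 : p ∣ m) (hm2 : p ∣ m * (m - 1) / 2)
    (G : Subgroup (MulAut Q)) (H : Subgroup Q)
    (hH : ∀ γ ∈ G, ∀ x ∈ H, γ x ∈ H)
    (hres : ∀ β ∈ G, (orderOf β).Coprime p → ∀ x : Q, x⁻¹ * β x ∈ H)
    (n : ℕ) (Y : ℕ → Subgroup Q) (hY0 : Y 0 = ⊥) (hYn : Y n = ⊤)
    (hYmono : ∀ i < n, Y i ≤ Y (i + 1))
    (P : Set (MulAut Q)) (hPG : P ⊆ G)
    (ha : ∀ t ∈ P, ∀ i < n, ∀ x ∈ H, x ^ m = 1 → x ∈ Y (i + 1) → x⁻¹ * t x ∈ Y i)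
    (hb : ∀ γ ∈ G, ∀ i, ∀ x ∈ H, x ^ m = 1 → x ∈ Y i → γ x ∈ Y i) :
    ∀ β ∈ Subgroup.closure {τ : MulAut Q | ∃ γ ∈ G, ∃ t ∈ P, τ = γ * t * γ⁻¹},
      (orderOf β).Coprime p → β = 1 := by
  classical
  obtain ⟨e, he⟩ := (IsPGroup.iff_card).1 hQ
  have hcop : ∀ (β : MulAut Q) (k : ℕ), (orderOf β).Coprime p →
      Nat.Coprime (Nat.card Q ^ k) (orderOf β) := by
    intro β k hβ
    rw [he, ← pow_mul]
    exact Nat.Coprime.pow_left _ hβ.symm
  obtain ⟨N, hNdef⟩ : ∃ N : Subgroup (MulAut Q), N = Subgroup.closure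
      {τ : MulAut Q | ∃ γ ∈ G, ∃ t ∈ P, τ = γ * t * γ⁻¹} := ⟨_, rfl⟩
  rw [← hNdef]
  have hNG : N ≤ G := by
    rw [hNdef, Subgroup.closure_le]
    rintro _ ⟨γ, hγ, t, ht, rfl⟩
    exact G.mul_mem (G.mul_mem hγ (hPG ht)) (G.inv_mem hγ)
  have hNconj : ∀ γ ∈ G, ∀ β ∈ N, γ * β * γ⁻¹ ∈ N := by
    intro γ hγ β hβ
    have hle : N ≤ N.comap (MulAut.conj γ).toMonoidHom := by
      conv_lhs => rw [hNdef]
      rw [Subgroup.closure_le]
      rintro _ ⟨d, hd, t, ht, rfl⟩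
      show γ * (d * t * d⁻¹) * γ⁻¹ ∈ N
      rw [hNdef]
      apply Subgroup.subset_closure
      refine ⟨γ * d, G.mul_mem hγ hd, t, ht, ?_⟩
      group
    exact hle hβ
  obtain ⟨B, hBdef⟩ : ∃ B : Set (MulAut Q), B = {β | β ∈ N ∧ (orderOf β).Coprime p} :=
    ⟨_, rfl⟩
  have hBG : B ⊆ G := by
    intro β hβ
    rw [hBdef] at hβ
    exact hNG hβ.1
  have hBconj : ∀ γ ∈ G, ∀ β ∈ B, γ * β * γ⁻¹ ∈ B := by
    intro γ hγ β hβ
    rw [hBdef] at hβ ⊢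
    refine ⟨hNconj γ hγ β hβ.1, ?_⟩
    have h2 := (MulAut.conj γ).orderOf_eq β
    rw [MulAut.conj_apply] at h2
    show (orderOf (γ * β * γ⁻¹)).Coprime p
    rw [h2]
    exact hβ.2
  have hBcop : ∀ β ∈ B, (orderOf β).Coprime p := by
    intro β hβ
    rw [hBdef] at hβ
    exact hβ.2
  intro β₀ hβ₀N hβ₀c
  by_contra hβ₀1
  have hβ₀B : β₀ ∈ B := by
    rw [hBdef]
    exact ⟨hβ₀N, hβ₀c⟩
  have hBadH : H ∈ {U : Subgroup Q | (U ≤ H ∧ ∀ γ ∈ G, ∀ x ∈ U, γ x ∈ U) ∧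
      ∃ β ∈ B, ∃ x ∈ U, β x ≠ x} := by
    refine ⟨⟨le_rfl, hH⟩, β₀, hβ₀B, ?_⟩
    by_contra hfix
    push Not at hfix
    apply hβ₀1
    have h2d : β₀ ^ (Nat.card Q ^ 2) = 1 := by
      apply pow_eq_one_of_stab_chain _ 2
        (fun i => if i = 0 then ⊥ else if i = 1 then H else ⊤)
      · simp
      · simp
      · intro i hi
        interval_cases i <;> simp
      · intro i hi x hx
        interval_cases i
        · have hx' : x ∈ H := by simpa using hx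
          show x⁻¹ * β₀ x ∈ (⊥ : Subgroup Q)
          rw [hfix x hx', inv_mul_cancel]
          exact Subgroup.one_mem _
        · show x⁻¹ * β₀ x ∈ H
          exact hres _ (hBG hβ₀B) hβ₀c x
    have h3 : orderOf β₀ ∣ Nat.card Q ^ 2 := orderOf_dvd_of_pow_eq_one h2d
    have h4 := Nat.Coprime.eq_one_of_dvd (hcop _ 2 hβ₀c).symm h3
    exact orderOf_eq_one_iff.mp h4
  obtain ⟨U, hUmem, hUmin⟩ := wellFounded_lt.has_min _ ⟨H, hBadH⟩
  obtain ⟨⟨hUH, hUinv⟩, hnt⟩ := hUmem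
  have hmin : ∀ V : Subgroup Q, V ≤ U → V ≠ U → (∀ γ ∈ G, ∀ x ∈ V, γ x ∈ V) →
      ∀ β ∈ B, ∀ x ∈ V, β x = x := by
    intro V hVU hVne hVinv β hβ x hxV
    by_contra hne
    exact hUmin V ⟨⟨hVU.trans hUH, hVinv⟩, β, hβ, x, hxV, hne⟩ (lt_of_le_of_ne hVU hVne)
  have hexp := exp_of_minimal hQ m hm1 hm2 G B hBG hBconj hBcop U hUinv hmin hnt
  have hUY : ∀ γ ∈ G, ∀ i, ∀ x ∈ U, x ∈ Y i → γ x ∈ Y i := fun γ hγ i x hx hxY =>
    hb γ hγ i x (hUH hx) (hexp x hx) hxY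
  have haU : ∀ t ∈ P, ∀ i < n, ∀ x ∈ U, x ∈ Y (i + 1) → x⁻¹ * t x ∈ Y i :=
    fun t ht i hi x hx hxY => ha t ht i hi x (hUH hx) (hexp x hx) hxY
  have hstab := stab_of_conj_closure G P hPG U hUinv n Y hUY haU
  obtain ⟨β₁, hβ₁, x₁, hx₁U, hx₁⟩ := hnt
  have hβ₁N : β₁ ∈ Subgroup.closure {τ : MulAut Q | ∃ γ ∈ G, ∃ t ∈ P, τ = γ * t * γ⁻¹} := by
    rw [← hNdef]
    rw [hBdef] at hβ₁
    exact hβ₁.1
  apply hx₁
  apply fix_of_pow_fix_coprime (hcop _ n (hBcop β₁ hβ₁))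
  apply fix_of_stab_chain β₁ n (fun i => U ⊓ Y i)
  · show U ⊓ Y 0 = ⊥
    rw [hY0, inf_bot_eq]
  · intro i hi
    exact inf_le_inf_left U (hYmono i hi)
  · intro i hi x hx
    exact ⟨U.mul_mem (U.inv_mem hx.1) (hUinv _ (hBG hβ₁) x hx.1),
      (hstab β₁ hβ₁N).2 i hi x hx.1 hx.2⟩
  · show x₁ ∈ U ⊓ Y n
    rw [hYn]
    exact ⟨hx₁U, Subgroup.mem_top _⟩

/-- The same, for the normal closure of a subset `P` of `G` (as a subgroup of `G`). -/
theorem isPGroup_normalClosure_of_small [Finite Q] {p : ℕ} [Fact p.Prime] (hQ : IsPGroup p Q)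
    (m : ℕ) (hm1 : p ∣ m) (hm2 : p ∣ m * (m - 1) / 2)
    (G : Subgroup (MulAut Q)) (H : Subgroup Q)
    (hH : ∀ γ ∈ G, ∀ x ∈ H, γ x ∈ H)
    (hres : ∀ β ∈ G, (orderOf β).Coprime p → ∀ x : Q, x⁻¹ * β x ∈ H)
    (n : ℕ) (Y : ℕ → Subgroup Q) (hY0 : Y 0 = ⊥) (hYn : Y n = ⊤)
    (hYmono : ∀ i < n, Y i ≤ Y (i + 1))
    (P : Set G)
    (ha : ∀ t ∈ P, ∀ i < n, ∀ x ∈ H, x ^ m = 1 → x ∈ Y (i + 1) →
      x⁻¹ * (t : MulAut Q) x ∈ Y i)
    (hb : ∀ γ ∈ G, ∀ i, ∀ x ∈ H, x ^ m = 1 → x ∈ Y i → γ x ∈ Y i) :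
    IsPGroup p (Subgroup.normalClosure P) := by
  have hp : p.Prime := Fact.out
  have hPG : {τ : MulAut Q | ∃ t ∈ P, (t : MulAut Q) = τ} ⊆ G := by
    rintro _ ⟨t, -, rfl⟩
    exact t.2
  have ha' : ∀ t ∈ {τ : MulAut Q | ∃ t ∈ P, (t : MulAut Q) = τ}, ∀ i < n, ∀ x ∈ H,
      x ^ m = 1 → x ∈ Y (i + 1) → x⁻¹ * t x ∈ Y i := by
    rintro _ ⟨t, ht, rfl⟩
    exact ha t ht
  have key := eq_one_of_small hQ m hm1 hm2 G H hH hres n Y hY0 hYn hYmono
    {τ : MulAut Q | ∃ t ∈ P, (t : MulAut Q) = τ} hPG ha' hb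
  have hmapN : ∀ b : G, b ∈ Subgroup.normalClosure P → (b : MulAut Q) ∈ Subgroup.closure
      {τ : MulAut Q | ∃ γ ∈ G, ∃ t ∈ {τ : MulAut Q | ∃ t ∈ P, (t : MulAut Q) = τ},
        τ = γ * t * γ⁻¹} := by
    intro b hb
    unfold Subgroup.normalClosure at hb
    induction hb using Subgroup.closure_induction with
    | mem c hc =>
      obtain ⟨t, ht, htc⟩ := Group.mem_conjugatesOfSet_iff.mp hc
      obtain ⟨d, rfl⟩ := isConj_iff.mp htc
      exact Subgroup.subset_closure ⟨(d : MulAut Q), d.2, (t : MulAut Q), ⟨t, ht, rfl⟩, rfl⟩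
    | one => exact Subgroup.one_mem _
    | mul c d _ _ ihc ihd => exact Subgroup.mul_mem _ ihc ihd
    | inv c _ ih => exact Subgroup.inv_mem _ ih
  by_contra hnp
  obtain ⟨q, a, hq, hqp, haq⟩ := exists_prime_order_of_not_isPGroup p hnp
  have hqcop : q.Coprime p := (Nat.coprime_primes hq hp).2 hqp
  have h2 : orderOf ((a : G) : MulAut Q) = q := by
    rw [Subgroup.orderOf_coe, Subgroup.orderOf_coe, haq]
  have h1 := key ((a : G) : MulAut Q) (hmapN _ a.2) (by rw [h2]; exact hqcop)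
  rw [h1, orderOf_one] at h2
  exact hq.one_lt.ne h2

end PureSmall

section FusionSmall

variable {Ω : Type*} [Group Ω] {S : Subgroup Ω}

/-- The upper central series of `S`, as subgroups of the ambient group. -/
def ucs (S : Subgroup Ω) (i : ℕ) : Subgroup Ω :=
  (Subgroup.upperCentralSeries ↥S i).map S.subtype

theorem ucs_zero (S : Subgroup Ω) : ucs S 0 = ⊥ := by
  unfold ucs
  rw [Subgroup.upperCentralSeries_zero, Subgroup.map_bot]

theorem mem_ucs_succ (S : Subgroup Ω) (i : ℕ) (x : Ω) :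
    x ∈ ucs S (i + 1) ↔ x ∈ S ∧ ∀ s ∈ S, x * s * x⁻¹ * s⁻¹ ∈ ucs S i := by
  constructor
  · rintro ⟨x', hx', rfl⟩
    refine ⟨x'.2, fun s hs => ?_⟩
    exact ⟨_, Subgroup.mem_upperCentralSeries_succ_iff.mp hx' ⟨s, hs⟩, rfl⟩
  · rintro ⟨hxS, h⟩
    refine ⟨⟨x, hxS⟩, Subgroup.mem_upperCentralSeries_succ_iff.mpr ?_, rfl⟩
    intro y
    obtain ⟨z, hz, hzeq⟩ := h y y.2
    have e1 : z = ⁅(⟨x, hxS⟩ : S), y⁆ := Subtype.ext hzeq
    rw [← e1]
    exact hz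

theorem ucs_mono (S : Subgroup Ω) {i j : ℕ} (h : i ≤ j) : ucs S i ≤ ucs S j :=
  Subgroup.map_mono (Subgroup.upperCentralSeries_mono _ h)

theorem exists_ucs_eq [Finite S] {p : ℕ} [Fact p.Prime] (hS : IsPGroup p S) :
    ∃ n, ucs S n = S := by
  have hnil := hS.isNilpotent
  obtain ⟨n, hn⟩ := Group.IsNilpotent.nilpotent ↥S
  refine ⟨n, ?_⟩
  unfold ucs
  rw [hn, ← MonoidHom.range_eq_map, Subgroup.range_subtype]

/-- A homomorphism mapping `S` onto `S` preserves the upper central series of `S`. -/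
theorem ucs_map_mem {D : Subgroup Ω} (ψ : D →* Ω) (hmap : (S.subgroupOf D).map ψ = S) (i : ℕ) :
    ∀ y : D, (y : Ω) ∈ ucs S i → ψ y ∈ ucs S i := by
  induction i with
  | zero =>
    intro y hy
    rw [ucs_zero, Subgroup.mem_bot] at hy
    have e1 : y = 1 := Subtype.ext hy
    rw [e1, map_one]
    exact Subgroup.one_mem _
  | succ i ih =>
    intro y hy
    rw [mem_ucs_succ] at hy ⊢
    obtain ⟨hyS, hy2⟩ := hy
    refine ⟨?_, fun s hs => ?_⟩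
    · have h1 : ψ y ∈ (S.subgroupOf D).map ψ := ⟨y, Subgroup.mem_subgroupOf.mpr hyS, rfl⟩
      rwa [hmap] at h1
    · have hs' : s ∈ (S.subgroupOf D).map ψ := by
        rw [hmap]
        exact hs
      obtain ⟨s', hs'S, rfl⟩ := hs'
      have h1 := ih (y * s' * y⁻¹ * s'⁻¹) (hy2 s' (Subgroup.mem_subgroupOf.mp hs'S))
      rw [map_mul, map_mul, map_mul, map_inv, map_inv] at h1
      exact h1

/-- Restricting an `F`-automorphism of `R` to the cyclic subgroup generated by a small element of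
the hyperfocal subgroup gives a map to which a hypothesis on maps between small cyclic subgroups
of the hyperfocal subgroup applies. -/
theorem exists_small_cyclic_hom [Finite S] (p : ℕ) [Fact p.Prime] (hS : IsPGroup p S)
    (F : FusionSystem S) (hF : F.IsSaturated p)
    (T : (A : Subgroup Ω) → Set (A →* Ω))
    (h : ∀ A B : Subgroup Ω, A ≤ F.hyperfocalSubgroup p → B ≤ F.hyperfocalSubgroup p →
      IsCyclic ↥A → (Nat.card ↥A = p ∨ Nat.card ↥A = 4) → IsCyclic ↥B →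
      (Nat.card ↥B = p ∨ Nat.card ↥B = 4) → F.homSet A B ⊆ T A)
    {R : Subgroup Ω} (hR : R ≤ S) {γ : MulAut R} (hγ : γ ∈ F.autGroup R) (x : R)
    (hx : (x : Ω) ∈ F.hyperfocalSubgroup p) (hx1 : x ≠ 1)
    (hxm : x ^ p = 1 ∨ (p = 2 ∧ x ^ 4 = 1)) :
    ∃ φ ∈ T (Subgroup.zpowers (x : Ω)),
      φ ⟨(x : Ω), Subgroup.mem_zpowers _⟩ = ((γ x : R) : Ω) := by
  have hle : Subgroup.zpowers (x : Ω) ≤ R := Subgroup.zpowers_le.2 x.2
  have hγF : R.subtype.comp (γ : R ≃* R).toMonoidHom ∈ F.Hom R :=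
    (Fusion.mem_autGroup_iff F hR).1 hγ
  have hφ := restrict_mem F hγF hle
  have hγx : ((γ x : R) : Ω) ∈ F.hyperfocalSubgroup p :=
    apply_mem_of_stronglyClosed F (hyperfocal_stronglyClosed p hS F hF) hR hγ x hx
  have hx1' : (x : Ω) ≠ 1 := fun h0 => hx1 (Subtype.ext h0)
  have hord : orderOf (x : Ω) = p ∨ orderOf (x : Ω) = 4 := by
    rcases hxm with h1 | ⟨h2, h4⟩
    · left
      apply orderOf_eq_prime _ hx1'
      have h0 := congrArg Subtype.val h1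
      rwa [Subgroup.coe_pow] at h0
    · have h4' : (x : Ω) ^ 4 = 1 := by
        have h0 := congrArg Subtype.val h4
        rwa [Subgroup.coe_pow] at h0
      have hd : orderOf (x : Ω) ∣ 2 ^ 2 := orderOf_dvd_of_pow_eq_one h4'
      obtain ⟨k, hk, hk2⟩ := (Nat.dvd_prime_pow Nat.prime_two).1 hd
      interval_cases k
      · exact absurd (orderOf_eq_one_iff.mp (by simpa using hk2)) hx1'
      · left
        rw [hk2, h2]
        norm_num
      · right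
        rw [hk2]
        norm_num
  have hord' : orderOf ((γ x : R) : Ω) = orderOf (x : Ω) := by
    rw [Subgroup.orderOf_coe, Subgroup.orderOf_coe]
    exact MulEquiv.orderOf_eq γ x
  have hval : ∀ a : Subgroup.zpowers (x : Ω),
      ((R.subtype.comp (γ : R ≃* R).toMonoidHom).comp (Subgroup.inclusion hle)) a ∈
        Subgroup.zpowers ((γ x : R) : Ω) := by
    rintro ⟨a, ha⟩
    obtain ⟨k, rfl⟩ := Subgroup.mem_zpowers_iff.mp ha
    show ((γ (⟨(x : Ω) ^ k, hle ha⟩ : R) : R) : Ω) ∈ Subgroup.zpowers ((γ x : R) : Ω)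
    have e1 : (⟨(x : Ω) ^ k, hle ha⟩ : R) = x ^ k := Subtype.ext (by simp)
    rw [e1, map_zpow, Subgroup.coe_zpow]
    exact Subgroup.zpow_mem_zpowers _ k
  have hmem := h (Subgroup.zpowers (x : Ω)) (Subgroup.zpowers ((γ x : R) : Ω))
    (Subgroup.zpowers_le.2 hx) (Subgroup.zpowers_le.2 hγx) inferInstance
    (by rw [Nat.card_zpowers]; exact hord) inferInstance
    (by rw [Nat.card_zpowers, hord']; exact hord)
    ⟨hφ, hval⟩
  exact ⟨_, hmem, rfl⟩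

/-- The normal closure in `Aut_F(R)` of a set of automorphisms acting on the small elements of
the hyperfocal subgroup as conjugations by elements of `S` is a `p`-group, provided that every
map between small cyclic subgroups of the hyperfocal subgroup extends to an automorphism of
`S`. -/
theorem isPGroup_normalClosure_of_small_cyclic [Finite S] (p : ℕ) [Fact p.Prime]
    (hS : IsPGroup p S) (F : FusionSystem S) (hF : F.IsSaturated p)
    (h : ∀ A B : Subgroup Ω, A ≤ F.hyperfocalSubgroup p → B ≤ F.hyperfocalSubgroup p →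
      IsCyclic ↥A → (Nat.card ↥A = p ∨ Nat.card ↥A = 4) → IsCyclic ↥B →
      (Nat.card ↥B = p ∨ Nat.card ↥B = 4) → F.homSet A B ⊆ F.normalizerHom S A)
    {R : Subgroup Ω} (hR : R ≤ S) (P : Set (F.autGroup R))
    (hP : ∀ t ∈ P, ∀ x : R, (x : Ω) ∈ F.hyperfocalSubgroup p →
      (x ^ p = 1 ∨ (p = 2 ∧ x ^ 4 = 1)) →
      ∃ s ∈ S, (((t : MulAut R) x : R) : Ω) = s * x * s⁻¹) :
    IsPGroup p (Subgroup.normalClosure P) := by
  have hp : p.Prime := Fact.out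
  have hRfin : Finite R := finite_of_le hR
  obtain ⟨m, hmdef⟩ : ∃ m : ℕ, m = if p = 2 then 4 else p := ⟨_, rfl⟩
  have hm1 : p ∣ m := by
    rw [hmdef]
    split_ifs with h2
    · rw [h2]
      norm_num
    · exact dvd_refl p
  have hm2 : p ∣ m * (m - 1) / 2 := by
    rw [hmdef]
    split_ifs with h2
    · rw [h2]
      norm_num
    · have h3 : 2 ∣ p - 1 := by
        rcases hp.eq_two_or_odd' with h0 | h0
        · exact absurd h0 h2
        · obtain ⟨k, hk⟩ := h0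
          exact ⟨k, by omega⟩
      rw [Nat.mul_div_assoc p h3]
      exact dvd_mul_right p _
  have hsmall : ∀ x : R, x ^ m = 1 → (x ^ p = 1 ∨ (p = 2 ∧ x ^ 4 = 1)) := by
    intro x hxm
    by_cases h2 : p = 2
    · right
      refine ⟨h2, ?_⟩
      rw [hmdef, if_pos h2] at hxm
      exact hxm
    · left
      rw [hmdef, if_neg h2] at hxm
      exact hxm
  obtain ⟨n, hn⟩ := exists_ucs_eq hS
  apply isPGroup_normalClosure_of_small (hS.to_le hR) m hm1 hm2 (F.autGroup R)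
    ((F.hyperfocalSubgroup p).subgroupOf R) ?_ ?_ n (fun i => (ucs S i).subgroupOf R) ?_ ?_ ?_
    P ?_ ?_
  · intro γ hγ x hx
    exact Subgroup.mem_subgroupOf.mpr (apply_mem_of_stronglyClosed F
      (hyperfocal_stronglyClosed p hS F hF) hR hγ x (Subgroup.mem_subgroupOf.mp hx))
  · intro β hβ hc x
    have hα : (⟨β, hβ⟩ : F.autGroup R) ∈ pResidual p (F.autGroup R) := by
      apply Subgroup.subset_closure
      show Nat.Coprime (orderOf (⟨β, hβ⟩ : F.autGroup R)) p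
      rw [← Subgroup.orderOf_coe]
      exact hc
    exact Subgroup.mem_subgroupOf.mpr (mem_hyperfocal F p hR hα x)
  · show (ucs S 0).subgroupOf R = ⊥
    rw [ucs_zero, Subgroup.bot_subgroupOf]
  · show (ucs S n).subgroupOf R = ⊤
    rw [hn, Subgroup.subgroupOf_eq_top]
    exact hR
  · intro i hi x hx
    exact Subgroup.mem_subgroupOf.mpr
      (ucs_mono S (Nat.le_succ i) (Subgroup.mem_subgroupOf.mp hx))
  · intro t ht i hi x hxH hxm hxY
    obtain ⟨s, hs, hts⟩ := hP t ht x (Subgroup.mem_subgroupOf.mp hxH) (hsmall x hxm)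
    apply Subgroup.mem_subgroupOf.mpr
    have hxinv : (x : Ω)⁻¹ ∈ ucs S (i + 1) :=
      Subgroup.inv_mem _ (Subgroup.mem_subgroupOf.mp hxY)
    have h1 := ((mem_ucs_succ S i _).mp hxinv).2 s hs
    have e1 : ((x⁻¹ * (t : MulAut R) x : R) : Ω) = (x : Ω)⁻¹ * s * ((x : Ω)⁻¹)⁻¹ * s⁻¹ := by
      rw [Subgroup.coe_mul, Subgroup.coe_inv, hts, inv_inv]
      group
    rw [e1]
    exact h1
  · intro γ hγ i x hxH hxm hxY
    apply Subgroup.mem_subgroupOf.mpr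
    by_cases hx1 : x = 1
    · rw [hx1, map_one, Subgroup.coe_one]
      exact Subgroup.one_mem _
    · obtain ⟨φ, hφ, hφx⟩ := exists_small_cyclic_hom p hS F hF
        (fun A => F.normalizerHom S A) h hR hγ x (Subgroup.mem_subgroupOf.mp hxH) hx1
        (hsmall x hxm)
      obtain ⟨-, -, -, ψ, hψ, hext, hmap⟩ := hφ
      have h1 := ucs_map_mem ψ hmap i
        (Subgroup.inclusion le_sup_left ⟨(x : Ω), Subgroup.mem_zpowers _⟩)
        (Subgroup.mem_subgroupOf.mp hxY)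
      rw [hext, hφx] at h1
      exact h1

/-- S5297. -/
theorem isNormal_top_of_small_cyclic [Finite S] (p : ℕ) [Fact p.Prime] (hS : IsPGroup p S)
    (F : FusionSystem S) (hF : F.IsSaturated p)
    (h : ∀ A B : Subgroup Ω, A ≤ F.hyperfocalSubgroup p → B ≤ F.hyperfocalSubgroup p →
      IsCyclic ↥A → (Nat.card ↥A = p ∨ Nat.card ↥A = 4) → IsCyclic ↥B →
      (Nat.card ↥B = p ∨ Nat.card ↥B = 4) → F.homSet A B ⊆ F.normalizerHom S A) :
    F.IsNormal S := by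
  rw [isNormal_iff_stronglyClosed_radical p hS F hF]
  refine ⟨⟨le_rfl, fun R hR φ hφ x => (F.le_of_mem hφ).2 x⟩, fun R hRc hRr => ?_⟩
  have hR : R ≤ S := hRc.1
  have hcen : centralizerIn S R ≤ R := hRc.2 R (Fusion.isConj_refl F hR)
  obtain ⟨P, hPdef⟩ : ∃ P : Set (F.autGroup R), P = {c : F.autGroup R | ∃ g ∈ S, ∀ x : R,
      (((c : MulAut R) x : R) : Ω) = g * x * g⁻¹} := ⟨_, rfl⟩
  have hKp : IsPGroup p (Subgroup.normalClosure P) := by
    apply isPGroup_normalClosure_of_small_cyclic p hS F hF h hR P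
    intro t ht x _ _
    rw [hPdef] at ht
    obtain ⟨g, hg, hgx⟩ := ht
    exact ⟨g, hg, hgx x⟩
  apply le_of_normalizer_le hS hR le_rfl (hR.trans Subgroup.le_normalizer)
  intro g hgS hgN
  have hcA : R.normalizerMonoidHom ⟨g, hgN⟩ ∈ F.autGroup R :=
    Fusion.autInducedBy_le_autGroup F hR (Subgroup.subset_closure ⟨g, hgS, fun x => rfl⟩)
  refine mem_of_radical_of_normal_pgroup F hcen hRr _ Subgroup.normalClosure_normal hKp hgS
    ⟨⟨_, hcA⟩, ?_, fun x => rfl⟩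
  apply Subgroup.subset_normalClosure
  rw [hPdef]
  exact ⟨g, hgS, fun x => rfl⟩

theorem normalizerHom_top_of_inner (F : FusionSystem S) {A : Subgroup Ω} {φ : A →* Ω}
    (hφF : φ ∈ F.Hom A) (hφ : φ ∈ (innerFusionSystem S).Hom A) : φ ∈ F.normalizerHom S A := by
  obtain ⟨hA, g, hg, hgφ⟩ := hφ
  have hAS : A ⊔ S ≤ S := sup_le hA le_rfl
  refine ⟨hφF, ?_, ?_, conjHom (A ⊔ S) g, F.conj_mem hAS hg, ?_, ?_⟩
  · exact fun x hx => ⟨hA hx, Subgroup.le_normalizer (hA hx)⟩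
  · exact fun x => ⟨(F.le_of_mem hφF).2 x, Subgroup.le_normalizer ((F.le_of_mem hφF).2 x)⟩
  · intro x
    rw [hgφ x]
    rfl
  · ext y
    constructor
    · rintro ⟨z, hz, rfl⟩
      exact S.mul_mem (S.mul_mem hg (Subgroup.mem_subgroupOf.mp hz)) (S.inv_mem hg)
    · intro hy
      have hz : g⁻¹ * y * g ∈ S := S.mul_mem (S.mul_mem (S.inv_mem hg) hy) hg
      refine ⟨⟨g⁻¹ * y * g, le_sup_right (a := A) hz⟩, Subgroup.mem_subgroupOf.mpr hz, ?_⟩
      show g * (g⁻¹ * y * g) * g⁻¹ = y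
      group

/-- S5298. -/
theorem eq_inner_of_small_cyclic [Finite S] (p : ℕ) [Fact p.Prime] (hS : IsPGroup p S)
    (F : FusionSystem S) (hF : F.IsSaturated p)
    (h : ∀ A B : Subgroup Ω, A ≤ F.hyperfocalSubgroup p → B ≤ F.hyperfocalSubgroup p →
      IsCyclic ↥A → (Nat.card ↥A = p ∨ Nat.card ↥A = 4) → IsCyclic ↥B →
      (Nat.card ↥B = p ∨ Nat.card ↥B = 4) → F.homSet A B ⊆ (innerFusionSystem S).Hom A) :
    ∀ P : Subgroup Ω, F.Hom P = (innerFusionSystem S).Hom P := by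
  apply eq_inner_of_isPGroup_autGroup p hS F hF
  intro R hR
  have h' : ∀ A B : Subgroup Ω, A ≤ F.hyperfocalSubgroup p → B ≤ F.hyperfocalSubgroup p →
      IsCyclic ↥A → (Nat.card ↥A = p ∨ Nat.card ↥A = 4) → IsCyclic ↥B →
      (Nat.card ↥B = p ∨ Nat.card ↥B = 4) → F.homSet A B ⊆ F.normalizerHom S A :=
    fun A B hA hB hAc hAn hBc hBn φ hφ =>
      normalizerHom_top_of_inner F hφ.1 (h A B hA hB hAc hAn hBc hBn hφ)
  have hPh : ∀ t ∈ (Set.univ : Set (F.autGroup R)), ∀ x : R,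
      (x : Ω) ∈ F.hyperfocalSubgroup p → (x ^ p = 1 ∨ (p = 2 ∧ x ^ 4 = 1)) →
      ∃ s ∈ S, (((t : MulAut R) x : R) : Ω) = s * x * s⁻¹ := by
    intro t _ x hx hxm
    by_cases hx1 : x = 1
    · refine ⟨1, S.one_mem, ?_⟩
      rw [hx1, map_one]
      simp
    · obtain ⟨φ, hφ, hφx⟩ := exists_small_cyclic_hom p hS F hF
        (fun A => (innerFusionSystem S).Hom A) h hR t.2 x hx hx1 hxm
      obtain ⟨-, g, hg, hgφ⟩ := hφ
      exact ⟨g, hg, by rw [← hφx, hgφ]⟩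
  have hK := isPGroup_normalClosure_of_small_cyclic p hS F hF h' hR Set.univ hPh
  intro g
  obtain ⟨k, hk⟩ := hK ⟨g, Subgroup.subset_normalClosure (Set.mem_univ g)⟩
  exact ⟨k, by simpa [Subtype.ext_iff] using hk⟩

end FusionSmall

end Cfsg.Agent.Lib.Helper27
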