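import Cfsg.Agent.Lib.Helper27.InnerSys
import Cfsg.Agent.S5106

set_option autoImplicit false

namespace Cfsg.Agent.Lib.Helper27

open Cfsg Cfsg.FusionSystem Cfsg.Agent.Lib.Helper26

variable {Ω : Type*} [Group Ω] {S : Subgroup Ω}

/-- The subgroup generated by a nonempty family of subgroups normal in a fusion system over a
finite group is normal in it. -/
theorem isNormal_sSup [Finite S] (F : FusionSystem S) (𝒮 : Set (Subgroup Ω)) (hne : 𝒮.Nonempty)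
    (h : ∀ Q ∈ 𝒮, F.IsNormal Q) : F.IsNormal (sSup 𝒮) := by
  have hle : sSup 𝒮 ≤ S := sSup_le fun Q hQ => (h Q hQ).1
  have hfin : Finite ↥(sSup 𝒮) := finite_of_le hle
  have key : ∀ n : ℕ, ∀ M : Subgroup Ω, F.IsNormal M → M ≤ sSup 𝒮 →
      Nat.card ↥(sSup 𝒮) ≤ Nat.card M + n → F.IsNormal (sSup 𝒮) := by
    intro n
    induction n with
    | zero =>
      intro M hM hMle hcard
      have e : M = sSup 𝒮 := Subgroup.eq_of_le_of_card_ge hMle (by simpa using hcard)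
      rw [← e]
      exact hM
    | succ n ih =>
      intro M hM hMle hcard
      by_cases hall : ∀ Q ∈ 𝒮, Q ≤ M
      · have e : M = sSup 𝒮 := le_antisymm hMle (sSup_le hall)
        rw [← e]
        exact hM
      · push Not at hall
        obtain ⟨Q, hQ, hQM⟩ := hall
        have hlt : M < M ⊔ Q :=
          lt_of_le_of_ne le_sup_left (fun e => hQM (e ▸ le_sup_right))
        have hle' : M ⊔ Q ≤ sSup 𝒮 := sup_le hMle (le_sSup hQ)
        have hfin' : Finite ↥(M ⊔ Q) := finite_of_le (hle'.trans hle)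
        have hc := card_lt_of_lt' hlt
        exact ih (M ⊔ Q) (isNormal_sup F hM (h Q hQ)) hle' (by omega)
  obtain ⟨Q, hQ⟩ := hne
  exact key (Nat.card ↥(sSup 𝒮)) Q (h Q hQ) (le_sSup hQ) (Nat.le_add_left _ _)

/-- A usable form of the invariance condition. -/
theorem invariant_apply {T : Subgroup Ω} {E : FusionSystem T} {F : FusionSystem S}
    (hE : E.IsInvariantIn F) {P : Subgroup Ω} (hPT : P ≤ T) {φ : P →* Ω} (hφ : φ ∈ E.Hom P)
    {α : MulAut T} (hα : α ∈ F.autGroup T) :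
    ∃ χ ∈ E.Hom ((P.subgroupOf T).map (T.subtype.comp α.toMonoidHom)),
      ∀ (x y : T) (hx : (x : Ω) ∈ P)
        (hy : (y : Ω) ∈ (P.subgroupOf T).map (T.subtype.comp α.toMonoidHom)) (z : T),
        α x = y → (z : Ω) = φ ⟨x, hx⟩ → χ ⟨y, hy⟩ = ((α z : T) : Ω) := by
  obtain ⟨χ, hχ, hχv⟩ := hE.2.2.1 P hPT φ hφ α hα
  refine ⟨χ, hχ, ?_⟩
  intro x y hx hy z hxy hz
  subst hxy
  have h1 := hχv ⟨x, hx⟩ (hz ▸ z.2) hy
  have h2 : z = ⟨φ ⟨x, hx⟩, hz ▸ z.2⟩ := Subtype.ext hz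
  rw [h2]
  exact h1

/-- Images of a subgroup normal in an invariant saturated subsystem `E` of `F` under
`Aut_F(T)` are normal in `E`. -/
theorem isNormal_image_of_invariant [Finite S] (p : ℕ) [Fact p.Prime] (hS : IsPGroup p S)
    (F : FusionSystem S) {T : Subgroup Ω} (E : FusionSystem T) (hE : E.IsWeaklyNormalIn F p)
    {R : Subgroup Ω} (hR : E.IsNormal R) {α : MulAut T} (hα : α ∈ F.autGroup T) :
    E.IsNormal ((R.subgroupOf T).map (T.subtype.comp α.toMonoidHom)) := by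
  obtain ⟨hEsat, -, hEinv⟩ := hE
  have hsc := hEinv.2.1
  have hTS : T ≤ S := hsc.1
  have hTfin : Finite T := finite_of_le hTS
  have hT : IsPGroup p T := hS.to_le hTS
  have hRT : R ≤ T := hR.1
  have hcritR := (Cfsg.Agent.S5106.result p hT E hEsat R hRT).1 hR
  have hQT : (R.subgroupOf T).map (T.subtype.comp α.toMonoidHom) ≤ T := by
    rintro _ ⟨y, -, rfl⟩
    exact (α y).2
  have hQfin : Finite ↥((R.subgroupOf T).map (T.subtype.comp α.toMonoidHom)) :=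
    finite_of_le hQT
  rw [Cfsg.Agent.S5106.result p hT E hEsat _ hQT]
  intro P' hP'Q ψ hψ
  have hαinv : α⁻¹ ∈ F.autGroup T := inv_mem hα
  have hP'T : P' ≤ T := hP'Q.trans hQT
  obtain ⟨χ, hχ, hχv⟩ := invariant_apply hEinv hP'T hψ hαinv
  have hPR : (P'.subgroupOf T).map (T.subtype.comp (α⁻¹).toMonoidHom) ≤ R := by
    rintro _ ⟨y, hy, rfl⟩
    have hyP' : (y : Ω) ∈ P' := Subgroup.mem_subgroupOf.mp hy
    obtain ⟨r, hr, hry⟩ := hP'Q hyP'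
    have e : α r = y := Subtype.ext hry
    show ((α⁻¹ y : T) : Ω) ∈ R
    rw [← e]
    have e2 : α⁻¹ (α r) = r := by simp
    rw [e2]
    exact Subgroup.mem_subgroupOf.mp hr
  obtain ⟨γ, hγ, hγv⟩ := hcritR _ hPR χ hχ
  have hγ' : R.subtype.comp γ.toMonoidHom ∈ E.Hom R := (Fusion.mem_autGroup_iff E hRT).1 hγ
  obtain ⟨χ', hχ', hχ'v⟩ := invariant_apply hEinv hRT hγ' hα
  have hrange : χ'.range = (R.subgroupOf T).map (T.subtype.comp α.toMonoidHom) := by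
    apply Subgroup.eq_of_le_of_card_ge
    · rintro _ ⟨⟨z, hz⟩, rfl⟩
      obtain ⟨y, hy, hyz⟩ := hz
      have hyR : (y : Ω) ∈ R := Subgroup.mem_subgroupOf.mp hy
      have h1 := hχ'v y ⟨z, hQT ⟨y, hy, hyz⟩⟩ hyR ⟨y, hy, hyz⟩
        ⟨((γ ⟨y, hyR⟩ : R) : Ω), hRT (γ ⟨y, hyR⟩).2⟩ (Subtype.ext hyz) rfl
      rw [h1]
      exact ⟨⟨((γ ⟨y, hyR⟩ : R) : Ω), hRT (γ ⟨y, hyR⟩).2⟩,
        Subgroup.mem_subgroupOf.mpr (γ ⟨y, hyR⟩).2, rfl⟩
    · exact le_of_eq (Nat.card_congr (Equiv.ofInjective χ' (E.injective_of_mem hχ')))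
  refine ⟨Fusion.equivOfRange χ' (E.injective_of_mem hχ') hrange,
    (Fusion.mem_autGroup_iff E hQT).2 (Fusion.isIso_equivOfRange E hχ' hrange), fun x => ?_⟩
  show χ' (Subgroup.inclusion hP'Q x) = ψ x
  have hxT : (x : Ω) ∈ T := hP'T x.2
  have hψT : ψ x ∈ T := (E.le_of_mem hψ).2 x
  have hyP : ((α⁻¹ ⟨x, hxT⟩ : T) : Ω) ∈
      (P'.subgroupOf T).map (T.subtype.comp (α⁻¹).toMonoidHom) :=
    ⟨⟨x, hxT⟩, Subgroup.mem_subgroupOf.mpr x.2, rfl⟩
  have hyR : ((α⁻¹ ⟨x, hxT⟩ : T) : Ω) ∈ R := hPR hyP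
  have h1 := hχv ⟨x, hxT⟩ (α⁻¹ ⟨x, hxT⟩) x.2 hyP ⟨ψ x, hψT⟩ rfl rfl
  have h2 : ((γ ⟨((α⁻¹ ⟨x, hxT⟩ : T) : Ω), hyR⟩ : R) : Ω) =
      χ ⟨((α⁻¹ ⟨x, hxT⟩ : T) : Ω), hyP⟩ := hγv ⟨_, hyP⟩
  have h3 := hχ'v (α⁻¹ ⟨x, hxT⟩) ⟨x, hxT⟩ hyR (hP'Q x.2) (α⁻¹ ⟨ψ x, hψT⟩) (by simp)
    (by
      show ((α⁻¹ ⟨ψ x, hψT⟩ : T) : Ω) = ((γ ⟨((α⁻¹ ⟨x, hxT⟩ : T) : Ω), hyR⟩ : R) : Ω)
      rw [h2, h1])
  have e3 : (Subgroup.inclusion hP'Q x :
      ↥((R.subgroupOf T).map (T.subtype.comp α.toMonoidHom))) = ⟨x, hP'Q x.2⟩ := rfl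
  rw [e3, h3]
  simp

/-- A subgroup normal in an invariant saturated subsystem `E` of `F` which is invariant under
`Aut_F(T)` is normal in `F`. -/
theorem isNormal_of_isNormal_of_invariant [Finite S] (p : ℕ) [Fact p.Prime] (hS : IsPGroup p S)
    (F : FusionSystem S) (hF : F.IsSaturated p) {T : Subgroup Ω} (E : FusionSystem T)
    (hE : E.IsWeaklyNormalIn F p) {M : Subgroup Ω} (hM : E.IsNormal M)
    (hinvM : ∀ α ∈ F.autGroup T, ∀ x : T, (x : Ω) ∈ M → ((α x : T) : Ω) ∈ M) :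
    F.IsNormal M := by
  obtain ⟨hEsat, -, hsub, hsc, hinv, hfrat⟩ := hE
  have hTS : T ≤ S := hsc.1
  have hTfin : Finite T := finite_of_le hTS
  have hT : IsPGroup p T := hS.to_le hTS
  have hMT : M ≤ T := hM.1
  have hMS : M ≤ S := hMT.trans hTS
  have hMfin : Finite M := finite_of_le hMS
  have hcrit := (Cfsg.Agent.S5106.result p hT E hEsat M hMT).1 hM
  rw [Cfsg.Agent.S5106.result p hS F hF M hMS]
  intro P hPM φ hφ
  obtain ⟨α, hα, φ₀, hφ₀, hval⟩ := hfrat P (hPM.trans hMT) φ hφ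
  obtain ⟨β, hβ, hβv⟩ := hcrit P hPM φ₀ hφ₀
  have hα' : T.subtype.comp α.toMonoidHom ∈ F.Hom T := (Fusion.mem_autGroup_iff F hTS).1 hα
  have hres := Fusion.restrict_mem F hα' hMT
  have hrange : ((T.subtype.comp α.toMonoidHom).comp (Subgroup.inclusion hMT)).range = M := by
    apply Subgroup.eq_of_le_of_card_ge
    · rintro _ ⟨m, rfl⟩
      exact hinvM α hα ⟨m, hMT m.2⟩ m.2
    · exact le_of_eq (Nat.card_congr (Equiv.ofInjective _ (F.injective_of_mem hres)))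
  have hβF : β ∈ F.autGroup M :=
    (Fusion.mem_autGroup_iff F hMS).2 (hsub M ((Fusion.mem_autGroup_iff E hMT).1 hβ))
  refine ⟨Fusion.equivOfRange _ (F.injective_of_mem hres) hrange * β,
    (F.autGroup M).mul_mem ((Fusion.mem_autGroup_iff F hMS).2
      (Fusion.isIso_equivOfRange F hres hrange)) hβF, fun x => ?_⟩
  have hx : φ₀ x ∈ T := (E.le_of_mem hφ₀).2 x
  rw [hval x hx]
  show ((α ⟨((β (Subgroup.inclusion hPM x) : M) : Ω), _⟩ : T) : Ω) = _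
  congr 2
  exact Subtype.ext (hβv x)

end Cfsg.Agent.Lib.Helper27
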